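import Cfsg.Agent.Lib.Elusive.Form3

/-!
Unipotent isometries: orthogonal decomposition into Jordan blocks and existence of all types.
-/

set_option autoImplicit false

namespace H99

open Module H28 Polynomial

variable {F V : Type*} [Field F] [AddCommGroup V] [Module F V] {σ : F →+* F} {P : PQ F V σ}
  {f g N : V →ₗ[F] V} {W U T B M H : Submodule F V} {k l : ℕ} {μ ν : Multiset ℕ}

theorem Iso.B_sub_one (hf : Iso P f) (u v : V) :
    P.B ((f - 1) u) (f v) = -P.B u ((f - 1) v) := by simp [hf.B]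

theorem Iso.B_pow (hf : Iso P f) (k : ℕ) (u v : V) :
    P.B (((f - 1) ^ k) u) ((f ^ k) v) = (-1) ^ k * P.B u (((f - 1) ^ k) v) := by
  induction k generalizing v with
  | zero => simp
  | succ k ih =>
    have h1 : (f - 1) ((f ^ k) v) = (f ^ k) ((f - 1) v) :=
      congrArg (fun g : V →ₗ[F] V => g v)
        (((Commute.refl f).sub_left (Commute.one_left f)).pow_right k).eq
    rw [pow_succ' (f - 1), pow_succ' f, Module.End.mul_apply, Module.End.mul_apply, hf.B_sub_one,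
      h1, ih, ← Module.End.mul_apply, ← pow_succ, ← pow_succ']
    ring

theorem Iso.B_fix (hf : Iso P f) {w : V} (hw : f w = w) (j : ℕ) (v : V) :
    P.B w ((f ^ j) v) = P.B w v := by
  conv_lhs => rw [← pow_apply_of_mem_fixS (mem_fixS.mpr hw) j]
  exact (hf.pow j).B w v

theorem Iso.B_top (hf : Iso P f) {u : V} (hu : ((f - 1) ^ (k + 1)) u = 0) (v : V) :
    P.B v (((f - 1) ^ k) u) = P.ε * (-1) ^ k * σ (P.B u (((f - 1) ^ k) v)) := by
  rw [pow_succ', Module.End.mul_apply, LinearMap.sub_apply, sub_eq_zero] at hu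
  rw [P.symm, ← hf.B_fix hu k, hf.B_pow]; simp [mul_assoc]

/-- The Jordan type of an indecomposable orthogonal summand. -/
def blk (bad : ℕ → Prop) [DecidablePred bad] (a : ℕ) : Multiset ℕ := if bad a then {a, a} else {a}

/-- `bad` describes the block sizes that occur in pairs. -/
def UB (P : PQ F V σ) (bad : ℕ → Prop) : Prop := ∀ k,
  (bad (k + 1) → ∀ t, t = P.ε * (-1) ^ k * σ t → t = 0) ∧
    (¬ bad (k + 1) → ∃ a, a + P.ε * (-1) ^ k * σ a ≠ 0)

/-- Bad sizes occur with even multiplicity. -/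
def Adm (bad : ℕ → Prop) (μ : Multiset ℕ) : Prop := ∀ a, bad a → Even (μ.count a)

variable {bad : ℕ → Prop} [DecidablePred bad]

theorem count_blk (L : Multiset ℕ) (a : ℕ) :
    ((L.map (blk bad)).sum).count a = (if bad a then 2 else 1) * L.count a := by
  induction L using Multiset.induction_on with
  | empty => simp
  | cons b L ih =>
    rw [Multiset.map_cons, Multiset.sum_cons, Multiset.count_add, ih, Multiset.count_cons, blk]
    rcases eq_or_ne a b with rfl | h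
    · split_ifs <;> simp_all <;> omega
    · split_ifs <;> simp_all

omit [DecidablePred bad] in
theorem Adm.induction {C : Multiset ℕ → Prop} (h : Adm bad μ) (h0 : C 0)
    (h1 : ∀ a μ, bad a → Adm bad μ → C μ → C (a ::ₘ a ::ₘ μ))
    (h2 : ∀ a μ, (∀ b ∈ a ::ₘ μ, ¬ bad b) → C μ → C (a ::ₘ μ)) : C μ := by
  induction hn : μ.card using Nat.strong_induction_on generalizing μ with
  | _ n ih =>
  by_cases h3 : ∃ a ∈ μ, bad a
  · obtain ⟨a, h4, h5⟩ := h3
    obtain ⟨μ, rfl⟩ := Multiset.exists_cons_of_mem h4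
    have h6 := h a h5
    rw [Multiset.count_cons_self, Nat.even_add_one, Nat.not_even_iff_odd] at h6
    obtain ⟨μ, rfl⟩ := Multiset.exists_cons_of_mem (Multiset.count_pos.mp h6.pos)
    have h7 : Adm bad μ := fun b hb => by
      have := h b hb
      simp only [Multiset.count_cons] at this
      split_ifs at this
      · simpa [Nat.even_add_one] using this
      · exact this
    exact h1 a μ h5 h7 (ih _ (by simp [← hn]) h7 rfl)
  push Not at h3
  rcases μ.empty_or_exists_mem with rfl | ⟨a, h4⟩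
  · exact h0
  obtain ⟨μ, rfl⟩ := Multiset.exists_cons_of_mem h4
  exact h2 a μ h3 (ih _ (by simp [← hn]) (fun b hb => by
    rw [Multiset.count_eq_zero.mpr fun h => h3 b (Multiset.mem_cons_of_mem h) hb]; simp) rfl)

theorem Adm.exists_blk (h : Adm bad μ) : ∃ L : Multiset ℕ, (L.map (blk bad)).sum = μ :=
  h.induction (C := fun μ => ∃ L : Multiset ℕ, (L.map (blk bad)).sum = μ) ⟨0, rfl⟩
    (fun a _ ha _ ⟨L, hL⟩ => ⟨a ::ₘ L, by simp [hL, blk, ha]⟩)
    fun a _ ha ⟨L, hL⟩ => ⟨a ::ₘ L, by simp [hL, blk, ha a (Multiset.mem_cons_self _ _)]⟩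

theorem JT.congr (h : JT N W μ) (hW : Inv N W) (hg : ∀ v ∈ W, g v = N v) : JT g W μ :=
  ⟨h.1, fun k => by
    rw [← h.2 k, show W ⊓ LinearMap.ker (g ^ k) = W ⊓ LinearMap.ker (N ^ k) from
      Submodule.ext fun v => and_congr_right fun hv => by
        rw [SetLike.mem_coe, SetLike.mem_coe, LinearMap.mem_ker, LinearMap.mem_ker,
          pow_congr hW hg k v hv]]⟩

theorem jt_of_zero (h : ∀ v ∈ W, N v = 0) : JT N W (Multiset.replicate (finrank F W) 1) :=
  ⟨fun a ha => by rw [Multiset.eq_of_mem_replicate ha]; exact one_pos, fun k => by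
    rcases k with _ | k
    · rw [pow_zero, Module.End.one_eq_id, LinearMap.ker_id, inf_bot_eq]; simp
    · rw [inf_eq_left.mpr (show W ≤ LinearMap.ker (N ^ (k + 1)) from fun v hv => by
        rw [LinearMap.mem_ker, pow_succ, Module.End.mul_apply, h v hv, map_zero])]
      simp⟩

theorem exists_pow_eq_pair {u v w : V} (hu : (N ^ (k + 1)) u = 0) (hv : (N ^ (k + 1)) v = 0)
    (hw : w ∈ cyc N u ⊔ cyc N v) (hw0 : w ≠ 0) :
    ∃ j a b, (a ≠ 0 ∨ b ≠ 0) ∧ (N ^ j) w = (a : F) • (N ^ k) u + (b : F) • (N ^ k) v := by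
  obtain ⟨x, hx, y, hy, rfl⟩ := Submodule.mem_sup.mp hw
  have key : ∀ {u x : V} {j j' : ℕ} {c : F}, (N ^ (k + 1)) u = 0 → (N ^ j) x = c • (N ^ k) u →
      j < j' → (N ^ j') x = 0 := fun {u x j j' c} h1 h2 h3 => by
    rw [show j' = (j' - j - 1) + 1 + j by omega, ← pow_apply_pow, h2, map_smul, pow_apply_pow,
      add_assoc, add_comm 1, ← pow_apply_pow, h1, map_zero, smul_zero]
  rcases eq_or_ne x 0 with rfl | hx0
  · obtain ⟨j, -, c, hc, h⟩ := exists_pow_eq_smul hv hy (by simpa using hw0)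
    exact ⟨j, 0, c, Or.inr hc, by simpa using h⟩
  obtain ⟨j, -, c, hc, h⟩ := exists_pow_eq_smul hu hx hx0
  rcases eq_or_ne y 0 with rfl | hy0
  · exact ⟨j, c, 0, Or.inl hc, by simpa using h⟩
  obtain ⟨j', -, c', hc', h'⟩ := exists_pow_eq_smul hv hy hy0
  rcases lt_trichotomy j j' with h1 | rfl | h1
  · exact ⟨j', 0, c', Or.inr hc', by simp [h', key hu h h1]⟩
  · exact ⟨j, c, c', Or.inl hc, by simp [h, h']⟩
  · exact ⟨j, c, 0, Or.inl hc, by simp [h, key hv h' h1]⟩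

variable [FiniteDimensional F V]

theorem nondeg_of_socle (hP : P.B.SeparatingLeft) (hf : Iso P f) (hB : Inv f B)
    (h : ∀ w ∈ B, w ≠ 0 → ∃ j : ℕ, ∃ y ∈ B, P.B y (((f - 1) ^ j) w) ≠ 0) : P.Nondeg B :=
  fun w hw h1 => by
    by_contra h0
    obtain ⟨j, y, hy, h2⟩ := h w hw h0
    exact h2 ((((hf.inv_perp hP hB).sub Inv.one).pow j w fun y hy => P.eq_zero_symm (h1 y hy)) y hy)

theorem jt_of_cyc (hW : Inv N W) (hd : finrank F W = k + 1) (h : ∀ w ∈ W, (N ^ (k + 1)) w = 0)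
    {u : V} (hu : u ∈ W) (h0 : (N ^ k) u ≠ 0) : JT N W {k + 1} := by
  have h1 := jt_cyc (h u hu) h0
  rwa [Submodule.eq_of_le_of_finrank_eq (cyc_le hW hu) (by
    rw [h1.finrank_eq (pow_cyc_eq_zero (h u hu)), hd, Multiset.sum_singleton])] at h1

theorem UB.exists_osum (hU : UB P bad) (hP : P.B.SeparatingLeft) (hf : Iso P f) {K : ℕ}
    (hW : P.Nondeg W) (hWf : Inv f W) (hK : ∀ w ∈ W, ((f - 1) ^ K) w = 0) :
    ∃ L, OSum P (fun a B => Inv (f - 1) B ∧ JT (f - 1) B (blk bad a)) L W := by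
  refine H99.exists_osum (fun W => Inv f W ∧ ∀ w ∈ W, ((f - 1) ^ K) w = 0)
    (fun W ⟨h1, h2⟩ hW hne => ?_) W ⟨hWf, hK⟩ hW
  obtain ⟨k, hk, u, hu, hu0⟩ := exists_index hne h2
  have h3 := h1.sub Inv.one
  suffices ∃ B ≤ W, Inv (f - 1) B ∧ JT (f - 1) B (blk bad (k + 1)) ∧ P.Nondeg B by
    obtain ⟨B, h4, h5, h6, h7⟩ := this
    exact ⟨_, B, h4, h6.ne_bot (by rw [blk]; split_ifs <;> simp), ⟨h5, h6⟩, h7,
      h1.inf (hf.inv_perp hP (inv_sub_one_iff.mp h5)), fun w hw => h2 w hw.1⟩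
  by_cases h4 : ∃ u ∈ W, P.B u (((f - 1) ^ k) u) ≠ 0
  · obtain ⟨u, hu, h4⟩ := h4
    refine ⟨_, cyc_le h3 hu, inv_cyc _ u, ?_, nondeg_of_socle hP hf
      (inv_sub_one_iff.mp (inv_cyc _ u)) fun w hw hw0 => ?_⟩
    · rw [blk, if_neg fun h => h4 ((hU k).1 h _ (hf.B_top (hk u hu) u))]
      exact jt_cyc (hk u hu) fun h => h4 (by simp [h])
    · obtain ⟨j, -, c, hc, h⟩ := exists_pow_eq_smul (hk u hu) hw hw0
      exact ⟨j, u, self_mem_cyc _ u, by rw [h, map_smul]; exact mul_ne_zero hc h4⟩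
  push Not at h4
  obtain ⟨v, hv, h5⟩ : ∃ v ∈ W, P.B v (((f - 1) ^ k) u) ≠ 0 := by
    by_contra h5
    push Not at h5
    exact hu0 (hW _ (h3.pow k u hu) fun y hy => P.eq_zero_symm (h5 y hy))
  have h6 : P.B u (((f - 1) ^ k) v) ≠ 0 := fun h => h5 (by rw [hf.B_top (hk u hu), h]; simp)
  have h7 : bad (k + 1) := by
    by_contra h7
    obtain ⟨a, ha⟩ := (hU k).2 h7
    have h8 := h4 _ (W.add_mem hu (W.smul_mem (a / P.B u (((f - 1) ^ k) v)) hv))
    rw [map_add, map_add, map_add, LinearMap.add_apply, LinearMap.add_apply, h4 u hu,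
      h4 _ (W.smul_mem _ hv), hf.B_top (hk u hu) (_ • v), map_smul, map_smul, smul_eq_mul,
      div_mul_cancel₀ _ h6] at h8
    exact ha (by linear_combination h8)
  have h8 := ((inv_cyc (f - 1) u).sup (inv_cyc (f - 1) v))
  have h9 : ∀ w ∈ cyc (f - 1) u ⊔ cyc (f - 1) v, w ≠ 0 → ∃ j : ℕ, P.B v (((f - 1) ^ j) w) ≠ 0 ∨
      P.B u (((f - 1) ^ j) w) ≠ 0 := fun w hw hw0 => by
    obtain ⟨j, a, b, h9, h10⟩ := exists_pow_eq_pair (hk u hu) (hk v hv) hw hw0
    refine ⟨j, h9.imp (fun h => ?_) fun h => ?_⟩ <;>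
      simp [h10, h4 u hu, h4 v hv, h5, h6, h]
  refine ⟨_, sup_le (cyc_le h3 hu) (cyc_le h3 hv), h8, ?_, nondeg_of_socle hP hf
    (inv_sub_one_iff.mp h8) fun w hw hw0 => ?_⟩
  · rw [blk, if_pos h7]
    refine (jt_cyc (hk u hu) hu0).add (jt_cyc (hk v hv) fun h => h6 (by simp [h])) (inv_cyc _ u)
      (inv_cyc _ v) (Submodule.disjoint_def.mpr fun w hw hw' => ?_)
    by_contra hw0
    obtain ⟨j, -, c, hc, h⟩ := exists_pow_eq_smul (hk u hu) hw hw0
    obtain ⟨j', -, c', hc', h'⟩ := exists_pow_eq_smul (hk v hv) ((inv_cyc _ v).pow j w hw')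
      (by rw [h]; exact smul_ne_zero hc hu0)
    rw [h, map_smul, pow_apply_pow] at h'
    rcases j' with _ | j'
    · have := congrArg (P.B v) h'
      simp [h4 v hv, h5, hc] at this
    · have := congrArg (P.B u) h'
      rw [add_assoc, add_comm 1, ← pow_apply_pow, hk u hu] at this
      simp [h6, hc'] at this
  · obtain ⟨j, h10 | h10⟩ := h9 w hw hw0
    exacts [⟨j, v, Submodule.mem_sup_right (self_mem_cyc _ v), h10⟩,
      ⟨j, u, Submodule.mem_sup_left (self_mem_cyc _ u), h10⟩]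

theorem UB.adm (hU : UB P bad) (hP : P.B.SeparatingLeft) (hf : Iso P f) {K : ℕ}
    (hW : P.Nondeg W) (hWf : Inv f W) (hK : ∀ w ∈ W, ((f - 1) ^ K) w = 0)
    (h : JT (f - 1) W μ) : Adm bad μ := fun a ha => by
  obtain ⟨L, hL⟩ := hU.exists_osum hP hf hW hWf hK
  rw [h.unique (hL.jt _ fun _ _ h => h), count_blk, if_pos ha]
  exact even_two_mul _

theorem UB.exists_nondeg (hU : UB P bad) (hP : P.B.SeparatingLeft) (hf : Iso P f) {K : ℕ}
    (hW : P.Nondeg W) (hWf : Inv f W) (hK : ∀ w ∈ W, ((f - 1) ^ K) w = 0)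
    (h : JT (f - 1) W μ) (hν : ν ≤ μ) (ha : Adm bad ν) :
    ∃ U ≤ W, P.Nondeg U ∧ Inv f U ∧ JT (f - 1) U ν ∧ finrank F U = ν.sum := by
  obtain ⟨L, hL⟩ := hU.exists_osum hP hf hW hWf hK
  obtain ⟨L', rfl⟩ := ha.exists_blk
  rw [h.unique (hL.jt _ fun _ _ h => h)] at hν
  obtain ⟨U, h1, h2⟩ := hL.exists_le (L' := L') (Multiset.le_iff_count.mpr fun a => by
    have := Multiset.le_iff_count.mp hν a
    rw [count_blk, count_blk] at this
    split_ifs at this <;> omega)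
  have h3 := h2.jt _ fun _ _ h => h
  exact ⟨U, h1, h2.nondeg, inv_sub_one_iff.mp (h2.inv fun _ _ h => h.1), h3,
    h3.finrank_eq fun w hw => hK w (h1 hw)⟩

/-- The types of a nondegenerate invariant subspace and of its orthogonal complement. -/
theorem JT.exists_perp (h : JT (f - 1) W μ) (hP : P.B.SeparatingLeft) (hf : Iso P f) {K : ℕ}
    (hWf : Inv f W) (hK : ∀ w ∈ W, ((f - 1) ^ K) w = 0) (hU : P.Nondeg U) (hUf : Inv f U)
    (hle : U ≤ W) : ∃ ν ν', JT (f - 1) U ν ∧ JT (f - 1) (W ⊓ P.perp U) ν' ∧ ν + ν' = μ ∧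
      finrank F U = ν.sum := by
  have h1 := (hWf.inf (hf.inv_perp hP hUf)).sub Inv.one
  obtain ⟨ν, hν⟩ := exists_jt (hUf.sub Inv.one) fun w hw => hK w (hle hw)
  obtain ⟨ν', hν'⟩ := exists_jt h1 fun w hw => hK w hw.1
  exact ⟨ν, ν', hν, hν', (sup_inf_perp hU hle ▸ hν.add hν' (hUf.sub Inv.one) h1
    (nondeg_disjoint hU inf_le_right)).unique h, hν.finrank_eq fun w hw => hK w (hle hw)⟩

theorem exists_nilp_on (hU : finrank F U = k + 1) :
    ∃ N : V →ₗ[F] V, Inv N U ∧ N ^ (k + 1) = 0 ∧ ∃ u ∈ U, (N ^ k) u ≠ 0 := by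
  obtain ⟨N, hN⟩ := exists_jt_top (F := F) (V := U) {k + 1} (by simp) (by simp [hU])
  obtain ⟨π, hπ⟩ := U.subtype.exists_leftInverse_of_injective U.ker_subtype
  have h1 : ∀ u : U, π u = u := fun u => congrArg (fun g : U →ₗ[F] U => g u) hπ
  have h2 : ∀ j (u : U), ((U.subtype ∘ₗ N ∘ₗ π) ^ j) u = (N ^ j) u := fun j => by
    induction j with
    | zero => simp
    | succ j ih => intro u; simp [pow_succ, h1, ← ih]
  have h3 := hN.pow_eq_zero (K := k + 1) (by simp) (by simp [hU])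
  refine ⟨U.subtype ∘ₗ N ∘ₗ π, fun v _ => (N (π v)).2, LinearMap.ext fun v => ?_, ?_⟩
  · rw [pow_succ, Module.End.mul_apply]
    refine (h2 k (N (π v))).trans ?_
    rw [← Module.End.mul_apply, ← pow_succ, h3 _ trivial]; rfl
  · by_contra h4
    push Not at h4
    have := hN.le_of_pow_eq_zero (K := k) (fun w _ => Subtype.ext ((h2 k w).symm.trans (h4 w w.2)))
      (k + 1) (by simp)
    omega

theorem exists_pair (hP : P.B.SeparatingLeft) (hT : Hyp P T) (hd : finrank F T = 2 * (k + 1)) :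
    ∃ g, Iso P g ∧ Supp P g T ∧ JT (g - 1) T {k + 1, k + 1} := by
  obtain ⟨U, U', h1, h2, rfl, h4, h5⟩ := hT.exists_halves hP
  obtain ⟨N, h6, h7, u, hu, h8⟩ := exists_nilp_on (U := U) (k := k) (by omega)
  obtain ⟨x, hx⟩ := (IsNilpotent.isUnit_add_one ⟨_, h7⟩ : IsUnit (N + 1))
  obtain ⟨g, h9, h10, h11, h12⟩ := exists_levi hP hT.1 h1 h2 (g := N + 1) (g' := ↑x⁻¹)
    (h6.add Inv.one) fun u _ => by rw [← hx, ← Module.End.mul_apply, x.inv_mul]; rfl
  have h13 : ∀ v ∈ U, (g - 1) v = N v := fun v hv => by simp [h11 v hv]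
  have h14 := pow_congr h6 h13
  have h15 : ∀ j, ∀ u ∈ U, ∀ v, P.B (((g - 1) ^ j) u) ((g ^ j) v) = 0 ↔
      P.B u (((g - 1) ^ j) v) = 0 := fun j u _ v => by simp [h9.B_pow]
  have h16 : ∀ v ∈ U', ((g - 1) ^ (k + 1)) v = 0 := fun v hv => by
    have h16 := (h12.sub Inv.one).pow (k + 1) v hv
    refine hT.1 _ (Submodule.mem_sup_right h16) fun y hy => P.eq_zero_symm
      (le_perp_sup (A := F ∙ _) (W := U) (U := U') ?_ ?_ (Submodule.mem_span_singleton_self _) y hy)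
    · exact (Submodule.span_singleton_le_iff_mem _ _).mpr fun u hu =>
        (h15 _ u hu v).mp (by simp [h14 _ u hu, h7])
    · exact (Submodule.span_singleton_le_iff_mem _ _).mpr (h2.le_perp h16)
  obtain ⟨v, hv, h17⟩ : ∃ v ∈ U', ((g - 1) ^ k) v ≠ 0 := by
    by_contra h17
    push Not at h17
    have h18 := h6.pow k u hu
    refine h8 (hT.1 _ (Submodule.mem_sup_left h18) fun y hy => P.eq_zero_symm
      (le_perp_sup (A := F ∙ _) (W := U) (U := U') ?_ ?_ (Submodule.mem_span_singleton_self _) y hy))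
    · exact (Submodule.span_singleton_le_iff_mem _ _).mpr (h1.le_perp h18)
    · refine (Submodule.span_singleton_le_iff_mem _ _).mpr fun y hy => P.eq_zero_symm ?_
      obtain ⟨y, hy', rfl⟩ := ((h12.pow k).map_eq ((h9.pow k).injective hP)).ge hy
      rw [← h14 _ u hu, h15 _ u hu, h17 y hy', map_zero]
  have h18 := h6.congr h13
  exact ⟨g, h9, h10, (jt_of_cyc h18 (by omega) (fun w hw => by simp [h14 _ w hw, h7]) hu
    (by rwa [h14 _ u hu])).add (jt_of_cyc (h12.sub Inv.one) (by omega) h16 hv h17) h18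
      (h12.sub Inv.one) (half_of_sup hP hT.1 h1.le_perp h2.le_perp).2.2⟩

theorem HasTS.exists_sing (h : HasTS P T 1) : ∃ e ∈ T, e ≠ 0 ∧ P.q e ∈ P.Λ := by
  obtain ⟨U, h1, h2, h3⟩ := h
  obtain ⟨e, he, he0⟩ := (Submodule.ne_bot_iff U).mp (ne_bot_of_finrank (by omega))
  exact ⟨e, h1 he, he0, h2.1 e he⟩

omit [FiniteDimensional F V] in
theorem exists_B_ne (hT : P.Nondeg T) {e : V} (he : e ∈ T) (he0 : e ≠ 0) :
    ∃ w ∈ T, P.B e w ≠ 0 := by
  by_contra h
  push Not at h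
  exact he0 (hT e he h)

theorem exists_regular (hP : P.B.SeparatingLeft) (k : ℕ) : ∀ T, P.Nondeg T → finrank F T = k + 1 →
    HasTS P T ((k + 1) / 2) → (Odd k → ∃ c ∈ P.Λ, c ≠ 0) → ∃ g, Iso P g ∧ Supp P g T ∧
      (∀ v ∈ T, ((g - 1) ^ (k + 1)) v = 0) ∧ ∃ w ∈ T, P.B w (((g - 1) ^ k) w) ≠ 0 := by
  induction k using Nat.twoStepInduction with
  | zero =>
    intro T hT hd _ _
    obtain ⟨e, he, he0⟩ := (Submodule.ne_bot_iff T).mp (ne_bot_of_finrank (by omega))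
    obtain ⟨w, hw, h⟩ := exists_B_ne hT he he0
    rw [← Submodule.eq_of_le_of_finrank_eq ((Submodule.span_singleton_le_iff_mem _ _).mpr he)
      (by rw [finrank_span_singleton he0, hd])] at hw
    obtain ⟨c, rfl⟩ := Submodule.mem_span_singleton.mp hw
    exact ⟨1, Iso.one, Supp.one, by simp, e, he, fun h' => h (by simpa using Or.inr h')⟩
  | one =>
    intro T hT _ h hc
    obtain ⟨e, he, he0, hq⟩ := h.exists_sing
    obtain ⟨c, hc, hc0⟩ := hc odd_one
    obtain ⟨w, hw, h⟩ := exists_B_ne hT he he0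
    have h1 : σ (P.ε * c) * (P.ε * c) * P.q e + P.ε * (P.ε * c) ∈ P.Λ :=
      P.Λ.add_mem (P.norm_mem _ _ hq) (by rwa [← mul_assoc, P.εε, one_mul])
    refine ⟨_, ⟨P.qrefl_B h1, P.qrefl_q h1⟩, fun v hv => by simp [PQ.qrefl_apply, hv e he],
      fun v _ => by simp [pow_succ, PQ.qrefl_apply, P.self_eq_zero hq], w, hw, ?_⟩
    have h2 : P.B w e ≠ 0 := fun h' => h (P.eq_zero_symm h')
    simp [PQ.qrefl_apply, h, hc0, P.ε_ne_zero, h2]
  | more k ih _ =>
    intro T hT hd h hc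
    obtain ⟨H, h1, h2, h3⟩ := (h.of_le (l := 1) (by omega)).exists_hyp hP hT
    obtain ⟨e, he, he0, hq⟩ := (h2.hasTS h3).exists_sing
    obtain ⟨e', he', h4⟩ := exists_B_ne h2.1 he he0
    have h5 := finrank_inf_perp' h2.1 h1
    have h6 := sup_inf_perp h2.1 h1
    set M := T ⊓ P.perp H
    obtain ⟨g, h7, h8, h9, w, hw, h10⟩ := ih M (nondeg_inf_perp hT h2.1 h1) (by omega)
      (HasTS.cancel hP (k := 1) (by rw [h6]; exact h.of_le (by omega)) h2 h3 inf_le_right)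
      fun h => hc (by obtain ⟨j, rfl⟩ := h; exact ⟨j + 1, by ring⟩)
    have h11 := h8.inv hP h7
    have h12 : ∀ t ∈ M, P.B e t = 0 := fun t ht => ht.2 e he
    have h13 : ∀ x ∈ H, g x = x := fun x hx => h8 x fun t ht => P.eq_zero_symm (ht.2 x hx)
    have h14 := P.self_eq_zero hq
    have h15 : ∀ t ∈ M, ∀ s : F, (P.eich e w * g - 1) (t + s • e) =
        (g - 1) t + P.B w (g t) • e := fun t ht s => by
      simp [PQ.eich_apply, h13 e he, h12 _ (h11 t ht), h14, P.eq_zero_symm (h12 w hw)]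
      abel
    have h16 : ∀ j : ℕ, ∀ t ∈ M, ∀ s : F, ∃ s' : F, ((P.eich e w * g - 1) ^ j) (t + s • e) =
        ((g - 1) ^ j) t + s' • e := fun j => by
      induction j with
      | zero => exact fun t _ s => ⟨s, rfl⟩
      | succ j ih =>
        intro t ht s
        simp only [pow_succ, Module.End.mul_apply, h15 t ht]
        exact ih _ (h11.sub Inv.one t ht) _
    have h17 : ∀ x ∈ H, ∀ t ∈ M, ∃ s : F, (P.eich e w * g - 1) (x + t) =
        ((g - 1) t - (P.ε * P.B e x) • w) + s • e := fun x hx t ht =>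
      ⟨P.B w (x + g t) - P.ε * P.q w * P.B e x, by
        simp [PQ.eich_apply, h13 x hx, h12 _ (h11 t ht)]
        abel⟩
    refine ⟨P.eich e w * g, Iso.mul ⟨P.eich_B hq (h12 w hw), P.eich_q hq (h12 w hw)⟩ h7,
      Supp.mul (fun v hv => by simp [PQ.eich_apply, hv e (h1 he), hv w hw.1])
        (h8.mono inf_le_left), fun v hv => ?_, e', h1 he', ?_⟩
    · obtain ⟨x, hx, t, ht, rfl⟩ := Submodule.mem_sup.mp (h6.ge hv)
      obtain ⟨s, hs⟩ := h17 x hx t ht
      have h18 := M.sub_mem (h11.sub Inv.one t ht) (M.smul_mem (P.ε * P.B e x) hw)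
      obtain ⟨s', hs'⟩ := h16 (k + 1) _ h18 s
      rw [pow_succ, Module.End.mul_apply, hs, pow_succ', Module.End.mul_apply, hs', h9 _ h18,
        h15 0 M.zero_mem]
      simp
    · obtain ⟨s, hs⟩ := h17 e' he' 0 M.zero_mem
      rw [add_zero, map_zero, zero_sub, ← neg_smul] at hs
      have h18 := M.smul_mem (-(P.ε * P.B e e')) hw
      obtain ⟨s', hs'⟩ := h16 k _ h18 s
      have h19 := h9 _ h18
      rw [pow_succ', Module.End.mul_apply] at h19
      rw [pow_succ, Module.End.mul_apply, hs, pow_succ', Module.End.mul_apply, hs',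
        h15 _ ((h11.sub Inv.one).pow k _ h18), h19, sub_eq_zero.mp h19]
      have h20 : P.B e' e ≠ 0 := fun h' => h4 (P.eq_zero_symm h')
      simp [h4, h10, h20, P.ε_ne_zero]

omit [DecidablePred bad] in
/-- Unipotent isometries of every admissible type. -/
theorem exists_unip (hP : P.B.SeparatingLeft)
    (H1 : ∀ T k, P.Nondeg T → 2 * k < finrank F T → HasTS P T k)
    (H2 : ∀ T a, ¬ bad a → P.Nondeg T → a ≤ finrank F T → ∃ B ≤ T, P.Nondeg B ∧
      finrank F B = a ∧ HasTS P B (a / 2) ∧ (Even a → ∃ c ∈ P.Λ, c ≠ 0))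
    (ha : Adm bad μ) : (∀ a ∈ μ, 0 < a) → ∀ T, P.Nondeg T → finrank F T = μ.sum →
      ((∀ a ∈ μ, bad a) → Hyp P T) → ∃ g, Iso P g ∧ Supp P g T ∧ JT (g - 1) T μ := by
  have glue : ∀ T B μ ν, P.Nondeg B → B ≤ T → (∃ g, Iso P g ∧ Supp P g B ∧ JT (g - 1) B μ) →
      (∃ g, Iso P g ∧ Supp P g (T ⊓ P.perp B) ∧ JT (g - 1) (T ⊓ P.perp B) ν) →
      ∃ g, Iso P g ∧ Supp P g T ∧ JT (g - 1) T (μ + ν) := by
    rintro T B μ ν hB hle ⟨g, h1, h2, h3⟩ ⟨g', h4, h5, h6⟩
    obtain ⟨h7, h8, h9⟩ := supp_mul hP h4 h2 h5 inf_le_right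
    have h10 : ∀ v ∈ B, (g * g' - 1) v = (g - 1) v := fun v hv => congrArg (· - v) (h8 v hv)
    have h11 : ∀ v ∈ T ⊓ P.perp B, (g * g' - 1) v = (g' - 1) v := fun v hv =>
      congrArg (· - v) (h9 v hv)
    have h12 := (h2.inv hP h1).sub Inv.one
    have h13 := (h5.inv hP h4).sub Inv.one
    have := (h3.congr h12 h10).add (h6.congr h13 h11) (h12.congr h10) (h13.congr h11)
      (nondeg_disjoint hB inf_le_right)
    rw [sup_inf_perp hB hle] at h7 this
    exact ⟨_, h1.mul h4, h7, this⟩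
  refine ha.induction (C := fun μ => (∀ a ∈ μ, 0 < a) → ∀ T, P.Nondeg T → finrank F T = μ.sum →
    ((∀ a ∈ μ, bad a) → Hyp P T) → ∃ g, Iso P g ∧ Supp P g T ∧ JT (g - 1) T μ)
    (fun _ T _ h _ => ?_) (fun a μ hb _ ih h0 T hT hd hh => ?_) fun a μ hb ih h0 T hT hd _ => ?_
  · rw [eq_bot_of_finrank (N := T) h]; exact ⟨1, Iso.one, Supp.one, JT.bot⟩
  · simp only [Multiset.sum_cons, Multiset.forall_mem_cons] at h0 hd hh
    obtain ⟨k, rfl⟩ := Nat.exists_eq_add_one_of_ne_zero h0.1.ne'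
    obtain ⟨B, h1, h2, h3⟩ : ∃ B ≤ T, Hyp P B ∧ finrank F B = 2 * (k + 1) := by
      rcases eq_or_ne μ.sum 0 with h | h
      · exact ⟨T, le_rfl, hh ⟨hb, hb, fun a ha =>
          absurd (Multiset.single_le_sum (fun _ _ => Nat.zero_le _) a ha)
            (by have := h0.2.2 a ha; omega)⟩, by omega⟩
      · exact (H1 T _ hT (by omega)).exists_hyp hP hT
    have h4 := finrank_inf_perp' h2.1 h1
    simpa using glue T B _ μ h2.1 h1 (exists_pair hP h2 h3) (ih h0.2.2 _ (nondeg_inf_perp hT h2.1 h1)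
      (by omega) fun h => Hyp.cancel hP (by rw [sup_inf_perp h2.1 h1]; exact hh ⟨hb, hb, h⟩) h2
        inf_le_right)
  · simp only [Multiset.sum_cons, Multiset.forall_mem_cons] at h0 hd hb
    obtain ⟨k, rfl⟩ := Nat.exists_eq_add_one_of_ne_zero h0.1.ne'
    obtain ⟨B, h1, h2, h3, h4, h5⟩ := H2 T _ hb.1 hT (by omega)
    have h6 := finrank_inf_perp' h2 h1
    obtain ⟨g, h7, h8, h9, w, hw, h10⟩ := exists_regular hP k B h2 h3 h4 fun h => h5 h.add_one
    refine glue T B {k + 1} μ h2 h1 ⟨g, h7, h8, jt_of_cyc ((h8.inv hP h7).sub Inv.one) h3 h9 hw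
      fun h => h10 (by simp [h])⟩ (ih h0.2 _ (nondeg_inf_perp hT h2 h1) (by omega) fun h => ?_)
    obtain rfl : μ = 0 := Multiset.eq_zero_of_forall_notMem fun a ha => hb.2 a ha (h a ha)
    rw [eq_bot_of_finrank (N := T ⊓ P.perp B) (by simp at hd; omega)]
    exact Hyp.bot

end H99
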