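import Cfsg.Agent.Lib.Elusive.Sp
import Cfsg.Agent.Lib.Elusive.Unip

/-!
Unipotent isometries `f` with `(f - 1) ^ 2 = 0` and `B u ((f - 1) u) = 0`.
-/

set_option autoImplicit false

namespace H99

open Module H28 Polynomial

variable {F V : Type*} [Field F] [AddCommGroup V] [Module F V] [FiniteDimensional F V]
  {f : V →ₗ[F] V} {W U T M : Submodule F V}

theorem exists_cj_of_le_perp {σ : F →+* F} {P : PQ F V σ} (hP : P.B.SeparatingLeft)
    (hT : P.Nondeg T) (hle : U ≤ T) (hU : P.TotSing U) (h2 : 2 * finrank F U = finrank F T)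
    (hM : P.Nondeg M) (h : M ≤ P.perp U) : ∃ M' ≤ P.perp T, Cj P M M' := by
  obtain ⟨π, h3, h4⟩ := exists_lin_disjoint (nondeg_disjoint hT le_rfl) 0 1
  have h5 : ∀ x ∈ M, ∃ a ∈ U, π x ∈ P.perp T ∧ x = a + π x := fun x hx => by
    obtain ⟨a, ha, b, hb, rfl⟩ := exists_add_perp hT x
    refine ⟨a, (inf_perp_eq_of_half hP hT hle hU.le_perp h2).le ⟨ha, fun u hu => ?_⟩, ?_⟩
    · simpa [hb u (hle hu)] using h hx u hu
    · simpa [h3 a ha, h4 b hb] using hb
  have h6 : IsoOn P π M := ⟨fun x hx y hy => by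
    obtain ⟨a, ha, h6, h7⟩ := h5 x hx
    obtain ⟨b, hb, h8, h9⟩ := h5 y hy
    conv_rhs => rw [h7, h9]
    simp [hU.2 a ha b hb, h8 a (hle ha), P.eq_zero_symm (h6 b (hle hb))], fun x hx => by
    obtain ⟨a, ha, h6, h7⟩ := h5 x hx
    have := P.Λ.neg_mem (P.Λ.add_mem (q_add_orth (h6 a (hle ha))) (hU.1 a ha))
    rw [← h7] at this
    convert this using 1; ring⟩
  exact ⟨_, by rintro _ ⟨x, hx, rfl⟩; obtain ⟨-, -, h, -⟩ := h5 x hx; exact h,
    cj_of_isoOn hP h6 fun x hx => h6.eq_zero hM hx⟩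

variable {P : PQ F V (RingHom.id F)}

/-- Isometries `1 + N` with `N ^ 2 = 0` and `B u (N u) = 0`. -/
structure AT (P : PQ F V (RingHom.id F)) (f : V →ₗ[F] V) : Prop where
  iso : Iso P f
  sq : ∀ v, f ((f - 1) v) = (f - 1) v
  alt : ∀ u, P.B u ((f - 1) u) = 0

omit [FiniteDimensional F V] in
theorem AT.totSing (h : AT P f) : P.TotSing (W.map (f - 1)) := by
  refine ⟨?_, ?_⟩
  · rintro _ ⟨v, -, rfl⟩
    have := P.Λ.sub_mem (h.iso.q v) (P.q_add v ((f - 1) v))
    rw [h.alt] at this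
    simpa using this
  · rintro _ ⟨u, -, rfl⟩ _ ⟨v, -, rfl⟩
    have := h.iso.B_fix (h.sq u) 1 v
    rw [pow_one] at this
    conv_lhs => rw [LinearMap.sub_apply f 1 v, map_sub, this]
    exact sub_self _

omit [FiniteDimensional F V] in
theorem AT.le_fixS (h : AT P f) (hW : P.Nondeg W) (hWf : Inv f W) :
    W ⊓ P.perp (W.map (f - 1)) ≤ fixS f := fun x hx => by
  refine mem_fixS.mpr (sub_eq_zero.mp (hW _ (hWf.sub Inv.one x hx.1) fun y hy =>
    P.eq_zero_symm ?_))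
  have h1 := h.iso.B_fix (h.sq y) 1 x
  rw [pow_one, h.iso.B_sub_one, hx.2 _ ⟨y, hy, rfl⟩] at h1
  exact neg_eq_zero.mp h1

theorem AT.even (h : AT P f) (hW : P.Nondeg W) (hWf : Inv f W) :
    Even (finrank F (W.map (f - 1))) := by
  obtain ⟨K, h1, h2, h3⟩ : ∃ K ≤ W, Disjoint (W ⊓ LinearMap.ker (f - 1)) K ∧
      (W ⊓ LinearMap.ker (f - 1)) ⊔ K = W := by
    obtain ⟨K, hK⟩ := (W ⊓ LinearMap.ker (f - 1)).exists_isCompl
    exact ⟨K ⊓ W, inf_le_right, hK.disjoint.mono_right inf_le_left, by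
      rw [← sup_inf_assoc_of_le _ inf_le_left, hK.sup_eq_top, top_inf_eq]⟩
  have h4 := finrank_compl h2 h3
  have h5 := finrank_inf_ker_add (f - 1) W
  let P' := PQ.ofAlt (LinearMap.compl₂ (P.B : V →ₗ[F] V →ₗ[F] F) (f - 1)) h.alt
  have h6 : P'.Nondeg K := fun x hx h6 => Submodule.disjoint_def.mp h2 x ⟨h1 hx,
    hW _ (hWf.sub Inv.one x (h1 hx)) fun y hy => P.eq_zero_symm (P'.eq_zero_symm (x := x) (by
      obtain ⟨a, ha, b, hb, rfl⟩ := Submodule.mem_sup.mp (h3.ge hy)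
      rw [map_add, h6 b hb, add_zero]
      change P.B x ((f - 1) a) = 0
      rw [ha.2, map_zero]))⟩ hx
  have h7 := (alt_hyp h6.separatingLeft rfl (nondeg_top h6.separatingLeft)).even
  rw [finrank_top] at h7
  rwa [show finrank F (W.map (f - 1)) = finrank F K by omega]

theorem AT.split (h : AT P f) (hP : P.B.SeparatingLeft) (hW : P.Nondeg W) (hWf : Inv f W) :
    ∃ H M, Hyp P H ∧ finrank F H % 4 = 0 ∧ P.Nondeg M ∧ M ≤ fixS f ∧ M ≤ P.perp H ∧
      H ⊔ M = W := by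
  obtain ⟨H, h1, h2, h3, h4⟩ := exists_double' hP hW (hWf.sub Inv.one |> inv_iff_map_le.mp)
    h.totSing
  obtain ⟨k, hk⟩ := h.even hW hWf
  exact ⟨H, W ⊓ P.perp H, h3, by omega, nondeg_inf_perp hW h3.1 h1,
    (inf_le_inf_left _ (P.perp_anti h2)).trans (h.le_fixS hW hWf), inf_le_right,
    sup_inf_perp h3.1 h1⟩

omit [FiniteDimensional F V] in
theorem AT.pow_char (h : AT P f) (p : ℕ) [hp : Fact p.Prime] [CharP F p] : f ^ p = 1 := by
  have h1 : (f - 1) ^ 2 = 0 := LinearMap.ext fun v => by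
    rw [pow_two, Module.End.mul_apply, LinearMap.sub_apply, h.sq]; exact sub_self _
  have h2 := sub_one_pow_char (p := p) f
  rw [pow_eq_zero_of_le hp.out.two_le h1] at h2
  exact sub_eq_zero.mp h2.symm

theorem exists_at (hs : ∀ x y, P.B y x = P.B x y) (hU : P.TotSing U) (he : Even (finrank F U)) :
    ∃ f, AT P f ∧ fixS f = P.perp U := by
  obtain ⟨k, hk⟩ := he
  let b := (finBasisOfFinrankEq F U hk).reindex finSumFinEquiv.symm
  let N : V →ₗ[F] V := ∑ i : Fin k, ((P.B (b (.inr i))).smulRight (b (.inl i) : V) -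
    (P.B (b (.inl i))).smulRight (b (.inr i) : V))
  have h1 : ∀ v, N v = ∑ i : Fin k, (P.B (b (.inr i)) v • (b (.inl i) : V) -
      P.B (b (.inl i)) v • (b (.inr i) : V)) := fun v => by simp [N]
  have h2 : ∀ v, N v ∈ U := fun v => h1 v ▸ U.sum_mem fun i _ =>
    U.sub_mem (U.smul_mem _ (b _).2) (U.smul_mem _ (b _).2)
  have h3 : ∀ v ∈ P.perp U, N v = 0 := fun v hv => by simp [h1, hv _ (b _).2]
  have h4 : ∀ u v, P.B u (N v) = -P.B v (N u) := fun u v => by
    simp only [h1, map_sum, map_sub, map_smul, smul_eq_mul, ← Finset.sum_neg_distrib]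
    exact Finset.sum_congr rfl fun i _ => by
      rw [hs u, hs u, hs v, hs v]; ring
  have h5 : ∀ u, P.B u (N u) = 0 := fun u => by
    simp only [h1, map_sum, map_sub, map_smul, smul_eq_mul]
    exact Finset.sum_eq_zero fun i _ => by rw [hs u, hs u]; ring
  refine ⟨N + 1, ⟨⟨fun x y => ?_, fun x => ?_⟩, fun v => by simp [h3 _ (hU.le_perp (h2 v))],
    by simpa using h5⟩, le_antisymm (fun v hv => ?_) fun v hv => mem_fixS.mpr (by simp [h3 v hv])⟩
  · simp only [LinearMap.add_apply, Module.End.one_apply, map_add]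
    rw [hU.2 _ (h2 x) _ (h2 y), hs y (N x), h4 x y]; ring
  · have := P.Λ.add_mem (q_add_orth (h5 x)) (hU.1 _ (h2 x))
    rw [add_comm x] at this
    convert this using 1
    exact (sub_add_cancel _ _).symm
  · have h6 : N v = 0 := by simpa using mem_fixS.mp hv
    have h7 := Fintype.linearIndependent_iff.mp (b.linearIndependent.map' U.subtype U.ker_subtype)
      (Sum.elim (fun i => P.B (b (.inr i)) v) fun i => -P.B (b (.inl i)) v) (by
        rw [← h6, h1, Fintype.sum_sum_type, ← Finset.sum_add_distrib]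
        exact Finset.sum_congr rfl fun i _ => by simp [sub_eq_add_neg])
    intro u hu
    rw [show u = ∑ j, b.repr ⟨u, hu⟩ j • (b j : V) by
      have := congrArg Subtype.val (b.sum_repr ⟨u, hu⟩).symm
      rwa [Submodule.coe_sum] at this]
    simp only [map_sum, LinearMap.map_smulₛₗ, LinearMap.sum_apply, LinearMap.smul_apply]
    refine Finset.sum_eq_zero fun j _ => smul_eq_zero_of_right _ ?_
    rcases j with j | j
    exacts [neg_eq_zero.mp (h7 (.inr j)), h7 (.inl j)]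

/-- An element of this kind moving a hyperbolic subspace of dimension divisible by four. -/
theorem exists_at_hyp (hP : P.B.SeparatingLeft) (hs : ∀ x y, P.B y x = P.B x y) (hT : Hyp P T)
    (h4 : finrank F T % 4 = 0) (h0 : T ≠ ⊥) : ∃ f, AT P f ∧ f ≠ 1 ∧ ∀ W, P.Nondeg W → Inv f W →
      ∃ H M, ∃ M' ≤ P.perp T, Hyp P H ∧ finrank F H % 4 = 0 ∧ P.Nondeg M ∧ Cj P M M' ∧
        M ≤ P.perp H ∧ H ⊔ M = W := by
  obtain ⟨h1, U, h2, h3, h5⟩ := hT
  obtain ⟨f, h6, h7⟩ := exists_at hs h3 ⟨finrank F T / 4, by omega⟩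
  refine ⟨f, h6, fun h => h0 ?_, fun W hW hWf => ?_⟩
  · have := P.finrank_perp_add hP U
    rw [← h7, fixS_eq_top_iff.mpr h, finrank_top] at this
    exact eq_bot_of_finrank (by omega)
  obtain ⟨H, M, h8, h9, h10, h11, h12⟩ := h6.split hP hW hWf
  obtain ⟨M', h13, h14⟩ := exists_cj_of_le_perp hP h1 h2 h3 h5 h10 (h7 ▸ h11)
  exact ⟨H, M, M', h13, h8, h9, h10, h14, h12⟩

end H99
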