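import Cfsg.Agent.Lib.Elusive.AType

/-!
Forms whose nondegenerate subspaces are classified by their dimension.
-/

set_option autoImplicit false

namespace H99

open Module H28 Polynomial

variable {F V : Type*} [Field F] [AddCommGroup V] [Module F V] [FiniteDimensional F V]
  {σ : F →+* F} {P : PQ F V σ} {f g : V →ₗ[F] V} {W U T B : Submodule F V} {m u : ℕ}
  {μ : Multiset ℕ} {bad : ℕ → Prop}

theorem exists_unip_top (p : ℕ) [Fact p.Prime] [CharP F p] (hP : P.B.SeparatingLeft)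
    (H1 : ∀ T k, P.Nondeg T → 2 * k < finrank F T → HasTS P T k)
    (H2 : ∀ T a, ¬ bad a → P.Nondeg T → a ≤ finrank F T → ∃ B ≤ T, P.Nondeg B ∧
      finrank F B = a ∧ HasTS P B (a / 2) ∧ (Even a → ∃ c ∈ P.Λ, c ≠ 0))
    (ha : Adm bad μ) (h0 : ∀ a ∈ μ, 0 < a ∧ a ≤ p) (hs : μ.sum = finrank F V)
    (hh : (∀ a ∈ μ, bad a) → Hyp P ⊤) (h1 : ∃ a ∈ μ, 1 < a) :
    ∃ f, Iso P f ∧ f ^ p = 1 ∧ f ≠ 1 ∧ JT (f - 1) ⊤ μ ∧ ∀ w ∈ (⊤ : Submodule F V),
      ((f - 1) ^ p) w = 0 := by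
  obtain ⟨f, h2, -, h3⟩ := exists_unip hP H1 H2 ha (fun a h => (h0 a h).1) ⊤ (nondeg_top hP)
    (by rw [finrank_top, hs]) hh
  have h4 := h3.pow_eq_zero (fun a h => (h0 a h).2) (by rw [finrank_top, hs])
  refine ⟨f, h2, ?_, ?_, h3, h4⟩
  · rw [← sub_eq_zero, ← sub_one_pow_char]; exact LinearMap.ext fun v => h4 v trivial
  · rintro rfl
    obtain ⟨a, h5, h6⟩ := h1
    have := h3.le_of_pow_eq_zero (K := 1) (by simp) a h5
    omega

theorem UB.exists_le [DecidablePred bad] (hU : UB P bad) (hP : P.B.SeparatingLeft) (hf : Iso P f)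
    {K : ℕ} (hK : ∀ w ∈ (⊤ : Submodule F V), ((f - 1) ^ K) w = 0) (h : JT (f - 1) ⊤ μ)
    (hW : P.Nondeg W) (hWf : Inv f W) :
    ∃ ν ≤ μ, ν.sum = finrank F W ∧ Adm bad ν ∧ JT (f - 1) W ν := by
  obtain ⟨ν, ν', h1, -, rfl, h2⟩ := h.exists_perp hP hf Inv.top hK hW hWf le_top
  exact ⟨ν, Multiset.le_add_right _ _, h2.symm, hU.adm hP hf hW hWf (fun w _ => hK w trivial) h1,
    h1⟩

omit [FiniteDimensional F V] in
theorem pow_char_apply {p : ℕ} [Fact p.Prime] [CharP F p] (h : f ^ p = 1) :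
    ∀ w ∈ (⊤ : Submodule F V), ((f - 1) ^ p) w = 0 := fun w _ => by
  rw [sub_one_pow_char, h, sub_self]; rfl

/-- Nondegenerate subspaces exist in each dimension divisible by `u`, are classified by their
dimension, and have maximal Witt index. -/
structure DC (P : PQ F V σ) (u : ℕ) : Prop where
  sep : P.B.SeparatingLeft
  ex : ∀ W k, P.Nondeg W → u ∣ k → k ≤ finrank F W → ∃ U ≤ W, P.Nondeg U ∧ finrank F U = k
  cj : ∀ W U, P.Nondeg W → P.Nondeg U → finrank F W = finrank F U → Cj P W U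
  ts : ∀ W k, P.Nondeg W → 2 * k ≤ finrank F W → HasTS P W k
  dvd : ∀ W, P.Nondeg W → u ∣ finrank F W

theorem dc_alt {P : PQ F V (RingHom.id F)} (hP : P.B.SeparatingLeft) (hΛ : P.Λ = ⊤) : DC P 2 :=
  ⟨hP, fun _ _ h1 h2 h3 => alt_exists_nondeg hP hΛ h1 (even_iff_two_dvd.mpr h2) h3,
    fun _ _ => alt_cj hP hΛ, fun _ _ => alt_hasTS hP hΛ,
    fun _ h => even_iff_two_dvd.mp (alt_hyp hP hΛ h).even⟩

namespace DC

omit [FiniteDimensional F V] in
theorem hyp (D : DC P u) (hW : P.Nondeg W) (he : Even (finrank F W)) : Hyp P W := by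
  obtain ⟨k, hk⟩ := he
  exact (D.ts W k hW (by omega)).hyp hW (by omega)

theorem rsum (D : DC P u) {Φ : Submodule F V → Prop} {c e : ℕ} (hc : 0 < c) (hu : u ∣ c)
    (hd : ∀ B, Φ B → finrank F B = c) (hΦ : ∀ B ≤ T, P.Nondeg B → finrank F B = c → Φ B)
    (hT : P.Nondeg T) (he : finrank F T = e * c) : RSum P Φ e T :=
  exists_rsum_of_dvd hc (fun W => W ≤ T) hd (fun W h1 h2 h3 => by
    obtain ⟨B, h4, h5, h6⟩ := D.ex W c h2 hu h3
    exact ⟨B, h4, hΦ B (h4.trans h1) h5 h6, h5, inf_le_left.trans h1⟩) le_rfl hT he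

theorem rsum_blk (D : DC P u) {r c e : ℕ} (hc : 0 < c) (hB : P.Nondeg B) (hb : Blk P r c B)
    (he : e * c ≤ finrank F V) : ∃ T, RSum P (Blk P r c) e T := by
  have hu : u ∣ c := hb.1 ▸ D.dvd B hB
  obtain ⟨T, -, h1, h2⟩ := D.ex ⊤ _ (nondeg_top D.sep) (hu.mul_left e) (by rwa [finrank_top])
  exact ⟨T, D.rsum hc hu (fun _ h => h.1)
    (fun B' _ h3 h4 => hb.cj (D.cj _ _ hB h3 (hb.1.trans h4.symm))) h1 h2⟩

theorem unip_iff [DecidablePred bad] (D : DC P u) (hU : UB P bad) (p : ℕ) [Fact p.Prime]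
    [CharP F p] (hb : ∀ a, ¬ bad a → u ∣ a) (hΛ : ∃ c ∈ P.Λ, c ≠ 0)
    (hh : Hyp P ⊤ ∨ ∀ a, ¬ bad a) (hm : m ≤ finrank F V) (hm1 : bad 1 → Even m) :
    (∀ f, Iso P f → f ^ p = 1 → f ≠ 1 →
      ∃ W : Submodule F V, finrank F W = m ∧ P.Nondeg W ∧ Inv f W) ↔
      ∀ μ : Multiset ℕ, (∀ a ∈ μ, 0 < a ∧ a ≤ p) → Adm bad μ → μ.sum = finrank F V →
        ∃ ν ≤ μ, ν.sum = m ∧ Adm bad ν := by
  refine ⟨fun h μ h0 ha hs => ?_, fun h f hf h1 _ => ?_⟩
  · by_cases h1 : ∃ a ∈ μ, 1 < a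
    · obtain ⟨f, h2, h3, h4, h5, h6⟩ := exists_unip_top p D.sep
        (fun T k hT h => D.ts T k hT h.le) (fun T a h hT h' => by
          obtain ⟨B, h2, h3, h4⟩ := D.ex T a hT (hb a h) h'
          exact ⟨B, h2, h3, h4, D.ts B _ h3 (by omega), fun _ => hΛ⟩) ha h0 hs
        (fun h => hh.resolve_right fun h' => h' _ (h _ h1.choose_spec.1)) h1
      obtain ⟨W, rfl, h7, h8⟩ := h f h2 h3 h4
      obtain ⟨ν, h9, h10, h11, -⟩ := hU.exists_le D.sep h2 h6 h5 h7 h8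
      exact ⟨ν, h9, h10, h11⟩
    · obtain ⟨ν, h2, h3, h4⟩ := exists_le_sum_eq_of_le_one (fun a h => (h0 a h).1) h1 (hs ▸ hm)
      refine ⟨ν, h2, h3, fun a h => ?_⟩
      rw [Multiset.eq_replicate_card.mpr h4] at h3 ⊢
      rw [Multiset.count_replicate]
      split_ifs with h5
      · simpa [← h3] using hm1 (h5 ▸ h)
      · exact Even.zero
  · have h2 := pow_char_apply h1
    obtain ⟨μ, hμ⟩ := exists_jt (Inv.top (f := f - 1)) h2
    obtain ⟨ν, h3, h4, h5⟩ := h μ (fun a ha => ⟨hμ.1 a ha, hμ.le_of_pow_eq_zero h2 a ha⟩)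
      (hU.adm D.sep hf (nondeg_top D.sep) Inv.top h2 hμ) (by rw [← hμ.finrank_eq h2, finrank_top])
    obtain ⟨U, -, h6, h7, -, h8⟩ := hU.exists_nondeg D.sep hf (nondeg_top D.sep) Inv.top h2 hμ h3 h5
    exact ⟨U, h8.trans h4, h6, h7⟩

variable [Fintype F] {r j c : ℕ} [hr : Fact r.Prime]

theorem exists_nd (D : DC P u) (H : SS P r j c) (huc : u ∣ c) (hum : u ∣ m)
    (hm : m ≤ finrank F V) (h : m % c ≤ finrank F V % c) (hf : Iso P f) (hfr : f ^ r = 1) :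
    ∃ W : Submodule F V, finrank F W = m ∧ P.Nondeg W ∧ Inv f W := by
  have hr0 := H.ord.ne
  obtain ⟨e, h1, h2⟩ := H.fix_shape hf hfr
  have h3 : finrank F V % c ≤ finrank F (fixS f) := by
    rw [h2, Nat.add_mul_mod_self_right]; exact Nat.mod_le _ _
  have a1 := Nat.mod_add_div' m c
  have b1 : min e (m / c) * c ≤ m / c * c := Nat.mul_le_mul_right _ (min_le_right _ _)
  have b3 : min e (m / c) * c ≤ e * c := Nat.mul_le_mul_right _ (min_le_left _ _)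
  obtain ⟨U, h4, h5, h6⟩ := D.ex _ (m - min e (m / c) * c) (nondeg_fixS D.sep hr0 hf hfr)
    (Nat.dvd_sub hum (huc.mul_left _))
    (by rcases min_choice e (m / c) with h3 | h3 <;> rw [h3] <;> omega)
  obtain ⟨U', h7, h8, h9, h10⟩ := H.exists_nondeg hf hfr (nondeg_movS D.sep hr0 hf hfr)
    (inv_movS r f) le_rfl (t := min e (m / c)) (by omega)
  have h11 := le_perp_mono (movS_le_perp hr0 hf) h4 h7
  exact ⟨U ⊔ U', by rw [finrank_sup_orth h5 h11]; omega, nondeg_sup h5 h9 h11,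
    (inv_of_le_fixS h4).sup h8⟩

theorem nd_iff (D : DC P u) (H : SS P r j c) (huc : u ∣ c) (hum : u ∣ m) (hm : m ≤ finrank F V)
    (hΩ : r ∣ Nat.card {W : Submodule F V // finrank F W = m ∧ P.Nondeg W}) :
    (∀ f, Iso P f → f ^ r = 1 → f ≠ 1 →
      ∃ W : Submodule F V, finrank F W = m ∧ P.Nondeg W ∧ Inv f W) ↔
      c ≤ m ∧ m % c ≤ finrank F V % c := by
  refine ⟨fun h => ?_, fun h f hf hfr _ => D.exists_nd H huc hum hm h.2 hf hfr⟩
  have hP := D.sep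
  have hr0 := H.ord.ne
  have hc0 := H.pos
  obtain ⟨W₀, -, h1, h2⟩ := D.ex ⊤ m (nondeg_top hP) hum (by rwa [finrank_top])
  have hcl : ∀ W W' : Submodule F V, Cj P W W' → finrank F W = m ∧ P.Nondeg W →
      finrank F W' = m ∧ P.Nondeg W' := fun W W' h1 h2 => ⟨h1.finrank_eq ▸ h2.1, h1.nondeg h2.2⟩
  have htr : ∀ W W' : Submodule F V, finrank F W = m ∧ P.Nondeg W →
      finrank F W' = m ∧ P.Nondeg W' → Cj P W W' :=
    fun W W' h1 h2 => D.cj _ _ h1.2 h2.2 (h1.1.trans h2.1.symm)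
  refine ⟨?_, ?_⟩
  · by_contra h3
    refine not_dvd_card_sub hP hr0 _ hcl htr (fun f h4 h5 => ?_) hΩ
    rcases eq_or_ne f 1 with rfl | h6
    · exact ⟨W₀, ⟨h2, h1⟩, Or.inl (by simp [fixS_eq_top_iff.mpr rfl])⟩
    · obtain ⟨W, h7, h8, h9⟩ := h f h4 h5 h6
      exact ⟨W, ⟨h7, h8⟩, Or.inl (H.le_fixS h4 h5 h8 h9 (by omega))⟩
  obtain ⟨f, h3, h4, h5⟩ := exists_elt_of_dvd_sub _ hcl htr ⟨W₀, h2, h1⟩ hΩ
  obtain ⟨B, hB, hB'⟩ := H.exists_blk h3 h4 h5
  have h6 := Nat.div_add_mod' (finrank F V) c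
  have h7 := Nat.mod_lt (finrank F V) hc0
  obtain ⟨T, hT⟩ := D.rsum_blk hc0 hB hB' (e := finrank F V / c) (by omega)
  have h8 := hT.finrank_eq fun _ h => h.1
  obtain ⟨g, hg⟩ := hT.exists_mov hP
  have h9 := Nat.div_pos (hB'.1 ▸ Submodule.finrank_le B) hc0
  obtain ⟨W, rfl, h10, h11⟩ := h g hg.1 hg.2.1
    (hg.ne_one hP hr0 (ne_bot_of_finrank (by rw [h8]; positivity)))
  obtain ⟨t, -, h12⟩ := H.nd_shape hg.1 hg.2.1 h10 h11
  have h13 := finrank_fixS_add hr0 hg.2.1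
  have h14 := Submodule.finrank_mono (inf_le_right : W ⊓ fixS g ≤ _)
  rw [hg.movS_eq hP hr0] at h13
  rw [h12, Nat.add_mul_mod_self_right]
  exact (Nat.mod_le _ _).trans (by omega)

theorem exists_ts (D : DC P u) (H : SS P r j c) (hm : 2 * m ≤ finrank F V)
    (h2 : 2 * (m % j) ≤ finrank F V % c)
    (h3 : c = 2 * j ∨ (r - 1) / j + 2 * (m / j) ≤ finrank F V / j) (hf : Iso P f)
    (hfr : f ^ r = 1) :
    ∃ W : Submodule F V, finrank F W = m ∧ P.TotSing W ∧ Inv f W := by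
  have hP := D.sep
  have hr0 := H.ord.ne
  have hi0 := H.ord.pos
  obtain ⟨T, a, h4, h5, h6, h7⟩ := H.ts_shape hf hfr
  obtain ⟨e, h8, h9⟩ := H.fix_shape hf hfr
  have h10 : finrank F V % c ≤ finrank F (fixS f) := by
    rw [h9, Nat.add_mul_mod_self_right]; exact Nat.mod_le _ _
  have h11 := Nat.div_add_mod m j
  rcases le_total (m / j) T with h12 | h12
  · obtain ⟨W, h13, h14⟩ := h7 _ h12 (m % j) (D.ts _ _ (nondeg_fixS hP hr0 hf hfr) (by omega))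
    exact ⟨W, by rw [h13, mul_comm]; omega, h14⟩
  have h13 : T * j ≤ j * (m / j) := (Nat.mul_le_mul_right _ h12).trans_eq (mul_comm _ _)
  obtain ⟨W, h14, h15⟩ := h7 _ le_rfl (m - T * j) (D.ts _ _ (nondeg_fixS hP hr0 hf hfr) (by
    rw [add_mul, mul_assoc] at h4
    by_cases hc : c = 2 * j
    · rw [h6 hc] at h4; omega
    obtain rfl : c = j := (H.cases.resolve_right fun h => hc h.1).1
    have h14 := Nat.mul_le_mul_right c (h3.resolve_left hc)
    have h15 := Nat.mul_le_mul_right c ((Nat.le_div_iff_mul_le hi0).mpr h5)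
    have h16 := Nat.div_add_mod (finrank F V) c
    rw [add_mul, mul_assoc, mul_comm (m / c), mul_comm (finrank F V / c)] at h14
    omega))
  exact ⟨W, by omega, h15⟩

theorem ts_iff (D : DC P u) (H : SS P r j c) (hm : 2 * m ≤ finrank F V)
    (hΩ : r ∣ Nat.card {W : Submodule F V // finrank F W = m ∧ P.TotSing W}) :
    (∀ f, Iso P f → f ^ r = 1 → f ≠ 1 →
      ∃ W : Submodule F V, finrank F W = m ∧ P.TotSing W ∧ Inv f W) ↔
      j ≤ m ∧ 2 * (m % j) ≤ finrank F V % c ∧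
        (c = 2 * j ∨ (r - 1) / j + 2 * (m / j) ≤ finrank F V / j) := by
  refine ⟨fun h => ?_, fun h f hf hfr _ => D.exists_ts H hm h.2.1 h.2.2 hf hfr⟩
  have hP := D.sep
  have hr0 := H.ord.ne
  have hi0 := H.ord.pos
  have hc0 := H.pos
  obtain ⟨W₀, -, hW₀, hW₀'⟩ := D.ts ⊤ m (nondeg_top hP) (by rwa [finrank_top])
  have hci : c = j ∨ c = 2 * j := H.cases.imp And.left And.left
  have hcl : ∀ W W' : Submodule F V, Cj P W W' → finrank F W = m ∧ P.TotSing W →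
      finrank F W' = m ∧ P.TotSing W' := fun W W' h1 h2 => ⟨h1.finrank_eq ▸ h2.1, h1.totSing h2.2⟩
  have htr : ∀ W W' : Submodule F V, finrank F W = m ∧ P.TotSing W →
      finrank F W' = m ∧ P.TotSing W' → Cj P W W' :=
    fun W W' h1 h2 => cj_totSing hP h1.2 h2.2 (h1.1.trans h2.1.symm)
  have him : j ≤ m := by
    by_contra h1
    refine not_dvd_card_sub hP hr0 _ hcl htr (fun f h2 h3 => ?_) hΩ
    rcases eq_or_ne f 1 with rfl | h4
    · exact ⟨W₀, ⟨hW₀', hW₀⟩, Or.inl (by simp [fixS_eq_top_iff.mpr rfl])⟩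
    · obtain ⟨W, h5, h6, h7⟩ := h f h2 h3 h4
      exact ⟨W, ⟨h5, h6⟩, Or.inl (le_fixS_of_lt H.ord h3 h7 (by omega))⟩
  obtain ⟨f, h1, h2, h3⟩ := exists_elt_of_dvd_sub _ hcl htr ⟨W₀, hW₀', hW₀⟩ hΩ
  obtain ⟨B, hB, hB'⟩ := H.exists_blk h1 h2 h3
  have key : ∀ e, 0 < e → e * c ≤ finrank F V → finrank F V - e * c < 2 * j →
      2 * (m % j) + e * c ≤ finrank F V ∧ 2 * (m / j * j) ≤ e * c ∧
        (c = j → 2 * (m / j) + (r - 1) / j ≤ e + 1) := fun e he h4 h5 => by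
    obtain ⟨T, hT⟩ := D.rsum_blk hc0 hB hB' h4
    have h6 := hT.finrank_eq fun _ h => h.1
    obtain ⟨g, hg, h7⟩ := H.ts_bound hT
    obtain ⟨W, h8, h9, h10⟩ := h g hg.1 hg.2.1
      (hg.ne_one hP hr0 (ne_bot_of_finrank (by rw [h6]; positivity)))
    obtain ⟨u, t, h11, h12, h13, h14⟩ := h7 W h9 h10
    have h15 := h12.two_mul_le hP (hT.nondeg.perp hP)
    have h16 := P.finrank_perp_add hP T
    obtain ⟨rfl, rfl⟩ : m / j = t ∧ m % j = u :=
      (Nat.div_mod_unique hi0).mpr ⟨by rw [mul_comm]; omega, by omega⟩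
    have := Nat.div_pos him hi0
    exact ⟨by omega, h13, fun h => by have := h14 h; omega⟩
  have h4 := Nat.div_add_mod' (finrank F V) c
  have h5 := Nat.mod_lt (finrank F V) hc0
  have h6 := Nat.div_pos (hB'.1 ▸ Submodule.finrank_le B) hc0
  obtain ⟨h7, h8, -⟩ := key _ h6 (by omega) (by omega)
  refine ⟨him, by omega, hci.symm.imp_right fun hc => ?_⟩
  subst hc
  have h9 := Nat.div_pos him hi0
  rw [← mul_assoc] at h8
  have h10 := Nat.le_of_mul_le_mul_right h8 hi0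
  have := (key (finrank F V / c - 1) (by omega) (by rw [Nat.sub_one_mul]; omega)
    (by rw [Nat.sub_one_mul]; have := Nat.le_mul_of_pos_left c h6; omega)).2.2 rfl
  omega

end DC

variable {P : PQ F V (RingHom.id F)}

omit [FiniteDimensional F V] in
theorem ub_alt (hΛ : P.Λ = ⊤) (h2 : (2 : F) ≠ 0) : UB P Odd := fun k => by
  rw [alt_ε hΛ, Nat.odd_add_one, not_not, Nat.not_odd_iff_even]
  refine ⟨fun h t ht => ?_, fun h => ⟨1, fun h' => h2 ?_⟩⟩
  · rw [h.neg_one_pow, RingHom.id_apply] at ht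
    exact (mul_eq_zero.mp (by linear_combination ht : 2 * t = 0)).resolve_left h2
  · rw [h.neg_one_pow, RingHom.id_apply] at h'
    linear_combination h'

omit [FiniteDimensional F V] in
theorem ub_quad (hε : P.ε = 1) (h2 : (2 : F) ≠ 0) : UB P Even := fun k => by
  rw [hε, Nat.even_add_one, not_not, Nat.not_even_iff_odd]
  refine ⟨fun h t ht => ?_, fun h => ⟨1, fun h' => h2 ?_⟩⟩
  · rw [h.neg_one_pow, RingHom.id_apply] at ht
    exact (mul_eq_zero.mp (by linear_combination ht : 2 * t = 0)).resolve_left h2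
  · rw [h.neg_one_pow, RingHom.id_apply] at h'
    linear_combination h'

end H99
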