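import Cfsg.Agent.Lib.Elusive.DecLin

/-!
Groups of roots of unity in finite fields; diagonal and monomial maps.
-/

set_option autoImplicit false

namespace H99

open Module Polynomial

section Mu

variable {F : Type*} [Field F] {r M : ℕ} [hr : Fact r.Prime] {c : F}

/-- `c` is not the `r`-th power of an `M`-th root of unity. -/
def NP (r M : ℕ) (c : F) : Prop := ∀ d : F, d ^ M = 1 → d ^ r ≠ c

theorem exists_pow_mu (h : ¬ r ∣ M) (hc : c ^ M = 1) : ∃ d : F, d ^ M = 1 ∧ d ^ r = c := by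
  have hM : M ≠ 0 := by rintro rfl; simp at h
  obtain ⟨s, -, hs⟩ := Nat.exists_mul_mod_eq_of_coprime 1
    ((Nat.Prime.coprime_iff_not_dvd hr.out).mpr h) hM
  refine ⟨c ^ s, by rw [← pow_mul, mul_comm, pow_mul, hc, one_pow], ?_⟩
  rw [← pow_mul, mul_comm, ← pow_mod_orderOf, ← Nat.mod_mod_of_dvd _ (orderOf_dvd_of_pow_eq_one hc),
    hs, Nat.mod_mod_of_dvd _ (orderOf_dvd_of_pow_eq_one hc), pow_mod_orderOf, pow_one]

theorem eq_one_of_mu (h : ¬ r ∣ M) (hc : c ^ M = 1) (h1 : c ^ r = 1) : c = 1 := by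
  have := Nat.dvd_gcd (orderOf_dvd_of_pow_eq_one h1) (orderOf_dvd_of_pow_eq_one hc)
  rw [(Nat.Prime.coprime_iff_not_dvd hr.out).mpr h, Nat.dvd_one] at this
  exact orderOf_eq_one_iff.mp this

theorem NP.dvd (h : NP r M c) (hc : c ^ M = 1) : r ∣ M := by
  by_contra h1
  obtain ⟨d, h2, h3⟩ := exists_pow_mu h1 hc
  exact h d h2 h3

variable [Fintype F]

omit hr in
theorem card_sub_one_ne_zero (F : Type*) [Field F] [Fintype F] : Fintype.card F - 1 ≠ 0 := by
  have := Fintype.one_lt_card (α := F); omega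

omit hr in
theorem exists_primitive (hM : M ∣ Fintype.card F - 1) : ∃ g : F, IsPrimitiveRoot g M := by
  obtain ⟨g, -, hg⟩ := exists_orderOf_eq hM
  exact ⟨g, hg ▸ IsPrimitiveRoot.orderOf g⟩

theorem exists_pow_mu_iff (hM : M ∣ Fintype.card F - 1) (h : r ∣ M) (hc : c ^ M = 1) :
    (∃ d : F, d ^ M = 1 ∧ d ^ r = c) ↔ c ^ (M / r) = 1 := by
  have hM0 : M ≠ 0 := ne_zero_of_dvd_ne_zero (card_sub_one_ne_zero F) hM
  obtain ⟨t, rfl⟩ := h
  rw [Nat.mul_div_cancel_left _ hr.out.pos]
  refine ⟨fun ⟨d, h1, h2⟩ => by rw [← h2, ← pow_mul, h1], fun h1 => ?_⟩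
  obtain ⟨g, hg⟩ := exists_primitive hM
  have : NeZero (r * t) := ⟨hM0⟩
  obtain ⟨j, -, rfl⟩ := hg.eq_pow_of_pow_eq_one hc
  rw [← pow_mul, hg.pow_eq_one_iff_dvd] at h1
  obtain ⟨u, rfl⟩ := Nat.dvd_of_mul_dvd_mul_right (Nat.pos_of_ne_zero (right_ne_zero_of_mul hM0)) h1
  exact ⟨g ^ u, by rw [← pow_mul, mul_comm, pow_mul, hg.pow_eq_one, one_pow],
    by rw [← pow_mul, mul_comm]⟩

theorem NP.pow_dvd (h : NP r M c) (hM : M ∣ Fintype.card F - 1) (hc : c ^ M = 1) {k : ℕ}
    (hk : c ^ k = 1) : r ^ padicValNat r M ∣ k := by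
  have h1 : ¬ orderOf c ∣ M / r := fun h1 => by
    obtain ⟨d, hd⟩ := (exists_pow_mu_iff hM (h.dvd hc) hc).mpr (orderOf_dvd_iff_pow_eq_one.mp h1)
    exact h d hd.1 hd.2
  obtain ⟨u, hu⟩ := orderOf_dvd_of_pow_eq_one hc
  have hru : ¬ r ∣ u := by
    rintro ⟨w, rfl⟩
    apply h1
    rw [hu, mul_left_comm, Nat.mul_div_cancel_left _ hr.out.pos]
    exact dvd_mul_right _ _
  have h2 : r ^ padicValNat r M ∣ orderOf c * u := hu ▸ pow_padicValNat_dvd
  exact (((Nat.Prime.coprime_iff_not_dvd hr.out).mpr hru).pow_left _).dvd_of_dvd_mul_right h2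
    |>.trans (orderOf_dvd_of_pow_eq_one hk)

theorem exists_np (hM : M ∣ Fintype.card F - 1) (h : r ∣ M) :
    ∃ c : F, c ^ M = 1 ∧ NP r M c ∧ c ^ r ^ padicValNat r M = 1 := by
  have hM0 : M ≠ 0 := ne_zero_of_dvd_ne_zero (card_sub_one_ne_zero F) hM
  obtain ⟨c, -, hc⟩ := exists_orderOf_eq (F := F) (k := r ^ padicValNat r M)
    (pow_padicValNat_dvd.trans hM)
  have hc1 : c ^ M = 1 := orderOf_dvd_iff_pow_eq_one.mp (hc ▸ pow_padicValNat_dvd)
  refine ⟨c, hc1, fun d hd hd' => ?_, by rw [← hc, pow_orderOf_eq_one]⟩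
  have h1 := (exists_pow_mu_iff hM h hc1).mp ⟨d, hd, hd'⟩
  rw [← orderOf_dvd_iff_pow_eq_one, hc, Nat.dvd_div_iff_mul_dvd h, ← pow_succ'] at h1
  exact pow_succ_padicValNat_not_dvd hM0 h1

omit hr in
theorem np_neg_one_iff (hM : M ∣ Fintype.card F - 1) (h : 2 ∣ M) :
    NP 2 M (-1 : F) ↔ ¬ 4 ∣ M := by
  have h2 : (-1 : F) ≠ 1 := fun h2 => by
    have := exists_primitive (h.trans hM)
    obtain ⟨g, hg⟩ := this
    exact hg.ne_one one_lt_two (hg.eq_neg_one_of_two_right.trans h2)
  have h1 := exists_pow_mu_iff (r := 2) (c := (-1 : F)) hM h ((even_iff_two_dvd.mpr h).neg_one_pow)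
  rw [neg_one_pow_eq_one_iff_even h2, even_iff_two_dvd] at h1
  rw [show (4 ∣ M) ↔ 2 ∣ M / 2 by omega, ← h1, NP]
  push Not; rfl

/-- The arithmetic condition for an element of determinant one whose `r`-th power is a scalar
that is not an `r`-th power among the `M`-th roots of unity. -/
theorem exists_np_det_iff (hM : M ∣ Fintype.card F - 1) (h : r ∣ M) {n : ℕ} (hn : n ≠ 0) :
    (∃ (c : F) (k : ℕ), c ^ M = 1 ∧ NP r M c ∧ n = k * r ∧ ((-1) ^ (r + 1) * c) ^ k = 1) ↔
      ¬ (padicValNat r n ≤ padicValNat r M ∧ (r = 2 → Even n → 4 ∣ M)) := by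
  have hneg : r = 2 → 4 ∣ M → ∀ c : F, c ^ M = 1 → NP r M c → (-c) ^ M = 1 ∧ NP r M (-c) := by
    rintro rfl h4 c hc1 hc
    refine ⟨by rw [(even_iff_two_dvd.mpr h).neg_pow, hc1], fun d hd hd' => ?_⟩
    have := (np_neg_one_iff hM h).not.mpr (not_not.mpr h4)
    simp only [NP, not_forall, not_not] at this
    obtain ⟨e, he, he'⟩ := this
    exact hc (e * d) (by rw [mul_pow, he, hd, one_mul]) (by rw [mul_pow, he', hd']; ring)
  constructor
  · rintro ⟨c, k, hc1, hc, rfl, hk⟩ ⟨h1, h2⟩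
    have hk0 : k ≠ 0 := by rintro rfl; simp at hn
    have key : ∀ c : F, c ^ M = 1 → NP r M c → c ^ k ≠ 1 := by
      intro c hc1 hc hk
      have h3 := (padicValNat_dvd_iff_le hk0).mp (hc.pow_dvd hM hc1 hk)
      rw [padicValNat.mul hk0 hr.out.ne_zero, padicValNat_self] at h1
      omega
    rcases hr.out.eq_two_or_odd' with h3 | h3
    · have h4 := h2 h3 (by rw [h3]; exact even_iff_two_dvd.mpr (dvd_mul_left 2 k))
      refine key (-c) (hneg h3 h4 c hc1 hc).1 (hneg h3 h4 c hc1 hc).2 ?_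
      rw [← hk, h3]; congr 1; ring
    · refine key c hc1 hc ?_
      rw [← hk, h3.add_one.neg_one_pow, one_mul]
  · intro h1
    by_cases h3 : r = 2 ∧ ¬ 4 ∣ M
    · obtain ⟨rfl, h4⟩ := h3
      have hev : Even n := by
        by_contra hodd
        apply h1
        refine ⟨?_, fun _ h => (hodd h).elim⟩
        rw [padicValNat.eq_zero_of_not_dvd (fun h => hodd (even_iff_two_dvd.mpr h))]
        exact Nat.zero_le _
      obtain ⟨k, rfl⟩ := hev
      exact ⟨-1, k, (even_iff_two_dvd.mpr h).neg_one_pow, (np_neg_one_iff hM h).mpr h4, by ring,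
        by simp [pow_succ]⟩
    have h4 : padicValNat r M + 1 ≤ padicValNat r n := by
      by_contra h4
      exact h1 ⟨by omega, fun h5 _ => by by_contra h6; exact h3 ⟨h5, h6⟩⟩
    obtain ⟨u, hu⟩ := (padicValNat_dvd_iff_le hn).mpr h4
    obtain ⟨c, hc0, hc, hc1⟩ := exists_np hM h
    have hk : c ^ (r ^ padicValNat r M * u) = 1 := by
      rw [pow_mul, hc1, one_pow]
    rcases hr.out.eq_two_or_odd' with h5 | h5
    · have h6 : 4 ∣ M := by by_contra h6; exact h3 ⟨h5, h6⟩
      refine ⟨-c, r ^ padicValNat r M * u, (hneg h5 h6 c hc0 hc).1, (hneg h5 h6 c hc0 hc).2,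
        by rw [hu]; ring, ?_⟩
      have : (-1) ^ (r + 1) * -c = c := by rw [h5]; ring
      rw [this, hk]
    · refine ⟨c, r ^ padicValNat r M * u, hc0, hc, by rw [hu]; ring, ?_⟩
      rw [h5.add_one.neg_one_pow, one_mul, hk]

omit hr in
theorem exists_pow_eq_neg_one_iff (hM : M ∣ Fintype.card F - 1) (h : 2 ∣ M) {n : ℕ} (hn : n ≠ 0) :
    (∃ c : F, c ^ M = 1 ∧ c ^ n = -1) ↔ padicValNat 2 n < padicValNat 2 M := by
  have hM0 : M ≠ 0 := ne_zero_of_dvd_ne_zero (card_sub_one_ne_zero F) hM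
  have h2 : (-1 : F) ≠ 1 := fun h2 => by
    obtain ⟨g, hg⟩ := exists_primitive (h.trans hM)
    exact hg.ne_one one_lt_two (hg.eq_neg_one_of_two_right.trans h2)
  constructor
  · rintro ⟨c, h1, h3⟩
    by_contra h4
    obtain ⟨a, s, hs, ha⟩ := Nat.exists_eq_two_pow_mul_odd hM0
    have h5 : 2 ^ a ∣ n := (padicValNat_dvd_iff_le hn).mpr
      (((padicValNat_dvd_iff_le hM0).mp (ha ▸ dvd_mul_right _ _)).trans (by omega))
    obtain ⟨t, rfl⟩ := h5
    have : (c ^ (2 ^ a * t)) ^ s = 1 := by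
      rw [← pow_mul, mul_right_comm, ← ha, pow_mul, h1, one_pow]
    rw [h3, hs.neg_one_pow] at this
    exact h2 this
  · intro h1
    obtain ⟨a, s, hs, ha⟩ := Nat.exists_eq_two_pow_mul_odd hn
    have h5 : 2 ^ (a + 1) ∣ M := (padicValNat_dvd_iff_le hM0).mpr
      (((padicValNat_dvd_iff_le hn).mp (ha ▸ dvd_mul_right _ _)).trans_lt h1)
    obtain ⟨g, hg⟩ := exists_primitive (h5.trans hM)
    refine ⟨g, hg.pow_eq_one_iff_dvd _ |>.mpr h5, ?_⟩
    rw [ha, pow_mul, (hg.pow (by positivity) (pow_succ 2 a)).eq_neg_one_of_two_right,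
      hs.neg_one_pow]

end Mu

section Diag

variable {F V ι : Type*} [Field F] [AddCommGroup V] [Module F V] (b : Basis ι F V)

/-- The monomial map with permutation `π` and coefficients `d`. -/
noncomputable def mono (π : ι → ι) (d : ι → F) : V →ₗ[F] V := b.constr F fun i => d i • b (π i)

/-- The diagonal map with entries `d`. -/
noncomputable def dg (d : ι → F) : V →ₗ[F] V := mono b id d

theorem mono_basis (π : ι → ι) (d : ι → F) (i : ι) : mono b π d (b i) = d i • b (π i) :=
  b.constr_basis F _ i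

theorem dg_basis (d : ι → F) (i : ι) : dg b d (b i) = d i • b i := mono_basis b id d i

theorem mono_pow_basis (π : ι → ι) (d : ι → F) (t : ℕ) (i : ι) :
    (mono b π d ^ t) (b i) = (∏ s ∈ Finset.range t, d (π^[s] i)) • b (π^[t] i) := by
  induction t with
  | zero => simp
  | succ t ih =>
    rw [pow_succ', Module.End.mul_apply, ih, map_smul, mono_basis, smul_smul,
      Finset.prod_range_succ, Function.iterate_succ_apply']

theorem dg_mul (d e : ι → F) : dg b d * dg b e = dg b (d * e) :=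
  b.ext fun i => by simp [dg_basis, smul_smul, mul_comm]

theorem dg_const (c : F) : dg b (fun _ => c) = c • 1 := b.ext fun i => by simp [dg_basis]

theorem dg_one : dg b 1 = 1 := b.ext fun i => by simp [dg_basis]

theorem smul_dg (c : F) (d : ι → F) : c • dg b d = dg b (fun i => c * d i) :=
  b.ext fun i => by simp [dg_basis, smul_smul]

theorem dg_pow (d : ι → F) (k : ℕ) : dg b d ^ k = dg b (d ^ k) := by
  induction k with
  | zero => simp [dg_one]
  | succ k ih => rw [pow_succ, ih, dg_mul, pow_succ]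

theorem dg_pow_eq {d : ι → F} {k : ℕ} {c : F} (h : ∀ i, d i ^ k = c) : dg b d ^ k = c • 1 := by
  rw [dg_pow, ← dg_const b]; congr 1; exact funext h

theorem dg_injective {d e : ι → F} (h : dg b d = dg b e) : d = e := funext fun i =>
  smul_left_injective F (b.ne_zero i) (by simp only [← dg_basis, h])

theorem dg_ne_smul {d : ι → F} {i j : ι} (h : d i ≠ d j) (c : F) : dg b d ≠ c • 1 := fun h1 => by
  rw [← dg_const b] at h1
  exact h ((congrFun (dg_injective b h1) i).trans (congrFun (dg_injective b h1) j).symm)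

theorem repr_dg (d : ι → F) (v : V) (i : ι) : b.repr (dg b d v) i = d i * b.repr v i := by
  classical
  have : (b.coord i) ∘ₗ dg b d = d i • b.coord i := b.ext fun j => by
    by_cases h : j = i <;> simp [dg_basis, h]
  exact LinearMap.congr_fun this v

theorem aeval_dg (d : ι → F) (p : F[X]) : aeval (dg b d) p = dg b fun i => p.eval (d i) := by
  induction p using Polynomial.induction_on' with
  | add p q hp hq => exact b.ext fun i => by simp [hp, hq, dg_basis, add_smul]
  | monomial n a =>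
    rw [aeval_monomial, dg_pow]
    exact b.ext fun i => by simp [dg_basis, smul_smul, mul_comm]

variable [Fintype ι] [DecidableEq ι]

theorem toMatrix_dg (d : ι → F) : LinearMap.toMatrix b b (dg b d) = Matrix.diagonal d := by
  ext i j
  rw [LinearMap.toMatrix_apply, repr_dg, Matrix.diagonal_apply]
  by_cases h : i = j <;> simp [h]

theorem det_dg (d : ι → F) : LinearMap.det (dg b d) = ∏ i, d i := by
  rw [← LinearMap.det_toMatrix b, toMatrix_dg, Matrix.det_diagonal]

theorem det_mono (π : Equiv.Perm ι) (d : ι → F) :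
    LinearMap.det (mono b π d) = (Equiv.Perm.sign π : ℤ) * ∏ i, d i := by
  have : LinearMap.toMatrix b b (mono b π d) = (Matrix.diagonal d).submatrix π.symm id := by
    ext i j
    rw [LinearMap.toMatrix_apply, mono_basis, Matrix.submatrix_apply, Matrix.diagonal_apply]
    by_cases h : π j = i
    · simp [← h]
    · simp [Equiv.symm_apply_eq, Ne.symm h]
  rw [← LinearMap.det_toMatrix b, this, Matrix.det_permute, Matrix.det_diagonal]
  simp

omit [DecidableEq ι] in
open Classical in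
/-- An invariant subspace of a diagonal map contains the components along the eigenspaces. -/
theorem Inv.exists_comp {d : ι → F} {W : Submodule F V} (h : Inv (dg b d) W) {w : V} (hw : w ∈ W)
    (c : F) : ∃ u ∈ W, ∀ i, b.repr u i = if d i = c then b.repr w i else 0 := by
  classical
  set p : F[X] := ∏ j ∈ Finset.univ.filter fun j => d j ≠ c, (X - C (d j))
  have hp : p.eval c ≠ 0 := by
    simp only [p, eval_prod, Finset.prod_ne_zero_iff, eval_sub, eval_X, eval_C, Finset.mem_filter]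
    exact fun j hj => sub_ne_zero.mpr hj.2.symm
  refine ⟨(p.eval c)⁻¹ • Polynomial.aeval (dg b d) p w, W.smul_mem _ (h.aeval p w hw), fun i => ?_⟩
  rw [map_smul, Finsupp.smul_apply, aeval_dg, repr_dg, smul_eq_mul]
  split_ifs with h1
  · rw [h1, inv_mul_cancel_left₀ hp]
  · have : p.eval (d i) = 0 := by
      simp only [p, eval_prod]
      exact Finset.prod_eq_zero (i := i) (by simpa using h1) (by simp)
    simp [this]

omit [DecidableEq ι] in
theorem Inv.smul_basis_mem {d : ι → F} {W : Submodule F V} (h : Inv (dg b d) W) {w : V}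
    (hw : w ∈ W) {i : ι} (hi : ∀ j, d j = d i → j = i) : b.repr w i • b i ∈ W := by
  classical
  obtain ⟨u, hu, h1⟩ := h.exists_comp b hw (d i)
  convert hu using 1
  refine b.ext_elem fun j => ?_
  rw [h1]
  by_cases h2 : j = i
  · simp [h2]
  · simp [Ne.symm h2, mt (hi j) h2]

end Diag

section Cyc

variable {F V κ : Type*} [Field F] [AddCommGroup V] [Module F V] {r : ℕ} [NeZero r]
  (b : Basis (κ × ZMod r) F V)

/-- The monomial map cycling the blocks of a basis, with `r`-th power `z`. -/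
noncomputable def cyM (z : F) : V →ₗ[F] V :=
  mono b (fun i => (i.1, i.2 + 1)) fun i => if i.2 = 0 then z else 1

omit [NeZero r] in
theorem cyM_basis (z : F) (i : κ × ZMod r) :
    cyM b z (b i) = (if i.2 = 0 then z else 1) • b (i.1, i.2 + 1) := mono_basis b _ _ i

theorem cyM_pow (z : F) : cyM b z ^ r = z • 1 := b.ext fun i => by
  have h1 : ∀ s : ℕ, (fun i : κ × ZMod r => (i.1, i.2 + 1))^[s] i = (i.1, i.2 + s) := fun s => by
    induction s with
    | zero => simp
    | succ s ih => rw [Function.iterate_succ_apply', ih]; simp [add_assoc]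
  rw [cyM, mono_pow_basis, h1, Finset.prod_eq_single (-i.2).val]
  · simp [h1]
  · intro s hs hne
    rw [h1, if_neg]
    intro h
    exact hne (by rw [← ZMod.val_natCast_of_lt (Finset.mem_range.mp hs), eq_neg_of_add_eq_zero_right h])
  · exact fun h => (h (Finset.mem_range.mpr (ZMod.val_lt _))).elim

end Cyc

section Det

variable {F V : Type*} [Field F] [AddCommGroup V] [Module F V] [FiniteDimensional F V]

theorem det_of_eigen {f : V →ₗ[F] V} {W U : Submodule F V} (h : IsCompl W U) {a c : F}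
    (hW : ∀ v ∈ W, f v = a • v) (hU : ∀ v ∈ U, f v = c • v) :
    LinearMap.det f = a ^ finrank F W * c ^ finrank F U := by
  rw [det_eq_mul_of_isCompl (Inv.of_eigen hW) (Inv.of_eigen hU) h]
  have h1 : f.restrict (Inv.of_eigen hW) = a • LinearMap.id := LinearMap.ext fun v => Subtype.ext (hW v v.2)
  have h2 : f.restrict (Inv.of_eigen hU) = c • LinearMap.id := LinearMap.ext fun v => Subtype.ext (hU v v.2)
  rw [h1, h2]; simp

theorem exists_basis_of_card {ι : Type*} [Fintype ι] (h : finrank F V = Fintype.card ι) :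
    Nonempty (Basis ι F V) := ⟨(Module.finBasis F V).reindex (Fintype.equivFinOfCardEq h.symm).symm⟩

end Det

end H99
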