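import Cfsg.Agent.Lib.Elusive.Idx
import Cfsg.Agent.Lib.Elusive.Mu

/-!
Hermitian forms over finite fields.
-/

set_option autoImplicit false

namespace H99

open Module H28 Polynomial

variable {F V : Type*} [Field F] [Fintype F] [AddCommGroup V] [Module F V] {σ : F →+* F}
  {P : PQ F V σ} {q : ℕ} {f g : V →ₗ[F] V} {W U T : Submodule F V} {m k : ℕ}

/-- Nondegenerate Hermitian data over a field with `q ^ 2` elements. -/
structure HP (P : PQ F V σ) (q : ℕ) : Prop where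
  card : Fintype.card F = q ^ 2
  pow : ∀ a, σ a = a ^ q
  ne : σ ≠ RingHom.id F
  ε : P.ε = 1
  Λ : P.Λ = traceZero σ
  sep : P.B.SeparatingLeft

/-- Orthonormal families. -/
def ON (P : PQ F V σ) {ι : Type*} [DecidableEq ι] (b : ι → V) : Prop :=
  ∀ i j, P.B (b i) (b j) = if i = j then 1 else 0

namespace HP

theorem symm (H : HP P q) (x y : V) : σ (P.B x y) = P.B y x := by rw [P.symm x y, H.ε, one_mul]

theorem q_mem (H : HP P q) {x : V} : P.q x ∈ P.Λ ↔ P.B x x = 0 := by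
  rw [P.self, H.Λ, H.ε, one_mul, mem_traceZero]

theorem totSing_iff (H : HP P q) : P.TotSing W ↔ W ≤ P.perp W :=
  ⟨fun h => h.le_perp, fun h => ⟨fun x hx => H.q_mem.mpr (h hx x hx), fun x hx _ hy => h hy x hx⟩⟩

theorem q_sub (H : HP P q) {x y : V} (h : P.B x x = P.B y y) : P.q x - P.q y ∈ P.Λ :=
  H.Λ ▸ PQ.sub_mem_traceZero P P H.ε H.ε h

theorem iso (H : HP P q) (h : ∀ x y, P.B (f x) (f y) = P.B x y) : Iso P f :=
  ⟨h, fun x => H.q_sub (h x x)⟩

theorem norm (H : HP P q) (z : F) : σ z * z = z ^ (q + 1) := by rw [H.pow, pow_succ]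

theorem two_le (H : HP P q) : 2 ≤ q := by
  have := Fintype.one_lt_card (α := F)
  rw [H.card] at this
  by_contra h
  interval_cases q <;> simp at this

theorem dvd (H : HP P q) : q + 1 ∣ Fintype.card F - 1 := by
  rw [H.card]; simpa using Nat.sq_sub_sq q 1 ▸ dvd_mul_right (q + 1) (q - 1)

theorem exists_pow (H : HP P q) (p : ℕ) [hp : Fact p.Prime] [CharP F p] :
    ∃ e, 0 < e ∧ q = p ^ e := by
  obtain ⟨n, -, hn⟩ := exists_card_eq F p
  obtain ⟨e, -, he⟩ := (Nat.dvd_prime_pow hp.out).mp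
    (show q ∣ p ^ n by rw [← hn, H.card]; exact dvd_pow_self q two_ne_zero)
  refine ⟨e, Nat.pos_of_ne_zero ?_, he⟩
  rintro rfl
  have := H.two_le
  simp at he; omega

theorem char_dvd (H : HP P q) (p : ℕ) [hp : Fact p.Prime] [CharP F p] : p ∣ q := by
  obtain ⟨e, he, rfl⟩ := H.exists_pow p
  exact dvd_pow_self p he.ne'

theorem char_not_dvd (H : HP P q) (p : ℕ) [hp : Fact p.Prime] [CharP F p] : ¬ p ∣ q + 1 :=
  fun h => hp.out.not_dvd_one ((Nat.dvd_add_right (H.char_dvd p)).mp h)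

theorem cast_ne (H : HP P q) {r : ℕ} [hr : Fact r.Prime] (h : r ∣ q + 1) : (r : F) ≠ 0 := by
  intro h0
  have : CharP F r := by
    have h1 := (CharP.cast_eq_zero_iff F (ringChar F) r).mp h0
    rw [← ((Nat.prime_dvd_prime_iff_eq (CharP.char_is_prime F _) hr.out).mp h1)]
    exact ringChar.charP F
  exact H.char_not_dvd r h

theorem card_quot (H : HP P q) : Nat.card (F ⧸ P.Λ) ^ 2 = Nat.card F := by
  have h1 := card_traceZero_sq H.ne P.σσ
  have h2 := AddSubgroup.card_eq_card_quotient_mul_card_addSubgroup (traceZero σ)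
  rw [← h1, sq] at h2
  rw [H.Λ, ← Nat.eq_of_mul_eq_mul_right Nat.card_pos h2, h1]

theorem exists_Λ (H : HP P q) : ∃ c ∈ P.Λ, c ≠ 0 := by
  obtain ⟨a, ha⟩ : ∃ a, σ a ≠ a := by
    by_contra h
    push Not at h
    exact H.ne (RingHom.ext h)
  exact ⟨a - σ a, by simpa [H.ε] using P.sub_mem a, sub_ne_zero.mpr ha.symm⟩

theorem exists_one (H : HP P q) (hW : P.Nondeg W) (h0 : W ≠ ⊥) : ∃ v ∈ W, P.B v v = 1 := by
  obtain ⟨x, hx, hx0⟩ := (Submodule.ne_bot_iff W).mp h0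
  obtain ⟨y, hy, hxy⟩ := exists_B_ne hW hx hx0
  obtain ⟨z, hz, h1⟩ := exists_nonisotropic (exists_trace_one H.ne P.σσ) P.B H.symm W hx hy hxy
  obtain ⟨a, ha⟩ := exists_norm_eq H.ne P.σσ (t := (P.B z z)⁻¹) (by rw [map_inv₀, H.symm])
  refine ⟨a • z, W.smul_mem a hz, ?_⟩
  simp only [map_smul, LinearMap.map_smulₛₗ, LinearMap.smul_apply, smul_eq_mul]
  rw [← mul_assoc, mul_comm a, ha, inv_mul_cancel₀ h1]

theorem ub (H : HP P q) : UB P fun _ => False := fun k => ⟨False.elim, fun _ => by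
  rw [H.ε, one_mul]
  rcases neg_one_pow_eq_or F k with h | h <;> rw [h]
  · obtain ⟨c, hc⟩ := exists_trace_one H.ne P.σσ
    exact ⟨c, by rw [one_mul, hc]; exact one_ne_zero⟩
  · by_contra h1
    push Not at h1
    exact H.ne (RingHom.ext fun a => by have := h1 a; simp only [RingHom.id_apply]; linear_combination -this)⟩

theorem iso_of_basis (H : HP P q) {ι : Type*} (b : Basis ι F V)
    (h : ∀ i j, P.B (f (b i)) (f (b j)) = P.B (b i) (b j)) : Iso P f := H.iso fun x y => by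
  have : (P.comap f).B = P.B := b.ext fun i => b.ext fun j => h i j
  exact LinearMap.congr_fun₂ this x y

theorem iso_mono (H : HP P q) {ι : Type*} [DecidableEq ι] {b : Basis ι F V} (hb : ON P b)
    {π : ι → ι} (hπ : Function.Injective π) {d : ι → F} (hd : ∀ i, d i ^ (q + 1) = 1) :
    Iso P (mono b π d) := H.iso_of_basis b fun i j => by
  simp only [mono_basis, map_smul, LinearMap.map_smulₛₗ, LinearMap.smul_apply, smul_eq_mul, hb _ _,
    hπ.eq_iff]
  split_ifs with h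
  · rw [h, mul_one, mul_comm, H.norm, hd]
  · simp

theorem iso_dg (H : HP P q) {ι : Type*} [DecidableEq ι] {b : Basis ι F V} (hb : ON P b)
    {d : ι → F} (hd : ∀ i, d i ^ (q + 1) = 1) : Iso P (dg b d) :=
  H.iso_mono hb Function.injective_id hd

theorem pow_eq_one (H : HP P q) [Nontrivial V] (hf : Iso P f) {r : ℕ} {z : F}
    (h : f ^ r = z • 1) : z ^ (q + 1) = 1 := H.norm z ▸ (h ▸ hf.pow r).norm_eq_one H.sep

theorem smul (H : HP P q) (hf : Iso P f) {z : F} (h : z ^ (q + 1) = 1) : Iso P (z • f) :=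
  hf.smul ((H.norm z).trans h)

theorem ss (H : HP P q) {r i b c : ℕ} [hr : Fact r.Prime] (hr0 : (r : F) ≠ 0) (h2 : r ≠ 2)
    (hi : i = orderOf (q : ZMod r)) (hb : b = if Even i then i / 2 else i)
    (hc : c = if i % 4 = 0 then i else if i % 4 = 2 then i / 2 else 2 * i) : SS P r b c := by
  obtain ⟨p, hp, hc'⟩ : ∃ p, p.Prime ∧ CharP F p :=
    ⟨ringChar F, CharP.char_is_prime F _, ringChar.charP F⟩
  have := Fact.mk hp
  obtain ⟨e, -, he⟩ := H.exists_pow p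
  have hq : ¬ r ∣ q := fun h => not_dvd_card' hr0 (H.card ▸ h.trans (dvd_pow_self q two_ne_zero))
  have h1 := fun k => (dvd_pow_add_one_iff (r := r) _ k).trans (pow_eq_neg_one_iff hq h2 k)
  have hi0 := ord_pos hq
  rw [← hi] at h1 hi0
  refine ⟨H.sep, ⟨hr0, ?_⟩, h2, ?_⟩
  · rw [H.card, Nat.cast_pow, orderOf_pow' _ two_ne_zero, ← hi, hb]
    split_ifs with h
    · rw [Nat.gcd_eq_right (even_iff_two_dvd.mp h)]
    · rw [(Nat.coprime_two_right.mpr (Nat.not_even_iff_odd.mp h) : Nat.gcd i 2 = 1), Nat.div_one]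
  by_cases h4 : i % 4 = 2
  · have he' : Even i := Nat.even_iff.mpr (by omega)
    refine Or.inl ⟨by simp [hb, hc, h4, he'], fun f hf hr => sd_of_pow (p := p) (k := e * (i / 2))
      (fun a => ?_) hf ?_⟩
    · obtain ⟨t, ht⟩ : ∃ t, i / 2 = 2 * t + 1 := ⟨i / 4, by omega⟩
      rw [pow_mul, ← he, ht, pow_succ, pow_mul q, ← H.card, pow_mul, FiniteField.pow_card_pow, H.pow]
    · obtain ⟨s, hs⟩ := (h1 (i / 2)).mpr ⟨he', Nat.mod_eq_of_lt (by omega)⟩
      rw [pow_mul, ← he, hs, pow_mul, hr, one_pow]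
  · refine Or.inr ⟨?_, nsd_of_not_dvd (p := p) (k := e) (he ▸ H.pow) hr0 fun m h => h4 ?_⟩
    · rw [hb, hc, if_neg h4]
      split_ifs with h5 h6 h6 <;> simp only [Nat.even_iff] at h6 <;> omega
    · rw [← he, H.card, ← pow_mul, ← pow_succ'] at h
      obtain ⟨⟨t, ht⟩, h6⟩ := (h1 _).mp h
      have h7 := Nat.div_add_mod (2 * m + 1) i
      rw [h6, ht, add_mul] at h7
      omega

theorem not_pow (H : HP P q) {r : ℕ} [hr : Fact r.Prime] (h2 : r ≠ 2) {z : F}
    (hz : z ^ (q + 1) = 1) (h : NP r (q + 1) z) (d : F) : d ^ r ≠ z := fun hd => by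
  refine h d (eq_one_of_mu (r := r) (M := q - 1) (fun h1 => h2 ?_) ?_ ?_) hd
  · have h3 := Nat.dvd_sub (h.dvd hz) h1
    have := H.two_le
    rw [show q + 1 - (q - 1) = 2 by omega] at h3
    exact (Nat.prime_dvd_prime_iff_eq hr.out Nat.prime_two).mp h3
  · rw [← pow_mul, ← Nat.sq_sub_sq q 1, one_pow, ← H.card, FiniteField.pow_card_sub_one_eq_one]
    rintro rfl
    rw [← hd, zero_pow hr.out.ne_zero, zero_pow (by omega)] at hz
    exact zero_ne_one hz
  · rw [← pow_mul, mul_comm, pow_mul, hd, hz]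

theorem exists_sqrt (H : HP P q) {z : F} (hz : z ^ (q + 1) = 1) (h : NP 2 (q + 1) z) :
    ∃ l : F, l ^ 2 = z ∧ σ l * l = -1 := by
  have h2 := h.dvd hz
  have hz0 : z ≠ 0 := by rintro rfl; simp at hz
  have := H.two_le
  obtain ⟨l, hl⟩ := (exists_pow_eq_iff (r := 2) (h2.trans H.dvd) hz0).mpr (by
    rw [H.card, ← one_pow 2, Nat.sq_sub_sq, Nat.mul_div_assoc _ (by omega), pow_mul, hz, one_pow])
  refine ⟨l, hl, ?_⟩
  rw [H.norm]
  refine (sq_eq_one_iff.mp ?_).resolve_left fun h1 => h l h1 hl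
  rw [← pow_mul, mul_comm, pow_mul, hl, hz]

theorem repr_eq_zero (H : HP P q) {ι : Type*} [Fintype ι] [DecidableEq ι] {b : Basis ι F V}
    (hb : ON P b) {d : ι → F} (hW : W ≤ P.perp W) (h : Inv (dg b d) W) {i : ι}
    (hi : ∀ j, d j = d i → j = i) {w : V} (hw : w ∈ W) : b.repr w i = 0 := by
  have h1 := h.smul_basis_mem b hw hi
  have h2 := hW h1 _ h1
  simp only [map_smul, LinearMap.map_smulₛₗ, LinearMap.smul_apply, smul_eq_mul, hb _ _,
    if_true, mul_one, mul_comm _ (σ _), H.norm] at h2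
  exact pow_eq_zero_iff (by omega) |>.mp h2

variable [FiniteDimensional F V]

theorem exists_on (H : HP P q) {ι : Type*} [Fintype ι] [DecidableEq ι]
    (h : finrank F V = Fintype.card ι) : ∃ b : Basis ι F V, ON P b := by
  obtain ⟨b, hb⟩ := exists_orthonormal_basis_herm H.ne P.σσ P.B H.symm H.sep
  refine ⟨b.reindex (Fintype.equivFinOfCardEq h.symm).symm, fun i j => ?_⟩
  simp [hb]

theorem det_pow (H : HP P q) (hf : Iso P f) : LinearMap.det f ^ (q + 1) = 1 := by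
  obtain ⟨b, hb⟩ := H.exists_on (Fintype.card_fin _).symm
  have h1 : ((LinearMap.toMatrix b b f).map σ).transpose * LinearMap.toMatrix b b f = 1 := by
    ext i j
    rw [Matrix.one_apply, ← hb, ← hf.B]
    conv_rhs => rw [← b.sum_repr (f (b i)), ← b.sum_repr (f (b j))]
    simp [-Basis.sum_repr, Matrix.mul_apply, LinearMap.toMatrix_apply, hb _ _, mul_comm]
  have h2 := congrArg Matrix.det h1
  rwa [Matrix.det_mul, Matrix.det_transpose, ← RingHom.mapMatrix_apply, ← RingHom.map_det,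
    LinearMap.det_toMatrix, H.norm, Matrix.det_one] at h2

theorem exists_rsum (H : HP P q) (hW : P.Nondeg W) :
    RSum P (fun B => ∃ v, P.B v v = 1 ∧ B = F ∙ v) (finrank F W) W :=
  exists_rsum_of_dvd one_pos (fun _ => True)
    (fun B ⟨v, hv, hB⟩ => hB ▸ finrank_span_singleton (by rintro rfl; simp at hv))
    (fun W _ h1 h2 => by
      obtain ⟨v, hv, h3⟩ := H.exists_one h1 (ne_bot_of_finrank (by omega))
      exact ⟨F ∙ v, by simpa, ⟨v, h3, rfl⟩, nondeg_singleton (by simp [h3]), trivial⟩)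
    trivial hW (mul_one _).symm

theorem dc (H : HP P q) : DC P 1 := by
  have hd : ∀ B : Submodule F V, (∃ v, P.B v v = 1 ∧ B = F ∙ v) → finrank F B = 1 :=
    fun B ⟨v, hv, hB⟩ => hB ▸ finrank_span_singleton (by rintro rfl; simp at hv)
  refine ⟨H.sep, fun W k h1 _ h2 => ?_, fun W U h1 h2 h3 => ?_, fun W k h1 h2 => ?_, by simp⟩
  · obtain ⟨T, h3, h4⟩ := (H.exists_rsum h1).exists_le h2
    exact ⟨T, h3, h4.nondeg, by simpa using h4.finrank_eq hd⟩
  · refine (H.exists_rsum h1).induction (C := fun e T => ∀ U, RSum P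
      (fun B => ∃ v, P.B v v = 1 ∧ B = F ∙ v) e U → Cj P T U) (fun U h => ?_)
      (fun e T B hT hB _ ho ih U h => ?_) U (h3 ▸ H.exists_rsum h2)
    · rw [h.eq_bot]; exact Cj.refl _
    obtain ⟨T₁, T₂, h4, h5, h6, rfl⟩ := h.split
    refine (ih _ h4).sup H.sep ?_ hT.nondeg ho h6
    obtain ⟨v, hv, rfl⟩ := hB
    obtain ⟨w, hw, h7⟩ := H.exists_one h5.nondeg (ne_bot_of_finrank (by simp [h5.finrank_eq hd]))
    have hw0 : w ≠ 0 := by rintro rfl; simp at h7
    have hv0 : v ≠ 0 := by rintro rfl; simp at hv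
    obtain rfl : F ∙ w = T₂ := Submodule.eq_of_le_of_finrank_eq (by simpa)
      (by rw [finrank_span_singleton hw0, h5.finrank_eq hd])
    obtain ⟨g, hg, h8, -⟩ := P.witt_step H.sep ⊥ (u := v) (v := w) (by simpa) (by simpa)
      (H.q_sub (h7.trans hv.symm)) (by simp)
    exact ⟨g, hg, by rw [Submodule.map_span, Set.image_singleton]; exact congrArg (F ∙ ·) h8⟩
  · obtain ⟨A, M, h3, h4, h5, rfl, h6⟩ := exists_witt H.sep h1
    have h7 : finrank F M ≤ 1 := by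
      by_contra h
      obtain ⟨w, h8, h9, h10⟩ := exists_sing (P := P) M (by
        rw [H.card_quot]
        exact lt_self_pow₀ Finite.one_lt_card (by omega))
      exact h9 (h6 w h8 h10)
    obtain ⟨l, hl⟩ := h3.even
    rw [finrank_sup_orth h3.1 h5] at h2
    exact ((h3.hasTS (k := l) (by omega)).of_le (by omega)).mono le_sup_left

theorem not_dvd_card_ts (H : HP P q) (p : ℕ) [Fact p.Prime] [CharP F p]
    (hm : 2 * m ≤ finrank F V) :
    ¬ p ∣ Nat.card {W : Submodule F V // finrank F W = m ∧ P.TotSing W} :=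
  not_dvd_card_totSing p H.sep (by
    rw [H.card_quot]; exact lt_self_pow₀ Finite.one_lt_card (by omega))

variable {r : ℕ} [hr : Fact r.Prime] {z : F}

/-- An isometry of order two modulo scalars that is not a multiple of an involution. -/
theorem np_two (H : HP P q) (hf : Iso P f) (h : f ^ 2 = z • 1) (hz : z ^ (q + 1) = 1)
    (hn : NP 2 (q + 1) z) : ∃ (l : F) (U W : Submodule F V), l ≠ 0 ∧ IsCompl U W ∧ P.TotSing U ∧
      P.TotSing W ∧ (∀ v ∈ U, f v = l • v) ∧ (∀ v ∈ W, f v = -l • v) ∧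
      2 * finrank F U = finrank F V ∧ LinearMap.det f = (-z) ^ finrank F U ∧
      ∀ T, P.Nondeg T → Inv f T → Even (finrank F T) := by
  obtain ⟨l, rfl, hl⟩ := H.exists_sqrt hz hn
  have h2 : ((2 : ℕ) : F) ≠ 0 := H.cast_ne (hn.dvd hz)
  have hl0 : l ≠ 0 := by rintro rfl; simp at hl
  have hg := smul_pow_eq_one hl0 h
  have hU : ∀ v ∈ fixS (l⁻¹ • f), f v = l • v := fun v hv => by
    rw [← (inv_smul_eq_iff₀ hl0).mp (mem_fixS.mp hv)]
  have hW : ∀ v ∈ movS 2 (l⁻¹ • f), f v = -l • v := fun v hv => by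
    rw [(inv_smul_eq_iff₀ hl0).mp (mem_movS_two.mp hv)]; simp
  have h1 : (-1 : F) ≠ 1 := fun h => h2 (by push_cast; linear_combination -h)
  have hU' := totSing_of_eigen hf (hl ▸ h1) hU
  have hW' := totSing_of_eigen hf (c := -l) (by rwa [map_neg, neg_mul_neg, hl]) hW
  have hc : IsCompl (fixS (l⁻¹ • f)) (movS 2 (l⁻¹ • f)) :=
    ⟨disjoint_fixS_movS h2 _, codisjoint_iff.mpr (fixS_sup_movS h2 hg)⟩
  obtain ⟨h3, h4, -⟩ := half_of_sup H.sep (hc.sup_eq_top ▸ nondeg_top H.sep) hU'.le_perp hW'.le_perp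
  rw [hc.sup_eq_top, finrank_top] at h3
  refine ⟨l, _, _, hl0, hc, hU', hW', hU, hW, h3.symm, ?_, fun T hT hTf => ?_⟩
  · rw [det_of_eigen hc hU hW, h4, ← mul_pow]; congr 1; ring
  · have h5 := inv_eq_fix_sup_mov h2 hg (hTf.smul l⁻¹)
    rw [h5, (half_of_sup H.sep (h5 ▸ hT) (totSing_mono hU' inf_le_right).le_perp
      (totSing_mono hW' inf_le_right).le_perp).1]
    exact even_two_mul _

theorem det_np (H : HP P q) (hf : Iso P f) (h : f ^ r = z • 1) (hz : z ^ (q + 1) = 1)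
    (hn : NP r (q + 1) z) :
    ∃ k, finrank F V = k * r ∧ LinearMap.det f = ((-1) ^ (r + 1) * z) ^ k := by
  rcases eq_or_ne r 2 with rfl | h2
  · obtain ⟨-, U, -, -, -, -, -, -, -, h1, h3, -⟩ := H.np_two hf h hz hn
    exact ⟨finrank F U, by omega, by rw [h3]; congr 1; ring⟩
  · exact det_of_irreducible (H.not_pow h2 hz hn) h

theorem exists_pow_eq (H : HP P q) (hz : z ^ (q + 1) = 1) (hk : finrank F V = k * r) :
    ∃ f, Iso P f ∧ f ^ r = z • 1 := by
  obtain ⟨b, hb⟩ := H.exists_on (ι := Fin k × ZMod r) (by simp [hk])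
  refine ⟨cyM b z, H.iso_mono hb (fun i j h => ?_) fun i => ?_, cyM_pow b z⟩
  · simpa [Prod.ext_iff] using h
  · split_ifs <;> simp [hz]

omit [FiniteDimensional F V] hr in
theorem ne_smul_of_np (H : HP P q) [Nontrivial V] (hf : Iso P f) (h : f ^ r = z • 1)
    (hn : NP r (q + 1) z) (c : F) : f ≠ c • 1 := by
  rintro rfl
  refine hn c (H.norm c ▸ hf.norm_eq_one H.sep) ?_
  rw [_root_.smul_pow, one_pow] at h
  exact smul_left_injective F one_ne_zero h

theorem exists_np_iff (H : HP P q) [Nontrivial V] (h : r ∣ q + 1) :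
    (∃ (f : V →ₗ[F] V) (z : F), Iso P f ∧ LinearMap.det f = 1 ∧ f ^ r = z • 1 ∧ z ^ (q + 1) = 1 ∧ NP r (q + 1) z) ↔
      ¬ (padicValNat r (finrank F V) ≤ padicValNat r (q + 1) ∧
        (r = 2 → Even (finrank F V) → 4 ∣ q + 1)) := by
  rw [← exists_np_det_iff H.dvd h finrank_pos.ne']
  refine ⟨fun ⟨f, z, h1, h2, h3, h4, h5⟩ => ?_, fun ⟨z, k, h1, h2, h3, h4⟩ => ?_⟩
  · obtain ⟨k, h6, h7⟩ := H.det_np h1 h3 h4 h5
    exact ⟨z, k, h4, h5, h6, h7 ▸ h2⟩
  · obtain ⟨f, h5, h6⟩ := H.exists_pow_eq h1 h3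
    obtain ⟨k', h7, h8⟩ := H.det_np h5 h6 h1 h2
    obtain rfl : k = k' := Nat.eq_of_mul_eq_mul_right hr.out.pos (h3.symm.trans h7)
    exact ⟨f, z, h5, h8.trans h4, h6, h1, h2⟩

omit [FiniteDimensional F V] hr in
theorem cases (H : HP P q) [Nontrivial V] (hf : Iso P f) (h : f ^ r = z • 1) :
    (∃ d : F, d ≠ 0 ∧ d ^ (q + 1) = 1 ∧ Iso P (d⁻¹ • f) ∧ (d⁻¹ • f) ^ r = 1) ∨
      (z ^ (q + 1) = 1 ∧ NP r (q + 1) z) := by
  by_cases hn : NP r (q + 1) z
  · exact Or.inr ⟨H.pow_eq_one hf h, hn⟩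
  simp only [NP, not_forall, not_not] at hn
  obtain ⟨d, hd, rfl⟩ := hn
  have hd0 : d ≠ 0 := by rintro rfl; simp at hd
  exact Or.inl ⟨d, hd0, hd, H.smul hf (by rw [inv_pow, hd, inv_one]), smul_pow_eq_one hd0 h⟩

end HP

/-- Every element of order `r` of the projective special unitary group has the property `T`. -/
def ElU (P : PQ F V σ) (r : ℕ) (T : (V →ₗ[F] V) → Prop) : Prop :=
  ∀ f, Iso P f ∧ LinearMap.det f = 1 → (∃ c : F, f ^ r = c • 1) → (∀ c : F, f ≠ c • 1) → T f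

namespace HP

variable [FiniteDimensional F V] {r : ℕ} [hr : Fact r.Prime] {z : F}

theorem el_iff (H : HP P q) [Nontrivial V] (h : ¬ r ∣ q + 1) {T : (V →ₗ[F] V) → Prop}
    (hT : ∀ f (c : F), c ≠ 0 → T (c • f) → T f) :
    ElU P r T ↔ ∀ f, Iso P f → f ^ r = 1 → f ≠ 1 → T f := by
  refine ⟨fun h1 f h2 h3 h4 => h1 f ⟨h2, eq_one_of_mu h (H.det_pow h2) (by
    rw [← map_pow, h3, map_one])⟩ ⟨1, by simpa⟩ ?_, fun h1 f h2 ⟨c, h3⟩ h4 => ?_⟩
  · rintro c rfl
    rw [_root_.smul_pow, one_pow] at h3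
    rw [eq_one_of_mu h (H.norm c ▸ h2.norm_eq_one H.sep)
      (smul_left_injective F one_ne_zero (h3.trans (one_smul F _).symm))] at h4
    exact h4 (one_smul _ _)
  · rcases H.cases h2.1 h3 with ⟨d, h5, -, h6, h7⟩ | ⟨h5, h6⟩
    · exact hT f _ (inv_ne_zero h5) (h1 _ h6 h7 fun h8 => h4 d ((inv_smul_eq_iff₀ h5).mp h8))
    · exact (h (h6.dvd h5)).elim

omit [FiniteDimensional F V] in
theorem ss_one (H : HP P q) (h : r ∣ q + 1) (h2 : r ≠ 2) : SS P r 1 1 := by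
  have h1 := (dvd_pow_add_one_iff (r := r) q 1).mp (by rwa [pow_one])
  rw [pow_one] at h1
  refine H.ss (i := 2) (H.cast_ne h) h2 ?_ (by simp) (by simp)
  rw [h1, eq_comm]
  exact orderOf_eq_prime (by simp) (neg_one_ne_one_zmod h2)

theorem exists_ts_np (H : HP P q) (h2 : r ≠ 2) (hf : Iso P f) (h : f ^ r = z • 1)
    (hz : z ^ (q + 1) = 1) (hn : NP r (q + 1) z) (hm : r ∣ m) (hlt : 2 * m < finrank F V) :
    ∃ W : Submodule F V, finrank F W = m ∧ P.TotSing W ∧ Inv f W := by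
  have hz0 : z ≠ 0 := by rintro rfl; simp at hz
  have hr0 := H.cast_ne (hn.dvd hz)
  have hnp := H.not_pow h2 hz hn
  have hs := isSemisimple_of_pow hr0 hz0 h
  obtain ⟨U, M, h1, h3, -, -, h4, -, h5, h6⟩ := exists_core H.sep hs hf (nondeg_top H.sep) Inv.top
  have h7 : finrank F M ≤ 2 * r := by
    by_contra h7
    obtain ⟨w, h8, h9, h10⟩ := exists_isotropic_system (P := P) (fun j : Fin r => f ^ (j : ℕ)) M
      (by simpa using h7)
    refine h9 ((Submodule.eq_bot_iff _).mp (h6 _ (cyc_le h3 h8) (inv_cyc f w) (H.totSing_iff.mpr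
      (le_perp_cyc hf (n := r * (q + 1) - 1) ?_ fun k => ?_))) w (self_mem_cyc f w))
    · rw [Nat.sub_add_cancel (Nat.mul_pos hr.out.pos q.succ_pos), pow_mul, h, _root_.smul_pow, hz]; simp
    · rw [← Nat.div_add_mod k r, pow_add, pow_mul, h, _root_.smul_pow, one_pow]
      simpa [hz0] using h10 ⟨k % r, Nat.mod_lt _ hr.out.pos⟩
  obtain ⟨t, rfl⟩ := hm
  obtain ⟨a, ha⟩ := dvd_finrank_of_irreducible hnp h h1
  obtain ⟨c, hc⟩ := dvd_finrank_of_irreducible hnp h h3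
  rw [finrank_top] at h5
  have hi := X_pow_sub_C_irreducible_of_prime hr.out hnp
  have h8 : t ≤ a := by
    rw [h5, ha] at hlt
    have : r * t < r * (a + 1) := by rw [mul_add]; omega
    have := Nat.lt_of_mul_lt_mul_left this
    omega
  obtain ⟨W, h9, h10, h11⟩ := exists_inv_finrank_mul hs hi.ne_zero hr.out.pos (fun k hk hd => by
    rw [natDegree_eq_of_degree_eq (degree_eq_degree_of_associated (hk.associated_of_dvd hi hd)),
      natDegree_X_pow_sub_C]) h1 (fun w _ => by rw [aeval_X_pow_sub_C h]; rfl) t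
    (by rw [ha, mul_comm]; exact Nat.mul_le_mul_left r h8)
  exact ⟨W, h11.trans (mul_comm _ _), totSing_mono h4 h10, h9⟩

theorem exists_nd_np (H : HP P q) (hf : Iso P f) (h : f ^ r = z • 1)
    (hz : z ^ (q + 1) = 1) (hn : NP r (q + 1) z) (hm : r ∣ m) (hle : m ≤ finrank F V) :
    ∃ W : Submodule F V, finrank F W = m ∧ P.Nondeg W ∧ Inv f W := by
  have hz0 : z ≠ 0 := by rintro rfl; simp at hz
  obtain ⟨t, rfl⟩ := hm
  rcases eq_or_ne r 2 with rfl | h2
  · obtain ⟨l, U, -, -, -, h1, -, h3, -, h4, -⟩ := H.np_two hf h hz hn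
    obtain ⟨A, h5, rfl⟩ := exists_le_finrank_eq U (k := t) (by omega)
    have h6 : Inv f A := Inv.of_eigen fun v hv => h3 v (h5 hv)
    obtain ⟨A', h7, -, -, -, h8, h9⟩ := exists_double H.sep
      (isSemisimple_of_pow (H.cast_ne (hn.dvd hz)) hz0 h) hf (nondeg_top H.sep) Inv.top le_top
      (totSing_mono h1 h5).le_perp h6
    exact ⟨_, h9, h8, h6.sup h7⟩
  have hnp := H.not_pow h2 hz hn
  have hi := X_pow_sub_C_irreducible_of_prime hr.out hnp
  obtain ⟨e, he⟩ := H99.exists_rsum (P := P) (Φ := fun B => Inv f B ∧ finrank F B = r) (Inv f)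
    (fun W h1 h3 h4 => by
      obtain ⟨v, hv, h5⟩ := H.exists_one h3 h4
      have hv0 : v ≠ 0 := by rintro rfl; simp at h5
      have h6 : aeval f (X ^ r - C z) v = 0 := by rw [aeval_X_pow_sub_C h]; rfl
      exact ⟨cyc f v, cyc_le h1 hv, (Submodule.ne_bot_iff _).mpr ⟨v, self_mem_cyc f v, hv0⟩,
        ⟨inv_cyc f v, by rw [finrank_cyc_of_irreducible hi hv0 h6, natDegree_X_pow_sub_C]⟩,
        nondeg_of_irreducible H.sep hf hi h6 (self_mem_cyc f v) (by simp [h5]),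
        h1.inf (hf.inv_perp H.sep (inv_cyc f v))⟩) ⊤ Inv.top (nondeg_top H.sep)
  have h3 := he.finrank_eq fun _ h => h.2
  rw [finrank_top] at h3
  obtain ⟨T, -, hT⟩ := he.exists_le (e' := t)
    (Nat.le_of_mul_le_mul_left (by rw [mul_comm r e]; omega) hr.out.pos)
  exact ⟨T, (hT.finrank_eq fun _ h => h.2).trans (mul_comm _ _), hT.nondeg, hT.inv fun _ h => h.1⟩

theorem dvd_of_np (H : HP P q) (hf : Iso P f) (h : f ^ r = z • 1) (hz : z ^ (q + 1) = 1)
    (hn : NP r (q + 1) z) (hW : P.Nondeg W) (hWf : Inv f W) : r ∣ finrank F W := by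
  rcases eq_or_ne r 2 with rfl | h2
  · obtain ⟨-, -, -, -, -, -, -, -, -, -, -, h1⟩ := H.np_two hf h hz hn
    exact even_iff_two_dvd.mp (h1 W hW hWf)
  · exact dvd_finrank_of_irreducible (H.not_pow h2 hz hn) h hWf

theorem exists_nd_pow (H : HP P q) (h : r ∣ q + 1) (hf : Iso P f) (hfr : f ^ r = 1)
    (hle : m ≤ finrank F V) : ∃ W : Submodule F V, finrank F W = m ∧ P.Nondeg W ∧ Inv f W := by
  rcases eq_or_ne r 2 with rfl | h2
  · have h0 := H.cast_ne h
    have h1 := finrank_fixS_add h0 hfr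
    obtain ⟨A, h3, h4, h5⟩ := H.dc.ex _ (min m (finrank F (fixS f)))
      (nondeg_fixS H.sep h0 hf hfr) (one_dvd _) (min_le_right _ _)
    obtain ⟨B, h6, h7, h8⟩ := H.dc.ex _ (m - min m (finrank F (fixS f)))
      (nondeg_movS H.sep h0 hf hfr) (one_dvd _) (by omega)
    have h9 := le_perp_mono (movS_le_perp h0 hf) h3 h6
    exact ⟨A ⊔ B, by rw [finrank_sup_orth h4 h9]; omega, nondeg_sup h4 h7 h9,
      (inv_of_le_fixS h3).sup (inv_of_le_movS_two h6)⟩
  · exact H.dc.exists_nd (H.ss_one h h2) dvd_rfl (one_dvd _) hle (by simp [Nat.mod_one]) hf hfr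

theorem nd_iff (H : HP P q) [Nontrivial V] (h : r ∣ q + 1) (hle : m ≤ finrank F V) :
    ElU P r (fun f => ∃ W : Submodule F V, finrank F W = m ∧ P.Nondeg W ∧ Inv f W) ↔
      r ∣ m ∨ (padicValNat r (finrank F V) ≤ padicValNat r (q + 1) ∧
        (r = 2 → Even (finrank F V) → 4 ∣ q + 1)) := by
  refine ⟨fun h1 => ?_, fun h1 f ⟨h2, h3⟩ ⟨z, h4⟩ _ => ?_⟩
  · rw [or_iff_not_imp_right, ← H.exists_np_iff h]
    rintro ⟨f, z, h2, h3, h4, h5, h6⟩
    obtain ⟨W, rfl, h7, h8⟩ := h1 f ⟨h2, h3⟩ ⟨z, h4⟩ (H.ne_smul_of_np h2 h4 h6)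
    exact H.dvd_of_np h2 h4 h5 h6 h7 h8
  · rcases H.cases h2 h4 with ⟨d, h5, -, h6, h7⟩ | ⟨h5, h6⟩
    · obtain ⟨W, h8, h9, h10⟩ := H.exists_nd_pow h h6 h7 hle
      exact ⟨W, h8, h9, h10.of_smul (inv_ne_zero h5)⟩
    · exact H.exists_nd_np h2 h4 h5 h6 (h1.resolve_right
        ((H.exists_np_iff h).mp ⟨f, z, h2, h3, h4, h5, h6⟩)) hle

omit hr in
theorem two_mul_le_of_dg (H : HP P q) {ι : Type*} [Fintype ι] [DecidableEq ι] {b : Basis ι F V}
    (hb : ON P b) {d : ι → F} (hW : W ≤ P.perp W) (h : Inv (dg b d) W) (S : Finset ι)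
    (hS : ∀ i ∉ S, ∀ j, d j = d i → j = i) : 2 * finrank F W ≤ S.card := by
  have h1 : ON P fun i : S => b i := fun i j => by rw [hb]; exact if_congr Subtype.ext_iff.symm rfl rfl
  rw [← Fintype.card_coe, ← finrank_span_eq_card (P.orthonormal_linearIndependent h1)]
  refine two_mul_finrank_le H.sep (P.orthonormal_nondeg h1) (fun w hw => ?_) hW
  rw [show (Set.range fun i : S => b i) = b '' S from (Set.image_eq_range _ _).symm, b.mem_span_image]
  intro i hi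
  by_contra h2
  exact Finsupp.mem_support_iff.mp hi (H.repr_eq_zero hb hW h (hS i h2) hw)

theorem exists_pm (H : HP P q) (h : r ∣ q + 1) {t s : ℕ} (ht0 : 0 < t) (ht : 2 * t < r)
    (hn : finrank F V = 2 * t + s) :
    ∃ f, Iso P f ∧ LinearMap.det f = 1 ∧ f ^ r = 1 ∧ (∀ c : F, f ≠ c • 1) ∧
      (∀ W, W ≤ P.perp W → Inv f W → 2 * finrank F W ≤ s) := by
  obtain ⟨ω, hω⟩ := exists_primitive (h.trans H.dvd)
  obtain ⟨b, hb⟩ := H.exists_on (ι := Fin t ⊕ Fin t ⊕ Fin s) (by simp; omega)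
  have h0 := hω.ne_zero hr.out.ne_zero
  have h1 : ∀ a : Fin t, ω ^ (a.1 + 1) ≠ 1 := fun a =>
    hω.pow_ne_one_of_pos_of_lt (by omega) (by omega)
  have h2 : ∀ a a' : Fin t, ω ^ (a.1 + 1) ≠ (ω ^ (a'.1 + 1))⁻¹ := fun a a' h =>
    hω.pow_ne_one_of_pos_of_lt (l := a.1 + 1 + (a'.1 + 1)) (by omega) (by omega)
      (by rw [pow_add, h, inv_mul_cancel₀ (pow_ne_zero _ h0)])
  have h3 : ∀ a a' : Fin t, ω ^ (a.1 + 1) = ω ^ (a'.1 + 1) → a = a' := fun a a' h =>
    Fin.ext (Nat.succ_injective (hω.pow_inj (by omega) (by omega) h))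
  set d : Fin t ⊕ Fin t ⊕ Fin s → F :=
    Sum.elim (fun a => ω ^ (a.1 + 1)) (Sum.elim (fun a => (ω ^ (a.1 + 1))⁻¹) fun _ => 1)
  have hd : ∀ i, d i ^ r = 1 := by
    rintro (a | a | a) <;> simp [d, ← pow_mul, hω.pow_eq_one_iff_dvd]
  obtain ⟨u, hu⟩ := h
  refine ⟨dg b d, H.iso_dg hb fun i => by rw [hu, pow_mul, hd, one_pow], ?_,
    (dg_pow_eq b hd).trans (one_smul _ _),
    dg_ne_smul b (i := .inl ⟨0, ht0⟩) (j := .inr (.inl ⟨0, ht0⟩)) (h2 _ _), fun W hW hf => ?_⟩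
  · simp [det_dg, d, Fintype.prod_sum_type, Finset.prod_ne_zero_iff, h0]
  · convert H.two_mul_le_of_dg hb hW hf (Finset.univ.map ⟨fun a => .inr (.inr a), fun _ _ => by simp⟩) ?_
    · simp
    rintro (a | a | a) h4 (a' | a' | a') h5
    exacts [congrArg _ (h3 _ _ h5), (h2 _ _ h5.symm).elim, (h1 _ h5.symm).elim, (h2 _ _ h5).elim,
      by rw [h3 _ _ (inv_injective h5)], (h1 _ (inv_eq_one.mp h5.symm)).elim,
      (h4 (Finset.mem_map_of_mem _ (Finset.mem_univ a))).elim,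
      (h4 (Finset.mem_map_of_mem _ (Finset.mem_univ a))).elim,
      (h4 (Finset.mem_map_of_mem _ (Finset.mem_univ a))).elim]

omit hr in
theorem exists_refl (H : HP P q) [Nontrivial V] (h : 2 ∣ q + 1) (hn : Even (finrank F V))
    (hv : padicValNat 2 (finrank F V) < padicValNat 2 (q + 1)) :
    ∃ f, Iso P f ∧ LinearMap.det f = 1 ∧ (∃ c : F, f ^ 2 = c • 1) ∧ (∀ c : F, f ≠ c • 1) ∧
      (∀ W, W ≤ P.perp W → Inv f W → 2 * finrank F W < finrank F V) ∧
      ∃ (l : F) (E : Submodule F V), l ≠ 0 ∧ finrank F E + 1 = finrank F V ∧ ∀ v ∈ E, f v = l • v := by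
  obtain ⟨l, h1, h2⟩ := (exists_pow_eq_neg_one_iff H.dvd h finrank_pos.ne').mpr hv
  obtain ⟨s, hs⟩ : ∃ s, finrank F V = s + 1 + 1 := ⟨finrank F V - 2, by
    have := finrank_pos (R := F) (M := V); rw [Nat.even_iff] at hn; omega⟩
  obtain ⟨b, hb⟩ := H.exists_on (ι := Option (Fin (s + 1))) (by simp [hs])
  have h0 : l ≠ 0 := by rintro rfl; simp at h1
  have h3 : l ≠ -l := fun h3 => H.cast_ne h (by
    rw [← mul_left_inj' h0]; push_cast; linear_combination h3)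
  refine ⟨dg b fun i => i.elim (-l) fun _ => l, H.iso_dg hb ?_, ?_, ⟨l ^ 2, dg_pow_eq b ?_⟩,
    dg_ne_smul b (i := some 0) (j := none) h3, fun W hW hf => ?_,
    l, .span F (Set.range fun a => b (some a)), h0, ?_, fun v hv => ?_⟩
  · rintro (_ | a) <;> simp [h1, (even_iff_two_dvd.mpr h).neg_pow]
  · rw [hs, pow_succ] at h2
    simp [det_dg, mul_comm l, h2]
  · rintro (_ | a) <;> simp
  · have := H.two_mul_le_of_dg hb hW hf (Finset.univ.erase none) (by
      rintro (_ | a) h4 (_ | a') h5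
      exacts [rfl, (h3 h5).elim, by simp at h4, by simp at h4])
    simp at this; omega
  · erw [finrank_span_eq_card (b.linearIndependent.comp _ (Option.some_injective _))]; simp [hs]
  · induction hv using Submodule.span_induction with
    | mem x h => obtain ⟨a, rfl⟩ := h; simp [dg_basis]
    | zero => simp
    | add x y _ _ h h' => simp [h, h']
    | smul a x _ h => simp [h, smul_comm a]

omit hr in
theorem even_mov (H : HP P q) [Nontrivial V] (h : 2 ∣ q + 1) (hn : Even (finrank F V))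
    (hv : padicValNat 2 (q + 1) ≤ padicValNat 2 (finrank F V)) {d : F}
    (hd : d ^ (q + 1) = 1) (h1 : LinearMap.det f = 1) (h2 : (d⁻¹ • f) ^ 2 = 1) :
    Even (finrank F (fixS (d⁻¹ • f))) ∧ Even (finrank F (movS 2 (d⁻¹ • f))) := by
  have h0 := H.cast_ne h
  have h3 := finrank_fixS_add h0 h2
  have h4 := det_of_eigen (f := d⁻¹ • f) ⟨disjoint_fixS_movS h0 _,
    codisjoint_iff.mpr (fixS_sup_movS h0 h2)⟩ (a := 1) (c := -1)
    (fun v hv => by simpa using mem_fixS.mp hv) fun v hv => by simpa using mem_movS_two.mp hv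
  have h5 : Even (finrank F (movS 2 (d⁻¹ • f))) := by
    by_contra h5
    rw [LinearMap.det_smul, h1, (Nat.not_even_iff_odd.mp h5).neg_one_pow] at h4
    exact ((exists_pow_eq_neg_one_iff H.dvd h finrank_pos.ne').mp
      ⟨d⁻¹, by simp [hd], by simpa using h4⟩).not_ge hv
  exact ⟨by rw [Nat.even_iff] at *; omega, h5⟩

omit hr in
theorem ts_two_iff (H : HP P q) [Nontrivial V] (h : 2 ∣ q + 1) (hm : 2 * m ≤ finrank F V) :
    ElU P 2 (fun f => ∃ W : Submodule F V, finrank F W = m ∧ P.TotSing W ∧ Inv f W) ↔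
      2 * m < finrank F V ∨ padicValNat 2 (q + 1) ≤ padicValNat 2 (finrank F V) := by
  refine ⟨fun h1 => ?_, fun h1 f ⟨h2, h3⟩ ⟨z, h4⟩ _ => ?_⟩
  · by_contra h2
    push Not at h2
    obtain ⟨f, h3, h4, h5, h6, h7, -⟩ := H.exists_refl h ⟨m, by omega⟩ h2.2
    obtain ⟨W, rfl, h8, h9⟩ := h1 f ⟨h3, h4⟩ h5 h6
    exact (h7 W h8.le_perp h9).not_ge h2.1
  rcases H.cases h2 h4 with ⟨d, h5, h6, h7, h8⟩ | ⟨h5, h6⟩
  · have h0 := H.cast_ne h
    have h9 := finrank_fixS_add h0 h8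
    have h10 : m ≤ finrank F (fixS (d⁻¹ • f)) / 2 + finrank F (movS 2 (d⁻¹ • f)) / 2 := by
      rcases hm.lt_or_eq with h10 | h10
      · omega
      · have := H.even_mov h ⟨m, by omega⟩ (h1.resolve_left (by omega)) h6 h3 h8
        simp only [Nat.even_iff] at this; omega
    obtain ⟨U, h11, h12, h13⟩ := H.dc.ts _ (min m (finrank F (movS 2 (d⁻¹ • f)) / 2))
      (nondeg_movS H.sep h0 h7 h8) (by omega)
    obtain ⟨W, h14, h15, h16⟩ := exists_inv_totSing_add h0 h7 (H.dc.ts _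
      (m - min m (finrank F (movS 2 (d⁻¹ • f)) / 2)) (nondeg_fixS H.sep h0 h7 h8) (by omega))
      h12 (inv_of_le_movS_two h11) h11
    exact ⟨W, by omega, h15, h16.of_smul (inv_ne_zero h5)⟩
  · obtain ⟨l, U, -, -, -, h7, -, h8, -, h9, -⟩ := H.np_two h2 h4 h5 h6
    obtain ⟨A, h10, h11⟩ := exists_le_finrank_eq U (k := m) (by omega)
    exact ⟨A, h11, totSing_mono h7 h10, Inv.of_eigen fun v hv => h8 v (h10 hv)⟩

theorem ts_odd_iff (H : HP P q) (h : r ∣ q + 1) (h2 : r ≠ 2) (hm0 : 0 < m)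
    (hm : 2 * m ≤ finrank F V) :
    ElU P r (fun f => ∃ W : Submodule F V, finrank F W = m ∧ P.TotSing W ∧ Inv f W) ↔
      r - 1 + 2 * m ≤ finrank F V ∧
        (r ∣ m ∨ padicValNat r (finrank F V) ≤ padicValNat r (q + 1)) := by
  have : Nontrivial V := Module.nontrivial_of_finrank_pos (R := F) (by omega)
  have h0 := Nat.odd_iff.mp (hr.out.odd_of_ne_two h2)
  have := hr.out.two_le
  refine ⟨fun h1 => ⟨?_, ?_⟩, fun h1 f ⟨h3, h4⟩ ⟨z, h5⟩ _ => ?_⟩
  · by_contra h3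
    obtain ⟨f, h4, h5, h6, h7, h8⟩ := H.exists_pm h (t := (finrank F V - 2 * m + 2) / 2)
      (s := finrank F V - 2 * ((finrank F V - 2 * m + 2) / 2)) (by omega) (by omega) (by omega)
    obtain ⟨W, rfl, h9, h10⟩ := h1 f ⟨h4, h5⟩ ⟨1, by simpa⟩ h7
    have := h8 W h9.le_perp h10
    omega
  · by_contra h3
    push Not at h3
    obtain ⟨f, z, h4, h5, h6, h7, h8⟩ := (H.exists_np_iff h).mpr fun h => h3.2.not_ge h.1
    obtain ⟨W, rfl, -, h10⟩ := h1 f ⟨h4, h5⟩ ⟨z, h6⟩ (H.ne_smul_of_np h4 h6 h8)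
    exact h3.1 (dvd_finrank_of_irreducible (H.not_pow h2 h7 h8) h6 h10)
  rcases H.cases h3 h5 with ⟨d, h6, -, h7, h8⟩ | ⟨h6, h7⟩
  · obtain ⟨W, h9, h10, h11⟩ := H.dc.exists_ts (H.ss_one h h2) hm (by simp [Nat.mod_one])
      (Or.inr (by simpa using h1.1)) h7 h8
    exact ⟨W, h9, h10, h11.of_smul (inv_ne_zero h6)⟩
  · exact H.exists_ts_np h2 h3 h5 h6 h7 (h1.2.resolve_right fun h8 =>
      (H.exists_np_iff h).mp ⟨f, z, h3, h4, h5, h6, h7⟩ ⟨h8, fun h => (h2 h).elim⟩) (by omega)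

omit hr in
/-- The special unitary group is transitive on pairs of complementary totally singular spaces. -/
theorem exists_pair (H : HP P q) [Nontrivial V] {U' W' : Submodule F V} (h : TSPair P (U, W))
    (h' : TSPair P (U', W')) : ∃ g : V ≃ₗ[F] V, (Iso P g ∧ LinearMap.det (g : V →ₗ[F] V) = 1) ∧
      U.map (g : V →ₗ[F] V) = U' ∧ W.map (g : V →ₗ[F] V) = W' := by
  obtain ⟨g, hg, h1⟩ := h.trans H.sep h'
  obtain ⟨e, f, h2, h3, h4⟩ := exists_isHyp_pair H.sep (h.1.sup_eq_top ▸ nondeg_top H.sep)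
    h.2.1 h.2.2 rfl
  obtain ⟨a, ha0, ha⟩ := exists_div_conj_of_norm_one H.ne P.σσ
    ((H.norm _).trans (H.det_pow (Iso.of_mem hg)))
  have hσ : σ a ≠ 0 := by simpa
  let b : Basis _ F V := Basis.mk h2.linearIndependent (by
    rw [Set.Sum.elim_range, Submodule.span_union, h3, h4, h.1.sup_eq_top])
  have hb1 : ∀ i, b (.inl i) = e i := fun i => by simp [b]
  have hb2 : ∀ i, b (.inr i) = f i := fun i => by simp [b]
  have i₀ : Fin (finrank F U) := ⟨0, by
    have := (half_of_sup H.sep (h.1.sup_eq_top ▸ nondeg_top H.sep) h.2.1.le_perp h.2.2.le_perp).1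
    rw [h.1.sup_eq_top, finrank_top] at this
    have h5 := finrank_pos (R := F) (M := V)
    simp only at this; omega⟩
  set d : Fin (finrank F U) ⊕ Fin (finrank F U) → F :=
    Sum.elim (fun i => if i = i₀ then a⁻¹ else 1) fun i => if i = i₀ then σ a else 1
  have h5 : Iso P (dg b d) := H.iso_of_basis b (by
    rintro (i | i) (j | j) <;> rw [dg_basis, dg_basis] <;>
      simp only [hb1, hb2, map_smul, LinearMap.map_smulₛₗ, LinearMap.smul_apply, smul_eq_mul, h2.ee,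
      h2.ff, h2.ef, h2.fe, mul_zero, d, Sum.elim_inl, Sum.elim_inr] <;>
      rcases eq_or_ne i j with rfl | h5 <;>
      first | (simp only [if_neg h5]; simp) | (by_cases h6 : i = i₀ <;> simp [h6, P.σσ, hσ, ha0]))
  obtain ⟨k, hk, hk'⟩ := h5.exists_equiv H.sep
  have h6 : ∀ (v : Fin (finrank F U) → V) (c : Fin (finrank F U) → F), (∀ i, dg b d (v i) = c i • v i) →
      (Submodule.span F (Set.range v)).map (k : V →ₗ[F] V) = .span F (Set.range v) := fun v c h =>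
    Inv.map_eq (inv_iff_map_le.mpr (by
      rw [Submodule.map_span_le]
      rintro _ ⟨i, rfl⟩
      rw [hk', h]
      exact Submodule.smul_mem _ _ (Submodule.subset_span ⟨i, rfl⟩))) k.injective
  have h7 := h6 e _ fun i => hb1 i ▸ dg_basis b d _
  have h8 := h6 f _ fun i => hb2 i ▸ dg_basis b d _
  rw [h3] at h7
  rw [h4] at h8
  refine ⟨g * k, ⟨Iso.of_mem (P.Isom.mul_mem hg hk), ?_⟩, ?_, ?_⟩
  · rw [LinearEquiv.coe_toLinearMap_mul, map_mul, hk', det_dg]
    simp only [Fintype.prod_sum_type, d, Sum.elim_inl, Sum.elim_inr, Finset.prod_ite_eq',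
      Finset.mem_univ, if_true]
    rw [mul_left_comm, ← ha, inv_mul_cancel₀ ha0]
  · rw [LinearEquiv.coe_toLinearMap_mul, Module.End.mul_eq_comp, Submodule.map_comp, h7]
    exact congrArg Prod.fst h1
  · rw [LinearEquiv.coe_toLinearMap_mul, Module.End.mul_eq_comp, Submodule.map_comp, h8]
    exact congrArg Prod.snd h1

end HP

/-- `f` fixes or swaps two complementary totally singular subspaces. -/
def PairInv (P : PQ F V σ) (f : V →ₗ[F] V) : Prop :=
  ∃ U W, TSPair P (U, W) ∧ ((U.map f = U ∧ W.map f = W) ∨ (U.map f = W ∧ W.map f = U))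

omit [Fintype F] in
theorem finrank_add_le_of_swap [FiniteDimensional F V] (hd : Disjoint U W) (h : U.map f ≤ W)
    {c : F} (hc : c ≠ 0) (hT : ∀ v ∈ T, f v = c • v) :
    finrank F U + finrank F T ≤ finrank F V := by
  rw [← finrank_sup_of_disjoint]
  · exact Submodule.finrank_le _
  refine Submodule.disjoint_def.mpr fun v hv hv' => Submodule.disjoint_def.mp hd v hv ?_
  rw [← W.smul_mem_iff hc, ← hT v hv']
  exact h (Submodule.mem_map_of_mem hv)

omit [Fintype F] in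
theorem TSPair.two_mul [FiniteDimensional F V] (h : TSPair P (U, W)) (hP : P.B.SeparatingLeft) :
    2 * finrank F U = finrank F V := by
  have := (half_of_sup hP (h.1.sup_eq_top ▸ nondeg_top hP) h.2.1.le_perp h.2.2.le_perp).1
  rw [h.1.sup_eq_top, finrank_top] at this
  exact this.symm

omit [Fintype F] in
theorem PairInv.inv [Nontrivial V] (h : PairInv P f) {r : ℕ} (hr : Odd r) (hf : f ^ r = 1) :
    ∃ U W, TSPair P (U, W) ∧ Inv f U ∧ Inv f W := by
  obtain ⟨U, W, h1, ⟨h2, h3⟩ | ⟨h2, h3⟩⟩ := h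
  · exact ⟨U, W, h1, inv_iff_map_le.mpr h2.le, inv_iff_map_le.mpr h3.le⟩
  obtain ⟨k, rfl⟩ := hr
  have h4 := map_pow_of_swap h2 h3 k
  rw [hf, Module.End.one_eq_id, Submodule.map_id] at h4
  subst h4
  exact absurd (h1.1.sup_eq_top.symm.trans ((sup_idem _).trans
    ((inf_idem _).symm.trans h1.1.inf_eq_bot))) top_ne_bot

omit [Fintype F] in
theorem map_smul_eq {c : F} (hc : c ≠ 0) : U.map (c • f) = U.map f := Submodule.map_smul f U c hc

omit [Fintype F] in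
theorem PairInv.of_smul {c : F} (hc : c ≠ 0) (h : PairInv P (c • f)) : PairInv P f := by
  simpa only [PairInv, map_smul_eq hc] using h

theorem HP.not_pairInv_char [FiniteDimensional F V] (H : HP P q) (p : ℕ) [Fact p.Prime] [CharP F p]
    (hn : 4 ≤ finrank F V) : ∃ f, Iso P f ∧ f ^ p = 1 ∧ f ≠ 1 ∧ ¬ PairInv P f := by
  obtain ⟨v, -, hv0, hv⟩ := (H.dc.ts ⊤ 1 (nondeg_top H.sep) (by rw [finrank_top]; omega)).exists_sing
  obtain ⟨c, hc, hc0⟩ := H.exists_Λ
  have h1 : σ c * c * P.q v + P.ε * c ∈ P.Λ :=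
    P.Λ.add_mem (P.norm_mem c _ hv) (by rwa [H.ε, one_mul])
  have h2 := H.q_mem.mp hv
  obtain ⟨w, -, hw⟩ := exists_B_ne (nondeg_top H.sep) Submodule.mem_top hv0
  refine ⟨P.qrefl c v, H.iso (P.qrefl_B h1), ?_, fun h => ?_, ?_⟩
  · have h3 : (P.qrefl c v - 1) ^ 2 = 0 := LinearMap.ext fun x => by
      simp [pow_two, P.qrefl_apply, h2]
    rw [← sub_eq_zero, ← sub_one_pow_char]
    exact pow_eq_zero_of_le (Fact.out : p.Prime).two_le h3
  · simpa [P.qrefl_apply, hc0, hw, hv0] using LinearMap.congr_fun h w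
  rintro ⟨U, W, h3, ⟨h4, h5⟩ | ⟨h4, -⟩⟩
  · have key : ∀ A : Submodule F V, A ≤ P.perp A → A.map (P.qrefl c v) = A →
        A ≤ P.perp (F ∙ v) := fun A hA h x hx => mem_perp_singleton.mpr (by
      by_contra h6
      have h7 := A.sub_mem (h.le (Submodule.mem_map_of_mem hx)) hx
      rw [P.qrefl_apply, add_sub_cancel_left, A.smul_mem_iff (mul_ne_zero hc0 h6)] at h7
      exact h6 (hA hx v h7))
    exact hw (mem_perp_singleton.mp ((h3.1.sup_eq_top.ge.trans
      (sup_le (key U h3.2.1.le_perp h4) (key W h3.2.2.le_perp h5))) Submodule.mem_top))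
  · have h6 := finrank_add_le_of_swap (T := P.perp (F ∙ v)) h3.1.disjoint h4.le one_ne_zero
      fun x hx => by simp [P.qrefl_apply, mem_perp_singleton.mp hx]
    have h7 := P.finrank_perp_add H.sep (F ∙ v)
    have h8 := h3.two_mul H.sep
    rw [finrank_span_singleton hv0] at h7
    simp only at h6; omega

theorem HP.pair_iff [FiniteDimensional F V] (H : HP P q) {r : ℕ} [hr : Fact r.Prime]
    (hn : 4 ≤ finrank F V) (he : Even (finrank F V)) (h1 : (r : F) ≠ 0 → ¬ NSD P r)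
    (h2 : ∃ f, Iso P f ∧ f ^ r = 1 ∧ f ≠ 1) : ElU P r (PairInv P) ↔
      r = 2 ∧ Odd q ∧ padicValNat 2 (q + 1) ≤ padicValNat 2 (finrank F V) := by
  have : Nontrivial V := Module.nontrivial_of_finrank_pos (R := F) (by omega)
  by_cases h : r ∣ q + 1
  swap
  · rw [H.el_iff h fun f c hc => PairInv.of_smul hc]
    refine iff_of_false (fun h3 => ?_) fun h3 => h (h3.1 ▸ even_iff_two_dvd.mp h3.2.1.add_one)
    by_cases hr0 : (r : F) = 0
    · have : CharP F r := by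
        rw [← ((Nat.prime_dvd_prime_iff_eq (CharP.char_is_prime F _) hr.out).mp
          ((CharP.cast_eq_zero_iff F (ringChar F) r).mp hr0))]
        exact ringChar.charP F
      obtain ⟨f, h4, h5, h6, h7⟩ := H.not_pairInv_char r hn
      exact h7 (h3 f h4 h5 h6)
    have hr2 : r ≠ 2 := by
      rintro rfl
      exact not_dvd_card' hr0 (H.card ▸ (by omega : 2 ∣ q).trans (dvd_pow_self q two_ne_zero))
    have hS := H.ss hr0 hr2 rfl rfl rfl
    rw [(hS.cases.resolve_right fun h => h1 hr0 h.2).1] at hS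
    obtain ⟨f, h4, h5, h6⟩ := h2
    obtain ⟨B, -, h7, g, hg⟩ := hS.exists_blk h4 h5 h6
    obtain ⟨U, W, h8, h9, h10⟩ := (h3 g hg.1 hg.2.1 (hg.ne_one H.sep hr0 (ne_bot_of_finrank
      (h7 ▸ hS.pos.ne')))).inv (hr.out.odd_of_ne_two hr2) hg.2.1
    exact Blk.not_inv_pair hS.ord H.sep hg h7 h8.2.1.le_perp h8.2.2.le_perp h8.1.sup_eq_top h9 h10
  rcases eq_or_ne r 2 with rfl | hr2
  swap
  · refine iff_of_false (fun h3 => ?_) fun h => hr2 h.1
    have := hr.out.two_le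
    obtain ⟨f, h4, h5, h6, h7, h8⟩ := H.exists_pm h (t := 1) (s := finrank F V - 2) one_pos
      (by omega) (by omega)
    obtain ⟨U, W, h9, h10, -⟩ := (h3 f ⟨h4, h5⟩ ⟨1, by simpa⟩ h7).inv (hr.out.odd_of_ne_two hr2) h6
    have := h8 U h9.2.1.le_perp h10
    have := h9.two_mul H.sep
    omega
  refine ⟨fun h3 => ⟨rfl, Nat.odd_iff.mpr (by omega), ?_⟩, fun h3 f ⟨h4, h5⟩ ⟨z, h6⟩ _ => ?_⟩
  · by_contra h4
    obtain ⟨f, h5, h6, h7, h8, h9, l, E, h10, h11, h12⟩ := H.exists_refl h he (not_le.mp h4)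
    obtain ⟨U, W, h13, ⟨h14, -⟩ | ⟨h14, -⟩⟩ := h3 f ⟨h5, h6⟩ h7 h8
    · exact (h9 U h13.2.1.le_perp (inv_iff_map_le.mpr h14.le)).ne (h13.two_mul H.sep)
    · have := finrank_add_le_of_swap h13.1.disjoint h14.le h10 h12
      have := h13.two_mul H.sep
      simp only at *; omega
  have hi := h4.injective H.sep
  rcases H.cases h4 h6 with ⟨d, h7, h8, h9, h10⟩ | ⟨h7, h8⟩
  · obtain ⟨h11, h12⟩ := H.even_mov h he h3.2.2 h8 h5 h10
    have h0 := H.cast_ne h
    obtain ⟨A, A', h13, h14, h15, -⟩ :=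
      (H.dc.hyp (nondeg_fixS H.sep h0 h9 h10) h11).exists_halves H.sep
    obtain ⟨B, B', h16, h17, h18, -⟩ :=
      (H.dc.hyp (nondeg_movS H.sep h0 h9 h10) h12).exists_halves H.sep
    have h19 := movS_le_perp h0 h9
    have hA : A ≤ _ := h15 ▸ le_sup_left
    have hA' : A' ≤ _ := h15 ▸ le_sup_right
    have hB : B ≤ _ := h18 ▸ le_sup_left
    have hB' : B' ≤ _ := h18 ▸ le_sup_right
    exact ⟨A ⊔ B, A' ⊔ B', tsPair_of_sup H.sep (totSing_sup h13 h16 (le_perp_mono h19 hA hB))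
      (totSing_sup h14 h17 (le_perp_mono h19 hA' hB'))
      (by rw [sup_sup_sup_comm, h15, h18, fixS_sup_movS h0 h10]), Or.inl
      ⟨(((inv_of_le_fixS hA).sup (inv_of_le_movS_two hB)).of_smul (inv_ne_zero h7)).map_eq hi,
      (((inv_of_le_fixS hA').sup (inv_of_le_movS_two hB')).of_smul (inv_ne_zero h7)).map_eq hi⟩⟩
  · obtain ⟨l, U, W, -, h9, h10, h11, h12, h13, -⟩ := H.np_two h4 h6 h7 h8
    exact ⟨U, W, ⟨h9, h10, h11⟩,
      Or.inl ⟨(Inv.of_eigen h12).map_eq hi, (Inv.of_eigen h13).map_eq hi⟩⟩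

section Std

variable {n : ℕ}

theorem exists_hp (n : ℕ) (hq : Fintype.card F = q ^ 2) : ∃ (σ : F →+* F) (P : PQ F (Fin n → F) σ),
    HP P q ∧ ∀ u v, P.B u v = Cfsg.hermForm n F q v u := by
  obtain ⟨σ, h1, h2, h3⟩ := exists_conj hq
  obtain ⟨c, hc⟩ := exists_trace_one h2 h3
  exact ⟨σ, guPQ n h3 c hc, ⟨hq, h1, h2, rfl, rfl, hermB_sep⟩, hermB_eq_hermForm h1⟩

variable {P : PQ F (Fin n → F) σ} (H : HP P q) (hB : ∀ u v, P.B u v = Cfsg.hermForm n F q v u)
include H hB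

theorem su_el_iff (r : ℕ) (T : ((Fin n → F) →ₗ[F] (Fin n → F)) → Prop) :
    (∀ x : Matrix.SpecialLinearGroup (Fin n) F, x ∈ Cfsg.SU n F q →
      (∃ z : F, ((x ^ r : Matrix.SpecialLinearGroup (Fin n) F) : Matrix (Fin n) (Fin n) F) =
        z • (1 : Matrix (Fin n) (Fin n) F)) →
      (∀ z : F, (x : Matrix (Fin n) (Fin n) F) ≠ z • (1 : Matrix (Fin n) (Fin n) F)) →
      T (Matrix.toLin' (x : Matrix (Fin n) (Fin n) F))) ↔ ElU P r T :=
  forall_mat_iff (Cfsg.slToMat n F) (· ∈ Cfsg.SU n F q) _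
    (fun x hx => ⟨H.iso fun u v => by rw [hB, hB]; exact hx v u,
      (LinearMap.det_toLin' _).trans x.2⟩) (fun f hf =>
    ⟨⟨LinearMap.toMatrix' f, (LinearMap.det_toMatrix' f).trans hf.2⟩, fun u v => by
      rw [← hB, ← hB, ← hf.1.B v u]
      exact congrArg₂ (P.B · ·) (LinearMap.toMatrix'_mulVec f v) (LinearMap.toMatrix'_mulVec f u),
      Matrix.toLin'_toMatrix' f⟩) r T

theorem mem_gu_iff (x : GL (Fin n) F) :
    x ∈ Cfsg.GU n F q ↔ Iso P (Matrix.toLin' (x : Matrix (Fin n) (Fin n) F)) :=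
  ⟨fun hx => H.iso fun u v => by rw [hB, hB]; exact hx v u,
    fun h u v => by rw [← hB, ← hB]; exact h.B v u⟩

theorem herm_totSing_iff {W : Submodule F (Fin n → F)} :
    (∀ u ∈ W, ∀ v ∈ W, Cfsg.hermForm n F q u v = 0) ↔ P.TotSing W := by
  rw [H.totSing_iff]
  exact ⟨fun h u hu v hv => (hB _ _).trans (h u hu v hv), fun h u hu v hv => hB _ _ ▸ h hu v hv⟩

omit H [Fintype F] in
theorem herm_nondeg_iff {W : Submodule F (Fin n → F)} :
    (∀ u ∈ W, u ≠ 0 → ∃ v ∈ W, Cfsg.hermForm n F q u v ≠ 0) ↔ P.Nondeg W := by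
  refine forall₂_congr fun u _ => ?_
  rw [← not_imp_not]
  push Not
  simp only [← hB]
  exact ⟨fun h h1 => h fun v hv => P.eq_zero_symm (h1 v hv),
    fun h h1 => h fun v hv => P.eq_zero_symm (h1 v hv)⟩

end Std

end H99
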