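import Cfsg.Agent.Lib.Elusive.Sim
import Cfsg.Agent.Lib.Elusive.Herm

/-!
Elements of prime order of the projective special linear group conjugate into a given class.
-/

set_option autoImplicit false
set_option linter.unusedSectionVars false

namespace H99

open Module Polynomial H28
open H65 (Similar model nilModel piEnd)

variable {F V : Type*} [Field F] [AddCommGroup V] [Module F V] [FiniteDimensional F V]
  {f g : End F V} {B : End F V → Prop} {r : ℕ} {a c : F}

/-- Every element of order `r` modulo scalars has a conjugate satisfying `B`. -/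
def ElB (B : End F V → Prop) (r : ℕ) : Prop := ∀ f : End F V, LinearMap.det f = 1 →
  (∃ c : F, f ^ r = c • 1) → (∀ c : F, f ≠ c • 1) →
    ∃ g : V ≃ₗ[F] V, LinearMap.det (g : End F V) = 1 ∧ B (g.symm.conj f)

theorem elB_iff {ι : Type} [Fintype ι] [DecidableEq ι] {H : Subgroup (GL ι F)}
    {B : End F (ι → F) → Prop}
    (hB : ∀ x : GL ι F, x ∈ H ↔ B (Matrix.toLin' (x : Matrix ι ι F))) (r : ℕ) :
    (∀ x ∈ Cfsg.Geo.specialLinear ι F,
      (∃ z : F, ((x ^ r : GL ι F) : Matrix ι ι F) = z • (1 : Matrix ι ι F)) →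
      (∀ z : F, (x : Matrix ι ι F) ≠ z • (1 : Matrix ι ι F)) →
        ∃ g ∈ Cfsg.Geo.specialLinear ι F, g⁻¹ * x * g ∈ H) ↔ ElB B r :=
  conj_el_iff (A := fun f => LinearMap.det f = 1) mem_sl_iff (fun x _ => hB x)
    (fun _ => injective_of_det) r

theorem not_elB (hd : LinearMap.det f = 1) (h : f ^ r = c • 1) (hn : ∀ c : F, f ≠ c • 1)
    (hB : ∀ y, Similar f y → ¬ B y) : ¬ ElB B r := fun h1 =>
  (h1 f hd ⟨c, h⟩ hn).elim fun g hg => hB _ (similar_symm_conj g f) hg.2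

theorem not_elB' (hd : LinearMap.det f = 1) (h : f ^ r = 1) (hn : ∀ c : F, f ≠ c • 1)
    (hB : ∀ y, Similar f y → ¬ B y) : ¬ ElB B r := not_elB hd (h.trans (one_smul F _).symm) hn hB

theorem not_elB_smul (hS : ∀ y (c : F), c ≠ 0 → B y → B (c • y)) [Nontrivial V]
    (hd : LinearMap.det (a • f) = 1) (h : f ^ r = 1) (hn : ∀ c : F, a • f ≠ c • 1)
    (hB : ∀ y, Similar f y → ¬ B y) : ¬ ElB B r := by
  have ha : a ≠ 0 := by rintro rfl; simp at hd
  refine not_elB hd (c := a ^ r) (by rw [_root_.smul_pow, h]) hn fun y h1 h2 =>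
    hB _ ?_ (hS _ _ (inv_ne_zero ha) h2)
  simpa [ha] using h1.smul a⁻¹

theorem elB_of_similar [Fintype F] [Nontrivial V] [Fact r.Prime] (hr : r = 2 ∨ (r : F) ≠ 0)
    (h : ∀ (f : End F V) (c : F), LinearMap.det f = 1 → f ^ r = c • 1 → (∀ c : F, f ≠ c • 1) →
      ∃ y, Similar f y ∧ B y) : ElB B r := fun f h1 ⟨c, h2⟩ h3 => by
  obtain ⟨y, h4, h5⟩ := h f c h1 h2 h3
  have h6 : DS f := by
    rcases hr with rfl | hr
    exacts [ds_two (h1 ▸ one_ne_zero) h2, ds_of_pow hr (h1 ▸ one_ne_zero) h2]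
  obtain ⟨e, h7, rfl⟩ := h6.exists_conj h4
  exact ⟨e, h7, h5⟩

theorem fixS_eq_ker : fixS f = LinearMap.ker (f - 1) := by simp [fixS]

theorem movS_two_eq_ker : movS 2 f = LinearMap.ker (f + 1) := by simp [movS, cyclotomic_two]

theorem sub_one_sq (h2 : (2 : F) = 0) (h : f ^ 2 = 1) : (f - 1) ^ 2 = 0 := by
  have : CharP F 2 := (CharP.charP_iff_prime_eq_zero Nat.prime_two).mpr (by simpa using h2)
  rw [sub_one_pow_char, h, sub_self]

theorem similar_of_sq_one {W : Type*} [AddCommGroup W] [Module F W] [FiniteDimensional F W]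
    {g : End F W} (hf : f ^ 2 = 1) (hg : g ^ 2 = 1) (hd : finrank F V = finrank F W)
    (h : finrank F (fixS f) = finrank F (fixS g)) : Similar f g := by
  by_cases h2 : (2 : F) = 0
  · have h3 := sub_one_sq h2 hf
    have h4 := sub_one_sq h2 hg
    refine (H65.similar_of_isNilpotent ⟨2, h3⟩ ⟨2, h4⟩ fun j => ?_).of_sub_one
    rcases j with _ | _ | j
    · rw [pow_zero, pow_zero, Module.End.one_eq_id, Module.End.one_eq_id, LinearMap.ker_id,
        LinearMap.ker_id, finrank_bot, finrank_bot]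
    · rwa [zero_add, pow_one, pow_one, ← fixS_eq_ker, ← fixS_eq_ker]
    · rw [pow_add _ j 2, pow_add _ j 2, h3, h4, mul_zero, mul_zero, LinearMap.ker_zero,
        LinearMap.ker_zero, finrank_top, finrank_top, hd]
  · have h3 := finrank_fixS_add (r := 2) (by simpa using h2) hf
    have h4 := finrank_fixS_add (r := 2) (by simpa using h2) hg
    exact H65.similar_of_sq_eq_one h2 hf hg hd (by rw [← movS_two_eq_ker, ← movS_two_eq_ker]; omega)

theorem elB_two [Fintype F] [Nontrivial V] (hS : ∀ y (c : F), c ≠ 0 → B y → B (c • y))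
    (hA : ∀ (y : End F V) (a : F), y ^ 2 = 1 → LinearMap.det (a • y) = 1 → (∀ c : F, y ≠ c • 1) →
      ∃ y', y' ^ 2 = 1 ∧ finrank F (fixS y') = finrank F (fixS y) ∧ B y')
    (hB : ∀ (y : End F V) (z : F), ¬ IsSquare z → y ^ 2 = z • 1 → LinearMap.det y = 1 →
      ∃ y', y' ^ 2 = z • 1 ∧ B y') : ElB B 2 := by
  refine elB_of_similar (.inl rfl) fun f c h1 h2 h3 => ?_
  by_cases h : IsSquare c
  · obtain ⟨a, rfl⟩ := h
    have h0 := left_ne_zero_of_mul (ne_zero_of_det (h1 ▸ one_ne_zero) h2 finrank_pos)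
    have h4 := smul_pow_eq_one h0 (h2.trans (by rw [pow_two]))
    obtain ⟨y, h5, h6, h7⟩ := hA _ a h4 (by rwa [smul_inv_smul₀ h0]) fun c h =>
      h3 (a * c) (by rw [mul_smul, ← h, smul_inv_smul₀ h0])
    exact ⟨a • y, by simpa [h0] using (similar_of_sq_one h4 h5 rfl h6.symm).smul a, hS _ _ h0 h7⟩
  · obtain ⟨y, h4, h5⟩ := hB f c h h2 h1
    exact ⟨y, H65.similar_of_sq_eq_smul h h2 h4 rfl, h5⟩

theorem le_two_mul_fix (h2 : (2 : F) = 0) (h : f ^ 2 = 1) : finrank F V ≤ 2 * finrank F (fixS f) := by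
  have h3 := (f - 1).finrank_range_add_finrank_ker
  have h4 := Submodule.finrank_mono (LinearMap.range_le_ker_iff.mpr
    (show (f - 1) ∘ₗ (f - 1) = 0 from (pow_two _).symm.trans (sub_one_sq h2 h)))
  rw [fixS_eq_ker]; omega

theorem det_of_sq_one (h2 : (2 : F) ≠ 0) (h : f ^ 2 = 1) :
    LinearMap.det f = (-1) ^ finrank F (movS 2 f) := by
  have h3 : ((2 : ℕ) : F) ≠ 0 := by simpa using h2
  simpa using det_of_eigen (a := 1) (c := -1)
    ⟨disjoint_fixS_movS h3 f, codisjoint_iff.mpr (fixS_sup_movS h3 h)⟩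
    (fun v hv => by simpa using mem_fixS.mp hv) fun v hv => by simpa using mem_movS_two.mp hv

theorem JT.similar {W : Type*} [AddCommGroup W] [Module F W] {g : End F W} {μ : Multiset ℕ}
    (h : JT f ⊤ μ) (hs : Similar f g) : JT g ⊤ μ := ⟨h.1, fun k => by
  rw [← h.2 k, top_inf_eq, top_inf_eq, (hs.pow k).finrank_ker]⟩

theorem finrank_ker_dg {ι : Type*} [Fintype ι] [DecidableEq ι] [DecidableEq F] (b : Basis ι F V)
    (d : ι → F) : finrank F (LinearMap.ker (dg b d)) = Fintype.card {i // d i = 0} := by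
  have h1 := H65.rank_add_finrank_ker (Matrix.diagonal d)
  rw [← toMatrix_dg b, ← (H65.similar_toMatrix b _).finrank_ker, toMatrix_dg,
    Matrix.rank_diagonal, Fintype.card_subtype_compl] at h1
  have := Fintype.card_subtype_le fun i => d i = 0
  omega

theorem finrank_fixS_dg {ι : Type*} [Fintype ι] [DecidableEq ι] [DecidableEq F] (b : Basis ι F V)
    (d : ι → F) : finrank F (fixS (dg b d)) = Fintype.card {i // d i = 1} := by
  rw [fixS, aeval_dg, finrank_ker_dg]; simp [sub_eq_zero]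

theorem exists_sq_one_fix (h2 : (2 : F) ≠ 0) {e : ℕ} (he : e ≤ finrank F V) :
    ∃ y : End F V, y ^ 2 = 1 ∧ finrank F (fixS y) = e := by
  classical
  refine ⟨dg (finBasis F V) fun i => if i.val < e then 1 else -1, (dg_pow_eq _ (c := 1) fun i => by
    split_ifs <;> simp).trans (one_smul F _), ?_⟩
  have h3 : (-1 : F) ≠ 1 := fun h => h2 (by linear_combination -h)
  rw [finrank_fixS_dg]
  simp [h3, Fintype.card_subtype, Fin.card_filter_val_lt, he]

theorem ne_smul_of_fix (h0 : finrank F (fixS f) ≠ 0) (h1 : finrank F (fixS f) ≠ finrank F V)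
    (c : F) : f ≠ c • 1 := by
  rintro rfl
  obtain ⟨v, hv, h2⟩ := Submodule.exists_mem_ne_zero_of_ne_bot (ne_bot_of_finrank h0)
  obtain rfl : c = 1 := smul_left_injective F h2 (by simpa using mem_fixS.mp hv)
  exact h1 (by rw [one_smul, fixS_eq_top_iff.mpr rfl, finrank_top])

theorem smul_ne_smul (ha : a ≠ 0) (h : ∀ c : F, f ≠ c • 1) (c : F) : a • f ≠ c • 1 :=
  fun h1 => h (a⁻¹ * c) (by rw [mul_smul, ← h1, inv_smul_smul₀ ha])

section Two

variable [Fintype F]

theorem two_dvd_card_sub_one (h2 : (2 : F) ≠ 0) : 2 ∣ Fintype.card F - 1 := by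
  have := not_dvd_card' (r := 2) (F := F) (by simpa using h2)
  omega

theorem even_mov_two [Nontrivial V] (h2 : (2 : F) ≠ 0) (h : f ^ 2 = 1)
    (hd : LinearMap.det (a • f) = 1)
    (hv : padicValNat 2 (Fintype.card F - 1) ≤ padicValNat 2 (finrank F V)) :
    Even (finrank F (movS 2 f)) := by
  by_contra h3
  have ha : a ≠ 0 := by rintro rfl; simp at hd
  rw [LinearMap.det_smul, det_of_sq_one h2 h, (Nat.not_even_iff_odd.mp h3).neg_one_pow] at hd
  exact hv.not_gt ((exists_pow_eq_neg_one_iff dvd_rfl (two_dvd_card_sub_one h2) finrank_pos.ne').mp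
    ⟨a, FiniteField.pow_card_sub_one_eq_one a ha, by linear_combination -hd⟩)

theorem exists_refl_sl (h2 : (2 : F) ≠ 0) (hn : 2 ≤ finrank F V)
    (hv : padicValNat 2 (finrank F V) < padicValNat 2 (Fintype.card F - 1)) :
    ∃ (a : F) (y : End F V), y ^ 2 = 1 ∧ LinearMap.det (a • y) = 1 ∧ (∀ c : F, a • y ≠ c • 1) ∧
      finrank F (fixS y) + 1 = finrank F V := by
  obtain ⟨a, h3, h4⟩ :=
    (exists_pow_eq_neg_one_iff dvd_rfl (two_dvd_card_sub_one h2) (by omega)).mpr hv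
  obtain ⟨y, h5, h6⟩ := exists_sq_one_fix (V := V) h2 (e := finrank F V - 1) (by omega)
  have h7 := finrank_fixS_add (r := 2) (by simpa using h2) h5
  refine ⟨a, y, h5, ?_, smul_ne_smul (by rintro rfl; simp [card_sub_one_ne_zero] at h3)
    (ne_smul_of_fix (by omega) (by omega)), by omega⟩
  rw [LinearMap.det_smul, det_of_sq_one h2 h5, h4, show finrank F (movS 2 y) = 1 by omega]
  simp

theorem not_padicCond_two [Nontrivial V] {z : F} (hz : ¬ IsSquare z) (h : f ^ 2 = z • 1)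
    (hd : LinearMap.det f = 1) : ¬ PadicCond 2 (finrank F V) (Fintype.card F) := by
  have h1 : ∀ d : F, d ^ 2 ≠ z := fun d hd => hz ⟨d, by rw [← hd, pow_two]⟩
  obtain ⟨k, h3, h4⟩ := det_of_irreducible h1 h
  refine (exists_not_pow_det_iff (by
    by_contra h5
    exact (exists_pow_eq_of_not_dvd h5 z).elim h1) finrank_pos.ne').mp ⟨z, k, h1, h3, h4 ▸ hd⟩

theorem exists_nonsq_sl [Nontrivial V] (h2 : (2 : F) ≠ 0)
    (hv : padicValNat 2 (Fintype.card F - 1) < padicValNat 2 (finrank F V)) :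
    ∃ (f : End F V) (z : F), ¬ IsSquare z ∧ LinearMap.det f = 1 ∧ f ^ 2 = z • 1 ∧
      ∀ c : F, f ≠ c • 1 := by
  have H : Ord F 2 _ := ⟨by simpa using h2, rfl⟩
  obtain ⟨f, h3, ⟨z, h4, h5⟩, h6, -⟩ := exists_sl_irreducible (V := V) H
    (H.eq_one_iff.mpr (two_dvd_card_sub_one h2)) finrank_pos fun h => h.1.not_gt hv
  exact ⟨f, z, fun ⟨d, hd⟩ => h4 d (by rw [hd, pow_two]), h3, h5, h6⟩

end Two

theorem exists_unip_sl (p : ℕ) [Fact p.Prime] [CharP F p] {a : ℕ} (h1 : 1 < a) (hp : a ≤ p)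
    (hn : a ≤ finrank F V) : ∃ f : End F V, LinearMap.det f = 1 ∧ f ^ p = 1 ∧
      (∀ c : F, f ≠ c • 1) ∧ JT (f - 1) ⊤ (a ::ₘ Multiset.replicate (finrank F V - a) 1) := by
  obtain ⟨N, h2, -, h3, h4⟩ := exists_unipotent (F := F) (V := V) (p := p)
    (a ::ₘ Multiset.replicate (finrank F V - a) 1) (fun b hb => by
      rcases Multiset.mem_cons.mp hb with rfl | hb
      · omega
      · have := Multiset.eq_of_mem_replicate hb; omega) (by simp; omega) ⟨a, by simp, h1⟩
  exact ⟨N + 1, det_eq_one_of_pow_char h3, h3, h4, by rwa [add_sub_cancel_right]⟩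

theorem exists_transvection (p : ℕ) [hp : Fact p.Prime] [CharP F p] (hn : 2 ≤ finrank F V) :
    ∃ f : End F V, LinearMap.det f = 1 ∧ f ^ p = 1 ∧ (∀ c : F, f ≠ c • 1) ∧
      finrank F (fixS f) + 1 = finrank F V := by
  obtain ⟨f, h1, h2, h3, h4⟩ := exists_unip_sl (V := V) p one_lt_two hp.out.two_le hn
  refine ⟨f, h1, h2, h3, ?_⟩
  have := h4.finrank_ker
  rw [top_inf_eq, ← fixS_eq_ker] at this
  simp [this]; omega

section Form

variable {σ : F →+* F} {P : PQ F V σ}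

/-- Similarities of a form. -/
def IsSim (P : PQ F V σ) (f : End F V) : Prop := ∃ μ ≠ 0, Sim P μ f

theorem IsSim.smul (f : End F V) (c : F) (hc : c ≠ 0) (h : IsSim P f) : IsSim P (c • f) :=
  h.elim fun _ h => ⟨_, mul_ne_zero (mul_ne_zero ((map_ne_zero σ).mpr hc) hc) h.1, h.2.smul c⟩

theorem Iso.isSim (h : Iso P f) : IsSim P f := ⟨1, one_ne_zero, h.sim⟩

theorem exists_neg_on {W : Submodule F V} (hW : P.Nondeg W) : ∃ f, Mov P 2 W f := by
  obtain ⟨f, h1, h2, h3⟩ := exists_restrict hW (Iso.one.neg.isoOn W) Inv.one.neg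
  exact ⟨f, h1, h2.pow_eq_one hW fun v hv => by
    simp [pow_two, h3 v hv], h2, fun v hv => mem_movS_two.mpr (h3 v hv)⟩

theorem exists_iso_sq_one (hP : P.B.SeparatingLeft) (h2 : (2 : F) ≠ 0) {W : Submodule F V}
    (hW : P.Nondeg W) (h : f ^ 2 = 1) (hd : finrank F W = finrank F (movS 2 f)) :
    ∃ y, y ^ 2 = 1 ∧ finrank F (fixS y) = finrank F (fixS f) ∧ Iso P y := by
  obtain ⟨y, h1⟩ := exists_neg_on hW
  have h3 : ((2 : ℕ) : F) ≠ 0 := by simpa using h2
  have h4 := finrank_fixS_add h3 h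
  have h5 := finrank_fixS_add h3 h1.2.1
  rw [h1.movS_eq hP h3] at h5
  exact ⟨y, h1.2.1, by omega, h1.1⟩

theorem DC.exists_invol {u : ℕ} (D : DC P u) (hu : u = 1 ∨ (u = 2 ∧ Even (finrank F V)))
    (hΛ : ∃ c ∈ P.Λ, c ≠ 0) (h2 : (2 : F) = 0) (h : f ^ 2 = 1) (h1 : f ≠ 1) :
    ∃ y, y ^ 2 = 1 ∧ finrank F (fixS y) = finrank F (fixS f) ∧ Iso P y := by
  have : CharP F 2 := (CharP.charP_iff_prime_eq_zero Nat.prime_two).mpr (by simpa using h2)
  have h3 := le_two_mul_fix h2 h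
  have h4 := Submodule.finrank_lt (mt (fixS_eq_top_iff (g := f)).mp h1)
  have h9 : 2 ∈ Multiset.replicate (finrank F V - finrank F (fixS f)) 2 +
      Multiset.replicate (2 * finrank F (fixS f) - finrank F V) 1 :=
    Multiset.mem_add.mpr (.inl (Multiset.mem_replicate.mpr ⟨by omega, rfl⟩))
  obtain ⟨y, h5, h6, -, h7, -⟩ := exists_unip_top 2 D.sep (bad := fun a => ¬ u ∣ a)
    (μ := Multiset.replicate (finrank F V - finrank F (fixS f)) 2 +
      Multiset.replicate (2 * finrank F (fixS f) - finrank F V) 1)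
    (fun T k hT h => D.ts T k hT h.le) (fun T a h hT h' => by
      obtain ⟨B, h2, h3, h4⟩ := D.ex T a hT (not_not.mp h) h'
      exact ⟨B, h2, h3, h4, D.ts B _ h3 (by omega), fun _ => hΛ⟩) (fun a ha => by
      rcases hu with rfl | ⟨rfl, hu⟩
      · simp at ha
      · rw [Multiset.count_add, Multiset.count_replicate, Multiset.count_replicate, Nat.even_iff] at *
        split_ifs <;> omega)
    (fun a ha => by
      rcases Multiset.mem_add.mp ha with h | h <;> have := Multiset.eq_of_mem_replicate h <;> omega)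
    (by simp; omega) (fun h => absurd (h 2 h9) (by rcases hu with rfl | ⟨rfl, -⟩ <;> simp))
    ⟨2, h9, one_lt_two⟩
  have h8 := h7.finrank_ker
  rw [top_inf_eq, ← fixS_eq_ker] at h8
  exact ⟨y, h6, by simp [h8]; omega, h5⟩

theorem not_elB_unip [Nontrivial V] (p : ℕ) [Fact p.Prime] [CharP F p] (hP : P.B.SeparatingLeft)
    (hI : ∀ f, Sim P 1 f → Iso P f) {bad : ℕ → Prop} [DecidablePred bad] (hU : UB P bad) {a : ℕ}
    (ha : bad a) (h1 : 1 < a) (hp : a ≤ p) (hn : a ≤ finrank F V) : ¬ ElB (IsSim P) p := by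
  obtain ⟨f, h2, h3, h4, h5⟩ := exists_unip_sl (V := V) p h1 hp hn
  refine not_elB' h2 h3 h4 fun y h6 ⟨μ, _, h7⟩ => ?_
  have h8 := pow_eq_one_of_similar h6 h3
  obtain rfl := eq_one_of_pow_char (h7.pow_eq_one hP h8)
  have := hU.adm hP (hI y h7) (nondeg_top hP) Inv.top (pow_char_apply h8) (h5.similar h6.sub_one) a ha
  simp [Multiset.count_replicate, h1.ne] at this

variable [Fintype F] [hr : Fact r.Prime]

theorem not_elB_asym (hP : P.B.SeparatingLeft) (hσ : ∀ a : F, a ^ r = 1 → σ a = a) (h2 : r ≠ 2)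
    (h1 : r ∣ Fintype.card F - 1) {n : ℕ} (hV : finrank F V = n) (hn : 3 ≤ n)
    (h6 : ¬ (n = 6 ∧ r = 3))
    (h : ¬ ((r = 3 ∨ r = 5) ∧ n = r ∧ padicValNat r (Fintype.card F - 1) = 1)) :
    ¬ ElB (IsSim P) r := by
  have := Module.nontrivial_of_finrank_pos (R := F) (M := V) (by omega)
  obtain ⟨l, d, h3, h4, h5⟩ := exists_asym h2 h1 hn h6 h
  obtain ⟨b⟩ := exists_basis_of_card (F := F) (V := V) (ι := Fin n) (by simpa using hV)
  refine not_elB_smul IsSim.smul (a := l) (f := dg b d) (by rwa [LinearMap.det_smul, det_dg, hV])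
    ((dg_pow_eq b h4).trans (one_smul F _))
    (h5.ne_smul b (by rintro rfl; simp [show n ≠ 0 by omega] at h3)) fun y h7 ⟨μ, _, h8⟩ => ?_
  obtain ⟨b', rfl⟩ := exists_dg_of_similar h7
  obtain ⟨π, h9⟩ := h8.exists_perm hP
  exact h5 μ π fun i => by rw [← h9 i, hσ _ (h4 _)]

theorem not_elB_block [Nontrivial V] {j c e k : ℕ} (H : SS P r j c) (hI : ∀ f, Sim P 1 f → Iso P f)
    (hj : j ≠ 1) (hk0 : k ≠ 0) (hk : finrank F V = e + k * j)
    (h : ∀ y, Iso P y → y ^ r = 1 → finrank F (movS r y) ≠ k * j) : ¬ ElB (IsSim P) r := by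
  obtain ⟨f, h2, h3, h4, h5⟩ := exists_sl_fix H.ord hj hk0 hk
  refine not_elB' h2 h3 h4 fun y h6 ⟨μ, _, h7⟩ => ?_
  have h8 := pow_eq_one_of_similar h6 h3
  obtain rfl := eq_one_of_pow_eq_one (mt H.ord.eq_one_iff.mpr hj) (h7.pow_eq_one H.sep h8)
  have := finrank_fixS_add H.ord.ne h3
  exact h y (hI y h7) h8 (by rw [← finrank_movS_eq h6]; omega)

theorem not_elB_block_one [Nontrivial V] {j : ℕ} (H : SS P r j (2 * j))
    (hI : ∀ f, Sim P 1 f → Iso P f) (hj : j ≠ 1) (hn : j ≤ finrank F V) : ¬ ElB (IsSim P) r :=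
  not_elB_block H hI hj one_ne_zero (e := finrank F V - j) (by omega) fun y h1 h2 h3 => by
    obtain ⟨e, h4, -⟩ := H.fix_shape h1 h2
    have := H.ord.pos
    rw [h4, ← mul_assoc] at h3
    have := Nat.eq_of_mul_eq_mul_right this h3
    omega

end Form

end H99
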