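import Cfsg.Agent.Lib.Elusive.SubEl
import Cfsg.Agent.Lib.Asch.Field

/-!
Endomorphisms that are semilinear over an extension field.
-/

set_option autoImplicit false
set_option linter.unusedSectionVars false

namespace H99

open Module Polynomial H28
open H65 (Similar kerDim)

section Charpoly

variable {F V : Type*} [Field F] [AddCommGroup V] [Module F V] [FiniteDimensional F V]
  {f : End F V} {r : ℕ}

theorem dvd_charpoly_of_kerDim {π : F[X]} (hπ : Irreducible π) (h : kerDim f π ≠ 0) :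
    π ∣ f.charpoly :=
  (hπ.isCoprime_or_dvd _).resolve_left fun h1 =>
    h (H65.kerDim_eq_zero_of_isCoprime f.aeval_self_charpoly h1)

theorem charpoly_eq_of_dvd [Fact r.Prime] (hn : finrank F V = r) (h : X ^ r - 1 ∣ f.charpoly) :
    f.charpoly = X ^ r - 1 :=
  eq_of_monic_of_dvd_of_natDegree_le (monic_X_pow_sub_C 1 (Fact.out : r.Prime).ne_zero)
    f.charpoly_monic h (by rw [f.charpoly_natDegree, hn]; exact (natDegree_X_pow_sub_C (r := 1)).ge)

theorem finrank_fixS_eq_one (hn : finrank F V = 2) (h : f ^ 2 = 1) (h1 : ∀ c : F, f ≠ c • 1) :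
    finrank F (fixS f) = 1 := by
  have h2 := Submodule.finrank_lt (mt (fixS_eq_top_iff (g := f)).mp fun h =>
    h1 1 (h.trans (one_smul F _).symm))
  have h3 : finrank F (fixS f) ≠ 0 := fun h3 => h1 (-1) (LinearMap.ext fun v => by
    have h4 : f v + v ∈ fixS f := by
      rw [mem_fixS, map_add, ← Module.End.mul_apply, ← pow_two, h, add_comm]; rfl
    rw [Submodule.finrank_eq_zero.mp h3, Submodule.mem_bot] at h4
    simpa using eq_neg_of_add_eq_zero_left h4)
  omega

theorem charpoly_eq_of_ord [Fintype F] [hr : Fact r.Prime] (H : Ord F r (r - 1)) (h2 : r ≠ 2)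
    (hn : finrank F V = r) (h : f ^ r = 1) (h1 : f ≠ 1) : f.charpoly = X ^ r - 1 := by
  obtain ⟨π, h3, h4, h5, h6⟩ := H.exists_irreducible
  obtain rfl : cyclotomic r F = π := eq_of_monic_of_dvd_of_natDegree_le h4 (cyclotomic.monic r F) h5
    (by rw [h6, natDegree_cyclotomic, Nat.totient_prime hr.out])
  have h7 := finrank_fixS_add H.ne h
  have h8 := finrank_movS_pos H.ne h h1
  obtain ⟨t, ht⟩ := ord_dvd_finrank H (inv_movS r f) le_rfl
  have := hr.out.two_le
  refine charpoly_eq_of_dvd hn (X_pow_sub_one_eq F r ▸ (isCoprime_X_sub_one_cyclotomic H.ne).mul_dvd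
    (dvd_charpoly_of_kerDim (by simpa using irreducible_X_sub_C (1 : F)) fun h9 => ?_)
    (dvd_charpoly_of_kerDim h3 h8.ne'))
  have h10 := (Nat.dvd_sub_iff_right (show r - 1 ≤ finrank F (movS r f) by
    change finrank F (fixS f) = 0 at h9; omega) ⟨t, ht⟩).mpr dvd_rfl
  change finrank F (fixS f) = 0 at h9
  rw [show finrank F (movS r f) - (r - 1) = 1 by omega, Nat.dvd_one] at h10
  omega

theorem charpoly_dg_of_injective [hr : Fact r.Prime] (b : Basis (Fin r) F V) {d : Fin r → F}
    (h : ∀ i, d i ^ r = 1) (hd : Function.Injective d) : (dg b d).charpoly = X ^ r - 1 :=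
  charpoly_eq_of_dvd (by simp [finrank_eq_card_basis b]) (by
    rw [charpoly_dg]
    exact (eq_of_monic_of_dvd_of_natDegree_le (monic_prod_of_monic _ _ fun i _ => monic_X_sub_C _)
      (monic_X_pow_sub_C 1 hr.out.ne_zero) (Fintype.prod_dvd_of_coprime
        (pairwise_coprime_X_sub_C hd) fun i => dvd_iff_isRoot.mpr (by simp [h i]))
        ((natDegree_X_pow_sub_C (r := 1)).trans_le (by
          rw [natDegree_finsetProd_X_sub_C_eq_card]; simp))).dvd)

end Charpoly

theorem sq_dvd_card_of_relIndex {G : Type*} [Group G] {H K : Subgroup G} {r : ℕ} [Fact r.Prime]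
    (h : r ∣ H.relIndex K) {x : G} (hH : x ∈ H) (hK : x ∈ K) (h1 : x ^ r = 1) (h2 : x ≠ 1) :
    r ^ 2 ∣ Nat.card K := by
  rw [← (H.subgroupOf K).card_mul_index, pow_two]
  refine mul_dvd_mul (.trans (Dvd.intro_left 1 ?_)
    (orderOf_dvd_natCard (⟨⟨x, hK⟩, hH⟩ : H.subgroupOf K))) h
  rw [one_mul, ← Subgroup.orderOf_coe, ← Subgroup.orderOf_coe, orderOf_eq_prime h1 h2]

variable {F E V : Type*} [Field F] [Field E] [Algebra F E] [AddCommGroup V] [Module F V]
  [Module E V] [IsScalarTower F E V] {y : End F V} {r : ℕ}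

variable (F) in
/-- Restriction of scalars on endomorphisms. -/
def rs : End E V →+* End F V where
  toFun y := y.restrictScalars F
  map_one' := rfl
  map_mul' _ _ := rfl
  map_zero' := rfl
  map_add' _ _ := rfl

theorem rs_apply (g : End E V) (v : V) : rs F g v = g v := rfl

theorem rs_injective : Function.Injective (rs F : End E V → _) :=
  LinearMap.restrictScalars_injective F

theorem rs_smul (c : F) (g : End E V) : rs F (algebraMap F E c • g) = c • rs F g :=
  LinearMap.ext fun _ => algebraMap_smul ..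

theorem finrank_restrictScalars (W : Submodule E V) :
    finrank F (W.restrictScalars F) = finrank F E * finrank E W :=
  (Module.finrank_mul_finrank F E W).symm

theorem finrank_ker_rs (g : End E V) :
    finrank F (LinearMap.ker (rs F g)) = finrank F E * finrank E (LinearMap.ker g) :=
  finrank_restrictScalars (LinearMap.ker g)

theorem fixS_rs (g : End E V) : fixS (rs F g) = (fixS g).restrictScalars F :=
  Submodule.ext fun _ => mem_fixS.trans (mem_fixS (g := g)).symm

theorem finrank_fixS_rs (g : End E V) :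
    finrank F (fixS (rs F g)) = finrank F E * finrank E (fixS g) := by
  rw [fixS_rs, finrank_restrictScalars]

theorem pow_eq_one_of_rs {g : End E V} (h : rs F g ^ r = 1) : g ^ r = 1 :=
  rs_injective (((map_pow ..).trans h).trans (map_one _).symm)

variable (E) in
/-- Semilinear over `E`. -/
def FB (y : End F V) : Prop := ∃ τ : E ≃ₐ[F] E, ∀ (a : E) v, y (a • v) = τ a • y v

theorem FB.smul (y : End F V) (c : F) (_ : c ≠ 0) (h : FB E y) : FB E (c • y) :=
  h.imp fun τ h a v => by rw [LinearMap.smul_apply, h, smul_comm]; rfl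

theorem fb_rs (g : End E V) : FB E (rs F g) := ⟨1, g.map_smul⟩

theorem exists_rs (h : ∀ (a : E) v, y (a • v) = a • y v) : ∃ g : End E V, y = rs F g :=
  ⟨⟨⟨y, y.map_add⟩, h⟩, rfl⟩

theorem FB.exists_rs_of_pow [Nontrivial V] [Finite E] (h : FB E y) {z : F} (hz : z ≠ 0)
    (h1 : y ^ r = z • 1) (hr : r.Coprime (finrank F E)) : ∃ g : End E V, y = rs F g := by
  obtain ⟨τ, h⟩ := h
  have h2 : ∀ (j : ℕ) (a : E) v, (y ^ j) (a • v) = (τ ^ j) a • (y ^ j) v := fun j => by
    induction j with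
    | zero => simp
    | succ j ih => simp [pow_succ, h, ih]
  obtain ⟨v, hv⟩ := exists_ne (0 : V)
  have h3 : τ ^ r = 1 := AlgEquiv.ext fun a => smul_left_injective E (smul_ne_zero hz hv) (by
    simpa [h1, smul_comm z a] using (h2 r a v).symm)
  obtain rfl : τ = 1 := by
    have := pow_gcd_eq_one.mpr ⟨h3, IsGalois.card_aut_eq_finrank F E ▸ pow_card_eq_one' (x := τ)⟩
    rwa [hr.gcd_eq_one, pow_one] at this
  exact exists_rs h

variable [FiniteDimensional F V]

theorem FB.exists_rs_of_fix (h : FB E y) (h1 : finrank F V < 2 * finrank F (fixS y)) :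
    ∃ g : End E V, y = rs F g := by
  obtain ⟨τ, h⟩ := h
  refine exists_rs fun a v => ?_
  rcases eq_or_ne a 0 with rfl | ha
  · simp
  have h2 := Submodule.finrank_sup_add_finrank_inf_eq (fixS y) ((fixS y).map (rs F (a • (1 : End E V))))
  rw [← (Submodule.equivMapOfInjective (rs F (a • (1 : End E V))) (smul_right_injective V ha) _).finrank_eq]
    at h2
  have h3 := Submodule.finrank_le (fixS y ⊔ (fixS y).map (rs F (a • (1 : End E V))))
  obtain ⟨_, ⟨h4, w, h5, rfl⟩, h6⟩ := Submodule.exists_mem_ne_zero_of_ne_bot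
    (p := fixS y ⊓ (fixS y).map (rs F (a • (1 : End E V)))) fun h0 => by rw [h0, finrank_bot] at h2; omega
  have h7 : τ a • w = a • w := by
    rw [← mem_fixS.mp h5, ← h, mem_fixS.mp h5]; exact mem_fixS.mp h4
  rw [h, smul_left_injective E (right_ne_zero_of_smul h6) h7]

theorem FB.dvd_fix (h : FB E y) (h1 : finrank F V < 2 * finrank F (fixS y)) :
    finrank F E ∣ finrank F (fixS y) := by
  obtain ⟨g, rfl⟩ := h.exists_rs_of_fix h1
  exact ⟨_, finrank_fixS_rs g⟩

theorem not_elB_fb {f : End F V} {a : F} [Nontrivial V] (hd : LinearMap.det (a • f) = 1)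
    (h : f ^ r = 1) (hn : ∀ c : F, a • f ≠ c • 1) (h1 : finrank F V < 2 * finrank F (fixS f))
    (h2 : ¬ finrank F E ∣ finrank F (fixS f)) : ¬ ElB (FB E : End F V → Prop) r :=
  not_elB_smul FB.smul hd h hn fun _ h3 h4 =>
    h2 (finrank_fixS_eq h3 ▸ h4.dvd_fix (finrank_fixS_eq h3 ▸ h1))

theorem exists_equiv_ext {W : Type*} [AddCommGroup W] [Module F W] [Module E W]
    [IsScalarTower F E W] [FiniteDimensional F W] [FiniteDimensional F E]
    (h : finrank F W = finrank F V) : Nonempty (W ≃ₗ[E] V) :=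
  have := Module.Finite.right F E V
  have := Module.Finite.right F E W
  ⟨LinearEquiv.ofFinrankEq _ _ (Nat.eq_of_mul_eq_mul_left (finrank_pos (R := F) (M := E)) (by
    rw [finrank_mul_finrank, finrank_mul_finrank, h]))⟩

theorem FB.exists_similar {W : Type*} [AddCommGroup W] [Module F W] [Module E W]
    [IsScalarTower F E W] [FiniteDimensional F W] [FiniteDimensional F E] {g : End F W}
    (hg : FB E g) (h : finrank F W = finrank F V) : ∃ y : End F V, Similar g y ∧ FB E y := by
  obtain ⟨e⟩ := exists_equiv_ext (E := E) h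
  exact ⟨_, H65.similar_conj g (e.restrictScalars F), hg.imp fun τ h a v => by
    simp [LinearEquiv.conj_apply, h]⟩

variable [Fintype F] [Fintype E]

theorem exists_frob (h : finrank F E = finrank F V) :
    ∃ y : End F V, y ^ finrank F V = 1 ∧ y.charpoly = X ^ finrank F V - 1 ∧ FB E y ∧
      (1 < finrank F V → ∀ c : F, y ≠ c • 1) := by
  have h1 := FiniteField.minpoly_frobeniusAlgHom F E
  obtain ⟨y, h2, h3⟩ := FB.exists_similar (V := V) (E := E)
    (g := (FiniteField.frobeniusAlgHom F E).toLinearMap)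
    ⟨FiniteField.frobeniusAlgEquivOfAlgebraic F E, fun a v => by simp [mul_pow]⟩ h
  have h4 := minpoly.aeval F (FiniteField.frobeniusAlgHom F E).toLinearMap
  refine ⟨y, pow_eq_one_of_similar h2 (by simpa [h1, sub_eq_zero, h] using h4), ?_, h3,
    fun h5 c hc => ?_⟩
  · rw [← h2.charpoly_eq, ← h, ← h1]
    exact eq_of_monic_of_dvd_of_natDegree_le (minpoly.monic (LinearMap.isIntegral _))
      (LinearMap.charpoly_monic _) (LinearMap.minpoly_dvd_charpoly _) (by
        rw [LinearMap.charpoly_natDegree, h1]; exact (natDegree_X_pow_sub_C (r := 1)).ge)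
  · have h6 := natDegree_le_of_dvd (minpoly.dvd F (FiniteField.frobeniusAlgHom F E).toLinearMap
      (p := X - C c) (by
      rw [(h2.eq_smul_one_iff c).mpr hc]; simp [Algebra.algebraMap_eq_smul_one])) (X_sub_C_ne_zero c)
    rw [h1, ← C_1, natDegree_X_pow_sub_C, natDegree_X_sub_C] at h6
    omega

variable [hr : Fact r.Prime]

theorem exists_fb_of_charpoly {f : End F V} (h0 : (r : F) ≠ 0) (hE : finrank F E = r)
    (hV : finrank F V = r) (h : f ^ r = 1) (hc : f.charpoly = X ^ r - 1) :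
    ∃ y : End F V, Similar f y ∧ FB E y := by
  obtain ⟨y, h1, h2, h3, -⟩ := exists_frob (V := V) (hE.trans hV.symm)
  rw [hV] at h1 h2
  exact ⟨y, H65.similar_of_charpoly_eq_of_squarefree (H65.squarefree_X_pow_sub_one h0)
    (H65.squarefree_X_pow_sub_one h0) (by simp [h]) (by simp [h1]) (hc.trans h2.symm), h3⟩

theorem fb_elB_of_ord (H : Ord F r (r - 1)) (h2 : r ≠ 2) (hE : finrank F E = r)
    (hV : finrank F V = r) : ElB (FB E : End F V → Prop) r :=
  have := hr.out.two_le
  have := Module.nontrivial_of_finrank_pos (R := F) (M := V) (by omega)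
  elB_of_similar (.inr H.ne) fun f c h1 h3 h4 => by
    obtain ⟨d, rfl⟩ := exists_pow_eq_of_not_dvd (mt H.eq_one_iff.mpr (by omega)) c
    have h5 := ne_zero_pow hr.out.ne_zero (ne_zero_of_det (h1 ▸ one_ne_zero) h3 finrank_pos)
    have h6 := smul_pow_eq_one h5 h3
    obtain ⟨y, h7, h8⟩ := exists_fb_of_charpoly H.ne hE hV h6 (charpoly_eq_of_ord H h2 hV h6
      fun h => h4 d (by rw [← h, smul_inv_smul₀ h5]))
    exact ⟨_, by simpa [h5] using h7.smul d, FB.smul y d h5 h8⟩

theorem fb_elB_prime_iff (h0 : (r : F) ≠ 0) (h3 : 3 < r) (hE : finrank F E = r)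
    (hV : finrank F V = r) :
    ElB (FB E : End F V → Prop) r ↔ orderOf (Fintype.card F : ZMod r) = r - 1 := by
  have := Module.nontrivial_of_finrank_pos (R := F) (M := V) (by omega)
  refine ⟨fun h => by_contra fun h1 => ?_, fun h => fb_elB_of_ord ⟨h0, h⟩ (by omega) hE hV⟩
  obtain ⟨i, H⟩ : ∃ i, Ord F r i := ⟨_, h0, rfl⟩
  have h4 := hr.out.eq_two_or_odd
  have h5 := H.pos
  rw [H.eq] at h1
  obtain ⟨f, e, h6, h7, h8, h9, h10, h11⟩ : ∃ (f : End F V) (e : ℕ), LinearMap.det f = 1 ∧
      f ^ r = 1 ∧ (∀ c : F, f ≠ c • 1) ∧ finrank F (fixS f) = e ∧ e < r ∧ r < 2 * e := by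
    by_cases hi : i = 1
    · classical
      obtain ⟨m, rfl⟩ : ∃ m, r = m + 2 := ⟨r - 2, by omega⟩
      obtain ⟨ω, h6, h7⟩ := exists_orderOf_eq (H.eq_one_iff.mp hi)
      obtain ⟨b⟩ := exists_basis_of_card (F := F) (V := V) (ι := Fin (m + 2)) (by simpa using hV)
      have h8 : ω ^ (m + 2) = 1 := h7 ▸ pow_orderOf_eq_one ω
      have h9 : ω ≠ 1 := fun h => by rw [h, orderOf_one] at h7; omega
      have h10 : finrank F (fixS (dg b (Matrix.vecCons ω (Matrix.vecCons ω⁻¹ 1)))) = m := by
        rw [finrank_fixS_dg, Fintype.card_subtype, Finset.card_filter, Fin.sum_univ_succ,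
          Fin.sum_univ_succ]
        simp [h9]
      exact ⟨_, m, by simp [det_dg, Fin.prod_univ_succ, h6], (dg_pow_eq b (Fin.cases h8
        (Fin.cases (by simp [h8]) fun _ => by simp))).trans (one_smul F _),
        ne_smul_of_fix (by omega) (by omega), h10, by omega, by omega⟩
    obtain ⟨t, ht⟩ := H.dvd
    obtain ⟨f, h6, h7, h8, h9⟩ := exists_sl_fix (V := V) H hi one_ne_zero (e := r - i)
      (by have := Nat.le_of_dvd (by omega) H.dvd; omega)
    refine ⟨f, _, h6, h7, h8, h9, by omega, ?_⟩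
    rcases t with _ | _ | t
    · omega
    · omega
    · rw [mul_add, mul_add] at ht; omega
  exact not_elB_fb (a := 1) (by rwa [one_smul]) h7 (by rwa [one_smul]) (by omega)
    (fun h => by have := Nat.le_of_dvd (by omega) h; omega) h

theorem fb_elB_two_iff (hE : finrank F E = 2) (hn : 2 ≤ finrank F V) :
    ElB (FB E : End F V → Prop) 2 ↔ finrank F V = 2 ∨ ((2 : F) ≠ 0 ∧
      padicValNat 2 (Fintype.card F - 1) ≤ padicValNat 2 (finrank F V)) := by
  have := Module.nontrivial_of_finrank_pos (R := F) (M := V) (by omega)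
  have := Module.Finite.right F E V
  have h1 := finrank_mul_finrank F E V
  rw [hE] at h1
  refine ⟨fun h => by_contra fun hc => ?_, fun h => elB_two FB.smul (fun y a h2 h3 h4 => ?_)
    fun _ z _ _ _ => ?_⟩
  · rw [not_or, not_and, not_le] at hc
    obtain ⟨a, y, h2, h3, h4, h5⟩ : ∃ (a : F) (y : End F V), y ^ 2 = 1 ∧
        LinearMap.det (a • y) = 1 ∧ (∀ c : F, a • y ≠ c • 1) ∧
          finrank F (fixS y) + 1 = finrank F V := by
      by_cases h2 : (2 : F) = 0
      · have : CharP F 2 := (CharP.charP_iff_prime_eq_zero Nat.prime_two).mpr (by simpa using h2)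
        obtain ⟨y, h3, h4, h5, h6⟩ := exists_transvection (F := F) (V := V) 2 hn
        exact ⟨1, y, h4, by rwa [one_smul], by rwa [one_smul], h6⟩
      · exact exists_refl_sl h2 hn (hc.2 h2)
    exact not_elB_fb h3 h2 h4 (by omega) (by rw [hE]; omega) h
  · rcases h with h | ⟨h5, h6⟩
    · obtain ⟨y', h5, -, h6, h7⟩ := exists_frob (hE.trans h.symm)
      rw [h] at h5
      exact ⟨y', h5, by rw [finrank_fixS_eq_one h h2 h4, finrank_fixS_eq_one h h5 (h7 hn)], h6⟩
    · obtain ⟨t, ht⟩ := even_mov_two h5 h2 h3 h6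
      have h7 := finrank_fixS_add (r := 2) (by simpa using h5) h2
      obtain ⟨g, h8, h9⟩ := exists_sq_one_fix (F := E) (V := V) (fun h => h5 ((algebraMap F E).injective
        (by rw [map_ofNat, h, map_zero]))) (e := finrank E V - t) (Nat.sub_le ..)
      exact ⟨rs F g, by rw [← map_pow, h8, map_one], by rw [finrank_fixS_rs, hE]; omega, fb_rs g⟩
  · obtain ⟨s, hs⟩ := isSquare_algebraMap (hE ▸ Module.card_eq_pow_finrank (K := F) (V := E)) z
    exact ⟨rs F (s • 1), by
      rw [← map_pow, _root_.smul_pow, pow_two, ← hs, rs_smul, one_pow, map_one], fb_rs _⟩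

theorem fb_elB_three_iff (hE : finrank F E = 3) (hV : finrank F V = 3)
    (hi : ∀ y : End F V, LinearMap.det y = 1 → y ^ 3 = 1 → y ≠ 1 → FB E y →
      9 ∣ Fintype.card F ^ 3 * ((Fintype.card F ^ 2 - 1) * (Fintype.card F ^ 3 - 1))) :
    ElB (FB E : End F V → Prop) 3 ↔
      Fintype.card F % 9 = 4 ∨ Fintype.card F % 9 = 7 ∨ Fintype.card F % 9 = 8 := by
  have := Module.nontrivial_of_finrank_pos (R := F) (M := V) (by omega)
  have hq := Fintype.card_pos (α := F)
  by_cases h0 : ((3 : ℕ) : F) = 0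
  · have : CharP F 3 := (CharP.charP_iff_prime_eq_zero Nat.prime_three).mpr h0
    obtain ⟨y, h3, h4, h5, h6⟩ := exists_transvection (F := F) (V := V) 3 (by omega)
    have := char_dvd_card F 3
    exact iff_of_false (not_elB_fb (a := 1) (by rwa [one_smul]) h4 (by rwa [one_smul]) (by omega)
      (by rw [hE]; omega)) (by omega)
  have h1 := not_dvd_card' h0
  by_cases h2 : 3 ∣ Fintype.card F - 1
  · by_cases h3 : 3 ^ 2 ∣ Fintype.card F - 1
    · classical
      obtain ⟨ζ, h4, h5⟩ := exists_orderOf_eq h3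
      obtain ⟨b⟩ := exists_basis_of_card (F := F) (V := V) (ι := Fin 3) (by simpa using hV)
      have h6 : ζ ^ 9 = 1 := (show orderOf ζ = 9 from h5) ▸ pow_orderOf_eq_one ζ
      have h7 : ζ ^ 6 ≠ 1 := pow_ne_one_of_lt_orderOf (by decide) (by rw [h5]; decide)
      have h8 : finrank F (fixS (dg b ![1, 1, ζ ^ 6])) = 2 := by
        rw [finrank_fixS_dg, Fintype.card_subtype, Finset.card_filter, Fin.sum_univ_three]
        simp [h7]
      refine iff_of_false (not_elB_fb (a := ζ) (f := dg b ![1, 1, ζ ^ 6]) ?_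
        ((dg_pow_eq b fun i => ?_).trans (one_smul F _))
        (smul_ne_smul h4 (ne_smul_of_fix (by omega) (by omega))) (by omega) (by rw [hE]; omega))
        (by norm_num at h3; omega)
      · simp [det_dg, Fin.prod_univ_succ, hV, ← pow_add, h6]
      · fin_cases i <;> simp
        linear_combination (ζ ^ 9 + 1) * h6
    refine iff_of_true (elB_of_similar (.inr h0) fun f c h4 h5 h6 => ?_) (by omega)
    obtain ⟨b, d, h7, h8, rfl⟩ := exists_dg_det_one (by decide)
      (not_not.mp (mt (sq_dvd_iff h2).mpr h3)) hV h4 h5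
    refine exists_fb_of_charpoly h0 hE hV ((dg_pow_eq b h7).trans (one_smul F _))
      (charpoly_dg_of_injective b h7 fun i j hij => by_contra fun h9 => h6 (d i) ?_)
    have h10 := h7 i
    have h11 : d i ≠ 0 := ne_zero_pow three_ne_zero (h10 ▸ one_ne_zero)
    rw [← dg_const b]
    refine congrArg _ (funext fun t => ?_)
    rw [Fin.prod_univ_three] at h8
    fin_cases i <;> fin_cases j <;> fin_cases t <;> simp only [Fin.reduceFinMk, Fin.isValue] at * <;>
      first
      | rfl
      | contradiction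
      | exact hij.symm
      | (rw [← hij] at h8; exact mul_left_cancel₀ (pow_ne_zero 2 h11) (by linear_combination h8 - h10))
  have H : Ord F 3 (3 - 1) := ⟨h0, by
    have h3 := ord_dvd_sub_one h1
    have h4 := mt (ord_eq_one_iff hq).mp h2
    exact ((Nat.dvd_prime Nat.prime_two).mp h3).resolve_left h4⟩
  refine iff_of_true (fb_elB_of_ord H (by decide) hE hV) (by_contra fun h3 => ?_)
  obtain ⟨y, h4, -, h5, h6⟩ := exists_frob (V := V) (hE.trans hV.symm)
  rw [hV] at h4
  have h7 := hi y (det_eq_one_of_pow H (by decide) h4) h4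
    (fun h => h6 (by omega) 1 (h.trans (one_smul F _).symm)) h5
  rw [← ZMod.natCast_eq_zero_iff, Nat.cast_mul, Nat.cast_mul, Nat.cast_sub (pow_pos hq _),
    Nat.cast_sub (pow_pos hq _)] at h7
  push_cast at h7
  rw [← ZMod.natCast_mod] at h7
  obtain h | h : Fintype.card F % 9 = 2 ∨ Fintype.card F % 9 = 5 := by omega
  all_goals exact absurd (h ▸ h7) (by decide)

open Matrix in
theorem exists_field_structure.{u} {F : Type u} [Field F] [Fintype F] {ι : Type} [Fintype ι]
    [DecidableEq ι] [Nonempty ι] {k : ℕ} {K : Subalgebra F (Matrix ι ι F)}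
    (hK : Cfsg.Geo.IsFieldSubalgebra k K) : ∃ (E : Type u) (_ : Field E) (_ : Fintype E)
      (_ : Algebra F E) (_ : Module E (ι → F)) (_ : IsScalarTower F E (ι → F)), finrank F E = k ∧
      (∀ x : GL ι F, x ∈ Cfsg.Geo.subalgebraNormalizer K ↔ FB E (toLin' (x : Matrix ι ι F))) ∧
      ∀ A, A ∈ K ↔ ∃ a : E, ∀ v, A *ᵥ v = a • v := by
  let : Field K := (H10.Asch.isField_subalgebra hK.comm hK.inv).toField
  let : Module K (ι → F) := Module.compHom (ι → F)
    ((Matrix.toLinAlgEquiv' (R := F) (n := ι)).toAlgHom.comp K.val).toRingHom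
  refine ⟨K, inferInstance, Fintype.ofFinite K, inferInstance, inferInstance,
    ⟨fun c x v => Matrix.smul_mulVec c x.1 v⟩, hK.finrank_eq,
    fun x => ⟨fun h => ⟨AlgEquiv.ofBijective ⟨⟨⟨⟨fun a => ⟨_, (h a).mp a.2⟩, ?_⟩, fun a b => ?_⟩, ?_,
      fun a b => ?_⟩, fun c => ?_⟩ (AlgHom.bijective _), fun a v => ?_⟩, fun ⟨τ, h⟩ A => ?_⟩,
    fun A => ⟨fun h => ⟨⟨A, h⟩, fun _ => rfl⟩, fun ⟨a, h⟩ => ?_⟩⟩
  · exact Subtype.ext (by simp)
  · exact Subtype.ext (by simp [mul_assoc])
  · exact Subtype.ext (by simp)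
  · exact Subtype.ext (by simp [mul_add, add_mul])
  · exact Subtype.ext (by simp [Algebra.algebraMap_eq_smul_one])
  · change x.1 *ᵥ a.1 *ᵥ v = (x.1 * a.1 * (x⁻¹).1) *ᵥ x.1 *ᵥ v
    simp [mul_assoc]
  · have h1 : ∀ a : K, x.1 * a * (x⁻¹).1 = τ a := fun a => toLin'.injective (LinearMap.ext fun v => by
      have : x.1 *ᵥ a.1 *ᵥ _ = (τ a).1 *ᵥ x.1 *ᵥ _ := h a ((x⁻¹).1 *ᵥ v)
      simpa [mul_assoc] using this)
    refine ⟨fun hA => h1 ⟨A, hA⟩ ▸ (τ _).2, fun hA => ?_⟩
    have h2 := h1 (τ.symm ⟨_, hA⟩)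
    rw [τ.apply_symm_apply, Units.mul_left_inj, Units.mul_right_inj] at h2
    exact h2 ▸ (τ.symm _).2
  · exact (toLin'.injective (LinearMap.ext h) : A = a) ▸ a.2

end H99
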