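import Cfsg.Agent.Lib.Elusive.FormEx

/-!
Hyperbolic subspaces, planes, swaps, orthogonal decompositions, shapes of invariant subspaces.
-/

set_option autoImplicit false

namespace H99

open Module H28 Polynomial Pointwise

variable {F V : Type*} [Field F] [AddCommGroup V] [Module F V] {σ : F →+* F} {P : PQ F V σ}
  {f g : V →ₗ[F] V} {W U N T B M H : Submodule F V} {k l : ℕ}

/-- `W` contains a totally singular `k`-space. -/
def HasTS (P : PQ F V σ) (W : Submodule F V) (k : ℕ) : Prop :=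
  ∃ U ≤ W, P.TotSing U ∧ finrank F U = k

/-- Hyperbolic subspaces. -/
def Hyp (P : PQ F V σ) (T : Submodule F V) : Prop :=
  P.Nondeg T ∧ ∃ U ≤ T, P.TotSing U ∧ 2 * finrank F U = finrank F T

theorem HasTS.zero : HasTS P W 0 := ⟨⊥, bot_le, totSing_bot, finrank_bot _ _⟩

theorem HasTS.mono (h : HasTS P W k) (hle : W ≤ N) : HasTS P N k :=
  h.imp fun _ h => ⟨h.1.trans hle, h.2⟩

theorem HasTS.cj (h : HasTS P W k) (hc : Cj P W N) : HasTS P N k := by
  obtain ⟨U, h1, h2, h3⟩ := h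
  obtain ⟨U', h4, h5⟩ := hc.exists_le h1
  exact ⟨U', h4, h5.totSing h2, h5.finrank_eq ▸ h3⟩

theorem Hyp.bot : Hyp P ⊥ := ⟨nondeg_bot, ⊥, le_rfl, totSing_bot, by simp⟩

theorem Hyp.cj (h : Hyp P W) (hc : Cj P W N) : Hyp P N := by
  obtain ⟨h0, U, h1, h2, h3⟩ := h
  obtain ⟨U', h4, h5⟩ := hc.exists_le h1
  exact ⟨hc.nondeg h0, U', h4, h5.totSing h2, by rw [← h5.finrank_eq, ← hc.finrank_eq, h3]⟩

theorem Hyp.even (h : Hyp P T) : Even (finrank F T) := by
  obtain ⟨-, U, -, -, h⟩ := h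
  exact ⟨finrank F U, by omega⟩

theorem Hyp.hasTS (h : Hyp P T) (hk : finrank F T = 2 * k) : HasTS P T k := by
  obtain ⟨-, U, h1, h2, h⟩ := h
  exact ⟨U, h1, h2, by omega⟩

theorem HasTS.hyp (h : HasTS P T k) (hT : P.Nondeg T) (hk : finrank F T = 2 * k) : Hyp P T := by
  obtain ⟨U, h1, h2, h⟩ := h
  exact ⟨hT, U, h1, h2, by omega⟩

theorem mem_span_pair' {u v x : V} :
    x ∈ (F ∙ u) ⊔ (F ∙ v) ↔ ∃ a b : F, a • u + b • v = x := by
  rw [← Submodule.span_insert, Submodule.mem_span_pair]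

theorem eq_zero_of_gram {u v : V} (h : P.B u u * P.B v v ≠ P.B u v * P.B v u) {a b : F}
    (h1 : P.B (a • u + b • v) u = 0) (h2 : P.B (a • u + b • v) v = 0) : a = 0 ∧ b = 0 := by
  simp only [map_add, LinearMap.map_smulₛₗ, LinearMap.add_apply, LinearMap.smul_apply,
    smul_eq_mul] at h1 h2
  have h3 : σ a * (P.B u u * P.B v v - P.B u v * P.B v u) = 0 := by
    linear_combination P.B v v * h1 - P.B v u * h2
  have h4 : σ b * (P.B u u * P.B v v - P.B u v * P.B v u) = 0 := by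
    linear_combination P.B u u * h2 - P.B u v * h1
  simpa [sub_ne_zero.mpr h] using And.intro h3 h4

theorem nondeg_pair {u v : V} (h : P.B u u * P.B v v ≠ P.B u v * P.B v u) :
    P.Nondeg ((F ∙ u) ⊔ (F ∙ v)) := by
  intro x hx h1
  obtain ⟨a, b, rfl⟩ := mem_span_pair'.mp hx
  obtain ⟨rfl, rfl⟩ := eq_zero_of_gram h (h1 u (mem_span_pair'.mpr ⟨1, 0, by simp⟩))
    (h1 v (mem_span_pair'.mpr ⟨0, 1, by simp⟩))
  simp

theorem finrank_pair_of {u v : V} (h : ∀ a b : F, a • u + b • v = 0 → a = 0 ∧ b = 0) :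
    finrank F ↥((F ∙ u) ⊔ (F ∙ v)) = 2 := by
  rw [← Submodule.span_insert, ← Matrix.range_cons_cons_empty u v ![],
    finrank_span_eq_card (LinearIndependent.pair_iff.mpr h)]
  simp

theorem finrank_pair {u v : V} (h : P.B u u * P.B v v ≠ P.B u v * P.B v u) :
    finrank F ↥((F ∙ u) ⊔ (F ∙ v)) = 2 :=
  finrank_pair_of fun a b h1 => eq_zero_of_gram h (by simp [h1]) (by simp [h1])

theorem pair_le {u v : V} (hu : u ∈ W) (hv : v ∈ W) : (F ∙ u) ⊔ (F ∙ v) ≤ W :=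
  sup_le ((Submodule.span_singleton_le_iff_mem _ _).mpr hu)
    ((Submodule.span_singleton_le_iff_mem _ _).mpr hv)

theorem mem_perp_pair {u v x : V} :
    x ∈ P.perp ((F ∙ u) ⊔ (F ∙ v)) ↔ P.B u x = 0 ∧ P.B v x = 0 := by
  rw [P.perp_sup, Submodule.mem_inf, mem_perp_singleton, mem_perp_singleton]

theorem map_pair (f : V →ₗ[F] V) (u v : V) :
    ((F ∙ u) ⊔ (F ∙ v)).map f = (F ∙ f u) ⊔ (F ∙ f v) := by
  simp [Submodule.map_sup, Submodule.map_span]

theorem inv_pair {u : V} {c : F} (h : f (f u) = c • u) : Inv f ((F ∙ u) ⊔ (F ∙ f u)) := by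
  rw [inv_iff_map_le, map_pair]
  exact pair_le (mem_span_pair'.mpr ⟨0, 1, by simp⟩) (mem_span_pair'.mpr ⟨c, 0, by simp [h]⟩)

theorem mem_movS_two {v : V} : v ∈ movS 2 f ↔ f v = -v := by
  simp [mem_movS, cyclotomic_two, add_eq_zero_iff_eq_neg]

theorem inv_of_le_movS_two (h : W ≤ movS 2 f) : Inv f W :=
  fun v hv => by rw [mem_movS_two.mp (h hv)]; exact W.neg_mem hv

theorem isotropic_of_eigen (hf : Iso P f) {c : F} (hc : σ c * c ≠ 1) (h : ∀ v ∈ W, f v = c • v) :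
    W ≤ P.perp W := fun v hv u hu => by
  have := hf.B u v
  rw [h u hu, h v hv] at this
  simp only [map_smul, LinearMap.map_smulₛₗ, LinearMap.smul_apply, smul_eq_mul] at this
  exact (mul_eq_zero.mp (show (σ c * c - 1) * P.B u v = 0 by linear_combination this)).resolve_left
    (sub_ne_zero.mpr hc)

theorem totSing_of_eigen (hf : Iso P f) {c : F} (hc : σ c * c ≠ 1) (h : ∀ v ∈ W, f v = c • v) :
    P.TotSing W := by
  have h1 : c - 1 ≠ 0 := fun h1 => hc (by rw [sub_eq_zero.mp h1]; simp)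
  refine totSing_of_isotropic hf (fun w hw => ⟨(c - 1)⁻¹ • w, W.smul_mem _ hw, ?_⟩)
    (isotropic_of_eigen hf hc h)
  rw [map_smul, h w hw, smul_smul]
  nth_rw 1 [← one_smul F w]
  rw [← add_smul]; congr 1; field_simp; ring

variable [FiniteDimensional F V]

theorem HasTS.of_le (h : HasTS P W k) (hle : l ≤ k) : HasTS P W l := by
  obtain ⟨U, h1, h2, rfl⟩ := h
  obtain ⟨U', h3, h4⟩ := exists_le_finrank_eq U hle
  exact ⟨U', h3.trans h1, totSing_mono h2 h3, h4⟩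

theorem HasTS.add (h : HasTS P W k) (h' : HasTS P N l) (hW : P.Nondeg W) (ho : N ≤ P.perp W) :
    HasTS P (W ⊔ N) (k + l) := by
  obtain ⟨U, h1, h2, rfl⟩ := h
  obtain ⟨U', h3, h4, rfl⟩ := h'
  exact ⟨_, sup_le_sup h1 h3, totSing_sup h2 h4 (le_perp_mono ho h1 h3),
    finrank_sup_of_disjoint ((nondeg_disjoint hW ho).mono h1 h3)⟩

theorem HasTS.two_mul_le (hP : P.B.SeparatingLeft) (h : HasTS P W k) (hW : P.Nondeg W) :
    2 * k ≤ finrank F W := by
  obtain ⟨U, h1, h2, rfl⟩ := h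
  exact two_mul_finrank_le hP hW h1 h2.le_perp

theorem HasTS.cancel (hP : P.B.SeparatingLeft) (h : HasTS P (H ⊔ M) (k + l)) (hH : Hyp P H)
    (hk : finrank F H = 2 * k) (ho : M ≤ P.perp H) : HasTS P M l := by
  obtain ⟨W, h1, h2, h3⟩ := h
  obtain ⟨h4, U, h5, h6, h7⟩ := hH
  obtain ⟨M', h8, h9, h10⟩ := exists_totSing_cancel hP h4 h5 h6 h7 ho h2 h1
  exact HasTS.of_le ⟨M', h8, h9, rfl⟩ (by omega)

theorem exists_double' (hP : P.B.SeparatingLeft) (hN : P.Nondeg N) (hle : U ≤ N)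
    (hU : P.TotSing U) : ∃ T ≤ N, U ≤ T ∧ Hyp P T ∧ finrank F T = 2 * finrank F U := by
  obtain ⟨U', -, h1, -, -, h2, h3⟩ := exists_double hP (f := 1) Module.End.isSemisimple_id Iso.one
    hN Inv.one hle hU.le_perp Inv.one
  exact ⟨_, sup_le hle h1, le_sup_left, ⟨h2, U, le_sup_left, hU, h3.symm⟩, h3⟩

theorem HasTS.exists_hyp (hP : P.B.SeparatingLeft) (h : HasTS P W k) (hW : P.Nondeg W) :
    ∃ T ≤ W, Hyp P T ∧ finrank F T = 2 * k := by
  obtain ⟨U, h1, h2, rfl⟩ := h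
  obtain ⟨T, h3, -, h4⟩ := exists_double' hP hW h1 h2
  exact ⟨T, h3, h4⟩

theorem Hyp.sup (h : Hyp P H) (h' : Hyp P M) (ho : M ≤ P.perp H) : Hyp P (H ⊔ M) := by
  obtain ⟨k, hk⟩ := h.even
  obtain ⟨l, hl⟩ := h'.even
  exact ((h.hasTS (k := k) (by omega)).add (h'.hasTS (k := l) (by omega)) h.1 ho).hyp
    (nondeg_sup h.1 h'.1 ho) (by rw [finrank_sup_orth h.1 ho]; omega)

theorem Hyp.cancel (hP : P.B.SeparatingLeft) (h : Hyp P (H ⊔ M)) (hH : Hyp P H)
    (ho : M ≤ P.perp H) : Hyp P M := by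
  obtain ⟨k, hk⟩ := h.even
  obtain ⟨l, hl⟩ := hH.even
  have := finrank_sup_orth hH.1 ho
  exact ((h.hasTS (k := l + (k - l)) (by omega)).cancel hP hH (by omega) ho).hyp
    (nondeg_right h.1 ho) (by omega)

theorem Hyp.sup_iff (hP : P.B.SeparatingLeft) (hH : Hyp P H) (ho : M ≤ P.perp H) :
    Hyp P (H ⊔ M) ↔ Hyp P M := ⟨fun h => h.cancel hP hH ho, fun h => hH.sup h ho⟩

theorem Hyp.exists_halves (hP : P.B.SeparatingLeft) (h : Hyp P T) : ∃ U U', P.TotSing U ∧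
    P.TotSing U' ∧ U ⊔ U' = T ∧ 2 * finrank F U = finrank F T ∧ finrank F U' = finrank F U := by
  obtain ⟨h0, U, h1, h2, h3⟩ := h
  obtain ⟨U', h4, h5, h6⟩ := exists_hyp_double h0 h1 h2
  obtain ⟨h7, h8, -⟩ := half_of_sup hP h6 h2.le_perp h5.le_perp
  exact ⟨U, U', h2, h5, Submodule.eq_of_le_of_finrank_eq (sup_le h1 h4) (by omega), h3, h8⟩

theorem exists_witt (hP : P.B.SeparatingLeft) (hW : P.Nondeg W) : ∃ H M, Hyp P H ∧ P.Nondeg M ∧
    M ≤ P.perp H ∧ H ⊔ M = W ∧ ∀ v ∈ M, P.q v ∈ P.Λ → v = 0 := by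
  obtain ⟨U, ⟨h1, h2⟩, h3⟩ := exists_max_finrank (fun U => U ≤ W ∧ P.TotSing U)
    ⟨⊥, bot_le, totSing_bot⟩
  obtain ⟨T, h4, h5, h6, -⟩ := exists_double' hP hW h1 h2
  refine ⟨T, W ⊓ P.perp T, h6, nondeg_inf_perp hW h6.1 h4, inf_le_right, sup_inf_perp h6.1 h4,
    fun v hv hq => ?_⟩
  by_contra h0
  have h7 := (Submodule.span_singleton_le_iff_mem _ _).mpr hv
  have := h3 (U ⊔ F ∙ v) ⟨sup_le h1 (h7.trans inf_le_left), totSing_sup h2 (totSing_singleton hq)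
    (le_perp_mono inf_le_right h5 h7)⟩
  rw [finrank_sup_of_disjoint ((nondeg_disjoint h6.1 inf_le_right).mono h5 h7),
    finrank_span_singleton h0] at this
  omega

theorem exists_isHyp_pair (hP : P.B.SeparatingLeft) {U' : Submodule F V} (hT : P.Nondeg (U ⊔ U'))
    (hU : P.TotSing U) (hU' : P.TotSing U') (hk : finrank F U = k) :
    ∃ e f : Fin k → V, P.IsHyp e f ∧ Submodule.span F (Set.range e) = U ∧
      Submodule.span F (Set.range f) = U' := by
  obtain ⟨h1, h2, -⟩ := half_of_sup hP hT hU.le_perp hU'.le_perp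
  let b := finBasisOfFinrankEq F U hk
  have hb : LinearIndependent F fun i => (b i : V) := b.linearIndependent.map' U.subtype (by simp)
  have hs : Submodule.span F (Set.range fun i => (b i : V)) = U := by
    have := congrArg (Submodule.map U.subtype) b.span_eq
    rwa [Submodule.map_span, ← Set.range_comp, Submodule.map_top, Submodule.range_subtype] at this
  obtain ⟨g, hg⟩ := P.exists_dual_family hP _ hb
  have h3 : P.perp U ⊔ U' = ⊤ := by
    apply Submodule.eq_top_of_finrank_eq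
    have := P.finrank_perp_add hP U
    rw [finrank_sup_of_disjoint (Submodule.disjoint_def.mpr fun x hx hx' => hT x
      (Submodule.mem_sup_right hx') (P.mem_perp'.mp (by
        rw [P.perp_sup]; exact ⟨hx, hU'.le_perp hx'⟩)))]
    omega
  choose a ha f hf haf using fun i => Submodule.mem_sup.mp (h3 ▸ (Submodule.mem_top : g i ∈ ⊤))
  have h4 : P.IsHyp (fun i => (b i : V)) f := ⟨fun i j => hU.2 _ (b i).2 _ (b j).2,
    fun i j => hU'.2 _ (hf i) _ (hf j), fun i j => by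
      rw [← hg, ← haf, map_add, ha j _ (b i).2, zero_add], fun i => hU.1 _ (b i).2,
    fun i => hU'.1 _ (hf i)⟩
  refine ⟨_, f, h4, hs, Submodule.eq_of_le_of_finrank_eq
    (Submodule.span_le.mpr (by rintro _ ⟨i, rfl⟩; exact hf i)) ?_⟩
  rw [finrank_span_eq_card (b := f) (h4.linearIndependent.comp Sum.inr Sum.inr_injective), h2, hk,
    Fintype.card_fin]

/-- Transitivity on pairs of complementary totally singular subspaces, with scaling. -/
theorem exists_isom_hyp (hP : P.B.SeparatingLeft) {ι : Type*} [Finite ι] [DecidableEq ι]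
    {e f e' f' : ι → V} (h : P.IsHyp e f) (h' : P.IsHyp e' f') :
    ∃ g ∈ P.Isom, (∀ i, g (e i) = e' i) ∧ ∀ i, g (f i) = f' i := by
  obtain ⟨g, hg, h1⟩ := P.witt_family hP _ _ h.linearIndependent h'.linearIndependent
    (by rintro (i | i) (j | j) <;> simp [h.ee, h.ff, h.ef, h.fe, h'.ee, h'.ff, h'.ef, h'.fe])
    (by rintro (i | i); exacts [P.Λ.sub_mem (h'.qe i) (h.qe i), P.Λ.sub_mem (h'.qf i) (h.qf i)])
  exact ⟨g, hg, fun i => h1 (.inl i), fun i => h1 (.inr i)⟩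

theorem exists_isom_pair (hP : P.B.SeparatingLeft) {U' X X' : Submodule F V}
    (hT : P.Nondeg (U ⊔ U')) (hU : P.TotSing U) (hU' : P.TotSing U') (hT' : P.Nondeg (X ⊔ X'))
    (hX : P.TotSing X) (hX' : P.TotSing X') (hk : finrank F U = finrank F X) :
    ∃ g ∈ P.Isom, U.map (g : V →ₗ[F] V) = X ∧ U'.map (g : V →ₗ[F] V) = X' := by
  obtain ⟨e, f, h1, h2, h3⟩ := exists_isHyp_pair hP hT hU hU' hk
  obtain ⟨e', f', h4, h5, h6⟩ := exists_isHyp_pair hP hT' hX hX' rfl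
  obtain ⟨g, hg, h7, h8⟩ := exists_isom_hyp hP h1 h4
  refine ⟨g, hg, ?_, ?_⟩
  · rw [← h2, Submodule.map_span, ← Set.range_comp,
      show (g : V →ₗ[F] V) ∘ e = e' from funext h7, h5]
  · rw [← h3, Submodule.map_span, ← Set.range_comp,
      show (g : V →ₗ[F] V) ∘ f = f' from funext h8, h6]

theorem Hyp.cj_of_finrank (hP : P.B.SeparatingLeft) (h : Hyp P T) (h' : Hyp P H)
    (hd : finrank F T = finrank F H) : Cj P T H := by
  obtain ⟨U, U', h1, h2, rfl, h3, -⟩ := h.exists_halves hP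
  obtain ⟨X, X', h4, h5, rfl, h6, -⟩ := h'.exists_halves hP
  obtain ⟨g, hg, rfl, rfl⟩ := exists_isom_pair hP h.1 h1 h2 h'.1 h4 h5 (by omega)
  exact ⟨g, hg, Submodule.map_sup _ _ _⟩

/-- An isometry exchanging two complementary totally singular subspaces. -/
theorem exists_swap (hP : P.B.SeparatingLeft) {U' : Submodule F V} (hT : P.Nondeg (U ⊔ U'))
    (hU : P.TotSing U) (hU' : P.TotSing U') {a b : F} (hab : σ a * b * P.ε = 1) :
    ∃ g, Iso P g ∧ Supp P g (U ⊔ U') ∧ U.map g ≤ U' ∧ U'.map g ≤ U ∧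
      ∀ v ∈ U ⊔ U', g (g v) = (a * b) • v := by
  obtain ⟨k, hk⟩ : ∃ k, finrank F U = k := ⟨_, rfl⟩
  obtain ⟨e, f, h1, rfl, rfl⟩ := exists_isHyp_pair hP hT hU hU' hk
  obtain ⟨g, hg, h2, h3⟩ := exists_isom_hyp hP h1 (e' := fun i => a • f i) (f' := fun i => b • e i)
    ⟨fun i j => by simp [h1.ff], fun i j => by simp [h1.ee], fun i j => by
      simp only [map_smul, LinearMap.map_smulₛₗ, LinearMap.smul_apply, smul_eq_mul, h1.fe]
      split_ifs
      · linear_combination hab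
      · simp, fun i => P.q_smul_mem (h1.qf i) a, fun i => P.q_smul_mem (h1.qe i) b⟩
  have h4 : (Submodule.span F (Set.range e)).map (g : V →ₗ[F] V) ≤ .span F (Set.range f) := by
    rw [Submodule.map_span_le]
    rintro _ ⟨i, rfl⟩
    exact (h2 i).symm ▸ Submodule.smul_mem _ _ (Submodule.subset_span ⟨i, rfl⟩)
  have h5 : (Submodule.span F (Set.range f)).map (g : V →ₗ[F] V) ≤ .span F (Set.range e) := by
    rw [Submodule.map_span_le]
    rintro _ ⟨i, rfl⟩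
    exact (h3 i).symm ▸ Submodule.smul_mem _ _ (Submodule.subset_span ⟨i, rfl⟩)
  have h6 : Inv (g : V →ₗ[F] V) (.span F (Set.range e) ⊔ .span F (Set.range f)) := by
    rw [inv_iff_map_le, Submodule.map_sup, sup_comm]; exact sup_le_sup h5 h4
  obtain ⟨x, h7, h8, h9⟩ := exists_restrict hT ((Iso.of_mem hg).isoOn _) h6
  refine ⟨x, h7, h8, (map_congr fun v hv => h9 v (Submodule.mem_sup_left hv)).trans_le h4,
    (map_congr fun v hv => h9 v (Submodule.mem_sup_right hv)).trans_le h5, fun v hv => ?_⟩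
  rw [h9 v hv, h9 _ (h6 v hv)]
  rw [← Submodule.span_union] at hv
  refine LinearMap.eqOn_span (f := (g : V →ₗ[F] V) * (g : V →ₗ[F] V)) (g := (a * b) • 1) ?_ hv
  rintro _ (⟨i, rfl⟩ | ⟨i, rfl⟩) <;> simp [h2, h3, smul_smul, mul_comm]

/-- An isometry exchanging two orthogonal conjugate subspaces. -/
theorem exists_swap_orth {T' : Submodule F V} (hT : P.Nondeg T) (ho : T' ≤ P.perp T)
    (hc : Cj P T T') {c : F} (hc1 : σ c * c = 1) :
    ∃ g, Iso P g ∧ Supp P g (T ⊔ T') ∧ T.map g = T' ∧ ∀ v ∈ T ⊔ T', g (g v) = c • v := by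
  have hT' := hc.nondeg hT
  obtain ⟨e, he, rfl⟩ := hc
  obtain ⟨x, h1, h2⟩ := exists_lin_disjoint (nondeg_disjoint hT ho) (e : V →ₗ[F] V)
    (c • (e.symm : V →ₗ[F] V))
  have h3 : ∀ v ∈ T, x (e v) = c • v := fun v hv => by simpa using h2 _ ⟨v, hv, rfl⟩
  have h4 : Inv x (T ⊔ T.map (e : V →ₗ[F] V)) := by
    rw [inv_iff_map_le, Submodule.map_sup, map_congr h1]
    refine sup_le le_sup_right ?_
    rintro _ ⟨_, ⟨v, hv, rfl⟩, rfl⟩
    exact Submodule.mem_sup_left ((h3 v hv).symm ▸ T.smul_mem c hv)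
  obtain ⟨y, h5, h6, h7⟩ := exists_restrict (nondeg_sup hT hT' ho)
    ((((Iso.of_mem he).isoOn T).congr h1).sup
      ((((Iso.of_mem (P.Isom.inv_mem he)).smul hc1).isoOn _).congr h2) (by
        rintro u hu _ ⟨v, hv, rfl⟩
        rw [ho ⟨v, hv, rfl⟩ u hu, h1 u hu, LinearEquiv.coe_coe, h3 v hv, map_smul,
          P.eq_zero_symm (x := v) (y := e u) (ho ⟨u, hu, rfl⟩ v hv), smul_zero])) h4
  refine ⟨y, h5, h6, (map_congr fun v hv => h7 v (Submodule.mem_sup_left hv)).trans (map_congr h1),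
    fun v hv => ?_⟩
  rw [h7 v hv, h7 _ (h4 v hv)]
  obtain ⟨a, ha, _, ⟨b, hb, rfl⟩, rfl⟩ := Submodule.mem_sup.mp hv
  rw [map_add, map_add, h1 a ha, LinearEquiv.coe_coe, h3 a ha, h3 b hb, map_smul, h1 b hb, smul_add]
  rfl

theorem exists_rsum_of_dvd {Φ : Submodule F V → Prop} {c : ℕ} (hc : 0 < c)
    (Θ : Submodule F V → Prop) (hd : ∀ B, Φ B → finrank F B = c)
    (hs : ∀ W, Θ W → P.Nondeg W → c ≤ finrank F W →
      ∃ B, B ≤ W ∧ Φ B ∧ P.Nondeg B ∧ Θ (W ⊓ P.perp B))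
    (hΘ : Θ W) (hW : P.Nondeg W) {e : ℕ} (he : finrank F W = e * c) : RSum P Φ e W := by
  obtain ⟨e', h⟩ := exists_rsum (P := P) (Φ := Φ) (fun W => Θ W ∧ c ∣ finrank F W)
    (fun W h1 h2 h3 => by
      obtain ⟨B, h4, h5, h6, h7⟩ := hs W h1.1 h2 (Nat.le_of_dvd
        (Nat.pos_of_ne_zero fun h => h3 (eq_bot_of_finrank h)) h1.2)
      have h8 := finrank_inf_perp' h6 h4
      rw [hd B h5] at h8
      exact ⟨B, h4, ne_bot_of_finrank (hd B h5 ▸ hc.ne'), h5, h6, h7,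
        (Nat.dvd_add_left dvd_rfl).mp (h8 ▸ h1.2)⟩) W ⟨hΘ, he ▸ dvd_mul_left _ _⟩ hW
  rwa [Nat.eq_of_mul_eq_mul_right hc (he.symm.trans (h.finrank_eq hd))]

/-- Orthogonal decompositions permuted by `f`. -/
abbrev ODec (P : PQ F V σ) (f : V →ₗ[F] V) (a : ℕ) (N : Submodule F V) (t : ℕ) : Prop :=
  Dec f a P.Nondeg (fun W W' => W' ≤ P.perp W) N t

omit [FiniteDimensional F V] in
theorem ODec.add' {a t t' : ℕ} (h : ODec P f a N t) (h' : ODec P f a M t') (ha : 0 < a)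
    (hN : P.Nondeg N) (ho : M ≤ P.perp N) : ODec P f a (N ⊔ M) (t + t') :=
  h.add h' ha (nondeg_disjoint hN ho) fun _ h1 _ h2 =>
    ⟨le_perp_mono ho h1 h2, P.le_perp_comm.mp (le_perp_mono ho h1 h2)⟩

/-- A pair of orthogonal `c`-spaces exchanged by `f`. -/
def Swp (P : PQ F V σ) (f : V →ₗ[F] V) (c : ℕ) (B : Submodule F V) : Prop :=
  ∃ U, P.Nondeg U ∧ finrank F U = c ∧ U.map f ≤ P.perp U ∧ U ⊔ U.map f = B

theorem Swp.finrank_eq (hP : P.B.SeparatingLeft) (hf : Iso P f) {c : ℕ} (h : Swp P f c B) :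
    finrank F B = 2 * c := by
  obtain ⟨U, h1, h2, h3, rfl⟩ := h
  rw [finrank_sup_orth h1 h3, hf.finrank_map hP, h2, two_mul]

omit [FiniteDimensional F V] in
theorem Swp.inv {z : F} (hz : f ^ 2 = z • 1) {c : ℕ} (h : Swp P f c B) : Inv f B := by
  obtain ⟨U, -, -, -, rfl⟩ := h
  rw [inv_iff_map_le, Submodule.map_sup, ← Submodule.map_comp, ← Module.End.mul_eq_comp, ← pow_two,
    hz]
  refine sup_le le_sup_right (le_sup_left.trans' ?_)
  rintro _ ⟨v, hv, rfl⟩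
  exact U.smul_mem z hv

theorem RSum.swp {c e : ℕ} (h : RSum P (Swp P f c) e T) : Swp P f (e * c) T :=
  h.induction (C := fun e T => Swp P f (e * c) T) ⟨⊥, nondeg_bot, by simp, by simp, by simp⟩ (by
    rintro e _ _ - ⟨U', h1, h2, h3, rfl⟩ - h4 ⟨U, h5, h6, h7, rfl⟩
    have h8 := le_perp_mono h4 le_sup_left le_sup_left
    refine ⟨U ⊔ U', nondeg_sup h5 h1 h8, by rw [finrank_sup_orth h5 h8, h6, h2]; ring, ?_,
      by rw [Submodule.map_sup, sup_sup_sup_comm]⟩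
    rw [Submodule.map_sup]
    exact sup_le (le_perp_sup h7 (P.le_perp_comm.mp (le_perp_mono h4 le_sup_right le_sup_left)))
      (le_perp_sup (le_perp_mono h4 le_sup_left le_sup_right) h3))

theorem Swp.odec (hP : P.B.SeparatingLeft) (hf : Iso P f) {z : F} (hz0 : z ≠ 0)
    (hz : f ^ 2 = z • 1) {c : ℕ} (hc : 0 < c) (h : Swp P f c B) : ODec P f c B 2 := by
  have h0 := h.finrank_eq hP hf
  obtain ⟨U, h1, h2, h3, rfl⟩ := h
  have h4 : ((Finset.range 2).sup fun k => U.map (f ^ k)) = U ⊔ U.map f := by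
    simp [Finset.range_add_one, sup_comm, Module.End.one_eq_id]
  rw [← h4] at h0 ⊢
  refine Dec.cycle two_ne_zero hz0 hz h2 hc h0 (fun k => (hf.pow k).nondeg_map h1)
    fun k hk l hl hne => ?_
  interval_cases k <;> interval_cases l <;>
    simp_all [Module.End.one_eq_id, P.le_perp_comm.mp h3]

theorem odec_of_swp (hP : P.B.SeparatingLeft) (hf : Iso P f) {z : F} (hz0 : z ≠ 0)
    (hz : f ^ 2 = z • 1) {c b : ℕ} (hc : 0 < c) (hb : 0 < b) (t : ℕ) : ∀ A B T T',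
    RSum P (fun B => Inv f B ∧ finrank F B = c) A T → RSum P (Swp P f c) B T' → T' ≤ P.perp T →
    A + 2 * B = b * t → ODec P f (b * c) (T ⊔ T') t := by
  induction t using Nat.strong_induction_on with
  | _ t ih =>
  intro A B T T' h1 h2 ho he
  rcases t with _ | t
  · obtain ⟨rfl, rfl⟩ : A = 0 ∧ B = 0 := by omega
    rw [h1.eq_bot, h2.eq_bot, sup_idem]; exact Dec.bot
  rcases le_or_gt b B with hB | hB
  · obtain ⟨B, rfl⟩ := Nat.exists_eq_add_of_le hB
    obtain ⟨T₁, T₂, h3, h4, h5, rfl⟩ := h2.split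
    rcases t with _ | t
    · omega
    have h6 := (h3.swp.odec hP hf hz0 hz (Nat.mul_pos hb hc)).add'
      (ih t (by omega) A B T T₂ h1 h4 (le_sup_right.trans ho) (by linarith)) (Nat.mul_pos hb hc)
      h3.nondeg (sup_le (P.le_perp_comm.mp (le_sup_left.trans ho)) h5)
    rwa [sup_left_comm, add_comm] at h6
  obtain ⟨k, A', B', rfl, rfl, h7⟩ : ∃ k A' B', A = (b - 2 * k) + A' ∧ B = k + B' ∧ 2 * k ≤ b := by
    refine ⟨min B (b / 2), A - (b - 2 * min B (b / 2)), B - min B (b / 2), ?_, by omega, by omega⟩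
    rcases t with _ | t
    · omega
    · have : b * (t + 1 + 1) = b * t + 2 * b := by ring
      omega
  obtain ⟨T₁, T₂, h3, h4, h5, rfl⟩ := h2.split
  obtain ⟨T₃, T₄, h8, h9, h10, rfl⟩ := h1.split
  have h11 := le_perp_mono ho le_sup_left le_sup_left
  have h12 := nondeg_sup h8.nondeg h3.nondeg h11
  have h6 := ODec.add' (Dec.single (hf.injective hP) ((h8.inv fun _ h => h.1).sup
    (h3.inv fun _ h => h.inv hz)) (a := b * c) (by
      rw [finrank_sup_orth h8.nondeg h11, h8.finrank_eq fun _ h => h.2,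
        h3.finrank_eq fun _ h => h.finrank_eq hP hf, ← mul_assoc, ← add_mul]
      congr 1; omega) h12)
    (ih t (by omega) A' B' T₄ T₂ h9 h4 (le_perp_mono ho le_sup_right le_sup_right) (by
      rw [mul_add b t 1] at he; omega)) (Nat.mul_pos hb hc) h12 (sup_le (le_perp_sup h10
        (P.le_perp_comm.mp (le_perp_mono ho le_sup_right le_sup_left)))
      (le_perp_sup (le_perp_mono ho le_sup_left le_sup_right) h5))
  rwa [sup_sup_sup_comm, add_comm] at h6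

section Shape

variable {r : ℕ} [hr : Fact r.Prime]

theorem exists_inv_totSing_add (hr0 : (r : F) ≠ 0) (hf : Iso P f) (h : HasTS P (fixS f) k)
    (hU : P.TotSing U) (hUf : Inv f U) (hle : U ≤ movS r f) :
    ∃ W : Submodule F V, finrank F W = k + finrank F U ∧ P.TotSing W ∧ Inv f W := by
  obtain ⟨X, h1, h2, rfl⟩ := h
  exact ⟨X ⊔ U, finrank_sup_of_disjoint ((disjoint_fixS_movS hr0 f).mono h1 hle),
    totSing_sup h2 hU (le_perp_mono (movS_le_perp hr0 hf) h1 hle), (inv_of_le_fixS h1).sup hUf⟩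

variable [Fintype F] {j c : ℕ}

theorem SS.ts_shape (H : SS P r j c) (hf : Iso P f) (h : f ^ r = 1) :
    ∃ T a, finrank F (movS r f) = (2 * T + a) * j ∧ a * j ≤ r - 1 ∧ (c = 2 * j → a = 0) ∧
      ∀ t ≤ T, ∀ u, HasTS P (fixS f) u →
        ∃ W : Submodule F V, finrank F W = u + t * j ∧ P.TotSing W ∧ Inv f W := by
  obtain ⟨T, a, h1, h2, h3, h4⟩ := H.exists_totSing hf h (nondeg_movS H.sep H.ord.ne hf h)
    (inv_movS r f) le_rfl
  refine ⟨T, a, h1, h2, h3, fun t ht u hu => ?_⟩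
  obtain ⟨U, h5, h6, h7, h8⟩ := h4 t ht
  exact h8 ▸ exists_inv_totSing_add H.ord.ne hf hu h7 h6 h5

theorem SS.ts_bound (H : SS P r j c) {e : ℕ} (hT : RSum P (Blk P r c) e T) :
    ∃ f, Mov P r T f ∧ ∀ W, P.TotSing W → Inv f W → ∃ u t, finrank F W = u + t * j ∧
      HasTS P (P.perp T) u ∧ 2 * (t * j) ≤ e * c ∧
      (c = j → t = 0 ∨ 2 * t + (r - 1) / j ≤ e + 1) := by
  have hj := H.ord.pos
  obtain ⟨f, hf, h1⟩ : ∃ f, Mov P r T f ∧ (c = j → ∀ W ≤ T, Inv f W → W ≤ P.perp W →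
      ∃ t, finrank F W = t * j ∧ (t = 0 ∨ 2 * t + (r - 1) / j ≤ e + 1)) := by
    rcases eq_or_ne c j with rfl | h
    · exact (hT.exists_mov_aniso H.ord H.sep).imp fun _ h => ⟨h.1, fun _ => h.2⟩
    · exact (hT.exists_mov H.sep).imp fun _ h' => ⟨h', fun h' => absurd h' h⟩
  refine ⟨f, hf, fun W hW hWf => ?_⟩
  obtain ⟨t, h2, h3⟩ := finrank_inv_shape H.ord hf.2.1 hWf
  have h4 := hf.movS_eq H.sep H.ord.ne
  have h5 := (totSing_mono hW (inf_le_left (b := movS r f))).le_perp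
  refine ⟨_, t, h3, ⟨_, hf.fixS_eq H.sep H.ord.ne ▸ inf_le_right, totSing_mono hW inf_le_left, rfl⟩,
    ?_, fun hc => ?_⟩
  · rw [← h2, ← hT.finrank_eq fun _ h => h.1]
    exact two_mul_finrank_le H.sep hT.nondeg (h4 ▸ inf_le_right) h5
  · obtain ⟨t', h6, h7⟩ := h1 hc _ (h4 ▸ inf_le_right) (hWf.inf (inv_movS r f)) h5
    rwa [Nat.eq_of_mul_eq_mul_right hj (h2.symm.trans h6)]

theorem SS.nd_shape (H : SS P r j c) (hf : Iso P f) (h : f ^ r = 1) (hW : P.Nondeg W)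
    (hWf : Inv f W) : ∃ t, finrank F ↥(W ⊓ movS r f) = t * c ∧
      finrank F W = finrank F ↥(W ⊓ fixS f) + t * c := by
  obtain ⟨t, ht⟩ := H.dvd hf h (nondeg_inf_movS H.ord.ne hf h hW hWf) (hWf.inf (inv_movS r f))
    inf_le_right
  exact ⟨t, ht, ht ▸ finrank_eq_fix_add_mov H.ord.ne h hWf⟩

theorem SS.le_fixS (H : SS P r j c) (hf : Iso P f) (h : f ^ r = 1) (hW : P.Nondeg W)
    (hWf : Inv f W) (hlt : finrank F W < c) : W ≤ fixS f := by
  obtain ⟨t, -, h2⟩ := H.nd_shape hf h hW hWf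
  rcases t with _ | t
  · exact inf_eq_left.mp (Submodule.eq_of_le_of_finrank_eq inf_le_left (by omega))
  · rw [add_mul] at h2; omega

theorem le_fixS_of_lt (H : Ord F r j) (h : f ^ r = 1) (hWf : Inv f W) (hlt : finrank F W < j) :
    W ≤ fixS f := by
  obtain ⟨t, -, h2⟩ := finrank_inv_shape H h hWf
  rcases t with _ | t
  · exact inf_eq_left.mp (Submodule.eq_of_le_of_finrank_eq inf_le_left (by omega))
  · rw [add_mul] at h2; omega

theorem SS.fix_shape (H : SS P r j c) (hf : Iso P f) (h : f ^ r = 1) :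
    ∃ e, finrank F (movS r f) = e * c ∧ finrank F V = finrank F (fixS f) + e * c := by
  have := H.nd_shape hf h (nondeg_top H.sep) Inv.top
  rwa [top_inf_eq, top_inf_eq, finrank_top] at this

end Shape

end H99
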