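import Cfsg.Agent.Lib.Elusive.Form2

/-!
Transitivity on orthogonal decompositions; invariant pairs of maximal totally singular subspaces.
-/

set_option autoImplicit false

namespace H99

open Module H28 Polynomial Pointwise

variable {F V : Type*} [Field F] [AddCommGroup V] [Module F V] {σ : F →+* F} {P : PQ F V σ}
  {f g : V →ₗ[F] V} {W U N T B M H : Submodule F V} {k l : ℕ}

theorem isoOn_iSup {ι : Type*} {D : ι → Submodule F V} (h : ∀ j, IsoOn P f (D j))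
    (hc : ∀ j j', j ≠ j' → ∀ x ∈ D j, ∀ y ∈ D j', P.B (f x) (f y) = P.B x y) :
    IsoOn P f (iSup D) := by
  have h1 : ∀ x ∈ iSup D, ∀ y ∈ iSup D, P.B (f x) (f y) = P.B x y := fun x hx y hy => by
    induction hx using Submodule.iSup_induction' with
    | mem j x hx =>
      induction hy using Submodule.iSup_induction' with
      | mem j' y hy =>
        rcases eq_or_ne j j' with rfl | hne
        exacts [(h j).B x hx y hy, hc j j' hne x hx y hy]
      | zero => simp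
      | add y z _ _ h1 h2 => simp [h1, h2]
    | zero => simp
    | add y z _ _ h1 h2 => simp [h1, h2]
  refine ⟨h1, fun x hx => ?_⟩
  induction hx using Submodule.iSup_induction' with
  | mem j x hx => exact (h j).q x hx
  | zero => simp
  | add a b ha hb h2 h3 =>
    have := P.Λ.sub_mem (P.Λ.add_mem (P.Λ.add_mem (P.q_add (f a) (f b)) h2) h3) (P.q_add a b)
    rw [h1 a ha b hb] at this
    rw [map_add]
    convert this using 1; ring

theorem commute_aeval_of (h : Commute g f) (p : F[X]) : Commute g (aeval f p) := by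
  induction p using Polynomial.induction_on' with
  | add p q hp hq => rw [map_add]; exact hp.add_right hq
  | monomial n a =>
    rw [aeval_monomial]
    exact (Algebra.commute_algebraMap_right a g).mul_right (h.pow_right n)

/-- The common fixed space of a group of automorphisms. -/
noncomputable def cfix (S : Subgroup (V ≃ₗ[F] V)) : Submodule F V :=
  ⨅ g ∈ S, fixS (g : V →ₗ[F] V)

theorem mem_cfix {S : Subgroup (V ≃ₗ[F] V)} {v : V} : v ∈ cfix S ↔ ∀ g ∈ S, g v = v := by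
  simp [cfix, mem_fixS]

variable [FiniteDimensional F V]

omit [FiniteDimensional F V] in
theorem exists_isom_dec {ι : Type*} [Finite ι] {D D' : ι → Submodule F V} (hD : iSupIndep D)
    (hD1 : iSup D = ⊤) (hD' : iSupIndep D') (hD1' : iSup D' = ⊤)
    (ho : ∀ j j', j ≠ j' → D j' ≤ P.perp (D j)) (ho' : ∀ j j', j ≠ j' → D' j' ≤ P.perp (D' j))
    (hc : ∀ j, Cj P (D j) (D' j)) : ∃ g ∈ P.Isom, g • D = D' := by
  choose x hx hx' using hc
  obtain ⟨g, hg⟩ := exists_equiv_map_eq hD hD1 hD' hD1' fun j =>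
    LinearEquiv.ofSubmodules (x j) (D j) (D' j) (hx' j)
  have h1 : ∀ j, ∀ v ∈ D j, g v = x j v := fun j v hv => hg j ⟨v, hv⟩
  have h2 : ∀ j, ∀ v ∈ D j, g v ∈ D' j := fun j v hv => h1 j v hv ▸ hx' j ▸ ⟨v, hv, rfl⟩
  refine ⟨g, Iso.mem (IsoOn.iso (hD1 ▸ isoOn_iSup
    (fun j => ((Iso.of_mem (hx j)).isoOn _).congr (h1 j)) fun j j' hne u hu v hv => ?_)),
    funext fun j => (map_congr (h1 j)).trans (hx' j)⟩
  rw [ho j j' hne hv u hu]
  exact ho' j j' hne (h2 j' v hv) _ (h2 j u hu)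

theorem exists_isom_pair_fix (hP : P.B.SeparatingLeft) {U' : Submodule F V} (hT : U ⊔ W = ⊤)
    (hT' : U ⊔ U' = ⊤) (hU : P.TotSing U) (hW : P.TotSing W) (hU' : P.TotSing U') :
    ∃ g ∈ P.Isom, (∀ u ∈ U, g u = u) ∧ W.map (g : V →ₗ[F] V) = U' := by
  obtain ⟨g, hg, h1, h2⟩ := exists_isom_pair hP (hT ▸ nondeg_top hP) hU hW (hT' ▸ nondeg_top hP)
    hU hU' rfl
  obtain ⟨h, h3, -, h4, h5⟩ := exists_levi hP (hT' ▸ nondeg_top hP) hU hU'
    (g := (g.symm : V →ₗ[F] V)) (g' := g) (fun u hu => by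
      obtain ⟨v, hv, rfl⟩ := h1.ge hu
      simpa using hv) (by simp)
  obtain ⟨h, h6, rfl⟩ := h3.exists_equiv hP
  refine ⟨h * g, P.Isom.mul_mem h6 hg, fun u hu => ?_, ?_⟩
  · simpa using h4 (g u) (h1.le ⟨u, hu, rfl⟩)
  · rw [LinearEquiv.coe_toLinearMap_mul, Module.End.mul_eq_comp, Submodule.map_comp, h2,
      h5.map_eq h.injective]

variable {r : ℕ} [hr : Fact r.Prime]

theorem not_dvd_card_compl [Finite F] (hP : P.B.SeparatingLeft) (hr0 : (r : F) ≠ 0)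
    (hU : P.TotSing U) (h2 : 2 * finrank F U = finrank F V) :
    ¬ r ∣ Nat.card {W : Submodule F V // P.TotSing W ∧ U ⊔ W = ⊤} := by
  obtain ⟨p, hp, hc⟩ : ∃ p, p.Prime ∧ CharP F p :=
    ⟨ringChar F, CharP.char_is_prime F _, ringChar.charP F⟩
  have := Fact.mk hp
  have := finite_equiv F V
  obtain ⟨W, -, hW, h3⟩ := exists_hyp_double (nondeg_top hP) le_top hU
  have h4 : U ⊔ W = ⊤ := Submodule.eq_top_of_finrank_eq
    ((half_of_sup hP h3 hU.le_perp hW.le_perp).1.trans h2)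
  have h5 : IsPGroup p ↥(P.Isom ⊓ fixSet F (U : Set V)) := fun g => ⟨1, Subtype.ext
    (LinearEquiv.toLinearMap_injective (by
      have h5 : ∀ v, g.1 v - v ∈ U := fun v => by
        have := inf_perp_eq_of_half hP (nondeg_top hP) le_top hU.le_perp (by rwa [finrank_top])
        exact this.le ⟨trivial, fun u hu => by
          rw [map_sub, ← g.2.1.1 u v, g.2.2 u hu, sub_self]⟩
      have h6 : ((g.1 : V →ₗ[F] V) - 1) ^ 2 = 0 := LinearMap.ext fun v => by
        simpa [pow_two, sub_eq_zero] using g.2.2 _ (h5 v)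
      have h7 := sub_one_pow_char (p := p) (g.1 : V →ₗ[F] V)
      rw [pow_eq_zero_of_le hp.two_le h6] at h7
      rw [pow_one, Subgroup.coe_pow, coe_equiv_pow, sub_eq_zero.mp h7.symm]; rfl))⟩
  obtain ⟨n, hn⟩ := h5.exists_card_eq
  intro h
  have h6 := h.trans (card_dvd_card_of_trans (P.Isom ⊓ fixSet F (U : Set V))
    (fun W : Submodule F V => P.TotSing W ∧ U ⊔ W = ⊤) (fun g hg W h => ⟨h.1.map hg.1, by
      rw [← smul_eq_of_fix hg.2, smul_submodule_eq, smul_submodule_eq, ← Submodule.map_sup, h.2,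
        Submodule.map_top, LinearEquiv.range]⟩) ⟨hW, h4⟩ fun W' h => by
      obtain ⟨g, h7, h8, h9⟩ := exists_isom_pair_fix hP h4 h.2 hU hW h.1
      exact ⟨g, ⟨h7, h8⟩, h9⟩)
  rw [hn] at h6
  exact hr0 ((Nat.prime_dvd_prime_iff_eq hr.out hp).mp (hr.out.dvd_of_dvd_pow h6) ▸
    CharP.cast_eq_zero F p)

theorem NSD.exists_half (hs : NSD P r) (hP : P.B.SeparatingLeft) (hr0 : (r : F) ≠ 0)
    (hf : Iso P f) (h : f ^ r = 1) (G : Set (V →ₗ[F] V)) (hG : ∀ g ∈ G, Iso P g ∧ Commute g f) :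
    ∃ U ≤ movS r f, P.TotSing U ∧ 2 * finrank F U = finrank F (movS r f) ∧ ∀ g ∈ G, Inv g U := by
  obtain ⟨U, ⟨h1, h2, h3, h4⟩, h5⟩ := exists_max_finrank (fun U => U ≤ movS r f ∧ P.TotSing U ∧
    Inv f U ∧ ∀ g ∈ G, Inv g U) ⟨⊥, bot_le, totSing_bot, Inv.bot, fun _ _ => Inv.bot⟩
  refine ⟨U, h1, h2, ?_, h4⟩
  have hN := nondeg_movS hP hr0 hf h
  have hK := (inv_movS r f).inf (hf.inv_perp hP h3)
  obtain ⟨K, h6, h7, h8, h9⟩ := exists_inv_compl (isSemisimple_of_pow_eq_one hr0 h) h3 hK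
    (le_inf h1 h2.le_perp)
  have h10 := finrank_compl h8 h9
  have h11 := finrank_inf_perp hP hN h1
  by_contra h12
  obtain ⟨k, hi, hd, v, hv, hv0, hkv⟩ := exists_irreducible_ker (cyclotomic_ne_zero r F) h6
    (ne_bot_of_finrank (by omega)) fun w hw => (h7 hw).1
  have h13 := hK.inf (inv_ker_aeval f k)
  have h14 := h5 (U ⊔ (movS r f ⊓ P.perp U ⊓ LinearMap.ker (aeval f k)))
    ⟨sup_le h1 (inf_le_left.trans inf_le_left), totSing_sup h2 (totSing_of_mov hr0 hf h13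
      (inf_le_left.trans inf_le_left) fun y hy x hx => hs f hf h k hi hd x y hx.2 hy.2)
      (inf_le_left.trans inf_le_right), h3.sup h13, fun g hg => (h4 g hg).sup
        (((Inv.ker_of_commute (commute_aeval_of (hG g hg).2 _)).inf
          ((hG g hg).1.inv_perp hP (h4 g hg))).inf
            (Inv.ker_of_commute (commute_aeval_of (hG g hg).2 _)))⟩
  have h15 := Submodule.eq_of_le_of_finrank_le le_sup_left h14
  exact hv0 (Submodule.disjoint_def.mp h8 v (h15 ▸ Submodule.mem_sup_right ⟨h7 hv, hkv⟩) hv)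

theorem exists_reduce [Finite F] (hP : P.B.SeparatingLeft) (hr0 : (r : F) ≠ 0)
    (S : Subgroup (V ≃ₗ[F] V)) (hS : S ≤ P.Isom) (hp : IsPGroup r S) [Nontrivial S] :
    ∃ z ∈ S, (z : V →ₗ[F] V) ^ r = 1 ∧ (∀ g ∈ S, Commute (g : V →ₗ[F] V) z) ∧
      ∃ S' ≤ P.Isom, IsPGroup r S' ∧ Nat.card S' < Nat.card S ∧
        (∀ h ∈ S', Supp P (h : V →ₗ[F] V) (fixS (z : V →ₗ[F] V)) ∧
          ∃ g ∈ S, ∀ v ∈ fixS (z : V →ₗ[F] V), h v = g v) ∧
        ∀ g ∈ S, ∃ h ∈ S', ∀ v ∈ fixS (z : V →ₗ[F] V), h v = g v := by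
  have := finite_equiv F V
  have := hp.center_nontrivial
  obtain ⟨k, hk0, hk⟩ := (hp.to_subgroup (Subgroup.center S)).nontrivial_iff_card.mp this
  obtain ⟨z, hz, hz1, hz2⟩ := exists_orderOf_of_dvd (r := r) (Subgroup.center S)
    (hk ▸ dvd_pow_self r hk0.ne')
  have hzi := Iso.of_mem (hS z.2)
  have hzr : (z.1 : V →ₗ[F] V) ^ r = 1 := coe_pow_eq_one (congrArg Subtype.val hz1)
  have hC := nondeg_fixS hP hr0 hzi hzr
  have hcomm : ∀ g ∈ S, Commute (g : V →ₗ[F] V) z.1 := fun g hg =>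
    congrArg (fun g : S => (g.1 : V →ₗ[F] V)) (Subgroup.mem_center_iff.mp hz ⟨g, hg⟩)
  have hinv : ∀ g : S, Inv (g.1 : V →ₗ[F] V) (fixS (z.1 : V →ₗ[F] V)) := fun g =>
    Inv.ker_of_commute (commute_aeval_of (hcomm g g.2) _)
  have : ∀ g : S, ∃ h ∈ P.Isom, Supp P (h : V →ₗ[F] V) (fixS (z.1 : V →ₗ[F] V)) ∧
      ∀ v ∈ fixS (z.1 : V →ₗ[F] V), h v = g.1 v := fun g => by
    obtain ⟨h, h1, h2⟩ := exists_restrict hC ((Iso.of_mem (hS g.2)).isoOn _) (hinv g)
    obtain ⟨h, h3, rfl⟩ := h1.exists_equiv hP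
    exact ⟨h, h3, h2⟩
  choose ρ h1 h2 h3 using this
  let φ : S →* (V ≃ₗ[F] V) := MonoidHom.mk' ρ fun a b => LinearEquiv.toLinearMap_injective
    (ext_perp hC (fun v hv => by
      change ρ (a * b) v = ρ a (ρ b v)
      rw [h3 _ v hv, h3 b v hv]; exact (h3 a _ (hinv b v hv)).symm) fun v hv =>
      (h2 _ v hv).trans (((h2 a).mul (h2 b)) v hv).symm)
  have h4 : z ∈ φ.ker := LinearEquiv.toLinearMap_injective
    (ext_perp hC (fun v hv => (h3 z v hv).trans (mem_fixS.mp hv)) (h2 z))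
  refine ⟨z, z.2, hzr, hcomm, φ.range, by rintro _ ⟨g, rfl⟩; exact h1 g,
    hp.of_surjective _ φ.rangeRestrict_surjective, ?_,
    by rintro _ ⟨g, rfl⟩; exact ⟨h2 g, g, g.2, h3 g⟩,
    fun g hg => ⟨_, ⟨⟨g, hg⟩, rfl⟩, h3 ⟨g, hg⟩⟩⟩
  have h5 := φ.ker.index_mul_card
  rw [Subgroup.index_ker] at h5
  have h6 : 1 < Nat.card φ.ker := Finite.one_lt_card_iff_nontrivial.mpr
    ⟨⟨z, h4⟩, 1, fun h => hz2 (congrArg Subtype.val h)⟩
  have h7 : 0 < Nat.card φ.range := Nat.card_pos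
  nlinarith

theorem NSD.exists_half_group [Finite F] (hs : NSD P r) (hP : P.B.SeparatingLeft)
    (hr0 : (r : F) ≠ 0) (S : Subgroup (V ≃ₗ[F] V)) (hS : S ≤ P.Isom) (hp : IsPGroup r S) :
    ∃ U ≤ P.perp (cfix S), P.TotSing U ∧ 2 * finrank F U + finrank F (cfix S) = finrank F V ∧
      ∀ g ∈ S, Inv (g : V →ₗ[F] V) U := by
  induction hn : Nat.card S using Nat.strong_induction_on generalizing S with
  | _ n ih =>
  rcases subsingleton_or_nontrivial S with h0 | h0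
  · have : cfix S = ⊤ := eq_top_iff.mpr fun v _ => mem_cfix.mpr fun g hg => by
      rw [show g = 1 from congrArg Subtype.val (Subsingleton.elim (⟨g, hg⟩ : S) 1)]; rfl
    exact ⟨⊥, bot_le, totSing_bot, by rw [this]; simp, fun _ _ => Inv.bot⟩
  obtain ⟨z, hz, hzr, hc, S', h1, h2, h3, h4, h5⟩ := exists_reduce hP hr0 S hS hp
  obtain ⟨U, h6, h7, h8, h9⟩ := ih _ (hn ▸ h3) S' h1 h2 rfl
  have hzi := Iso.of_mem (hS hz)
  obtain ⟨U', h10, h11, h12, h13⟩ := hs.exists_half hP hr0 hzi hzr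
    ((fun g : V ≃ₗ[F] V => (g : V →ₗ[F] V)) '' S)
    (by rintro _ ⟨g, hg, rfl⟩; exact ⟨Iso.of_mem (hS hg), hc g hg⟩)
  have h14 : movS r (z : V →ₗ[F] V) ≤ cfix S' := fun v hv => mem_cfix.mpr fun h hh =>
    (h4 h hh).1 v (movS_le_perp hr0 hzi hv)
  have h15 : cfix S' ⊓ fixS (z : V →ₗ[F] V) = cfix S := le_antisymm
    (fun v hv => mem_cfix.mpr fun g hg => by
      obtain ⟨h, h15, h16⟩ := h5 g hg
      rw [← h16 v hv.2, mem_cfix.mp hv.1 h h15]) fun v hv =>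
    have h16 := mem_fixS.mpr (mem_cfix.mp hv z hz)
    ⟨mem_cfix.mpr fun h hh => by
      obtain ⟨g, h17, h18⟩ := (h4 h hh).2
      rw [h18 v h16, mem_cfix.mp hv g h17], h16⟩
  have h16 := finrank_inf_perp' (nondeg_movS hP hr0 hzi hzr) h14
  rw [perp_movS hP hr0 hzi hzr, h15] at h16
  have h17 : U ≤ fixS (z : V →ₗ[F] V) := perp_movS hP hr0 hzi hzr ▸ h6.trans (P.perp_anti h14)
  refine ⟨U ⊔ U', sup_le (h6.trans (P.perp_anti (h15 ▸ inf_le_left))) (le_perp_mono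
    (movS_le_perp hr0 hzi) (h15 ▸ inf_le_right) h10), totSing_sup h7 h11
      (le_perp_mono (movS_le_perp hr0 hzi) h17 h10), ?_, fun g hg =>
    Inv.sup ?_ (h13 _ ⟨g, hg, rfl⟩)⟩
  · rw [finrank_sup_of_disjoint ((disjoint_fixS_movS hr0 _).mono h17 h10)]; omega
  · obtain ⟨h, h18, h19⟩ := h5 g hg
    exact (h9 h h18).congr fun v hv => (h19 v (h17 hv)).symm

theorem NSD.exists_fixed_pair [Finite F] (hs : NSD P r) (hP : P.B.SeparatingLeft)
    (hr0 : (r : F) ≠ 0) (hV : Hyp P ⊤) (S : Subgroup (V ≃ₗ[F] V)) (hS : S ≤ P.Isom)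
    (hp : IsPGroup r S) : ∃ U W, P.TotSing U ∧ P.TotSing W ∧ U ⊔ W = ⊤ ∧
      ∀ g ∈ S, g • U = U ∧ g • W = W := by
  obtain ⟨U, h1, h2, h3, h4⟩ := hs.exists_half_group hP hr0 S hS hp
  obtain ⟨f, h5, h6, h7⟩ := exists_fixS_eq hP hr0 S hS hp
  have h8 : P.Nondeg (cfix S) :=
    (Submodule.ext fun v => (h7 v).trans mem_cfix.symm : fixS f = cfix S) ▸ nondeg_fixS hP hr0 h5 h6
  have h9 := P.finrank_perp_add hP (cfix S)
  have h10 : Hyp P (P.perp (cfix S)) := ⟨h8.perp hP, U, h1, h2, by omega⟩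
  obtain ⟨-, U', h11, h12, h13⟩ := Hyp.cancel hP (M := cfix S)
    (by rwa [h8.isCompl.symm.sup_eq_top]) h10 (P.le_perp_perp _)
  have h14 : ∀ g ∈ S, g • (U' ⊔ U) = U' ⊔ U := fun g hg =>
    ((Inv.of_le_fix fun v hv => mem_cfix.mp (h11 hv) g hg).sup (h4 g hg)).map_eq g.injective
  have h15 := totSing_sup h12 h2 (le_perp_mono h1 h11 le_rfl)
  obtain ⟨W, h16, h17⟩ := exists_fixed_of_not_dvd hp
    (fun W : Submodule F V => P.TotSing W ∧ (U' ⊔ U) ⊔ W = ⊤) (fun g hg W h => ⟨h.1.map (hS hg), by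
      rw [← h14 g hg, smul_submodule_eq, smul_submodule_eq, ← Submodule.map_sup, h.2,
        Submodule.map_top, LinearEquiv.range]⟩) (not_dvd_card_compl hP hr0 h15 (by
      rw [finrank_sup_of_disjoint ((nondeg_disjoint h8 h1).mono_left h11)]; omega))
  exact ⟨_, W, h15, h16.1, h16.2, fun g hg => ⟨h14 g hg, h17 g hg⟩⟩

/-- Ordered pairs of complementary totally singular subspaces. -/
abbrev TSPair (P : PQ F V σ) (x : Submodule F V × Submodule F V) : Prop :=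
  IsCompl x.1 x.2 ∧ P.TotSing x.1 ∧ P.TotSing x.2

omit hr in
theorem tsPair_of_sup (hP : P.B.SeparatingLeft) (hU : P.TotSing U) (hW : P.TotSing W)
    (h : U ⊔ W = ⊤) : TSPair P (U, W) :=
  ⟨⟨(half_of_sup hP (h ▸ nondeg_top hP) hU.le_perp hW.le_perp).2.2, codisjoint_iff.mpr h⟩, hU, hW⟩

omit hr [FiniteDimensional F V] in
theorem TSPair.smul {x : Submodule F V × Submodule F V} (h : TSPair P x) {g : V ≃ₗ[F] V}
    (hg : g ∈ P.Isom) : TSPair P (g • x) :=
  ⟨(Submodule.orderIsoMapComap g).isCompl h.1, h.2.1.map hg, h.2.2.map hg⟩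

omit hr in
theorem TSPair.trans (hP : P.B.SeparatingLeft) {x y : Submodule F V × Submodule F V}
    (h : TSPair P x) (h' : TSPair P y) : ∃ g ∈ P.Isom, g • x = y := by
  have h1 := h.1.sup_eq_top ▸ nondeg_top hP
  have h2 := h'.1.sup_eq_top ▸ nondeg_top hP
  have h3 := (half_of_sup hP h1 h.2.1.le_perp h.2.2.le_perp).1
  have h4 := (half_of_sup hP h2 h'.2.1.le_perp h'.2.2.le_perp).1
  rw [h.1.sup_eq_top] at h3
  rw [h'.1.sup_eq_top] at h4
  obtain ⟨g, hg, h5, h6⟩ := exists_isom_pair hP h1 h.2.1 h.2.2 h2 h'.2.1 h'.2.2 (by omega)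
  exact ⟨g, hg, Prod.ext h5 h6⟩

theorem NSD.not_dvd_card_pairs [Finite F] (hs : NSD P r) (hP : P.B.SeparatingLeft)
    (hr0 : (r : F) ≠ 0) (hV : Hyp P ⊤) : ¬ r ∣ Nat.card {x // TSPair P x} := by
  have := finite_equiv F V
  refine not_dvd_card_of_fixed P.Isom (TSPair P) (fun g hg x h => h.smul hg)
    (fun x y h h' => h.trans hP h') fun S hS hp => ?_
  obtain ⟨U, W, h1, h2, h3, h4⟩ := hs.exists_fixed_pair hP hr0 hV S hS hp
  exact ⟨(U, W), tsPair_of_sup hP h1 h2 h3, fun g hg => Prod.ext (h4 g hg).1 (h4 g hg).2⟩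

omit hr [FiniteDimensional F V] in
theorem map_pow_of_swap (h1 : U.map f = W) (h2 : W.map f = U) (k : ℕ) :
    U.map (f ^ (2 * k + 1)) = W := by
  induction k with
  | zero => simpa using h1
  | succ k ih =>
    rw [mul_add, add_right_comm, pow_add, mul_one, pow_two, Module.End.mul_eq_comp,
      Module.End.mul_eq_comp, Submodule.map_comp, Submodule.map_comp, h1, h2, ih]

/-- A single self-dual block leaves no pair of complementary totally isotropic subspaces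
invariant. -/
theorem Blk.not_inv_pair [Fintype F] {j : ℕ} (H : Ord F r j) (hP : P.B.SeparatingLeft)
    (hf : Mov P r B f) (hB : finrank F B = j) (hU : U ≤ P.perp U) (hW : W ≤ P.perp W)
    (h : U ⊔ W = ⊤) (hUf : Inv f U) (hWf : Inv f W) : False := by
  have hj := H.pos
  have h0 := hf.movS_eq hP H.ne
  have h1 : ∀ X : Submodule F V, X ≤ P.perp X → Inv f X → X ≤ fixS f := fun X h1 h2 => by
    have h3 := two_mul_finrank_le hP (hf.nondeg hP H.ne) (h0 ▸ inf_le_right : X ⊓ movS r f ≤ B)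
      (le_perp_mono h1 inf_le_left inf_le_left)
    have h4 := Nat.eq_zero_of_dvd_of_lt (ord_dvd_finrank H (h2.inf (inv_movS r f)) inf_le_right)
      (by omega)
    rw [inv_eq_fix_sup_mov H.ne hf.2.1 h2, eq_bot_of_finrank h4, sup_bot_eq]
    exact inf_le_right
  exact hf.ne_one hP H.ne (ne_bot_of_finrank (by omega))
    (fixS_eq_top_iff.mp (eq_top_iff.mpr (h ▸ sup_le (h1 U hU hUf) (h1 W hW hWf))))

end H99
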