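import Cfsg.Agent.Lib.Elusive.FormSS

/-!
Existence of isometries of prime order with a prescribed moved part, fixed spaces of
`r`-subgroups, and divisibility of orbit sizes.
-/

set_option autoImplicit false

namespace H99

open Module H28 Polynomial Pointwise

variable {F V : Type*} [Field F] [AddCommGroup V] [Module F V] {σ : F →+* F} {P : PQ F V σ}
  {f g : V →ₗ[F] V} {W U N T B : Submodule F V} {r : ℕ} [hr : Fact r.Prime]

omit hr in
theorem conj_aeval (e : V ≃ₗ[F] V) (f : V →ₗ[F] V) (p : F[X]) (v : V) :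
    aeval (e.conj f) p (e v) = e (aeval f p v) := by
  have := congrArg (fun g : V →ₗ[F] V => g (e v)) (aeval_algHom_apply (e.conjAlgEquiv F) f p)
  simp only [LinearEquiv.conjAlgEquiv_apply] at this
  simpa [LinearEquiv.conj_apply, LinearMap.comp_assoc] using this

omit hr in
theorem conj_pow (e : V ≃ₗ[F] V) (f : V →ₗ[F] V) (k : ℕ) (v : V) :
    (e.conj f ^ k) (e v) = e ((f ^ k) v) := by
  simpa using conj_aeval e f (X ^ k) v

omit hr in
theorem Iso.conj {e : V ≃ₗ[F] V} (he : e ∈ P.Isom) (hf : Iso P f) : Iso P (e.conj f) :=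
  ((Iso.of_mem he).mul hf).mul (Iso.of_mem (P.Isom.inv_mem he))

omit hr in
theorem Supp.conj {e : V ≃ₗ[F] V} (he : e ∈ P.Isom) (hf : Supp P f T) :
    Supp P (e.conj f) (T.map (e : V →ₗ[F] V)) := by
  rw [Supp, ← P.map_perp he]
  rintro _ ⟨v, hv, rfl⟩
  simp [hf v hv]

/-- `T` is the moved part of an isometry of order dividing `r`. -/
def Mov (P : PQ F V σ) (r : ℕ) (T : Submodule F V) (f : V →ₗ[F] V) : Prop :=
  Iso P f ∧ f ^ r = 1 ∧ Supp P f T ∧ T ≤ movS r f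

omit hr in
theorem Mov.bot : Mov P r ⊥ 1 := ⟨Iso.one, one_pow _, Supp.one, bot_le⟩

omit hr in
theorem Mov.cj (h : Mov P r T f) (hc : Cj P T U) : ∃ g, Mov P r U g := by
  obtain ⟨e, he, rfl⟩ := hc
  refine ⟨e.conj f, h.1.conj he, LinearMap.ext fun v => ?_, h.2.2.1.conj he, ?_⟩
  · obtain ⟨v, rfl⟩ := e.surjective v
    rw [conj_pow, h.2.1]; rfl
  · rintro _ ⟨v, hv, rfl⟩
    rw [mem_movS, LinearEquiv.coe_coe, conj_aeval, mem_movS.mp (h.2.2.2 hv), map_zero]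

variable [FiniteDimensional F V]

theorem Mov.movS_eq (hP : P.B.SeparatingLeft) (hr0 : (r : F) ≠ 0) (h : Mov P r T f) :
    movS r f = T := H99.movS_eq hP hr0 h.1 h.2.1 h.2.2.1 h.2.2.2

theorem Mov.fixS_eq (hP : P.B.SeparatingLeft) (hr0 : (r : F) ≠ 0) (h : Mov P r T f) :
    fixS f = P.perp T := by rw [← h.movS_eq hP hr0, perp_movS hP hr0 h.1 h.2.1]

theorem Mov.nondeg (hP : P.B.SeparatingLeft) (hr0 : (r : F) ≠ 0) (h : Mov P r T f) :
    P.Nondeg T := h.movS_eq hP hr0 ▸ nondeg_movS hP hr0 h.1 h.2.1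

omit hr in
theorem Mov.inv (hP : P.B.SeparatingLeft) (h : Mov P r T f) : Inv f T := h.2.2.1.inv hP h.1

theorem Mov.ne_one (hP : P.B.SeparatingLeft) (hr0 : (r : F) ≠ 0) (h : Mov P r T f) (hT : T ≠ ⊥) :
    f ≠ 1 := fun h1 => hT (by
  rw [← P.perp_perp hP T, ← h.fixS_eq hP hr0, fixS_eq_top_iff.mpr h1, P.perp_top hP])

theorem mov_movS (hP : P.B.SeparatingLeft) (hr0 : (r : F) ≠ 0) (hf : Iso P f) (h : f ^ r = 1) :
    Mov P r (movS r f) f := ⟨hf, h, supp_movS hP hr0 hf h, le_rfl⟩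

omit hr in
theorem exists_mov_restrict (hf : Iso P f) (h : f ^ r = 1) (hT : P.Nondeg T) (hTf : Inv f T)
    (hle : T ≤ movS r f) : ∃ g, Mov P r T g ∧ ∀ v ∈ T, g v = f v := by
  obtain ⟨g, h1, h2, h3⟩ := exists_restrict hT (hf.isoOn T) hTf
  exact ⟨g, ⟨h1, h2.pow_eq_one hT fun v hv => by rw [pow_congr hTf h3 r v hv, h]; rfl, h2,
    fun v hv => by rw [mem_movS, aeval_congr hTf h3 _ v hv]; exact hle hv⟩, h3⟩

omit hr in
theorem Mov.mul (hP : P.B.SeparatingLeft) (h : Mov P r T f) (h' : Mov P r U g)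
    (hT : P.Nondeg T) (hU : P.Nondeg U) (ho : U ≤ P.perp T) :
    Mov P r (T ⊔ U) (f * g) ∧ (∀ v ∈ T, (f * g) v = f v) ∧ ∀ v ∈ U, (f * g) v = g v := by
  obtain ⟨h1, h2, h3⟩ := supp_mul hP h'.1 h.2.2.1 h'.2.2.1 ho
  refine ⟨⟨h.1.mul h'.1, h1.pow_eq_one (nondeg_sup hT hU ho) fun v hv => ?_, h1, sup_le
    (fun v hv => ?_) fun v hv => ?_⟩, h2, h3⟩
  · simpa using pow_apply_sup (c := 1) (h.inv hP) (h'.inv hP) h2 h3 (by simp [h.2.1])
      (by simp [h'.2.1]) v hv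
  · rw [mem_movS, aeval_congr (h.inv hP) h2 _ v hv]; exact h.2.2.2 hv
  · rw [mem_movS, aeval_congr (h'.inv hP) h3 _ v hv]; exact h'.2.2.2 hv

/-- A subspace of dimension `c` which is the moved part of an element of order `r`. -/
def Blk (P : PQ F V σ) (r c : ℕ) (B : Submodule F V) : Prop :=
  finrank F B = c ∧ ∃ f, Mov P r B f

omit hr [FiniteDimensional F V] in
theorem Blk.cj {c : ℕ} (h : Blk P r c B) (hc : Cj P B U) : Blk P r c U :=
  ⟨hc.finrank_eq ▸ h.1, h.2.elim fun _ h => h.cj hc⟩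

omit hr in
theorem RSum.exists_mov (hP : P.B.SeparatingLeft) {c e : ℕ} (h : RSum P (Blk P r c) e T) :
    ∃ f, Mov P r T f :=
  h.induction (C := fun _ T => ∃ f, Mov P r T f) ⟨1, Mov.bot⟩
    fun _ _ _ h1 ⟨_, _, h2⟩ h3 h4 ⟨_, h5⟩ => ⟨_, (h5.mul hP h2 h1.nondeg h3 h4).1⟩

variable [Fintype F] {j c : ℕ}

theorem SS.exists_blk (H : SS P r j c) (hf : Iso P f) (h : f ^ r = 1) (h1 : f ≠ 1) :
    ∃ B, P.Nondeg B ∧ Blk P r c B := by
  obtain ⟨W, h2, h3, h4, h5⟩ := H.exists_block hf h (nondeg_movS H.sep H.ord.ne hf h)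
    (inv_movS r f) le_rfl (ne_bot_of_finrank (finrank_movS_pos H.ord.ne h h1).ne')
  obtain ⟨g, hg, -⟩ := exists_mov_restrict hf h h4 h3 h2
  exact ⟨W, h4, h5, g, hg⟩

theorem Blk.exists_poly (H : Ord F r j) (hP : P.B.SeparatingLeft) (h : Blk P r j B) {k : F[X]}
    (hi : Irreducible k) (hd : k ∣ cyclotomic r F) :
    ∃ f, Mov P r B f ∧ ∀ v ∈ B, aeval f k v = 0 := by
  obtain ⟨h1, f, hf⟩ := h
  obtain ⟨k₀, hi₀, hd₀, v, hv, hv0, hkv⟩ := exists_irreducible_ker (cyclotomic_ne_zero r F)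
    (hf.inv hP) (ne_bot_of_finrank (h1 ▸ H.pos.ne')) fun w hw => hf.2.2.2 hw
  have h2 : cyc f v = B := Submodule.eq_of_le_of_finrank_eq (cyc_le (hf.inv hP) hv) (by
    rw [finrank_cyc_of_irreducible hi₀ hv0 hkv, H.natDegree_eq hi₀ hd₀, h1])
  obtain ⟨n, q, hq⟩ := exists_dvd_expand H.ne hi₀ hd₀ hi hd
  have h3 : ∀ w ∈ B, aeval (f ^ n) k w = 0 := fun w hw => by
    rw [← expand_aeval, hq, mul_comm, aeval_mul_apply, aeval_cyc hkv w (h2 ▸ hw), map_zero]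
  obtain ⟨q', hq'⟩ := hd
  exact ⟨f ^ n, ⟨hf.1.pow n, by rw [← pow_mul, mul_comm, pow_mul, hf.2.1, one_pow],
    hf.2.2.1.pow n, fun w hw => by
      rw [mem_movS, hq', mul_comm, aeval_mul_apply, h3 w hw, map_zero]⟩, h3⟩

theorem RSum.exists_mov_aux (H : Ord F r j) (hP : P.B.SeparatingLeft) {e : ℕ}
    (h : RSum P (Blk P r j) e T) {k : F[X]} (hi : Irreducible k) (hd : k ∣ cyclotomic r F) :
    ∀ a ≤ e, (a + 1) * j ≤ r - 1 → ∃ f, Mov P r T f ∧ ∃ g : F[X], g ∣ cyclotomic r F ∧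
      g.natDegree = (a + 1) * j ∧ (a = 0 → g = k) ∧ (∀ v ∈ T, aeval f g v = 0) ∧
      ∃ T₁ ≤ T, P.Nondeg T₁ ∧ finrank F T₁ = (e - a) * j ∧
        ∀ W ≤ T, Inv f W → W ≤ P.perp W → W ≤ T₁ := by
  refine h.induction (C := fun e T => ∀ a ≤ e, (a + 1) * j ≤ r - 1 → ∃ f, Mov P r T f ∧
    ∃ g : F[X], g ∣ cyclotomic r F ∧ g.natDegree = (a + 1) * j ∧ (a = 0 → g = k) ∧
      (∀ v ∈ T, aeval f g v = 0) ∧ ∃ T₁ ≤ T, P.Nondeg T₁ ∧ finrank F T₁ = (e - a) * j ∧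
        ∀ W ≤ T, Inv f W → W ≤ P.perp W → W ≤ T₁) ?_ ?_
  · intro a ha _
    obtain rfl := Nat.le_zero.mp ha
    exact ⟨1, Mov.bot, k, hd, by rw [H.natDegree_eq hi hd]; simp, fun _ => rfl, by simp, ⊥, le_rfl,
      nondeg_bot, by simp, fun W h _ _ => h⟩
  intro e T B hT hB hBn ho ih a ha haj
  rcases a with _ | a
  · obtain ⟨f, hf, g, -, h2, h3, h4, -⟩ := ih 0 (Nat.zero_le _) haj
    obtain rfl := h3 rfl
    obtain ⟨f', hf', h5⟩ := hB.exists_poly H hP hi hd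
    obtain ⟨h6, h7, h8⟩ := hf.mul hP hf' hT.nondeg hBn ho
    refine ⟨_, h6, g, hd, h2, fun _ => rfl, fun v hv => ?_, _, le_rfl,
      nondeg_sup hT.nondeg hBn ho, ?_, fun W h _ _ => h⟩
    · obtain ⟨a, ha, b, hb, rfl⟩ := Submodule.mem_sup.mp hv
      rw [map_add, aeval_congr (hf.inv hP) h7 _ a ha, aeval_congr (hf'.inv hP) h8 _ b hb, h4 a ha,
        h5 b hb, add_zero]
    · simpa using (hT.succ hB hBn ho).finrank_eq fun _ h => h.1
  obtain ⟨f, hf, g, ⟨g', hg'⟩, h2, -, h4, T₁, h5, h6, h7, h8⟩ := ih a (by omega)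
    (le_trans (Nat.mul_le_mul_right _ (by omega)) haj)
  have hj := H.pos
  have hne := cyclotomic_ne_zero r F
  have hdeg := natDegree_cyclotomic r F
  rw [Nat.totient_prime hr.out, hg', natDegree_mul (left_ne_zero_of_mul (hg' ▸ hne))
    (right_ne_zero_of_mul (hg' ▸ hne)), h2] at hdeg
  obtain ⟨k', hi', hd'⟩ := WfDvdMonoid.exists_irreducible_factor (a := g')
    (fun hu => by rw [natDegree_eq_zero_of_isUnit hu] at hdeg; nlinarith)
    (right_ne_zero_of_mul (hg' ▸ hne))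
  have hd'' : g * k' ∣ cyclotomic r F := hg' ▸ mul_dvd_mul_left g hd'
  have hco : IsCoprime g k' :=
    (IsRelPrime.of_squarefree_mul ((squarefree_cyclotomic H.ne).squarefree_of_dvd hd'')).isCoprime
  have hk' := (dvd_mul_left k' g).trans hd''
  obtain ⟨f', hf', h9⟩ := hB.exists_poly H hP hi' hk'
  obtain ⟨h10, h11, h12⟩ := hf.mul hP hf' hT.nondeg hBn ho
  have h13 : ∀ v ∈ T, aeval (f * f') g v = 0 := fun v hv => by
    rw [aeval_congr (hf.inv hP) h11 _ v hv, h4 v hv]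
  have h14 : ∀ v ∈ B, aeval (f * f') k' v = 0 := fun v hv => by
    rw [aeval_congr (hf'.inv hP) h12 _ v hv, h9 v hv]
  have h15 : ∀ v ∈ T ⊔ B, aeval (f * f') (g * k') v = 0 := fun v hv => by
    obtain ⟨a, ha, b, hb, rfl⟩ := Submodule.mem_sup.mp hv
    rw [map_add, aeval_mul_apply _ _ _ b, h14 b hb, mul_comm g, aeval_mul_apply, h13 a ha]; simp
  refine ⟨_, h10, g * k', hd'', ?_, by omega, h15, T₁, h5.trans le_sup_left, h6,
    by rw [h7]; simp, fun W hW hWf hWp => ?_⟩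
  · rw [natDegree_mul (left_ne_zero_of_mul (hg' ▸ hne)) hi'.ne_zero, h2, H.natDegree_eq hi' hk']
    ring
  have h16 : W ⊓ LinearMap.ker (aeval (f * f') g) ≤ T := fun v hv => by
    obtain ⟨a, ha, b, hb, rfl⟩ := Submodule.mem_sup.mp (hW hv.1)
    have h17 : aeval (f * f') g b = 0 := by simpa [h13 a ha] using hv.2
    rw [eq_zero_of_coprime hco h17 (h14 b hb), add_zero]; exact ha
  have h17 : W ⊓ LinearMap.ker (aeval (f * f') k') ≤ B := fun v hv => by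
    obtain ⟨a, ha, b, hb, rfl⟩ := Submodule.mem_sup.mp (hW hv.1)
    have h17 : aeval (f * f') k' a = 0 := by simpa [h14 b hb] using hv.2
    rw [eq_zero_of_coprime hco (h13 a ha) h17, zero_add]; exact hb
  have h18 := two_mul_finrank_le hP hBn h17 (le_perp_mono hWp inf_le_left inf_le_left)
  have h19 := ord_dvd_finrank H (hWf.inf (inv_ker_aeval _ k'))
    (h17.trans (le_sup_right.trans h10.2.2.2))
  rw [hB.1] at h18
  have h20 := eq_bot_of_finrank (Nat.eq_zero_of_dvd_of_lt h19 (by omega))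
  have h21 := inv_eq_sup_of_coprime hWf hco fun w hw => h15 w (hW hw)
  rw [h20, sup_bot_eq] at h21
  have h22 : W ≤ T := h21 ▸ h16
  exact h8 W h22 (hWf.congr fun v hv => (h11 v (h22 hv)).symm) hWp

/-- An element with as large an anisotropic part as possible. -/
theorem RSum.exists_mov_aniso (H : Ord F r j) (hP : P.B.SeparatingLeft) {e : ℕ}
    (h : RSum P (Blk P r j) e T) : ∃ f, Mov P r T f ∧ ∀ W ≤ T, Inv f W → W ≤ P.perp W →
      ∃ t, finrank F W = t * j ∧ (t = 0 ∨ 2 * t + (r - 1) / j ≤ e + 1) := by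
  obtain ⟨k, hi, -, hd, -⟩ := H.exists_irreducible
  obtain ⟨s, hs⟩ := H.dvd
  have hj := H.pos
  have hs0 : s ≠ 0 := by rintro rfl; have := hr.out.two_le; omega
  obtain ⟨f, hf, -, -, -, -, -, T₁, -, h1, h2, h3⟩ := h.exists_mov_aux H hP hi hd (min e (s - 1))
    (min_le_left _ _) (by rw [hs, mul_comm]; exact Nat.mul_le_mul_left _ (by omega))
  refine ⟨f, hf, fun W hW hWf hWp => ?_⟩
  obtain ⟨t, ht⟩ := ord_dvd_finrank H hWf (hW.trans hf.2.2.2)
  have h4 := two_mul_finrank_le hP h1 (h3 W hW hWf hWp) hWp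
  rw [h2, ht, mul_left_comm, mul_comm _ j] at h4
  have h5 := Nat.le_of_mul_le_mul_left h4 hj
  refine ⟨t, by rw [ht, mul_comm], ?_⟩
  rw [hs, Nat.mul_div_cancel_left _ hj]
  omega

omit [Fintype F] in
/-- The fixed space of an `r`-subgroup is the fixed space of an element of order `r`. -/
theorem exists_fixS_eq [Finite F] (hP : P.B.SeparatingLeft) (hr0 : (r : F) ≠ 0)
    (S : Subgroup (V ≃ₗ[F] V)) (hS : S ≤ P.Isom) (hp : IsPGroup r S) :
    ∃ f, Iso P f ∧ f ^ r = 1 ∧ ∀ v, v ∈ fixS f ↔ ∀ g ∈ S, g v = v := by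
  have := finite_equiv F V
  induction hn : Nat.card S using Nat.strong_induction_on generalizing S with
  | _ n ih =>
  rcases subsingleton_or_nontrivial S with h0 | h0
  · exact ⟨1, Iso.one, one_pow _, fun v => ⟨fun _ g hg => by
      rw [show g = 1 from congrArg Subtype.val (Subsingleton.elim (⟨g, hg⟩ : S) 1)]; rfl,
      fun _ => mem_fixS.mpr rfl⟩⟩
  have := hp.center_nontrivial
  obtain ⟨k, hk0, hk⟩ := (hp.to_subgroup (Subgroup.center S)).nontrivial_iff_card.mp this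
  obtain ⟨z, hz, hz1, hz2⟩ := exists_orderOf_of_dvd (r := r) (Subgroup.center S)
    (hk ▸ dvd_pow_self r hk0.ne')
  have hzi := Iso.of_mem (hS z.2)
  have hzr : (z.1 : V →ₗ[F] V) ^ r = 1 := coe_pow_eq_one (congrArg Subtype.val hz1)
  have hC := nondeg_fixS hP hr0 hzi hzr
  have hinv : ∀ g : S, Inv (g.1 : V →ₗ[F] V) (fixS (z.1 : V →ₗ[F] V)) := fun g v hv => by
    have := congrArg (fun g : S => g.1 v) (Subgroup.mem_center_iff.mp hz g)
    exact mem_fixS.mpr (this.symm.trans (congrArg g.1 (mem_fixS.mp hv)))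
  have : ∀ g : S, ∃ h ∈ P.Isom, Supp P (h : V →ₗ[F] V) (fixS (z.1 : V →ₗ[F] V)) ∧
      ∀ v ∈ fixS (z.1 : V →ₗ[F] V), h v = g.1 v := fun g => by
    obtain ⟨h, h1, h2⟩ := exists_restrict hC ((Iso.of_mem (hS g.2)).isoOn _) (hinv g)
    obtain ⟨h, h3, rfl⟩ := h1.exists_equiv hP
    exact ⟨h, h3, h2⟩
  choose ρ h1 h2 h3 using this
  let φ : S →* (V ≃ₗ[F] V) := MonoidHom.mk' ρ fun a b => LinearEquiv.toLinearMap_injective
    (ext_perp hC (fun v hv => by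
      change ρ (a * b) v = ρ a (ρ b v)
      rw [h3 _ v hv, h3 b v hv]; exact (h3 a _ (hinv b v hv)).symm) fun v hv =>
      (h2 _ v hv).trans (((h2 a).mul (h2 b)) v hv).symm)
  have h4 : z ∈ φ.ker := LinearEquiv.toLinearMap_injective
    (ext_perp hC (fun v hv => (h3 z v hv).trans (mem_fixS.mp hv)) (h2 z))
  have h5 : Nat.card φ.range < n := by
    have h5 := φ.ker.index_mul_card
    rw [Subgroup.index_ker, hn] at h5
    have h6 : 1 < Nat.card φ.ker := Finite.one_lt_card_iff_nontrivial.mpr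
      ⟨⟨z, h4⟩, 1, fun h => hz2 (congrArg Subtype.val h)⟩
    have h7 : 0 < Nat.card φ.range := Nat.card_pos
    nlinarith
  obtain ⟨y, hy1, hy2, hy3⟩ := ih _ h5 φ.range (by rintro _ ⟨g, rfl⟩; exact h1 g)
    (hp.of_surjective _ φ.rangeRestrict_surjective) rfl
  have hy4 : Supp P y (fixS (z.1 : V →ₗ[F] V)) := fun v hv =>
    mem_fixS.mp ((hy3 v).mpr (by rintro _ ⟨g, rfl⟩; exact h2 g v hv))
  obtain ⟨-, h6, h7⟩ := supp_mul hP hzi hy4 (supp_movS hP hr0 hzi hzr) (movS_le_perp hr0 hzi)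
  refine ⟨y * z.1, hy1.mul hzi, LinearMap.ext fun v => ?_, fun v => ⟨fun hv g hg => ?_,
    fun hv => ?_⟩⟩
  · simpa using pow_apply_sup (c := 1) (hy4.inv hP hy1) (inv_movS r _) h6 h7 (by simp [hy2])
      (by simp [hzr]) v (fixS_sup_movS hr0 hzr ▸ Submodule.mem_top)
  · obtain ⟨a, ha, b, hb, rfl⟩ :=
      Submodule.mem_sup.mp (fixS_sup_movS hr0 hzr ▸ (Submodule.mem_top : v ∈ ⊤))
    rw [mem_fixS, map_add, h6 a ha, h7 b hb] at hv
    obtain ⟨h8, h9⟩ := Submodule.disjoint_iff_add_eq_zero.mp (disjoint_fixS_movS hr0 _)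
      (Submodule.sub_mem _ (hy4.inv hP hy1 a ha) ha)
      (Submodule.sub_mem _ (inv_movS r _ b hb) hb) (by rw [← sub_eq_zero.mpr hv]; abel)
    rw [eq_zero_of_mov_fix hr0 hb (sub_eq_zero.mp h9), add_zero, ← h3 ⟨g, hg⟩ a ha]
    exact (hy3 a).mp (mem_fixS.mpr (sub_eq_zero.mp h8)) _ ⟨_, rfl⟩
  · have h8 : v ∈ fixS (z.1 : V →ₗ[F] V) := mem_fixS.mpr (hv _ z.2)
    rw [mem_fixS, h6 v h8, ← mem_fixS, hy3]
    rintro _ ⟨g, rfl⟩
    exact (h3 g v h8).trans (hv _ g.2)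

omit [Fintype F] in
theorem not_dvd_card_of_fix [Finite F] (hP : P.B.SeparatingLeft) (hr0 : (r : F) ≠ 0)
    {X : Type*} [MulAction (V ≃ₗ[F] V) X] (Ω : X → Prop)
    (h : ∀ g ∈ P.Isom, ∀ a, Ω a → Ω (g • a)) (ht : ∀ a b, Ω a → Ω b → ∃ g ∈ P.Isom, g • a = b)
    (hf : ∀ f, Iso P f → f ^ r = 1 →
      ∃ a, Ω a ∧ ∀ g ∈ P.Isom, (∀ v ∈ fixS f, g v = v) → g • a = a) :
    ¬ r ∣ Nat.card {a // Ω a} := by
  have := finite_equiv F V
  refine not_dvd_card_of_fixed P.Isom Ω h ht fun S hS hp => ?_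
  obtain ⟨f, h1, h2, h3⟩ := exists_fixS_eq hP hr0 S hS hp
  obtain ⟨a, h4, h5⟩ := hf f h1 h2
  exact ⟨a, h4, fun g hg => h5 g (hS hg) fun v hv => (h3 v).mp hv g hg⟩

omit hr [Fintype F] in
theorem smul_eq_of_fix {g : V ≃ₗ[F] V} (h : ∀ v ∈ W, g v = v) : g • W = W :=
  (Inv.of_le_fix h).map_eq g.injective

omit [Fintype F] in
theorem not_dvd_card_sub [Finite F] (hP : P.B.SeparatingLeft) (hr0 : (r : F) ≠ 0)
    (Ω : Submodule F V → Prop) (h : ∀ W W', Cj P W W' → Ω W → Ω W')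
    (ht : ∀ W W', Ω W → Ω W' → Cj P W W')
    (hf : ∀ f, Iso P f → f ^ r = 1 → ∃ W, Ω W ∧ (W ≤ fixS f ∨ P.perp W ≤ fixS f)) :
    ¬ r ∣ Nat.card {W // Ω W} :=
  not_dvd_card_of_fix hP hr0 Ω (fun g hg W => h _ _ (cj_map hg W)) ht fun f h1 h2 => by
    obtain ⟨W, h3, h4 | h4⟩ := hf f h1 h2
    · exact ⟨W, h3, fun g _ hg => smul_eq_of_fix fun v hv => hg v (h4 hv)⟩
    · refine ⟨W, h3, fun g hg hg' => ?_⟩
      have := (Iso.of_mem hg).inv_perp hP (Inv.of_le_fix (W := P.perp W) fun v hv => hg' v (h4 hv))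
      rw [P.perp_perp hP] at this
      exact this.map_eq g.injective

omit [Fintype F] in
theorem exists_elt_of_dvd [Finite F] {X : Type*} [MulAction (V ≃ₗ[F] V) X] (Ω : X → Prop)
    (h : ∀ g ∈ P.Isom, ∀ a, Ω a → Ω (g • a)) (ht : ∀ a b, Ω a → Ω b → ∃ g ∈ P.Isom, g • a = b)
    (hne : ∃ a, Ω a) (hd : r ∣ Nat.card {a // Ω a}) : ∃ f, Iso P f ∧ f ^ r = 1 ∧ f ≠ 1 := by
  have := finite_equiv F V
  obtain ⟨a, ha⟩ := hne
  obtain ⟨g, h1, h2, h3⟩ := exists_orderOf_of_dvd _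
    (hd.trans (card_dvd_card_of_trans P.Isom Ω h ha fun b hb => ht a b ha hb))
  exact ⟨g, Iso.of_mem h1, coe_pow_eq_one h2, coe_ne_one h3⟩

omit [Fintype F] in
theorem exists_elt_of_dvd_sub [Finite F] (Ω : Submodule F V → Prop)
    (h : ∀ W W', Cj P W W' → Ω W → Ω W') (ht : ∀ W W', Ω W → Ω W' → Cj P W W')
    (hne : ∃ W, Ω W) (hd : r ∣ Nat.card {W // Ω W}) : ∃ f, Iso P f ∧ f ^ r = 1 ∧ f ≠ 1 :=
  exists_elt_of_dvd Ω (fun _ hg W => h _ _ (cj_map hg W)) ht hne hd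

theorem card_ne {α : Type*} [Finite α] (a : α) : Nat.card {x // x ≠ a} = Nat.card α - 1 := by
  classical
  have := Fintype.ofFinite α
  rw [Nat.card_eq_fintype_card, Nat.card_eq_fintype_card]
  exact Set.card_ne_eq a

omit hr in
theorem card_totSing_succ (hW : P.TotSing W) {R : Submodule F V} (hd : Disjoint W R)
    (hs : W ⊔ R = P.perp W) :
    Nat.card {v : R // P.q v ∈ P.Λ} = Nat.card {U : Submodule F V // W ≤ U ∧ P.TotSing U ∧
      finrank F U = finrank F W + 1} * (Fintype.card F - 1) + 1 := by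
  have := finite_space F V
  have := finite_submodule F V
  have hR : R ≤ P.perp W := hs ▸ le_sup_right
  have hdim : ∀ v ∈ R, v ≠ 0 → finrank F ↥(W ⊔ F ∙ v) = finrank F W + 1 := fun v hv h0 => by
    rw [finrank_sup_of_disjoint (hd.mono_right ((Submodule.span_singleton_le_iff_mem _ _).mpr hv)),
      finrank_span_singleton h0]
  rw [← card_eq_mul_of_fiber (α := {v : R // P.q v ∈ P.Λ ∧ v ≠ 0}) (fun v => ⟨W ⊔ F ∙ (v.1 : V),
    le_sup_left, totSing_sup hW (totSing_singleton v.2.1)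
      ((Submodule.span_singleton_le_iff_mem _ _).mpr (hR v.1.2)),
    hdim _ v.1.2 fun h => v.2.2 (Subtype.ext h)⟩) _ fun U => ?_]
  · rw [← Nat.card_unique (α := Unit), ← Nat.card_sum]
    classical
    exact Nat.card_congr ((Equiv.sumCompl fun v : {v : R // P.q v ∈ P.Λ} => v.1 ≠ 0).symm.trans
      ((Equiv.subtypeSubtypeEquivSubtypeInter _ fun v : R => v ≠ 0).sumCongr
        (@Equiv.ofUnique _ _ ⟨⟨⟨⟨0, P.q_zero⟩, by simp⟩⟩, fun v => Subtype.ext (Subtype.ext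
          (not_not.mp v.2))⟩ _)))
  · obtain ⟨U, h1, h2, h3⟩ := U
    have h4 : W ⊔ (R ⊓ U) = U := by
      rw [← sup_inf_assoc_of_le _ h1, hs, inf_eq_right.mpr (h2.le_perp.trans (P.perp_anti h1))]
    have h5 := finrank_compl (hd.mono_right inf_le_left) h4
    have h6 : Nat.card {u : ↥(R ⊓ U) // u ≠ 0} = Fintype.card F - 1 := by
      rw [card_ne, card_space F, show finrank F ↥(R ⊓ U) = 1 by omega, pow_one]
    rw [← h6]
    refine Nat.card_congr ⟨fun v => ⟨⟨v.1.1, v.1.1.2, ?_⟩, fun h => v.1.2.2 (Subtype.ext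
      (Subtype.ext_iff.mp h :))⟩, fun u => ⟨⟨⟨u.1, u.1.2.1⟩, h2.1 _ u.1.2.2, fun h => u.2
        (Subtype.ext (Subtype.ext_iff.mp h :))⟩, Subtype.ext ?_⟩, fun _ => rfl, fun _ => rfl⟩
    · exact (show _ = U from congrArg Subtype.val v.2).le
        (Submodule.mem_sup_right (Submodule.mem_span_singleton_self _))
    · exact Submodule.eq_of_le_of_finrank_eq (sup_le h1
        ((Submodule.span_singleton_le_iff_mem _ _).mpr u.1.2.2))
        ((hdim _ u.1.2.1 fun h => u.2 (Subtype.ext h)).trans h3.symm)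

omit hr in
/-- The number of totally singular `m`-spaces is prime to the characteristic. -/
theorem not_dvd_card_totSing (p : ℕ) [Fact p.Prime] [CharP F p] (hP : P.B.SeparatingLeft) {m : ℕ}
    (hm : Nat.card (F ⧸ P.Λ) ^ 2 < Nat.card F ^ (finrank F V + 2 - 2 * m)) :
    ¬ p ∣ Nat.card {W : Submodule F V // finrank F W = m ∧ P.TotSing W} := by
  have := finite_equiv F V
  refine not_dvd_card_of_fixed P.Isom (fun W : Submodule F V => finrank F W = m ∧ P.TotSing W)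
    (fun g hg W h => ⟨(finrank_smul_submodule g W).trans h.1, h.2.map hg⟩)
    (fun W W' h h' => cj_totSing hP h.2 h'.2 (h.1.trans h'.1.symm)) fun S hS hp => ?_
  induction m with
  | zero => exact ⟨⊥, ⟨finrank_bot _ _, totSing_bot⟩, fun g _ => Submodule.map_bot _⟩
  | succ m ih =>
    obtain ⟨W, ⟨h1, h2⟩, h3⟩ := ih (hm.trans_le (Nat.pow_le_pow_right Nat.card_pos (by omega)))
    obtain ⟨R, -, -, h4, h5⟩ := exists_inv_compl (f := 1) Module.End.isSemisimple_id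
      (W := W) Inv.one Inv.one h2.le_perp
    have h6 := finrank_compl h4 h5
    have h7 := P.finrank_perp_add hP W
    have h8 := dvd_card_sing p R (hm.trans_le (Nat.pow_le_pow_right Nat.card_pos (by omega)))
    rw [card_totSing_succ h2 h4 h5] at h8
    obtain ⟨U, h9, h10⟩ := exists_fixed_of_not_dvd hp (fun U : Submodule F V => W ≤ U ∧
      P.TotSing U ∧ finrank F U = finrank F W + 1) (fun g hg U h =>
        ⟨h3 g hg ▸ Submodule.map_mono h.1, h.2.1.map (hS hg),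
          (finrank_smul_submodule g U).trans h.2.2⟩) fun h => (Fact.out : p.Prime).one_lt.ne'
            (Nat.dvd_one.mp ((Nat.dvd_add_right (h.mul_right _)).mp h8))
    exact ⟨U, ⟨h1 ▸ h9.2.2, h9.2.1⟩, h10⟩

end H99
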