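import Cfsg.Agent.Lib.Elusive.CW

/-!
Semisimple isometries of prime order: fixed and moved parts, blocks, anisotropic cores.
-/

set_option autoImplicit false

namespace H99

open Module H28 Polynomial

section Poly

variable {F : Type*} [Field F] {σ : F →+* F}

theorem aeval_pow_char_pow {p : ℕ} [Fact p.Prime] [CharP F p] {k : ℕ} (hσ : ∀ a, σ a = a ^ p ^ k)
    {A : Type*} [Semiring A] [Algebra F A] (x : A) (h : F[X]) :
    aeval x h ^ p ^ k = aeval (x ^ p ^ k) (h.map σ) := by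
  rw [← map_pow, ← map_iterateFrobenius_expand p, map_expand, expand_aeval,
    show iterateFrobenius F p k = σ from RingHom.ext fun a => (hσ a).symm]

variable {r : ℕ} [hr : Fact r.Prime]

omit hr in
theorem isPrimitiveRoot_root (hr0 : (r : F) ≠ 0) {h : F[X]} [Fact (Irreducible h)]
    (hd : h ∣ cyclotomic r F) : IsPrimitiveRoot (AdjoinRoot.root h) r := by
  have : NeZero (r : AdjoinRoot h) := ⟨fun h0 => hr0 ((algebraMap F (AdjoinRoot h)).injective
    (by simpa using h0))⟩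
  rw [← isRoot_cyclotomic_iff, ← map_cyclotomic r (algebraMap F (AdjoinRoot h)), IsRoot.def,
    eval_map_algebraMap, AdjoinRoot.aeval_eq, AdjoinRoot.mk_eq_zero]
  exact hd

theorem exists_dvd_expand (hr0 : (r : F) ≠ 0) {h₀ h : F[X]} (hi₀ : Irreducible h₀)
    (hd₀ : h₀ ∣ cyclotomic r F) (hi : Irreducible h) (hd : h ∣ cyclotomic r F) :
    ∃ k, h₀ ∣ expand F k h := by
  have := Fact.mk hi₀
  have h1 := isPrimitiveRoot_root hr0 hd₀
  have h2 : h.map (algebraMap F (AdjoinRoot h₀)) ∣ X ^ r - 1 := by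
    simpa using Polynomial.map_dvd (algebraMap F (AdjoinRoot h₀))
      (hd.trans (cyclotomic.dvd_X_pow_sub_one r F))
  obtain ⟨μ, hμ⟩ := ((X_pow_sub_one_splits h1).of_dvd
    (X_pow_sub_C_ne_zero hr.out.pos 1) h2).exists_eval_eq_zero (by
      rw [degree_map]; exact (degree_pos_of_irreducible hi).ne')
  have h3 : μ ^ r = 1 := by
    simpa [sub_eq_zero] using eval_eq_zero_of_dvd_of_eval_eq_zero h2 hμ
  have : NeZero r := ⟨hr.out.ne_zero⟩
  obtain ⟨k, -, rfl⟩ := h1.eq_pow_of_pow_eq_one h3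
  refine ⟨k, ?_⟩
  rw [← AdjoinRoot.mk_eq_zero, ← AdjoinRoot.aeval_eq, expand_aeval, ← eval_map_algebraMap, hμ]

theorem isCoprime_dual [Fintype F] {p : ℕ} [Fact p.Prime] [CharP F p] {k : ℕ}
    (hσ : ∀ a, σ a = a ^ p ^ k) (hr0 : (r : F) ≠ 0)
    (hn : ∀ m, ¬ r ∣ p ^ k * Fintype.card F ^ m + 1) {h : F[X]} (hi : Irreducible h)
    (hd : h ∣ cyclotomic r F) : IsCoprime h (expand F (r - 1) (h.map σ)) := by
  rw [hi.coprime_iff_not_dvd]
  intro h1
  have := Fact.mk hi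
  have h2 := isPrimitiveRoot_root hr0 hd
  have := (AdjoinRoot.powerBasis hi.ne_zero).finite
  have : Finite (AdjoinRoot h) := Module.finite_of_finite F
  have : CharP (AdjoinRoot h) p := charP_of_injective_algebraMap
    (algebraMap F (AdjoinRoot h)).injective p
  obtain ⟨η, hη⟩ := (bijective_iterateFrobenius (AdjoinRoot h) p k).2 (AdjoinRoot.root h ^ (r - 1))
  rw [iterateFrobenius_def] at hη
  rw [← AdjoinRoot.mk_eq_zero, ← AdjoinRoot.aeval_eq, expand_aeval, ← hη,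
    ← aeval_pow_char_pow hσ] at h1
  obtain ⟨m, hm⟩ := (FiniteField.bijective_frobeniusAlgHom_pow F (AdjoinRoot h)).2
    (AdjoinRoot.liftAlgHom h (Algebra.ofId F _) η (pow_eq_zero_iff (by
      have := (Fact.out : p.Prime).pos; positivity) |>.mp h1))
  have h3 := congrArg (fun φ : AdjoinRoot h →ₐ[F] AdjoinRoot h => φ (AdjoinRoot.root h)) hm
  simp only [AlgHom.coe_pow, FiniteField.coe_frobeniusAlgHom, pow_iterate,
    AdjoinRoot.liftAlgHom_root] at h3
  refine hn m (h2.dvd_of_pow_eq_one _ ?_)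
  rw [pow_succ, mul_comm (p ^ k), pow_mul, h3, hη, ← pow_succ, Nat.sub_add_cancel hr.out.one_le,
    h2.pow_eq_one]

end Poly

variable {F V : Type*} [Field F] [AddCommGroup V] [Module F V] {σ : F →+* F} {P : PQ F V σ}
  {f g : V →ₗ[F] V} {W U N T : Submodule F V}

theorem adj_pow (h : ∀ u v, P.B (f u) v = P.B u (g v)) (n : ℕ) (u v : V) :
    P.B ((f ^ n) u) v = P.B u ((g ^ n) v) := by
  induction n generalizing v with
  | zero => rfl
  | succ n ih => rw [pow_succ', Module.End.mul_apply, h, ih, pow_succ, Module.End.mul_apply]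

theorem adj_aeval (h : ∀ u v, P.B (f u) v = P.B u (g v)) (p : F[X]) (u v : V) :
    P.B (aeval f p u) v = P.B u (aeval g (p.map σ) v) := by
  induction p using Polynomial.induction_on' with
  | add p q hp hq => simp [hp, hq]
  | monomial n a => simp [aeval_monomial, adj_pow h]

theorem Iso.adj (hf : Iso P f) {n : ℕ} (hn : f ^ (n + 1) = 1) (u v : V) :
    P.B (f u) v = P.B u ((f ^ n) v) := by
  rw [← hf.B u, ← Module.End.mul_apply, ← pow_succ', hn]; rfl

/-- Primary components of `f` are orthogonal. -/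
def SD (P : PQ F V σ) (f : V →ₗ[F] V) : Prop :=
  ∀ (h : F[X]) u v, aeval f h u = 0 → P.B u (aeval f h v) = 0

theorem sd_of_pow {p : ℕ} [Fact p.Prime] [CharP F p] {k : ℕ} (hσ : ∀ a, σ a = a ^ p ^ k)
    (hf : Iso P f) (hk : f ^ (p ^ k + 1) = 1) : SD P f := fun h u v hu => by
  apply P.eq_zero_symm
  obtain ⟨n, hn⟩ := Nat.exists_eq_add_one_of_ne_zero (pow_ne_zero k (Fact.out : p.Prime).ne_zero)
  rw [adj_aeval (hf.adj hk), ← aeval_pow_char_pow hσ, hn, pow_succ, Module.End.mul_apply, hu]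
  simp

/-- Primary components of elements of order `r` are totally isotropic. -/
def NSD (P : PQ F V σ) (r : ℕ) : Prop :=
  ∀ f, Iso P f → f ^ r = 1 → ∀ h : F[X], Irreducible h → h ∣ cyclotomic r F →
    ∀ u v, aeval f h u = 0 → aeval f h v = 0 → P.B u v = 0

theorem totSing_of_isotropic (hf : Iso P f) (hs : ∀ w ∈ W, ∃ u ∈ W, w + u = f u)
    (h : W ≤ P.perp W) : P.TotSing W := by
  refine ⟨fun w hw => ?_, fun x hx y hy => h hy x hx⟩
  obtain ⟨u, hu, h1⟩ := hs w hw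
  have := P.Λ.sub_mem (hf.q u) (q_add_orth (h hu w hw))
  rw [h1] at this
  convert this using 1; ring

theorem le_perp_cyc (hf : Iso P f) {n : ℕ} (hn : f ^ (n + 1) = 1) {w : V}
    (h : ∀ k, P.B w ((f ^ k) w) = 0) : cyc f w ≤ P.perp (cyc f w) := by
  have h1 : ∀ y ∈ cyc f w, P.B w y = 0 := by
    rintro _ ⟨q, rfl⟩
    change P.B w (aeval f q w) = 0
    induction q using Polynomial.induction_on' with
    | add p q hp hq => simp [hp, hq]
    | monomial n a => simp [aeval_monomial, h]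
  rintro y hy _ ⟨q, rfl⟩
  change P.B (aeval f q w) y = 0
  rw [adj_aeval (hf.adj hn)]
  exact h1 _ (((inv_cyc f w).pow n).aeval _ y hy)

variable {r : ℕ} [hr : Fact r.Prime]

theorem nsd_of_not_dvd [Fintype F] {p : ℕ} [Fact p.Prime] [CharP F p] {k : ℕ}
    (hσ : ∀ a, σ a = a ^ p ^ k) (hr0 : (r : F) ≠ 0)
    (hn : ∀ m, ¬ r ∣ p ^ k * Fintype.card F ^ m + 1) : NSD P r := fun f hf hfr h hi hd u v hu hv => by
  obtain ⟨a, b, hab⟩ := isCoprime_dual hσ hr0 hn hi hd
  have h1 := congrArg (fun q => aeval f q v) hab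
  simp only [map_add, LinearMap.add_apply, map_one, Module.End.one_apply] at h1
  rw [aeval_mul_apply, hv, map_zero, zero_add, mul_comm, aeval_mul_apply, expand_aeval] at h1
  rw [← h1, ← adj_aeval (hf.adj (by rw [Nat.sub_add_cancel hr.out.one_le, hfr])), hu]
  simp

theorem movS_le_perp (hr0 : (r : F) ≠ 0) (hf : Iso P f) : movS r f ≤ P.perp (fixS f) := by
  intro v hv u hu
  have h1 := congrArg (P.B u) (mem_movS.mp hv)
  rw [aeval_cyclotomic_apply, map_sum, Finset.sum_congr rfl (g := fun _ => P.B u v) fun k _ => by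
    conv_lhs => rw [← pow_apply_of_mem_fixS hu k]
    exact (hf.pow k).B u v] at h1
  simpa [hr0] using h1

theorem exists_add_eq_of_mov (hr0 : (r : F) ≠ 0) (hW : Inv f W) (hle : W ≤ movS r f) :
    ∀ w ∈ W, ∃ u ∈ W, w + u = f u := by
  intro w hw
  obtain ⟨a, b, hab⟩ := isCoprime_X_sub_one_cyclotomic hr0
  have h1 := congrArg (fun q => aeval f q w) hab
  simp only [map_add, LinearMap.add_apply, map_one, Module.End.one_apply] at h1
  rw [aeval_mul_apply f b, mem_movS.mp (hle hw), map_zero, add_zero, mul_comm,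
    aeval_mul_apply] at h1
  refine ⟨_, hW.aeval a w hw, ?_⟩
  simp only [map_sub, aeval_X, map_one, LinearMap.sub_apply, Module.End.one_apply] at h1
  rw [← sub_eq_iff_eq_add.mp h1]

theorem totSing_of_mov (hr0 : (r : F) ≠ 0) (hf : Iso P f) (hW : Inv f W) (hle : W ≤ movS r f)
    (h : W ≤ P.perp W) : P.TotSing W :=
  totSing_of_isotropic hf (exists_add_eq_of_mov hr0 hW hle) h

theorem nondeg_inf_fixS (hr0 : (r : F) ≠ 0) (hf : Iso P f) (h : f ^ r = 1) (hN : P.Nondeg N)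
    (hNf : Inv f N) : P.Nondeg (N ⊓ fixS f) :=
  nondeg_left (inv_eq_fix_sup_mov hr0 h hNf ▸ hN)
    (le_perp_mono (movS_le_perp hr0 hf) inf_le_right inf_le_right)

theorem nondeg_inf_movS (hr0 : (r : F) ≠ 0) (hf : Iso P f) (h : f ^ r = 1) (hN : P.Nondeg N)
    (hNf : Inv f N) : P.Nondeg (N ⊓ movS r f) :=
  nondeg_right (inv_eq_fix_sup_mov hr0 h hNf ▸ hN)
    (le_perp_mono (movS_le_perp hr0 hf) inf_le_right inf_le_right)

theorem nondeg_fixS (hP : P.B.SeparatingLeft) (hr0 : (r : F) ≠ 0) (hf : Iso P f)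
    (h : f ^ r = 1) : P.Nondeg (fixS f) := by
  simpa using nondeg_inf_fixS hr0 hf h (nondeg_top hP) Inv.top

theorem nondeg_movS (hP : P.B.SeparatingLeft) (hr0 : (r : F) ≠ 0) (hf : Iso P f)
    (h : f ^ r = 1) : P.Nondeg (movS r f) := by
  simpa using nondeg_inf_movS hr0 hf h (nondeg_top hP) Inv.top

theorem eq_zero_of_mov_sq (hr0 : (r : F) ≠ 0) (h2 : r ≠ 2) (h : f ^ r = 1) {v : V}
    (hv : v ∈ movS r f) (h1 : f (f v) = v) : v = 0 := by
  obtain ⟨s, hs⟩ := hr.out.odd_of_ne_two h2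
  refine eq_zero_of_mov_fix hr0 hv ?_
  have h3 := pow_apply_of_mem_fixS (g := f ^ 2) (mem_fixS.mpr (by rw [pow_two]; exact h1)) s
  have h4 := congrArg (fun g : V →ₗ[F] V => g v) h
  rwa [hs, pow_succ', pow_mul, Module.End.mul_apply, h3] at h4

variable [FiniteDimensional F V]

theorem perp_fixS (hP : P.B.SeparatingLeft) (hr0 : (r : F) ≠ 0) (hf : Iso P f) (h : f ^ r = 1) :
    P.perp (fixS f) = movS r f := by
  have h1 := finrank_fixS_add hr0 h
  have h2 := P.finrank_perp_add hP (fixS f)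
  exact (Submodule.eq_of_le_of_finrank_eq (movS_le_perp hr0 hf) (by omega)).symm

theorem perp_movS (hP : P.B.SeparatingLeft) (hr0 : (r : F) ≠ 0) (hf : Iso P f) (h : f ^ r = 1) :
    P.perp (movS r f) = fixS f := by rw [← perp_fixS hP hr0 hf h, P.perp_perp hP]

theorem supp_movS (hP : P.B.SeparatingLeft) (hr0 : (r : F) ≠ 0) (hf : Iso P f) (h : f ^ r = 1) :
    Supp P f (movS r f) := fun _ hv => mem_fixS.mp (perp_movS hP hr0 hf h ▸ hv)

theorem movS_eq (hP : P.B.SeparatingLeft) (hr0 : (r : F) ≠ 0) (hf : Iso P f) (h : f ^ r = 1)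
    (hs : Supp P f T) (hle : T ≤ movS r f) : movS r f = T := by
  refine le_antisymm ?_ hle
  rw [← perp_fixS hP hr0 hf h, ← P.perp_perp hP T]
  exact P.perp_anti fun v hv => mem_fixS.mpr (hs v hv)

omit hr in
theorem nondeg_of_irreducible (hP : P.B.SeparatingLeft) (hf : Iso P f) {h : F[X]}
    (hi : Irreducible h) {u : V} (hu : aeval f h u = 0) {y : V} (hy : y ∈ cyc f u)
    (h1 : P.B u y ≠ 0) : P.Nondeg (cyc f u) := by
  intro w hw h2
  by_contra h3
  have h4 : u ≠ 0 := by rintro rfl; simp at h1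
  have h5 : cyc f w = cyc f u := Submodule.eq_of_le_of_finrank_eq (cyc_le (inv_cyc f u) hw) (by
    rw [finrank_cyc_of_irreducible hi h4 hu, finrank_cyc_of_irreducible hi h3 (aeval_cyc hu w hw)])
  have h6 := cyc_le (hf.inv_perp hP (inv_cyc f u)) (P.mem_perp'.mpr h2)
  rw [h5] at h6
  exact h1 (h6 hy u (self_mem_cyc f u))

omit hr in
/-- In the self-dual case there are irreducible nondegenerate blocks. -/
theorem SD.exists_block (hP : P.B.SeparatingLeft) (hs : SD P f) (hf : Iso P f) {g : F[X]}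
    (hg : Squarefree g) (hN : P.Nondeg N) (hNf : Inv f N) (hne : N ≠ ⊥)
    (hgN : ∀ w ∈ N, aeval f g w = 0) (h2 : ∀ w ∈ N, f (f w) = w → w = 0) :
    ∃ h, Irreducible h ∧ h ∣ g ∧ ∃ W ≤ N, Inv f W ∧ P.Nondeg W ∧ finrank F W = h.natDegree ∧
      ∀ w ∈ W, aeval f h w = 0 := by
  obtain ⟨h, hi, ⟨g', rfl⟩, v, hv, hv0, hhv⟩ := exists_irreducible_ker hg.ne_zero hNf hne hgN
  refine ⟨h, hi, dvd_mul_right _ _, ?_⟩
  have hK := hNf.inf (inv_ker_aeval f h)
  by_contra h3
  have h4 : ∀ u ∈ N ⊓ LinearMap.ker (aeval f h), ∀ y ∈ cyc f u, P.B u y = 0 := fun u hu y hy => by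
    by_contra h5
    exact h3 ⟨cyc f u, cyc_le hNf hu.1, inv_cyc f u, nondeg_of_irreducible hP hf hi hu.2 hy h5,
      finrank_cyc_of_irreducible hi (by rintro rfl; simp at h5) hu.2, aeval_cyc hu.2⟩
  have h5 : ∀ u ∈ N ⊓ LinearMap.ker (aeval f h), ∀ w ∈ N ⊓ LinearMap.ker (aeval f h),
      P.B u (f w) = P.B (f u) w := fun u hu w hw => by
    have a1 := fun u hu => h4 u hu _ (self_mem_cyc f u)
    have a2 := fun u hu => h4 u hu _ (inv_cyc f u _ (self_mem_cyc f u))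
    have b1 := a1 _ (Submodule.add_mem _ hw (hK u hu))
    have b2 := a2 _ (Submodule.add_mem _ hu hw)
    simp only [map_add, LinearMap.add_apply, a1 w hw, a1 _ (hK u hu), a2 u hu, a2 w hw] at b1 b2
    linear_combination b2 - b1
  have h6 : f (f v) - v ∈ N ⊓ LinearMap.ker (aeval f h) :=
    Submodule.sub_mem _ (hK _ (hK v ⟨hv, hhv⟩)) ⟨hv, hhv⟩
  refine hv0 (h2 v hv (sub_eq_zero.mp (hN _ h6.1 fun x hx => ?_)))
  obtain ⟨a, b, hab⟩ := (IsRelPrime.of_squarefree_mul hg).isCoprime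
  have h7 := congrArg (fun q => aeval f q x) hab
  simp only [map_add, LinearMap.add_apply, map_one, Module.End.one_apply] at h7
  have h8 : aeval f (b * g') x ∈ N ⊓ LinearMap.ker (aeval f h) := ⟨hNf.aeval _ x hx, by
    rw [SetLike.mem_coe, LinearMap.mem_ker, ← aeval_mul_apply, mul_left_comm, aeval_mul_apply,
      hgN x hx, map_zero]⟩
  rw [← h7, map_add, mul_comm a, aeval_mul_apply, hs h _ _ h6.2, zero_add]
  apply P.eq_zero_symm
  rw [map_sub, h5 _ h8 _ (hK v ⟨hv, hhv⟩), hf.B, sub_self]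

variable [Fintype F] {j c : ℕ}

theorem NSD.exists_totSing (H : Ord F r j) (hs : NSD P r) (hf : Iso P f) (h : f ^ r = 1)
    (hNf : Inv f N) (hle : N ≤ movS r f) (hne : N ≠ ⊥) :
    ∃ W ≤ N, Inv f W ∧ P.TotSing W ∧ finrank F W = j := by
  obtain ⟨k, hi, hd, v, hv, hv0, hkv⟩ :=
    exists_irreducible_ker (cyclotomic_ne_zero r F) hNf hne fun w hw => hle hw
  exact ⟨cyc f v, cyc_le hNf hv, inv_cyc f v, totSing_of_mov H.ne hf (inv_cyc f v)
    ((cyc_le hNf hv).trans hle) fun y hy x hx => hs f hf h k hi hd x y (aeval_cyc hkv x hx)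
      (aeval_cyc hkv y hy), by rw [finrank_cyc_of_irreducible hi hv0 hkv, H.natDegree_eq hi hd]⟩

theorem finrank_core_le (hr0 : (r : F) ≠ 0) (h2 : r ≠ 2) (hf : Iso P f) (h : f ^ r = 1)
    (hNf : Inv f N) (hle : N ≤ movS r f) (hc : ∀ W ≤ N, Inv f W → P.TotSing W → W = ⊥) :
    finrank F N ≤ r - 1 := by
  obtain ⟨s, hs⟩ := hr.out.odd_of_ne_two h2
  by_contra h1
  obtain ⟨w, hw, hw0, h3⟩ := exists_isotropic_system (P := P) (fun k : Fin s => f ^ (k.1 + 1)) N
    (by rw [Fintype.card_fin]; omega)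
  have h4 : ∀ k, 0 < k → k < r → P.B w ((f ^ k) w) = 0 := fun k hk0 hk => by
    rcases le_or_gt k s with h4 | h4
    · simpa [Nat.sub_add_cancel hk0] using h3 ⟨k - 1, by omega⟩
    · apply P.eq_zero_symm
      rw [← (hf.pow (r - k)).B, pow_apply_pow, Nat.sub_add_cancel hk.le, h]
      simpa [show r - k - 1 + 1 = r - k by omega] using h3 ⟨r - k - 1, by omega⟩
  have h5 : P.B w w = 0 := by
    have h5 := congrArg (P.B w) (mem_movS.mp (hle hw))
    rw [aeval_cyclotomic_apply, map_sum, Finset.sum_eq_single (⟨0, hr.out.pos⟩ : Fin r)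
      (fun k _ hk => h4 k (Nat.pos_of_ne_zero fun h => hk (Fin.ext h)) k.2) (by simp)] at h5
    simpa using h5
  have h6 : ∀ k, P.B w ((f ^ k) w) = 0 := fun k => by
    rw [pow_eq_pow_mod k h]
    rcases Nat.eq_zero_or_pos (k % r) with h6 | h6
    · rw [h6]; exact h5
    · exact h4 _ h6 (Nat.mod_lt _ hr.out.pos)
  have h7 := hc _ (cyc_le hNf hw) (inv_cyc f w) (totSing_of_mov hr0 hf (inv_cyc f w)
    ((cyc_le hNf hw).trans hle)
    (le_perp_cyc hf (by rw [Nat.sub_add_cancel hr.out.one_le, h]) h6))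
  exact hw0 ((Submodule.mem_bot F).mp (h7 ▸ self_mem_cyc f w))

/-- The numerical type of elements of odd prime order `r`: irreducible constituents have
dimension `j` and minimal nondegenerate blocks have dimension `c`. -/
structure SS (P : PQ F V σ) (r j c : ℕ) : Prop where
  sep : P.B.SeparatingLeft
  ord : Ord F r j
  odd : r ≠ 2
  cases : (c = j ∧ ∀ f, Iso P f → f ^ r = 1 → SD P f) ∨ (c = 2 * j ∧ NSD P r)

namespace SS

omit [FiniteDimensional F V] in
theorem pos (H : SS P r j c) : 0 < c := by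
  have := H.ord.pos
  rcases H.cases with h | h <;> omega

theorem exists_block (H : SS P r j c) (hf : Iso P f) (h : f ^ r = 1) (hN : P.Nondeg N)
    (hNf : Inv f N) (hle : N ≤ movS r f) (hne : N ≠ ⊥) :
    ∃ W ≤ N, Inv f W ∧ P.Nondeg W ∧ finrank F W = c := by
  rcases H.cases with ⟨rfl, h1⟩ | ⟨rfl, h1⟩
  · obtain ⟨k, hi, hd, W, h2, h3, h4, h5, -⟩ := (h1 f hf h).exists_block H.sep hf
      (squarefree_cyclotomic H.ord.ne) hN hNf hne (fun w hw => hle hw)
      fun w hw => eq_zero_of_mov_sq H.ord.ne H.odd h (hle hw)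
    exact ⟨W, h2, h3, h4, h5.trans (H.ord.natDegree_eq hi hd)⟩
  · obtain ⟨W, h2, h3, h4, h5⟩ := h1.exists_totSing H.ord hf h hNf hle hne
    obtain ⟨W', h6, h7, -, -, h8, h9⟩ := exists_double H.sep (isSemisimple_of_pow_eq_one H.ord.ne h)
      hf hN hNf h2 h4.le_perp h3
    exact ⟨_, sup_le h2 h7, h3.sup h6, h8, by rw [h9, h5]⟩

theorem rsum (H : SS P r j c) (hf : Iso P f) (h : f ^ r = 1) (hN : P.Nondeg N)
    (hNf : Inv f N) (hle : N ≤ movS r f) :
    ∃ e, RSum P (fun B => Inv f B ∧ finrank F B = c) e N :=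
  exists_rsum (fun W => Inv f W ∧ W ≤ movS r f) (fun W hW h1 h2 => by
    obtain ⟨B, h3, h4, h5, h6⟩ := H.exists_block hf h h1 hW.1 hW.2 h2
    exact ⟨B, h3, ne_bot_of_finrank (h6 ▸ H.pos.ne'), ⟨h4, h6⟩, h5,
      hW.1.inf (hf.inv_perp H.sep h4), inf_le_left.trans hW.2⟩) N ⟨hNf, hle⟩ hN

theorem dvd (H : SS P r j c) (hf : Iso P f) (h : f ^ r = 1) (hN : P.Nondeg N)
    (hNf : Inv f N) (hle : N ≤ movS r f) : ∃ e, finrank F N = e * c := by
  obtain ⟨e, he⟩ := H.rsum hf h hN hNf hle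
  exact ⟨e, he.finrank_eq fun _ h => h.2⟩

theorem exists_nondeg (H : SS P r j c) (hf : Iso P f) (h : f ^ r = 1) (hN : P.Nondeg N)
    (hNf : Inv f N) (hle : N ≤ movS r f) {t : ℕ} (ht : t * c ≤ finrank F N) :
    ∃ W ≤ N, Inv f W ∧ P.Nondeg W ∧ finrank F W = t * c := by
  obtain ⟨e, he⟩ := H.rsum hf h hN hNf hle
  rw [he.finrank_eq fun _ h => h.2] at ht
  obtain ⟨W, h1, h2⟩ := he.exists_le (Nat.le_of_mul_le_mul_right ht H.pos)
  exact ⟨W, h1, h2.inv fun _ h => h.1, h2.nondeg, h2.finrank_eq fun _ h => h.2⟩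

theorem exists_totSing (H : SS P r j c) (hf : Iso P f) (h : f ^ r = 1) (hN : P.Nondeg N)
    (hNf : Inv f N) (hle : N ≤ movS r f) :
    ∃ T a, finrank F N = (2 * T + a) * j ∧ a * j ≤ r - 1 ∧ (c = 2 * j → a = 0) ∧
      ∀ t ≤ T, ∃ U ≤ N, Inv f U ∧ P.TotSing U ∧ finrank F U = t * j := by
  obtain ⟨U, M, h1, h2, h3, h4, h5, -, h7, h8⟩ := exists_core H.sep
    (isSemisimple_of_pow_eq_one H.ord.ne h) hf hN hNf
  obtain ⟨T, hT⟩ := ord_dvd_finrank H.ord h1 (h3.trans hle)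
  obtain ⟨a, ha⟩ := ord_dvd_finrank H.ord h2 (h4.trans hle)
  have hj := H.ord.pos
  refine ⟨T, a, by rw [h7, hT, ha]; ring, ?_, fun hc => ?_, fun t ht => ?_⟩
  · rw [mul_comm, ← ha]; exact finrank_core_le H.ord.ne H.odd hf h h2 (h4.trans hle) h8
  · rcases H.cases with h9 | h9
    · omega
    by_contra h10
    obtain ⟨W, h11, h12, h13, h14⟩ := h9.2.exists_totSing H.ord hf h h2 (h4.trans hle)
      (ne_bot_of_finrank (by rw [ha]; positivity))
    rw [h8 W h11 h12 h13, finrank_bot] at h14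
    omega
  · obtain ⟨W, h9, -, h10, h11⟩ := exists_inv_between_mov H.ord h h1 (h3.trans hle) Inv.bot bot_le t
      (by rw [finrank_bot, zero_add, hT, mul_comm]; exact Nat.mul_le_mul_left _ ht)
    exact ⟨W, h10.trans h3, h9, totSing_mono h5 h10, by simpa using h11⟩

end SS

end H99
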