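import Cfsg.Agent.Lib.Elusive.Dim
import Cfsg.Prelude.Def_GeometricClasses

/-!
Conjugation into a subgroup of a matrix group, read on linear maps.
-/

set_option autoImplicit false
set_option linter.unusedSectionVars false

namespace H99

open Module H28 Matrix

theorem not_dvd_relIndex {G : Type*} [Group G] {H K : Subgroup G} [Finite K] {r : ℕ}
    [Fact r.Prime] (h : ∀ S ≤ K, IsPGroup r S → ∃ g ∈ K, ∀ s ∈ S, g⁻¹ * s * g ∈ H) :
    ¬ r ∣ H.relIndex K := fun hd => by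
  obtain ⟨P⟩ : Nonempty (Sylow r K) := inferInstance
  obtain ⟨g, hg, h1⟩ := h _ (Subgroup.map_subtype_le P) (P.isPGroup'.map _)
  refine ((⟨g, hg⟩ : K)⁻¹ • P).not_dvd_index (hd.trans (Subgroup.index_dvd_of_le ?_))
  rintro _ ⟨s, hs, rfl⟩
  simpa [Subgroup.mem_subgroupOf] using h1 s ⟨s, hs, rfl⟩

theorem relIndex_dvd_of_le {G : Type*} [Group G] {H K L : Subgroup G} (h1 : L ≤ H) {a : ℕ}
    [Finite K] (h2 : L ≤ K) (h : Nat.card K = a * Nat.card L) : H.relIndex K ∣ a := by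
  have h3 := (L.subgroupOf K).index_mul_card
  have : Finite L := Finite.of_injective _ (Subgroup.inclusion_injective h2)
  rw [Nat.card_congr (Subgroup.subgroupOfEquivOfLe h2).toEquiv, h] at h3
  exact Nat.eq_of_mul_eq_mul_right Nat.card_pos h3 ▸ Subgroup.relIndex_dvd_of_le_left K h1

variable {F : Type*} [Field F] {ι : Type} [Fintype ι] [DecidableEq ι]

theorem toLin'_gl (x : GL ι F) : toLin' (x : Matrix ι ι F) = (glEquiv x : _ →ₗ[F] _) := rfl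

theorem toLin'_conj (g x : GL ι F) : toLin' ((g⁻¹ * x * g : GL ι F) : Matrix ι ι F) =
    (glEquiv g).symm.conj (toLin' (x : Matrix ι ι F)) := by
  rw [toLin'_gl, map_mul, map_mul, map_inv]; rfl

variable {K H : Subgroup (GL ι F)} {A B : ((ι → F) →ₗ[F] (ι → F)) → Prop}

theorem exists_gl_of_injective {f : (ι → F) →ₗ[F] (ι → F)} (h : Function.Injective f) :
    ∃ x : GL ι F, toLin' (x : Matrix ι ι F) = f :=
  ⟨glEquiv.symm (LinearEquiv.ofInjectiveEndo f h), by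
    rw [toLin'_gl, MulEquiv.apply_symm_apply]; rfl⟩

theorem exists_conj_iff (hA : ∀ x : GL ι F, x ∈ K ↔ A (toLin' (x : Matrix ι ι F)))
    (hB : ∀ x ∈ K, x ∈ H ↔ B (toLin' (x : Matrix ι ι F))) {x : GL ι F} (hx : x ∈ K) :
    (∃ g ∈ K, g⁻¹ * x * g ∈ H) ↔
      ∃ g : (ι → F) ≃ₗ[F] (ι → F), A g ∧ B (g.symm.conj (toLin' (x : Matrix ι ι F))) := by
  have key : ∀ g ∈ K, g⁻¹ * x * g ∈ H ↔ B ((glEquiv g).symm.conj (toLin' (x : Matrix ι ι F))) :=
    fun g hg => by rw [hB _ (K.mul_mem (K.mul_mem (K.inv_mem hg) hx) hg), toLin'_conj]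
  refine ⟨fun ⟨g, hg, h⟩ => ⟨glEquiv g, (hA g).mp hg, (key g hg).mp h⟩, fun ⟨g, hg, h⟩ => ?_⟩
  obtain ⟨g, rfl⟩ := glEquiv.surjective g
  exact ⟨g, (hA g).mpr hg, (key g ((hA g).mpr hg)).mpr h⟩

theorem conj_el_iff (hA : ∀ x : GL ι F, x ∈ K ↔ A (toLin' (x : Matrix ι ι F)))
    (hB : ∀ x ∈ K, x ∈ H ↔ B (toLin' (x : Matrix ι ι F)))
    (hi : ∀ f, A f → Function.Injective f) (r : ℕ) :
    (∀ x ∈ K, (∃ z : F, ((x ^ r : GL ι F) : Matrix ι ι F) = z • (1 : Matrix ι ι F)) →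
      (∀ z : F, (x : Matrix ι ι F) ≠ z • (1 : Matrix ι ι F)) → ∃ g ∈ K, g⁻¹ * x * g ∈ H) ↔
    ∀ f, A f → (∃ c : F, f ^ r = c • 1) → (∀ c : F, f ≠ c • 1) →
      ∃ g : (ι → F) ≃ₗ[F] (ι → F), A g ∧ B (g.symm.conj f) := by
  rw [← forall_mat_iff (Units.coeHom _) (· ∈ K) A (fun x => (hA x).mp) fun f hf => by
    obtain ⟨x, rfl⟩ := exists_gl_of_injective (hi f hf)
    exact ⟨x, (hA x).mpr hf, rfl⟩]
  exact forall₂_congr fun x hx => by rw [exists_conj_iff hA hB hx]; rfl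

theorem not_dvd_relIndex_lin [Finite F] {r : ℕ} [Fact r.Prime]
    (hA : ∀ x : GL ι F, x ∈ K ↔ A (toLin' (x : Matrix ι ι F)))
    (hB : ∀ x ∈ K, x ∈ H ↔ B (toLin' (x : Matrix ι ι F)))
    (h : ∀ S : Subgroup ((ι → F) ≃ₗ[F] (ι → F)), (∀ s ∈ S, A s) → IsPGroup r S →
      ∃ g : (ι → F) ≃ₗ[F] (ι → F), A g ∧ ∀ s ∈ S, B (g.symm.conj s)) : ¬ r ∣ H.relIndex K :=
  not_dvd_relIndex fun S h1 h2 => by
    obtain ⟨g, h3, h4⟩ := h (S.map glEquiv.toMonoidHom)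
      (by rintro _ ⟨s, hs, rfl⟩; exact (hA s).mp (h1 hs)) (h2.map _)
    obtain ⟨g, rfl⟩ := glEquiv.surjective g
    have hg := (hA g).mpr h3
    exact ⟨g, hg, fun s hs => by
      rw [hB _ (K.mul_mem (K.mul_mem (K.inv_mem hg) (h1 hs)) hg), toLin'_conj]
      exact h4 _ ⟨s, hs, rfl⟩⟩

theorem mem_sl_iff (x : GL ι F) :
    x ∈ Cfsg.Geo.specialLinear ι F ↔ LinearMap.det (toLin' (x : Matrix ι ι F)) = 1 := by
  rw [LinearMap.det_toLin', Cfsg.Geo.specialLinear, MonoidHom.mem_ker, ← Units.val_inj]; rfl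

theorem range_toGL : (SpecialLinearGroup.toGL : SpecialLinearGroup ι F →* GL ι F).range =
    Cfsg.Geo.specialLinear ι F := by
  ext x
  rw [mem_sl_iff, LinearMap.det_toLin']
  exact ⟨by rintro ⟨y, rfl⟩; exact y.2, fun h => ⟨⟨x, h⟩, Units.ext rfl⟩⟩

theorem index_comap_toGL : (H.comap (SpecialLinearGroup.toGL :
    SpecialLinearGroup ι F →* GL ι F)).index = H.relIndex (Cfsg.Geo.specialLinear ι F) := by
  rw [Subgroup.index_comap, range_toGL]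

theorem sl_el_iff (r : ℕ) :
    (∀ x : SpecialLinearGroup ι F,
      (∃ z : F, ((x ^ r : SpecialLinearGroup ι F) : Matrix ι ι F) = z • (1 : Matrix ι ι F)) →
      (∀ z : F, (x : Matrix ι ι F) ≠ z • (1 : Matrix ι ι F)) → ∃ P : SpecialLinearGroup ι F,
        P⁻¹ * x * P ∈ H.comap (SpecialLinearGroup.toGL : SpecialLinearGroup ι F →* GL ι F)) ↔
    ∀ x ∈ Cfsg.Geo.specialLinear ι F,
      (∃ z : F, ((x ^ r : GL ι F) : Matrix ι ι F) = z • (1 : Matrix ι ι F)) →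
      (∀ z : F, (x : Matrix ι ι F) ≠ z • (1 : Matrix ι ι F)) →
        ∃ g ∈ Cfsg.Geo.specialLinear ι F, g⁻¹ * x * g ∈ H := by
  simp only [← range_toGL, MonoidHom.mem_range, forall_exists_index, forall_apply_eq_imp_iff,
    exists_exists_eq_and, Subgroup.mem_comap, map_mul, map_inv, ← map_pow]
  rfl

theorem injective_of_det {V : Type*} [AddCommGroup V] [Module F V] [FiniteDimensional F V]
    {f : V →ₗ[F] V} (h : LinearMap.det f = 1) : Function.Injective f :=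
  (Module.End.isUnit_iff f).mp ((LinearMap.isUnit_iff_isUnit_det f).mpr (h ▸ isUnit_one)) |>.1

theorem mem_spGL_iff {d : ℕ} (x : GL (Fin d ⊕ Fin d) F) :
    x ∈ Cfsg.spGL d F ↔ Iso (spPQ d F) (toLin' (x : Matrix _ _ F)) :=
  ⟨fun h => alt_iso rfl h, fun h => h.B⟩

end H99
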