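import Cfsg.Agent.Lib.Elusive.Dim
import Cfsg.Agent.Lib.QF.Disc
import Cfsg.Agent.Lib.Orth12.Forms

/-!
Nondegenerate subspaces of a finite orthogonal space: types and isometry classes.
-/

set_option autoImplicit false

namespace H99

open Module H28 Polynomial QuadraticMap

variable {F V : Type*} [Field F] [AddCommGroup V] [Module F V] {Q : QuadraticForm F V}
  {f g : V →ₗ[F] V} {W U T A B : Submodule F V} {k : ℕ}

/-- The pseudo-quadratic data of a quadratic form. -/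
abbrev qP (Q : QuadraticForm F V) : PQ F V (RingHom.id F) := PQ.ofQuad Q

theorem qP_B (x y : V) : (qP Q).B x y = polar Q x y := rfl

theorem qP_q (x : V) : (qP Q).q x = Q x := rfl

theorem qP_mem {a : F} : a ∈ (qP Q).Λ ↔ a = 0 := Iff.rfl

theorem qP_self (x : V) : (qP Q).B x x = 2 * Q x := H12.B_self Q x

theorem qP_symm (x y : V) : (qP Q).B y x = (qP Q).B x y := polar_comm _ _ _

theorem qP_add (x y : V) : Q (x + y) = Q x + Q y + (qP Q).B x y := H12.Q_add Q x y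

theorem qP_card : Nat.card (F ⧸ (qP Q).Λ) = Nat.card F :=
  Nat.card_congr QuotientAddGroup.quotientBot.toEquiv

theorem quad_totSing : (qP Q).TotSing W ↔ ∀ w ∈ W, Q w = 0 :=
  ⟨fun h => h.1, fun h => ⟨h, fun _ hx _ hy => H66.polar_eq_zero_of_forall h hx hy⟩⟩

theorem quad_iso : Iso (qP Q) f ↔ ∀ v, Q (f v) = Q v :=
  ⟨fun h v => sub_eq_zero.mp (h.q v), fun h => ⟨H66.polar_comp_of_isometry f h,
    fun v => sub_eq_zero.mpr (h v)⟩⟩

theorem polar_restrict (x y : W) : polar (Q.restrict W) x y = polar Q x y := rfl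

theorem nd_restrict (hW : (qP Q).Nondeg W) : (polarBilin (Q.restrict W)).Nondegenerate :=
  (H66.nd_iff _).mpr fun u h => Subtype.ext (hW u u.2 fun y hy => h ⟨y, hy⟩)

theorem exists_Q_ne (hW : (qP Q).Nondeg W) (h0 : W ≠ ⊥) : ∃ w ∈ W, Q w ≠ 0 := by
  by_contra h
  push Not at h
  exact h0 (eq_bot_of_nondeg hW (quad_totSing.mpr h).le_perp)

theorem nondeg_line (h2 : (2 : F) ≠ 0) {v : V} (hv : Q v ≠ 0) : (qP Q).Nondeg (F ∙ v) :=
  nondeg_singleton (by rw [qP_self]; exact mul_ne_zero h2 hv)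

theorem isotropic_iff (h2 : (2 : F) ≠ 0) : W ≤ (qP Q).perp W ↔ (qP Q).TotSing W :=
  ⟨fun h => quad_totSing.mpr fun w hw => (mul_eq_zero.mp ((qP_self w).symm.trans
    (h hw w hw))).resolve_left h2, fun h => h.le_perp⟩

theorem hyp_iff_plus (hW : (qP Q).Nondeg W) : Hyp (qP Q) W ↔ H66.IsPlusType (Q.restrict W) := by
  refine ⟨fun ⟨_, U, h1, h2, h3⟩ => ⟨U.comap W.subtype, fun u hu => h2.1 u hu, ?_⟩,
    fun ⟨U, h1, h2⟩ => ⟨hW, U.map W.subtype, W.map_subtype_le U, quad_totSing.mpr ?_, ?_⟩⟩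
  · rwa [(Submodule.comapSubtypeEquivOfLe h1).finrank_eq]
  · rintro _ ⟨u, hu, rfl⟩; exact h1 u hu
  · rwa [Submodule.finrank_map_subtype_eq]

theorem hyp_of_sing (hW : (qP Q).Nondeg W) (h : finrank F W = 2) {v : V} (hv : v ∈ W) (h0 : v ≠ 0)
    (hq : Q v = 0) : Hyp (qP Q) W :=
  ⟨hW, F ∙ v, (Submodule.span_singleton_le_iff_mem _ _).mpr hv, totSing_singleton hq, by
    rw [finrank_span_singleton h0, h]⟩

variable [FiniteDimensional F V]

theorem not_hyp_of_aniso (h0 : W ≠ ⊥) (h : ∀ v ∈ W, Q v = 0 → v = 0) : ¬ Hyp (qP Q) W :=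
  fun ⟨_, U, h1, h2, h3⟩ => h0 (eq_bot_of_finrank (by
    rw [← h3, (Submodule.eq_bot_iff U).mpr fun v hv => h v (h1 hv) (h2.1 v hv), finrank_bot]))

theorem exists_line (hW : (qP Q).Nondeg W) (h : finrank F W = 1) :
    ∃ v, Q v ≠ 0 ∧ (2 : F) ≠ 0 ∧ W = F ∙ v := by
  obtain ⟨v, hv, h0⟩ := (Submodule.ne_bot_iff W).mp (ne_bot_of_finrank (by omega))
  obtain rfl := Submodule.eq_of_le_of_finrank_eq ((Submodule.span_singleton_le_iff_mem _ _).mpr hv)
    (by rw [finrank_span_singleton h0, h])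
  have : 2 * Q v ≠ 0 := fun h' => h0 (hW v hv fun y hy => (qP Q).eq_zero_symm
    (mem_perp_singleton.mpr ((qP_self v).trans h') |> fun h'' => by
      obtain ⟨c, rfl⟩ := Submodule.mem_span_singleton.mp hy
      simpa using Or.inr (mem_perp_singleton.mp h'')))
  exact ⟨v, right_ne_zero_of_mul this, left_ne_zero_of_mul this, rfl⟩

theorem cj_line (hP : (qP Q).B.SeparatingLeft) {u v : V} (hu : Q u ≠ 0) (h : Q u = Q v) :
    Cj (qP Q) (F ∙ u) (F ∙ v) := by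
  obtain ⟨g, hg⟩ := H12.exists_map_of_Q_eq (Q := Q) hP hu h
  exact ⟨g.1, PQ.mem_isom_ofQuad.mpr g.2, by
    rw [Submodule.map_span, Set.image_singleton]; exact congrArg (F ∙ ·) hg⟩

theorem cj_iff (hP : (qP Q).B.SeparatingLeft) :
    (∃ e : W ≃ₗ[F] U, ∀ w : W, Q (e w) = Q w) ↔ Cj (qP Q) W U :=
  ⟨fun ⟨e, he⟩ => cj_of_equiv hP e (H66.polar_comp_of_isometry (Q := Q.restrict W)
    (Q' := Q.restrict U) e he) fun x => sub_eq_zero.mpr (he x),
    fun ⟨g, hg, h⟩ => ⟨LinearEquiv.ofSubmodules g W U h, fun w => PQ.mem_isom_ofQuad.mp hg w⟩⟩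

variable [Finite F]

theorem quad_universal (hW : (qP Q).Nondeg W) (h : 2 ≤ finrank F W) (c : F) : ∃ w ∈ W, Q w = c := by
  obtain ⟨w, hw⟩ := H12.Nondeg.universal (H12.nondeg_iff.mpr (nd_restrict hW)) h c
  exact ⟨w, w.2, hw⟩

theorem quad_cj (hP : (qP Q).B.SeparatingLeft) (hW : (qP Q).Nondeg W) (hU : (qP Q).Nondeg U)
    (he : Even (finrank F W)) (hd : finrank F W = finrank F U)
    (h : Hyp (qP Q) W ↔ Hyp (qP Q) U) : Cj (qP Q) W U := by
  obtain ⟨k, hk⟩ := he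
  exact (cj_iff hP).mp (H66.exists_equiv_of_isPlusType_iff (nd_restrict hW) (nd_restrict hU)
    (m := k) (by omega) (by omega) (by rwa [← hyp_iff_plus hW, ← hyp_iff_plus hU]))

theorem quad_witt (hP : (qP Q).B.SeparatingLeft) (hW : (qP Q).Nondeg W) :
    ∃ H M, Hyp (qP Q) H ∧ (qP Q).Nondeg M ∧ M ≤ (qP Q).perp H ∧ H ⊔ M = W ∧ finrank F M ≤ 2 ∧
      ∀ v ∈ M, Q v = 0 → v = 0 := by
  obtain ⟨H, M, h1, h2, h3, h4, h5⟩ := exists_witt hP hW
  exact ⟨H, M, h1, h2, h3, h4, H66.finrank_le_two_of_anisotropic Q M h5, h5⟩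

theorem quad_hasTS (hP : (qP Q).B.SeparatingLeft) (hW : (qP Q).Nondeg W)
    (hk : 2 * k < finrank F W) : HasTS (qP Q) W k := by
  obtain ⟨H, M, h1, -, h3, rfl, h5, -⟩ := quad_witt hP hW
  obtain ⟨l, hl⟩ := h1.even
  rw [finrank_sup_orth h1.1 h3] at hk
  exact ((h1.hasTS (k := l) (by omega)).of_le (by omega)).mono le_sup_left

theorem quad_hasTS_iff (hP : (qP Q).B.SeparatingLeft) (hW : (qP Q).Nondeg W) :
    HasTS (qP Q) W k ↔ 2 * k < finrank F W ∨ (2 * k = finrank F W ∧ Hyp (qP Q) W) :=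
  ⟨fun h => (h.two_mul_le hP hW).lt_or_eq.imp_right fun h' => ⟨h', h.hyp hW h'.symm⟩,
    fun h => h.elim (quad_hasTS hP hW) fun h => h.2.hasTS h.1.symm⟩

theorem quad_exists_hyp (hP : (qP Q).B.SeparatingLeft) (hW : (qP Q).Nondeg W)
    (hk : 2 * k < finrank F W) : ∃ H ≤ W, Hyp (qP Q) H ∧ finrank F H = 2 * k :=
  (quad_hasTS hP hW hk).exists_hyp hP hW

theorem hyp_sup_of_not (hP : (qP Q).B.SeparatingLeft) (hA : (qP Q).Nondeg A) (hB : (qP Q).Nondeg B)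
    (heA : Even (finrank F A)) (heB : Even (finrank F B)) (ho : B ≤ (qP Q).perp A)
    (h : ¬ Hyp (qP Q) A) (h' : ¬ Hyp (qP Q) B) : Hyp (qP Q) (A ⊔ B) := by
  have key : ∀ A, (qP Q).Nondeg A → Even (finrank F A) → ¬ Hyp (qP Q) A → ∃ H M, Hyp (qP Q) H ∧
      (qP Q).Nondeg M ∧ M ≤ (qP Q).perp H ∧ H ⊔ M = A ∧ finrank F M = 2 ∧ ¬ Hyp (qP Q) M :=
    fun A hA ⟨k, hk⟩ h => by
      obtain ⟨H, M, h1, h2, h3, rfl, h5, -⟩ := quad_witt hP hA
      obtain ⟨l, hl⟩ := h1.even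
      rw [finrank_sup_orth h1.1 h3] at hk
      have h6 : ¬ Hyp (qP Q) M := fun h' => h (h1.sup h' h3)
      have h7 : finrank F M ≠ 0 := fun h' => h6 (eq_bot_of_finrank h' ▸ Hyp.bot)
      exact ⟨H, M, h1, h2, h3, rfl, by omega, h6⟩
  obtain ⟨H, M, h1, h2, h3, rfl, h4, h5⟩ := key A hA heA h
  obtain ⟨H', M', h6, h7, h8, rfl, h9, h10⟩ := key B hB heB h'
  have h11 := le_perp_mono ho le_sup_right le_sup_right
  obtain ⟨Φ, hΦ⟩ := H66.exists_equiv_of_isPlusType_iff (Q := -Q.restrict M) (Q' := Q.restrict M')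
    ((H66.nd_iff _).mpr fun u h => (H66.nd_iff _).mp (nd_restrict h2) u fun v => by
      simpa [polar_neg] using h v) (nd_restrict h7) (m := 1) h4 h9
    (iff_of_false (fun ⟨U, h12, h13⟩ => h5 ((hyp_iff_plus h2).mpr
      ⟨U, fun u hu => neg_eq_zero.mp (h12 u hu), h13⟩)) (by rwa [← hyp_iff_plus h7]))
  have h12 : Hyp (qP Q) (M ⊔ M') := by
    refine ⟨nondeg_sup h2 h7 h11, LinearMap.range (M.subtype + M'.subtype ∘ₗ Φ), ?_,
      quad_totSing.mpr ?_, ?_⟩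
    · rintro _ ⟨x, rfl⟩; exact Submodule.add_mem_sup x.2 (Φ x).2
    · rintro _ ⟨x, rfl⟩
      exact (qP_add (x : V) (Φ x)).trans (by
        rw [h11 (Φ x).2 x x.2, add_zero]; exact add_eq_zero_iff_eq_neg'.mpr (hΦ x))
    · rw [LinearMap.finrank_range_of_inj, finrank_sup_orth h2 h11, h4, h9]
      refine (injective_iff_map_eq_zero _).mpr fun x hx => Subtype.ext
        (Submodule.disjoint_def.mp (nondeg_disjoint h2 h11) _ x.2 ?_)
      rw [show (x : V) = -(Φ x : V) from eq_neg_of_add_eq_zero_left hx]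
      exact M'.neg_mem (Φ x).2
  rw [sup_sup_sup_comm]
  exact (h1.sup h6 (le_perp_mono ho le_sup_left le_sup_left)).sup h12 (sup_le
    (le_perp_sup h3 ((qP Q).le_perp_comm.mp (le_perp_mono ho le_sup_right le_sup_left)))
    (le_perp_sup (le_perp_mono ho le_sup_left le_sup_right) h8))

theorem quad_hyp_sup (hP : (qP Q).B.SeparatingLeft) (hA : (qP Q).Nondeg A) (hB : (qP Q).Nondeg B)
    (heA : Even (finrank F A)) (heB : Even (finrank F B)) (ho : B ≤ (qP Q).perp A) :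
    Hyp (qP Q) (A ⊔ B) ↔ (Hyp (qP Q) A ↔ Hyp (qP Q) B) := by
  by_cases h : Hyp (qP Q) A
  · simp [h.sup_iff hP ho, h]
  by_cases h' : Hyp (qP Q) B
  · rw [sup_comm, h'.sup_iff hP ((qP Q).le_perp_comm.mp ho)]; simp [h']
  simp [hyp_sup_of_not hP hA hB heA heB ho h h', h, h']

theorem quad_hyp_inf (hP : (qP Q).B.SeparatingLeft) (hW : (qP Q).Nondeg W) (hA : (qP Q).Nondeg A)
    (hle : A ≤ W) (heW : Even (finrank F W)) (heA : Even (finrank F A)) :
    Hyp (qP Q) (W ⊓ (qP Q).perp A) ↔ (Hyp (qP Q) W ↔ Hyp (qP Q) A) := by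
  have h1 := finrank_inf_perp' hA hle
  have h2 := quad_hyp_sup hP hA (nondeg_inf_perp hW hA hle) heA
    ((Nat.even_add.mp (h1 ▸ heW)).mpr heA) inf_le_right
  rw [sup_inf_perp hA hle] at h2
  tauto

theorem exists_aniso_plane (hP : (qP Q).B.SeparatingLeft) (hW : (qP Q).Nondeg W)
    (h : 3 ≤ finrank F W) : ∃ A ≤ W, (qP Q).Nondeg A ∧ finrank F A = 2 ∧ ¬ Hyp (qP Q) A := by
  obtain ⟨H, h1, h2, h3⟩ := quad_exists_hyp hP hW (k := 1) (by omega)
  obtain ⟨e, he, he0, hq⟩ := (h2.hasTS h3).exists_sing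
  obtain ⟨y, hy, h4⟩ := exists_B_ne h2.1 he he0
  obtain ⟨a, s, h5, h6⟩ := (qP Q).exists_hyp_pair hq h4
  have h7 : a • y + s • e ∈ H := H.add_mem (H.smul_mem _ hy) (H.smul_mem _ he)
  generalize a • y + s • e = e' at h5 h6 h7
  have h8 := finrank_inf_perp' h2.1 h1
  obtain ⟨w, hw, h9⟩ := exists_Q_ne (nondeg_inf_perp hW h2.1 h1) (ne_bot_of_finrank (by omega))
  obtain ⟨ζ, hζ⟩ := H66.exists_aniso (F := F)
  have h10 : ∀ a b : F, Q (a • (e + (Q w * ζ) • e') + b • (Q w • e' + w)) =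
      Q w * (b ^ 2 + 1 * b * a + ζ * a ^ 2) := fun a b => by
    rw [show a • (e + (Q w * ζ) • e') + b • (Q w • e' + w) =
      a • e + (a * Q w * ζ + b * Q w) • e' + b • w by module]
    simp only [qP_add, H12.Q_smul, map_add, LinearMap.map_smulₛₗ, LinearMap.add_apply,
      LinearMap.smul_apply, hw.2 e he, hw.2 e' h7, h6, show Q e = 0 from hq,
      show Q e' = 0 from h5]
    simp; ring
  have h11 := h10 1 0
  have h12 := h10 0 1
  have h13 := h10 1 1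
  simp only [one_smul, zero_smul, add_zero, zero_add] at h11 h12 h13
  rw [qP_add, h11, h12] at h13
  have h14 : (qP Q).B (e + (Q w * ζ) • e') (e + (Q w * ζ) • e') *
      (qP Q).B (Q w • e' + w) (Q w • e' + w) ≠ (qP Q).B (e + (Q w * ζ) • e') (Q w • e' + w) *
        (qP Q).B (Q w • e' + w) (e + (Q w * ζ) • e') := by
    rw [qP_self, qP_self, qP_symm (e + _), h11, h12,
      show (qP Q).B (e + (Q w * ζ) • e') (Q w • e' + w) = Q w by linear_combination h13]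
    exact fun h => mul_ne_zero (pow_ne_zero 2 h9) hζ.disc_ne_zero (by linear_combination -h)
  refine ⟨_, pair_le (W.add_mem (h1 he) (W.smul_mem _ (h1 h7)))
    (W.add_mem (W.smul_mem _ (h1 h7)) hw.1), nondeg_pair h14, finrank_pair h14,
    not_hyp_of_aniso (ne_bot_of_finrank (by rw [finrank_pair h14]; omega)) fun v hv h => ?_⟩
  obtain ⟨a, b, rfl⟩ := mem_span_pair'.mp hv
  obtain ⟨rfl, rfl⟩ := hζ b a ((mul_eq_zero.mp ((h10 a b).symm.trans h)).resolve_left h9)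
  simp

theorem exists_type (hP : (qP Q).B.SeparatingLeft) (hW : (qP Q).Nondeg W) (he : Even k)
    (hk : k < finrank F W) (ε : Prop) (h0 : k = 0 → ε) :
    ∃ U ≤ W, (qP Q).Nondeg U ∧ finrank F U = k ∧ (Hyp (qP Q) U ↔ ε) := by
  obtain ⟨k, rfl⟩ := he
  by_cases h : ε
  · obtain ⟨H, h1, h2, h3⟩ := quad_exists_hyp hP hW (k := k) (by omega)
    exact ⟨H, h1, h2.1, by omega, iff_of_true h2 h⟩
  have h1 : k ≠ 0 := fun h' => h (h0 (by omega))
  obtain ⟨A, h2, h3, h4, h5⟩ := exists_aniso_plane hP hW (by omega)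
  have h6 := finrank_inf_perp' h3 h2
  obtain ⟨H, h7, h8, h9⟩ := quad_exists_hyp hP (nondeg_inf_perp hW h3 h2) (k := k - 1) (by omega)
  have h10 := (qP Q).le_perp_comm.mp (h7.trans inf_le_right)
  exact ⟨H ⊔ A, sup_le (h7.trans inf_le_left) h2, nondeg_sup h8.1 h3 h10, by
    rw [finrank_sup_orth h8.1 h10]; omega, iff_of_false (by rwa [h8.sup_iff hP h10]) h⟩

theorem exists_cj_le (hP : (qP Q).B.SeparatingLeft) (hA : (qP Q).Nondeg A) (hW : (qP Q).Nondeg W)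
    (h : finrank F A < finrank F W) : ∃ U ≤ W, Cj (qP Q) A U := by
  rcases Nat.even_or_odd (finrank F A) with he | ⟨k, hk⟩
  · obtain ⟨U, h1, h2, h3, h4⟩ := exists_type hP hW he h (Hyp (qP Q) A)
      fun h => eq_bot_of_finrank h ▸ Hyp.bot
    exact ⟨U, h1, quad_cj hP hA h2 he h3.symm h4.symm⟩
  obtain ⟨H, h1, h2, h3⟩ := quad_exists_hyp hP hA (k := k) (by omega)
  have h4 := finrank_inf_perp' h2.1 h1
  obtain ⟨v, h5, h6, h7⟩ := exists_line (nondeg_inf_perp hA h2.1 h1) (by omega)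
  obtain ⟨u, hu, h8⟩ := quad_universal hW (by omega) (Q v)
  have h9 := nondeg_line h6 (h8 ▸ h5 : Q u ≠ 0)
  have h10 := (Submodule.span_singleton_le_iff_mem _ _).mpr hu
  have h11 := finrank_inf_perp' h9 h10
  rw [finrank_span_singleton (H12.ne_zero_of_Q_ne (h8 ▸ h5))] at h11
  obtain ⟨H', h12, h13, h14⟩ := quad_exists_hyp hP (nondeg_inf_perp hW h9 h10) (k := k) (by omega)
  refine ⟨H' ⊔ F ∙ u, sup_le (h12.trans inf_le_left) h10, ?_⟩
  rw [← sup_inf_perp h2.1 h1, h7]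
  exact Cj.sup hP (h2.cj_of_finrank hP h13 (by omega)) (cj_line hP h5 h8.symm) h2.1
    (h7 ▸ inf_le_right) ((qP Q).le_perp_comm.mp (h12.trans inf_le_right))

theorem quad_exists_nondeg (hP : (qP Q).B.SeparatingLeft) (h2 : (2 : F) ≠ 0)
    (hW : (qP Q).Nondeg W) (hk : k ≤ finrank F W) :
    ∃ U ≤ W, (qP Q).Nondeg U ∧ finrank F U = k := by
  rcases hk.eq_or_lt with rfl | hk
  · exact ⟨W, le_rfl, hW, rfl⟩
  obtain ⟨H, h1, h3, h4⟩ := quad_exists_hyp hP hW (k := k / 2) (by omega)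
  rcases Nat.even_or_odd' k with ⟨l, rfl | rfl⟩
  · exact ⟨H, h1, h3.1, by omega⟩
  have h5 := finrank_inf_perp' h3.1 h1
  obtain ⟨v, hv, h6⟩ := exists_Q_ne (nondeg_inf_perp hW h3.1 h1) (ne_bot_of_finrank (by omega))
  have h7 := (Submodule.span_singleton_le_iff_mem _ _).mpr hv
  exact ⟨H ⊔ F ∙ v, sup_le h1 (h7.trans inf_le_left),
    nondeg_sup h3.1 (nondeg_line h2 h6) (h7.trans inf_le_right), by
      rw [finrank_sup_orth h3.1 (h7.trans inf_le_right),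
        finrank_span_singleton (H12.ne_zero_of_Q_ne h6)]; omega⟩

theorem RSum.hyp_iff (hP : (qP Q).B.SeparatingLeft) {Φ : Submodule F V → Prop} {e : ℕ} {τ : Prop}
    (h : RSum (qP Q) Φ e T)
    (hΦ : ∀ B, (qP Q).Nondeg B → Φ B → Even (finrank F B) ∧ (Hyp (qP Q) B ↔ τ)) :
    Even (finrank F T) ∧ (Hyp (qP Q) T ↔ τ ∨ Even e) :=
  h.induction (C := fun e T => Even (finrank F T) ∧ (Hyp (qP Q) T ↔ τ ∨ Even e))
    (by simp [Hyp.bot]) fun e T B h1 h2 h3 h4 h5 => by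
      obtain ⟨h6, h7⟩ := hΦ B h3 h2
      rw [finrank_sup_orth h1.nondeg h4, quad_hyp_sup hP h1.nondeg h3 h5.1 h6 h4, h5.2, h7,
        Nat.even_add_one]
      exact ⟨h5.1.add h6, by tauto⟩

theorem quad_rsum (hP : (qP Q).B.SeparatingLeft) {Φ : Submodule F V → Prop} {c : ℕ} (τ : Prop)
    (hc : 0 < c) (hce : Even c)
    (hΦ : ∀ B, (qP Q).Nondeg B → finrank F B = c → (Hyp (qP Q) B ↔ τ) → Φ B) (e : ℕ) :
    ∀ T, (qP Q).Nondeg T → finrank F T = e * c → (Hyp (qP Q) T ↔ τ ∨ Even e) →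
      RSum (qP Q) Φ e T := by
  induction e with
  | zero => intro T _ h _; rw [eq_bot_of_finrank (N := T) (by simpa using h)]; exact RSum.zero
  | succ e ih =>
    intro T hT h1 h2
    rw [add_mul, one_mul] at h1
    obtain ⟨B, h3, h4, h5, h6⟩ : ∃ B ≤ T, (qP Q).Nondeg B ∧ finrank F B = c ∧
        (Hyp (qP Q) B ↔ τ) := by
      rcases e with _ | e
      · exact ⟨T, le_rfl, hT, by omega, by simpa using h2⟩
      · exact exists_type hP hT hce (by rw [h1, add_mul]; omega) τ (by omega)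
    have h7 := finrank_inf_perp' h4 h3
    have := (ih _ (nondeg_inf_perp hT h4 h3) (by omega) (by
      rw [quad_hyp_inf hP hT h4 h3 (h1 ▸ (hce.mul_left e).add hce) (h5 ▸ hce), h2, h6,
        Nat.even_add_one]
      tauto)).succ (hΦ B h4 h5 h6) h4 ((qP Q).le_perp_comm.mp inf_le_right)
    rwa [sup_comm, sup_inf_perp h4 h3] at this

end H99
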