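import Cfsg.Agent.Lib.Elusive.Quad

/-!
Semisimple isometries of odd prime order of a finite orthogonal space.
-/

set_option autoImplicit false

namespace H99

open Module H28 Polynomial QuadraticMap Pointwise

section Arith

theorem lex_lt {c x y : ℕ} (a b : ℕ) (hx : x < c) (hy : y < c) :
    a * c + x < b * c + y ↔ a < b ∨ (a = b ∧ x < y) := by
  rcases lt_trichotomy a b with h | rfl | h
  · have := Nat.mul_le_mul_right c (Nat.succ_le_of_lt h)
    rw [Nat.succ_mul] at this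
    exact iff_of_true (by omega) (Or.inl h)
  · simp
  · have := Nat.mul_le_mul_right c (Nat.succ_le_of_lt h)
    rw [Nat.succ_mul] at this
    exact iff_of_false (by omega) (by omega)

theorem lex_eq {c x y : ℕ} (a b : ℕ) (hx : x < c) (hy : y < c) :
    a * c + x = b * c + y ↔ a = b ∧ x = y := by
  have h1 := lex_lt a b hx hy
  have h2 := lex_lt b a hy hx
  omega

theorem lex_lt₂ {c x y : ℕ} (a b : ℕ) (hx : x < 2 * c) (hy : y < c) :
    a * c + x < b * c + y ↔ a + 1 < b ∨ (a + 1 = b ∧ x < c + y) ∨ (a = b ∧ x < y) := by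
  rcases lt_or_ge x c with h | h
  · have := lex_lt a b h hy; omega
  · have := lex_lt (a + 1) b (by omega : x - c < c) hy
    rw [add_mul, one_mul] at this; omega

theorem lex_eq₂ {c x y : ℕ} (a b : ℕ) (hx : x < 2 * c) (hy : y < c) :
    a * c + x = b * c + y ↔ (a + 1 = b ∧ x = c + y) ∨ (a = b ∧ x = y) := by
  rcases lt_or_ge x c with h | h
  · have := lex_eq a b h hy; omega
  · have := lex_eq (a + 1) b (by omega : x - c < c) hy
    rw [add_mul, one_mul] at this; omega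

/-- There is room for `e` blocks. -/
def Feas (n c : ℕ) (δ : Prop) (τ : ℕ → Prop) (e : ℕ) : Prop :=
  e * c < n ∨ (e * c = n ∧ (δ ↔ τ e))

/-- A nondegenerate subspace made of `t` of the `e` blocks and of fixed vectors. -/
def QG (n m c : ℕ) (δ ε : Prop) (τ : ℕ → Prop) (e t : ℕ) : Prop :=
  t ≤ e ∧ t * c ≤ m ∧ ((m = t * c ∧ (ε ↔ τ t)) ∨ (t * c < m ∧ m + e * c < n + t * c) ∨
    (m + e * c = n + t * c ∧ (ε ↔ (τ t ↔ (δ ↔ τ e)))))

/-- A totally singular subspace made of `t` irreducible pieces and of fixed vectors. -/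
def QT (n m i c s : ℕ) (δ : Prop) (τ : ℕ → Prop) (e t : ℕ) : Prop :=
  2 * (t * i) ≤ e * c ∧ (c = i → t = 0 ∨ 2 * t + s ≤ e + 1) ∧ t * i ≤ m ∧
    (2 * m + e * c < n + 2 * (t * i) ∨ (2 * m + e * c = n + 2 * (t * i) ∧ (δ ↔ τ e)))

variable {n m c i s : ℕ} {δ ε : Prop} {τ : ℕ → Prop}

theorem feas_iff (hc : 0 < c) (e : ℕ) : Feas n c δ τ e ↔
    e < n / c ∨ (e = n / c ∧ (0 < n % c ∨ (n % c = 0 ∧ (δ ↔ τ e)))) := by
  have h1 := lex_lt e (n / c) hc (Nat.mod_lt n hc)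
  have h2 := lex_eq e (n / c) hc (Nat.mod_lt n hc)
  rw [Nat.div_add_mod', add_zero] at h1 h2
  rw [Feas, h1, h2, eq_comm (a := 0)]
  tauto

theorem qg_iff (hc : 0 < c) (e t : ℕ) : QG n m c δ ε τ e t ↔ t ≤ e ∧ t ≤ m / c ∧
    ((t = m / c ∧ m % c = 0 ∧ (ε ↔ τ t)) ∨ ((t < m / c ∨ (t = m / c ∧ 0 < m % c)) ∧
      (m / c + e < n / c + t ∨ (m / c + e = n / c + t ∧ m % c < n % c))) ∨
      (m / c + e = n / c + t ∧ m % c = n % c ∧ (ε ↔ (τ t ↔ (δ ↔ τ e))))) := by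
  have h1 := lex_lt t (m / c) hc (Nat.mod_lt m hc)
  have h2 := lex_eq t (m / c) hc (Nat.mod_lt m hc)
  have h3 := lex_lt (m / c + e) (n / c + t) (Nat.mod_lt m hc) (Nat.mod_lt n hc)
  have h4 := lex_eq (m / c + e) (n / c + t) (Nat.mod_lt m hc) (Nat.mod_lt n hc)
  rw [Nat.div_add_mod', add_zero] at h1 h2
  rw [add_mul, add_mul, add_right_comm, add_right_comm (n / c * c), Nat.div_add_mod',
    Nat.div_add_mod'] at h3 h4
  rw [QG, h1, h3, h4, eq_comm (a := m), h2, eq_comm (a := 0), ← Nat.le_div_iff_mul_le hc,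
    and_assoc, and_assoc]

theorem qt_iff_odd (hi : 0 < i) (e t : ℕ) : QT n m i (2 * i) s δ τ e t ↔ t ≤ e ∧ t ≤ m / i ∧
    ((m / i + e < n / (2 * i) + t ∨ (m / i + e = n / (2 * i) + t ∧ 2 * (m % i) < n % (2 * i))) ∨
      (m / i + e = n / (2 * i) + t ∧ 2 * (m % i) = n % (2 * i) ∧ (δ ↔ τ e))) := by
  have h0 := Nat.mod_lt m hi
  have h1 := Nat.mod_lt n (by omega : 0 < 2 * i)
  have h3 := lex_lt (m / i + e) (n / (2 * i) + t) (by omega : 2 * (m % i) < 2 * i) h1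
  have h4 := lex_eq (m / i + e) (n / (2 * i) + t) (by omega : 2 * (m % i) < 2 * i) h1
  rw [add_mul, add_mul, add_right_comm, add_right_comm (n / (2 * i) * (2 * i)), Nat.div_add_mod',
    mul_left_comm, ← mul_add, Nat.div_add_mod', mul_left_comm t] at h3 h4
  rw [QT, h3, h4, ← Nat.le_div_iff_mul_le hi, ← mul_left_comm,
    Nat.mul_le_mul_right_iff (by omega), and_assoc]
  simp [show 2 * i ≠ i by omega]

theorem qt_iff_even (hi : 0 < i) (e t : ℕ) : QT n m i i s δ τ e t ↔ 2 * t ≤ e ∧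
    (t = 0 ∨ 2 * t + s ≤ e + 1) ∧ t ≤ m / i ∧
    ((2 * (m / i) + e + 1 < n / i + 2 * t ∨
      (2 * (m / i) + e + 1 = n / i + 2 * t ∧ 2 * (m % i) < i + n % i) ∨
      (2 * (m / i) + e = n / i + 2 * t ∧ 2 * (m % i) < n % i)) ∨
      (((2 * (m / i) + e + 1 = n / i + 2 * t ∧ 2 * (m % i) = i + n % i) ∨
        (2 * (m / i) + e = n / i + 2 * t ∧ 2 * (m % i) = n % i)) ∧ (δ ↔ τ e))) := by
  have h0 := Nat.mod_lt m hi
  have h1 := Nat.mod_lt n hi
  have h3 := lex_lt₂ (2 * (m / i) + e) (n / i + 2 * t) (by omega : 2 * (m % i) < 2 * i) h1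
  have h4 := lex_eq₂ (2 * (m / i) + e) (n / i + 2 * t) (by omega : 2 * (m % i) < 2 * i) h1
  rw [add_mul, add_mul, add_right_comm, add_right_comm (n / i * i), Nat.div_add_mod',
    mul_assoc, ← mul_add, Nat.div_add_mod', mul_assoc] at h3 h4
  rw [QT, h3, h4, ← Nat.le_div_iff_mul_le hi, ← mul_assoc, Nat.mul_le_mul_right_iff hi]
  simp

end Arith

variable {F V : Type*} [Field F] [AddCommGroup V] [Module F V] {Q : QuadraticForm F V}
  {f g : V →ₗ[F] V} {W U T N B : Submodule F V} [FiniteDimensional F V] [Fintype F]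
  {r i c e t m : ℕ} [hr : Fact r.Prime]

theorem blk_hyp_iff (H : SS (qP Q) r i c) (hc : c = if Even i then i else 2 * i)
    (h : Blk (qP Q) r c B) : Hyp (qP Q) B ↔ Odd i := by
  have hP := H.sep
  have hr0 := H.ord.ne
  have hi := H.ord.pos
  obtain ⟨h1, f, hf⟩ := h
  have hB := hf.nondeg hP hr0
  split_ifs at hc with he
  swap
  · obtain ⟨U, h2, h3, h4, -⟩ := (H.cases.resolve_left fun h => by omega).2.exists_half hP hr0
      hf.1 hf.2.1 ∅ (by simp)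
    rw [hf.movS_eq hP hr0] at h2 h4
    exact iff_of_true ⟨hB, U, h2, h3, h4⟩ (Nat.not_even_iff_odd.mp he)
  refine iff_of_false (fun h => ?_) (Nat.not_odd_iff_even.mpr he)
  obtain ⟨k, hk⟩ : ∃ k, i = 2 * (k + 1) := ⟨i / 2 - 1, by obtain ⟨k, hk⟩ := he; omega⟩
  obtain ⟨Φ, hΦ⟩ := ((hyp_iff_plus hB).mp h).exists_equiv (nd_restrict hB) (m := k + 1) (by omega)
  have h2 := H12.card_zero_QPlus (F := F) k
  have := finite_space F V
  rw [H12.card_zero_congr (Q' := Q.restrict B) Φ (fun v => (hΦ v).trans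
    (H12.QPlus_apply _ v).symm)] at h2
  have h3 := H12.card_sing_ne_zero (Q.restrict B)
  have h4 := H12.one_le_card_zero (Q.restrict B)
  obtain ⟨x, hx, rfl⟩ := hf.1.exists_equiv hP
  have h5 := dvd_card_of_no_fixed (r := r) (S := Subgroup.zpowers x) (fun y => ⟨1, Subtype.ext (by
      obtain ⟨_, n, rfl⟩ := y
      change (x ^ n) ^ r ^ 1 = 1
      rw [pow_one, ← zpow_natCast, ← zpow_mul, mul_comm, zpow_mul, zpow_natCast,
        show x ^ r = 1 from LinearEquiv.toLinearMap_injective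
          ((coe_equiv_pow x r).trans hf.2.1), one_zpow])⟩)
    (fun v : V => v ∈ B ∧ v ≠ 0 ∧ Q v = 0) (fun y hy v hv => ⟨?_, by simpa using hv.2.1,
      (PQ.mem_isom_ofQuad.mp ((Subgroup.zpowers_le.mpr hx) hy) v).trans hv.2.2⟩)
    fun v hv h => hv.2.1 (eq_zero_of_mov_fix hr0 (hf.2.2.2 hv.1) (h x (Subgroup.mem_zpowers x)))
  swap
  · have : y • B = B := (Subgroup.zpowers_le (H := MulAction.stabilizer _ B)).mpr
      ((hf.inv hP).map_eq x.injective) hy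
    exact this.le ⟨v, hv.1, rfl⟩
  rw [show Nat.card {v : V // v ∈ B ∧ v ≠ 0 ∧ Q v = 0} =
    Nat.card {x : B // x ≠ 0 ∧ Q.restrict B x = 0} from Nat.card_congr
      ⟨fun v => ⟨⟨v.1, v.2.1⟩, fun h => v.2.2.1 (congrArg Subtype.val h), v.2.2.2⟩,
        fun v => ⟨v.1.1, v.1.2, fun h => v.2.1 (Subtype.ext h), v.2.2⟩, fun _ => rfl,
        fun _ => rfl⟩, h3, ← ZMod.natCast_eq_zero_iff, Nat.cast_sub h4] at h5
  have h6 := congrArg (Int.cast : ℤ → ZMod r) h2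
  push_cast at h6
  have h7 := fun j => pow_eq_neg_one_iff H.ord.not_dvd H.odd j
  rw [H.ord.eq] at h7
  have h8 := (h7 (k + 1)).mpr ⟨he, by rw [Nat.mod_eq_of_lt (by omega)]; omega⟩
  rw [Nat.card_eq_fintype_card (α := F)] at h6
  have h9 : (2 : ZMod r) ≠ 0 := fun h => neg_one_ne_one_zmod H.odd (by linear_combination -h)
  have := ((h7 k).mp (mul_left_cancel₀ h9 (by
    linear_combination ((Fintype.card F : ZMod r) ^ k + 1) * h8 + h6 - h5))).2
  rw [Nat.mod_eq_of_lt (by omega)] at this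
  omega

theorem mov_hyp_iff (H : SS (qP Q) r i c) (hc : c = if Even i then i else 2 * i)
    (hf : Iso (qP Q) f) (h : f ^ r = 1) (hN : (qP Q).Nondeg N) (hNf : Inv f N) (hle : N ≤ movS r f)
    (he : finrank F N = e * c) : Hyp (qP Q) N ↔ Odd i ∨ Even e := by
  obtain ⟨e', h1⟩ := H.rsum hf h hN hNf hle
  obtain rfl : e' = e := Nat.eq_of_mul_eq_mul_right H.pos ((h1.finrank_eq fun _ h => h.2).symm.trans he)
  exact ((h1.mono (Ψ := Blk (qP Q) r c) fun B h2 h3 h4 => ⟨h4.2,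
    (exists_mov_restrict hf h h3 h4.1 (h2.trans hle)).imp fun _ h => h.1⟩).hyp_iff H.sep
      fun B _ h => ⟨h.1 ▸ even_c hc, blk_hyp_iff H hc h⟩).2

theorem fix_hyp_iff (H : SS (qP Q) r i c) (hc : c = if Even i then i else 2 * i)
    (hf : Iso (qP Q) f) (h : f ^ r = 1) (he : finrank F (movS r f) = e * c)
    (h2 : Even (finrank F (fixS f))) :
    Hyp (qP Q) (fixS f) ↔ (Hyp (qP Q) ⊤ ↔ Odd i ∨ Even e) := by
  have hN := nondeg_movS H.sep H.ord.ne hf h
  rw [← fixS_sup_movS H.ord.ne h, quad_hyp_sup H.sep (nondeg_fixS H.sep H.ord.ne hf h) hN h2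
    (he ▸ (even_c hc).mul_left e) (movS_le_perp H.ord.ne hf),
    mov_hyp_iff H hc hf h hN (inv_movS r f) le_rfl he]
  tauto

theorem feas_of_elt (H : SS (qP Q) r i c) (hc : c = if Even i then i else 2 * i)
    (hf : Iso (qP Q) f) (h : f ^ r = 1) (he : finrank F (movS r f) = e * c) :
    Feas (finrank F V) c (Hyp (qP Q) ⊤) (fun e => Odd i ∨ Even e) e :=
  (he ▸ Submodule.finrank_le _ : e * c ≤ _).lt_or_eq.imp_right fun h' => ⟨h', by
    rw [← Submodule.eq_top_of_finrank_eq (he.trans h')]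
    exact mov_hyp_iff H hc hf h (nondeg_movS H.sep H.ord.ne hf h) (inv_movS r f) le_rfl he⟩

theorem rsum_of_feas (H : SS (qP Q) r i c) (hc : c = if Even i then i else 2 * i)
    (hf : Iso (qP Q) f) (h : f ^ r = 1) (h1 : f ≠ 1)
    (he : Feas (finrank F V) c (Hyp (qP Q) ⊤) (fun e => Odd i ∨ Even e) e) :
    ∃ T, RSum (qP Q) (Blk (qP Q) r c) e T := by
  have hP := H.sep
  obtain ⟨B, hB, hb⟩ := H.exists_blk hf h h1
  obtain ⟨T, h2, h3, h4⟩ : ∃ T, (qP Q).Nondeg T ∧ finrank F T = e * c ∧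
      (Hyp (qP Q) T ↔ Odd i ∨ Even e) := by
    rcases he with he | he
    · obtain ⟨T, -, h⟩ := exists_type hP (nondeg_top hP) ((even_c hc).mul_left e)
        (by rwa [finrank_top]) (Odd i ∨ Even e) fun h => Or.inr (by
          rw [(mul_eq_zero.mp h).resolve_right H.pos.ne']; exact Even.zero)
      exact ⟨T, h⟩
    · exact ⟨⊤, nondeg_top hP, by rw [finrank_top, he.1], he.2⟩
  exact ⟨T, quad_rsum hP (Odd i) H.pos (even_c hc) (fun B' h5 h6 h7 => hb.cj (quad_cj hP hB h5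
    (hb.1 ▸ even_c hc) (hb.1.trans h6.symm) ((blk_hyp_iff H hc hb).trans h7.symm))) e T h2 h3 h4⟩

theorem qg_of_inv (H : SS (qP Q) r i c) (hc : c = if Even i then i else 2 * i)
    (hf : Iso (qP Q) f) (h : f ^ r = 1) (he : finrank F (movS r f) = e * c)
    (hW : (qP Q).Nondeg W) (hWf : Inv f W) (hp : Even (finrank F W) ∨ Even (finrank F V)) :
    ∃ t, QG (finrank F V) (finrank F W) c (Hyp (qP Q) ⊤) (Hyp (qP Q) W)
      (fun e => Odd i ∨ Even e) e t := by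
  have hr0 := H.ord.ne
  obtain ⟨t, h1, h2⟩ := H.nd_shape hf h hW hWf
  have h3 := Submodule.finrank_mono (inf_le_right : W ⊓ movS r f ≤ _)
  have h4 := Submodule.finrank_mono (inf_le_right : W ⊓ fixS f ≤ _)
  have h5 := finrank_fixS_add hr0 h
  have h6 := nondeg_inf_movS hr0 hf h hW hWf
  have h7 := mov_hyp_iff H hc hf h h6 (hWf.inf (inv_movS r f)) inf_le_right h1
  refine ⟨t, Nat.le_of_mul_le_mul_right (by omega) H.pos, by omega, ?_⟩
  by_cases h8 : finrank F W = t * c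
  · exact Or.inl ⟨h8, by
      rwa [Submodule.eq_of_le_of_finrank_eq inf_le_left (h1.trans h8.symm)] at h7⟩
  rcases h4.lt_or_eq with h9 | h9
  · exact Or.inr (Or.inl ⟨by omega, by omega⟩)
  refine Or.inr (Or.inr ⟨by omega, ?_⟩)
  obtain ⟨a, ha⟩ := (even_c hc).mul_left t
  obtain ⟨b, hb⟩ := (even_c hc).mul_left e
  have h10 : Even (finrank F (fixS f)) := by
    rw [Nat.even_iff] at hp ⊢; rw [Nat.even_iff] at hp; omega
  rw [inv_eq_fix_sup_mov hr0 h hWf, Submodule.eq_of_le_of_finrank_eq inf_le_right h9,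
    quad_hyp_sup H.sep (nondeg_fixS H.sep hr0 hf h) h6 h10 ⟨a, h1.trans ha⟩
      (inf_le_right.trans (movS_le_perp hr0 hf)), h7, fix_hyp_iff H hc hf h he h10]
  exact Iff.comm

theorem exists_of_qg (H : SS (qP Q) r i c) (hc : c = if Even i then i else 2 * i)
    (hf : Iso (qP Q) f) (h : f ^ r = 1) (he : finrank F (movS r f) = e * c)
    (hW : (qP Q).Nondeg W) (hp : Even (finrank F W) ∨ Even (finrank F V))
    (ht : QG (finrank F V) (finrank F W) c (Hyp (qP Q) ⊤) (Hyp (qP Q) W)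
      (fun e => Odd i ∨ Even e) e t) :
    ∃ U ≤ fixS f, ∃ U' ≤ movS r f, Inv f U' ∧ finrank F U' = t * c ∧ Cj (qP Q) W (U ⊔ U') := by
  have hP := H.sep
  have hr0 := H.ord.ne
  obtain ⟨h1, h2, h3⟩ := ht
  obtain ⟨U', h4, h5, h6, h7⟩ := H.exists_nondeg hf h (nondeg_movS hP hr0 hf h) (inv_movS r f)
    le_rfl (t := t) (he ▸ Nat.mul_le_mul_right c h1)
  have h8 := mov_hyp_iff H hc hf h h6 h5 h4 h7
  have h9 := (even_c hc).mul_left t
  have h10 := finrank_fixS_add hr0 h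
  have hC := nondeg_fixS hP hr0 hf h
  rcases h3 with ⟨h3, h11⟩ | ⟨h3, h11⟩ | ⟨h3, h11⟩
  · exact ⟨⊥, bot_le, U', h4, h5, h7, by
      rw [bot_sup_eq]; exact quad_cj hP hW h6 (h3 ▸ h9) (by omega) (h11.trans h8.symm)⟩
  · obtain ⟨A, h12, h13, h14, h15⟩ := exists_type hP hW h9 h3 (Odd i ∨ Even t) fun h => Or.inr (by
      rw [(mul_eq_zero.mp h).resolve_right H.pos.ne']; exact Even.zero)
    have h16 := finrank_inf_perp' h13 h12
    obtain ⟨U, h17, h18⟩ := exists_cj_le hP (nondeg_inf_perp hW h13 h12) hC (by omega)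
    refine ⟨U, h17, U', h4, h5, h7, ?_⟩
    rw [← sup_inf_perp h13 h12, sup_comm U]
    exact Cj.sup hP (quad_cj hP h13 h6 (h14 ▸ h9) (by omega) (h15.trans h8.symm)) h18 h13
      inf_le_right ((qP Q).le_perp_comm.mp (le_perp_mono (movS_le_perp hr0 hf) h17 h4))
  · obtain ⟨a, ha⟩ := h9
    obtain ⟨b, hb⟩ := (even_c hc).mul_left e
    have h12 : Even (finrank F (fixS f)) := by
      rw [Nat.even_iff] at hp ⊢; rw [Nat.even_iff] at hp; omega
    have h13 := h4.trans (movS_le_perp hr0 hf)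
    have h14 := finrank_sup_orth hC h13
    refine ⟨_, le_rfl, U', h4, h5, h7, quad_cj hP hW (nondeg_sup hC h6 h13) ?_ (by omega) ?_⟩
    · rw [Nat.even_iff] at h12 ⊢; omega
    · rw [quad_hyp_sup hP hC h6 h12 ⟨a, h7.trans ha⟩ h13, h8, fix_hyp_iff H hc hf h he h12, h11]
      exact Iff.comm

theorem quad_nd_iff (H : SS (qP Q) r i c) (hc : c = if Even i then i else 2 * i)
    (hW : (qP Q).Nondeg W) (hp : Even (finrank F W) ∨ Even (finrank F V))
    (hΩ : r ∣ Nat.card {U // Cj (qP Q) W U}) {δ ε : Prop} (hδ : Hyp (qP Q) ⊤ ↔ δ)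
    (hε : Hyp (qP Q) W ↔ ε) {n : ℕ} (hn : finrank F V = n) (hm : finrank F W = m) :
    (∃ e, Feas n c δ (fun e => Odd i ∨ Even e) e ∧ ¬ QG n m c δ ε (fun e => Odd i ∨ Even e) e 0 ∧
      ¬ QG n m c δ ε (fun e => Odd i ∨ Even e) e e) ∧
    ((∀ f, Iso (qP Q) f → f ^ r = 1 → f ≠ 1 → ∃ U, Cj (qP Q) W U ∧ Inv f U) ↔
      ∀ e, 0 < e → Feas n c δ (fun e => Odd i ∨ Even e) e →
        ∃ t, QG n m c δ ε (fun e => Odd i ∨ Even e) e t) := by
  have hP := H.sep
  have hr0 := H.ord.ne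
  obtain rfl := propext hδ
  obtain rfl := propext hε
  subst hn hm
  refine ⟨?_, fun h e he0 he => ?_, fun h f hf hfr h1 => ?_⟩
  · by_contra h
    push Not at h
    refine not_dvd_card_sub hP hr0 _ (fun _ _ h h' => h'.trans h) (fun _ _ h h' => h.symm.trans h')
      (fun f hf hfr => ?_) hΩ
    obtain ⟨e, he, -⟩ := H.fix_shape hf hfr
    rcases or_iff_not_imp_left.mpr (h e (feas_of_elt H hc hf hfr he)) with h1 | h1 <;>
      obtain ⟨U, h2, U', h3, -, h4, h5⟩ := exists_of_qg H hc hf hfr he hW hp h1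
    · exact ⟨_, h5, Or.inl (sup_le h2 (by simp [eq_bot_of_finrank (N := U') (by simpa using h4)]))⟩
    · exact ⟨_, h5, Or.inr (perp_movS hP hr0 hf hfr ▸ (qP Q).perp_anti
        (Submodule.eq_of_le_of_finrank_eq h3 (h4.trans he.symm) ▸ le_sup_right))⟩
  · obtain ⟨f, h1, h2, h3⟩ := exists_elt_of_dvd_sub _ (fun _ _ h h' => h'.trans h)
      (fun _ _ h h' => h.symm.trans h') ⟨W, Cj.refl W⟩ hΩ
    obtain ⟨T, hT⟩ := rsum_of_feas H hc h1 h2 h3 he
    have h4 := hT.finrank_eq fun _ h => h.1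
    obtain ⟨g, hg⟩ := hT.exists_mov hP
    obtain ⟨U, h5, h6⟩ := h g hg.1 hg.2.1 (hg.ne_one hP hr0 (ne_bot_of_finrank (by
      rw [h4]; exact (Nat.mul_pos he0 H.pos).ne')))
    rw [h5.finrank_eq] at hp ⊢
    rw [propext ⟨fun h => Hyp.cj h h5, fun h => h.cj h5.symm⟩]
    exact qg_of_inv H hc hg.1 hg.2.1 (hg.movS_eq hP hr0 ▸ h4) (h5.nondeg hW) h6 hp
  · obtain ⟨e, he, -⟩ := H.fix_shape hf hfr
    obtain ⟨t, ht⟩ := h e (Nat.pos_of_mul_pos_right (he ▸ finrank_movS_pos hr0 hfr h1))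
      (feas_of_elt H hc hf hfr he)
    obtain ⟨U, h2, U', -, h3, -, h5⟩ := exists_of_qg H hc hf hfr he hW hp ht
    exact ⟨_, h5, (inv_of_le_fixS h2).sup h3⟩

theorem hasTS_fix_iff (H : SS (qP Q) r i c) (hc : c = if Even i then i else 2 * i)
    (hf : Iso (qP Q) f) (h : f ^ r = 1) (he : finrank F (movS r f) = e * c) (u : ℕ) :
    HasTS (qP Q) (fixS f) u ↔ 2 * u + e * c < finrank F V ∨
      (2 * u + e * c = finrank F V ∧ (Hyp (qP Q) ⊤ ↔ Odd i ∨ Even e)) := by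
  have h1 := finrank_fixS_add H.ord.ne h
  rw [quad_hasTS_iff H.sep (nondeg_fixS H.sep H.ord.ne hf h)]
  refine or_congr (by omega) ⟨fun h' => ⟨by omega, ?_⟩, fun h' => ⟨by omega, ?_⟩⟩
  · exact (fix_hyp_iff H hc hf h he ⟨u, by omega⟩).mp h'.2
  · exact (fix_hyp_iff H hc hf h he ⟨u, by omega⟩).mpr h'.2

theorem quad_ts_iff (H : SS (qP Q) r i c) (hc : c = if Even i then i else 2 * i)
    (hm : 2 * m < finrank F V)
    (hΩ : r ∣ Nat.card {W : Submodule F V // finrank F W = m ∧ (qP Q).TotSing W}) {δ : Prop}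
    (hδ : Hyp (qP Q) ⊤ ↔ δ) {n : ℕ} (hn : finrank F V = n) :
    (∃ e, Feas n c δ (fun e => Odd i ∨ Even e) e ∧
      ¬ QT n m i c ((r - 1) / i) δ (fun e => Odd i ∨ Even e) e 0) ∧
    ((∀ f, Iso (qP Q) f → f ^ r = 1 → f ≠ 1 →
      ∃ W : Submodule F V, finrank F W = m ∧ (qP Q).TotSing W ∧ Inv f W) ↔
      ∀ e, 0 < e → Feas n c δ (fun e => Odd i ∨ Even e) e →
        ∃ t, QT n m i c ((r - 1) / i) δ (fun e => Odd i ∨ Even e) e t) := by
  have hP := H.sep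
  have hr0 := H.ord.ne
  have hi := H.ord.pos
  obtain rfl := propext hδ
  subst hn
  have hcl : ∀ W W' : Submodule F V, Cj (qP Q) W W' → finrank F W = m ∧ (qP Q).TotSing W →
      finrank F W' = m ∧ (qP Q).TotSing W' :=
    fun W W' h1 h2 => ⟨h1.finrank_eq ▸ h2.1, h1.totSing h2.2⟩
  have htr : ∀ W W' : Submodule F V, finrank F W = m ∧ (qP Q).TotSing W →
      finrank F W' = m ∧ (qP Q).TotSing W' → Cj (qP Q) W W' :=
    fun W W' h1 h2 => cj_totSing hP h1.2 h2.2 (h1.1.trans h2.1.symm)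
  refine ⟨?_, fun h e he0 he => ?_, fun h f hf hfr h1 => ?_⟩
  · by_contra h
    push Not at h
    refine not_dvd_card_sub hP hr0 _ hcl htr (fun f hf hfr => ?_) hΩ
    obtain ⟨e, he, -⟩ := H.fix_shape hf hfr
    obtain ⟨W, h1, h2, h3⟩ := (hasTS_fix_iff H hc hf hfr he m).mpr
      (by simpa using (h e (feas_of_elt H hc hf hfr he)).2.2.2)
    exact ⟨W, ⟨h3, h2⟩, Or.inl h1⟩
  · obtain ⟨W₀, -, h1, h2⟩ := quad_hasTS hP (nondeg_top hP) (k := m) (by rwa [finrank_top])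
    obtain ⟨f, h1, h2, h3⟩ := exists_elt_of_dvd_sub _ hcl htr ⟨W₀, h2, h1⟩ hΩ
    obtain ⟨T, hT⟩ := rsum_of_feas H hc h1 h2 h3 he
    have h4 := hT.finrank_eq fun _ h => h.1
    obtain ⟨g, hg, h5⟩ := H.ts_bound hT
    obtain ⟨W, h6, h7, h8⟩ := h g hg.1 hg.2.1 (hg.ne_one hP hr0 (ne_bot_of_finrank (by
      rw [h4]; exact (Nat.mul_pos he0 H.pos).ne')))
    obtain ⟨u, t, h9, h10, h11, h12⟩ := h5 W h7 h8
    rw [← hg.fixS_eq hP hr0, hasTS_fix_iff H hc hg.1 hg.2.1 (hg.movS_eq hP hr0 ▸ h4)] at h10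
    exact ⟨t, h11, h12, by omega, h10.imp (by omega) (And.imp_left (by omega))⟩
  · obtain ⟨e, he, -⟩ := H.fix_shape hf hfr
    obtain ⟨t, h2, h3, h4, h5⟩ := h e (Nat.pos_of_mul_pos_right (he ▸ finrank_movS_pos hr0 hfr h1))
      (feas_of_elt H hc hf hfr he)
    obtain ⟨T, a, h6, h7, h8, h9⟩ := H.ts_shape hf hfr
    obtain ⟨W, h10, h11⟩ := h9 t (by
      rcases H.cases with ⟨rfl, -⟩ | ⟨rfl, -⟩
      · have := (Nat.le_div_iff_mul_le hi).mpr h7
        have := Nat.eq_of_mul_eq_mul_right hi (he.symm.trans h6)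
        have := h3 rfl
        omega
      · rw [← he, h6, h8 rfl, add_zero, ← mul_assoc] at h2
        have := Nat.le_of_mul_le_mul_right h2 hi
        omega) (m - t * i) ((hasTS_fix_iff H hc hf hfr he _).mpr
          (h5.imp (by omega) (And.imp_left (by omega))))
    exact ⟨W, by omega, h11⟩

end H99
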