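import Cfsg.Agent.Lib.Elusive.Idx
import Cfsg.Agent.Lib.Elusive.Mu
import Cfsg.Agent.Lib.MatConj.Invol
import Cfsg.Agent.Lib.GL.Unitri

/-!
Determinants in centralizers, diagonal elements and similarities of forms.
-/

set_option autoImplicit false
set_option linter.unusedSectionVars false

namespace H99

open Module Polynomial H28
open H65 (Similar model nilModel piEnd)

section Det

variable {F V : Type*} [Field F] [AddCommGroup V] [Module F V] [FiniteDimensional F V]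
  {f g : End F V}

theorem exists_commute_norm {ι : Type*} [Fintype ι] {P : ι → F[X]} (hP : ∀ i, P i ≠ 0)
    (h : Similar f (model P)) (k : ι) (a : AdjoinRoot (P k)) :
    ∃ c, Commute f c ∧ LinearMap.det c = Algebra.norm F a := by
  classical
  have := fun i => H65.finiteDimensional_adjoinRoot (hP i)
  obtain ⟨c, h1, h2⟩ := h.exists_commute (z := piEnd fun i =>
    Algebra.lmul F (AdjoinRoot (P i)) (Function.update (1 : ∀ i, AdjoinRoot (P i)) k a i))
    (LinearMap.ext fun v => funext fun i => mul_left_comm (AdjoinRoot.root (P i)) _ (v i))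
  refine ⟨c, h1, ?_⟩
  rw [h2.det_eq, H65.det_piEnd, Finset.prod_eq_single k (fun i _ hi => by
    rw [Function.update_of_ne hi, Pi.one_apply, map_one, map_one]) (by simp)]
  simp [Algebra.norm_apply]

/-- Every nonzero scalar is the determinant of a map commuting with `f`. -/
def DS (f : End F V) : Prop := ∀ δ : F, δ ≠ 0 → ∃ c, Commute f c ∧ LinearMap.det c = δ

theorem DS.mono (h : DS f) (h1 : ∀ c, Commute f c → Commute g c) : DS g := fun δ hδ =>
  (h δ hδ).imp fun c hc => ⟨h1 c hc.1, hc.2⟩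

theorem ds_of_squarefree [Finite F] [Nontrivial V] {p : F[X]} (hp : Squarefree p)
    (hf : aeval f p = 0) : DS f := fun δ _ => by
  obtain ⟨t, P, h1, h2, -, h3⟩ := H65.exists_model_of_squarefree hp hf
  obtain ⟨k⟩ : Nonempty (Fin t) := by
    by_contra h
    have := h3.finrank_eq_sum fun i => (h1 i).ne_zero
    rw [not_nonempty_iff] at h
    exact finrank_pos.ne' (this.trans (by simp))
  have := Fact.mk (h1 k)
  have := H65.finiteDimensional_adjoinRoot (h1 k).ne_zero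
  have : Finite (AdjoinRoot (P k)) := Module.finite_of_finite F
  obtain ⟨a, rfl⟩ := FiniteField.norm_surjective F (AdjoinRoot (P k)) δ
  exact exists_commute_norm (fun i => (h1 i).ne_zero) h3 k a

theorem exists_commute_nil {ι : Type*} [Fintype ι] {d : ι → ℕ} (h : Similar f (nilModel F d))
    (k : ι) (δ : F) : ∃ c, Commute f c ∧ LinearMap.det c = δ ^ d k := by
  have := exists_commute_norm (fun i => pow_ne_zero _ X_ne_zero) h k (algebraMap F _ δ)
  rwa [Algebra.norm_algebraMap, H65.finrank_adjoinRoot_X_pow] at this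

theorem ds_of_pow [Fintype F] [Nontrivial V] {r : ℕ} [Fact r.Prime] (hr : (r : F) ≠ 0) {c : F}
    (hd : LinearMap.det f ≠ 0) (h : f ^ r = c • 1) : DS f :=
  ds_of_squarefree (squarefree_X_pow_sub_C hr (ne_zero_of_det hd h finrank_pos))
    (aeval_X_pow_sub_C h)

theorem exists_nil_of_pow {k : ℕ} (h : f ^ k = 0) : ∃ (t : ℕ) (d : Fin t → ℕ),
    (∀ i, 0 < d i ∧ d i ≤ k) ∧ Similar f (nilModel F d) ∧ ∑ i, d i = finrank F V := by
  obtain ⟨t, d, h1, h2⟩ := H65.exists_nilModel ⟨k, h⟩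
  exact ⟨t, d, fun i => ⟨h1 i, (H65.nilModel_pow_eq_zero_iff d k).mp ((h2.pow k).eq_zero_iff.mp h) i⟩,
    h2, by rw [h2.finrank_eq, H65.finrank_nilModel]⟩

theorem ds_two [Fintype F] [Nontrivial V] {c : F} (hd : LinearMap.det f ≠ 0) (h : f ^ 2 = c • 1) :
    DS f := by
  by_cases h2 : ((2 : ℕ) : F) = 0
  swap
  · exact ds_of_pow h2 hd h
  have : CharP F 2 := (CharP.charP_iff_prime_eq_zero Nat.prime_two).mpr h2
  obtain ⟨a, rfl⟩ := exists_pow_char_eq (p := 2) c
  have h3 : (f - a • 1) ^ 2 = 0 := by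
    have h3 : (2 : F) = 0 := by simpa using h2
    rw [pow_two, sub_mul, mul_sub, mul_sub, ← pow_two, h]
    simp only [mul_smul_comm, smul_mul_assoc, mul_one, one_mul, smul_smul]
    linear_combination (norm := module) h3 • (a ^ 2 • (1 : End F V) - a • f)
  obtain ⟨t, d, h4, h5, h6⟩ := exists_nil_of_pow h3
  obtain ⟨k⟩ : Nonempty (Fin t) := by
    by_contra h
    rw [not_nonempty_iff] at h
    exact finrank_pos.ne' (h6.symm.trans (by simp))
  refine DS.mono (f := f - a • 1) (fun δ _ => ?_) fun c hc => by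
    simpa using hc.add_left ((Commute.one_left c).smul_left a)
  obtain ⟨ε, rfl⟩ := exists_pow_char_eq (p := 2) δ
  obtain h7 | h7 : d k = 1 ∨ d k = 2 := by have := h4 k; omega
  · simpa [h7] using exists_commute_nil h5 k (ε ^ 2)
  · simpa [h7] using exists_commute_nil h5 k ε

theorem exists_conj_of_similar (h : Similar f g) : ∃ e : V ≃ₗ[F] V, e.symm.conj f = g := by
  obtain ⟨e, rfl⟩ := h.eq_conj
  exact ⟨e.symm, rfl⟩

theorem exists_conj_det {e : V ≃ₗ[F] V} {c : End F V} (hc : Commute f c)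
    (h0 : LinearMap.det c ≠ 0) : ∃ e' : V ≃ₗ[F] V, e'.symm.conj f = e.symm.conj f ∧
      LinearMap.det (e' : End F V) = LinearMap.det c * LinearMap.det (e : End F V) := by
  obtain ⟨c, rfl⟩ : ∃ c' : V ≃ₗ[F] V, (c' : End F V) = c :=
    ⟨LinearMap.equivOfDetNeZero c h0, rfl⟩
  refine ⟨e.trans c, LinearMap.ext fun v => ?_, by rw [← map_mul]; rfl⟩
  have := LinearMap.congr_fun hc (e v)
  simp only [Module.End.mul_apply, LinearEquiv.coe_coe] at this
  simp [LinearEquiv.conj_apply, this]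

theorem det_equiv_ne_zero (e : V ≃ₗ[F] V) : LinearMap.det (e : End F V) ≠ 0 :=
  (LinearEquiv.isUnit_det' e).ne_zero

theorem DS.exists_conj (h : DS f) (hs : Similar f g) :
    ∃ e : V ≃ₗ[F] V, LinearMap.det (e : End F V) = 1 ∧ e.symm.conj f = g := by
  obtain ⟨e, rfl⟩ := exists_conj_of_similar hs
  obtain ⟨c, h1, h2⟩ := h _ (inv_ne_zero (det_equiv_ne_zero e))
  obtain ⟨e', h3, h4⟩ := exists_conj_det (e := e) h1 (h2 ▸ inv_ne_zero (det_equiv_ne_zero e))
  exact ⟨e', by rw [h4, h2, inv_mul_cancel₀ (det_equiv_ne_zero e)], h3⟩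

theorem similar_symm_conj (e : V ≃ₗ[F] V) (f : End F V) : Similar f (e.symm.conj f) :=
  H65.similar_conj f e.symm

theorem finrank_fixS_eq {W : Type*} [AddCommGroup W] [Module F W] {g : End F W}
    (h : Similar f g) : finrank F (fixS f) = finrank F (fixS g) := h.kerDim_eq _

theorem finrank_movS_eq {W : Type*} [AddCommGroup W] [Module F W] {g : End F W}
    (h : Similar f g) (r : ℕ) : finrank F (movS r f) = finrank F (movS r g) := h.kerDim_eq _

theorem pow_eq_of_similar {W : Type*} [AddCommGroup W] [Module F W] {g : End F W}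
    (h : Similar f g) {r : ℕ} {c : F} (h1 : f ^ r = c • 1) : g ^ r = c • 1 :=
  ((h.pow r).eq_smul_one_iff c).mp h1

theorem pow_eq_one_of_similar {W : Type*} [AddCommGroup W] [Module F W] {g : End F W}
    (h : Similar f g) {r : ℕ} (h1 : f ^ r = 1) : g ^ r = 1 :=
  (h.pow r).eq_one_iff.mp h1

end Det

section Diag

variable {F V ι : Type*} [Field F] [AddCommGroup V] [Module F V] {f : End F V}

theorem exists_dg_of_similar {W : Type*} [AddCommGroup W] [Module F W] {g : End F W}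
    {b : Basis ι F V} {d : ι → F} (h : Similar (dg b d) g) : ∃ b' : Basis ι F W, g = dg b' d := by
  obtain ⟨e, he⟩ := h
  exact ⟨b.map e, (b.map e).ext fun i => by rw [dg_basis]; simp [dg_basis, ← he]⟩

theorem similar_dg {W : Type*} [AddCommGroup W] [Module F W] (b : Basis ι F V) (b' : Basis ι F W)
    (d : ι → F) : Similar (dg b d) (dg b' d) :=
  ⟨b.equiv b' (Equiv.refl ι), fun v => LinearMap.congr_fun (f := (b.equiv b' (Equiv.refl ι) :
    V →ₗ[F] W) ∘ₗ dg b d) (g := dg b' d ∘ₗ (b.equiv b' (Equiv.refl ι) : V →ₗ[F] W))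
    (b.ext fun i => by simp [dg_basis]) v⟩

variable [Fintype ι] [DecidableEq ι] [FiniteDimensional F V]

theorem charpoly_dg (b : Basis ι F V) (d : ι → F) : (dg b d).charpoly = ∏ i, (X - C (d i)) := by
  rw [← LinearMap.charpoly_toMatrix _ b, toMatrix_dg, Matrix.charpoly_diagonal]

theorem exists_dg_of_splits {p : F[X]} (hp : Squarefree p) (hs : p.Splits) (hf : aeval f p = 0)
    (h : finrank F V = Fintype.card ι) :
    ∃ (b : Basis ι F V) (d : ι → F), (∀ i, p.eval (d i) = 0) ∧ f = dg b d := by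
  obtain ⟨t, P, h1, h2, h3, h4⟩ := H65.exists_model_of_squarefree hp hf
  have h5 : ∀ i, (P i).natDegree = 1 := fun i =>
    (hs.of_dvd hp.ne_zero (h3 i)).natDegree_eq_one_of_irreducible (h1 i)
  have h6 : ∀ i, P i = X - C (-(P i).coeff 0) := fun i => by
    simpa using (h2 i).eq_X_add_C (h5 i)
  have h7 := h4.finrank_eq_sum fun i => (h1 i).ne_zero
  simp only [h5, Finset.sum_const, Finset.card_univ, smul_eq_mul, mul_one] at h7
  obtain ⟨e⟩ : Nonempty (ι ≃ Fin t) := Fintype.card_eq.mp (h.symm.trans h7)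
  obtain ⟨b⟩ := exists_basis_of_card h
  have h8 : ∀ i, p.eval (-(P (e i)).coeff 0) = 0 := fun i => dvd_iff_isRoot.mp (h6 _ ▸ h3 _)
  obtain ⟨b', h9⟩ := exists_dg_of_similar (H65.similar_of_charpoly_eq_of_squarefree hp hp
    (f := dg b fun i => -(P (e i)).coeff 0) (by rw [aeval_dg]; simp [h8, dg_const]) hf (by
      rw [charpoly_dg, h4.charpoly_eq_prod h2]
      exact Fintype.prod_equiv e _ _ fun i => (h6 _).symm))
  exact ⟨b', _, h8, h9⟩

theorem exists_dg [Fintype F] {r : ℕ} [hr : Fact r.Prime] (h1 : r ∣ Fintype.card F - 1)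
    (hf : f ^ r = 1) (h : finrank F V = Fintype.card ι) :
    ∃ (b : Basis ι F V) (d : ι → F), (∀ i, d i ^ r = 1) ∧ f = dg b d := by
  obtain ⟨ω, hω⟩ := exists_primitive h1
  have := NeZero.of_pos hr.out.pos
  obtain ⟨b, d, h2, h3⟩ := exists_dg_of_splits (f := f) (ι := ι)
    (squarefree_X_pow_sub_C (hω.neZero').ne one_ne_zero) (X_pow_sub_one_splits hω)
    (aeval_X_pow_sub_C (by rw [hf, one_smul])) h
  exact ⟨b, d, fun i => by simpa [sub_eq_zero] using h2 i, h3⟩

end Diag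

section Asym

variable {F ι : Type*} [Field F]

/-- No permutation pairs the entries of `d` to a constant product. -/
def Asym (d : ι → F) : Prop := ∀ (μ : F) (π : Equiv.Perm ι), ¬ ∀ i, d i * d (π i) = μ

theorem Asym.ne_smul {V : Type*} [AddCommGroup V] [Module F V] {d : ι → F} (h : Asym d)
    (b : Basis ι F V) {l : F} (hl : l ≠ 0) (c : F) : l • dg b d ≠ c • 1 := fun h1 => by
  rw [smul_dg, ← dg_const b] at h1
  have h2 : ∀ i, d i = l⁻¹ * c := fun i => by rw [← congrFun (dg_injective b h1) i]; field_simp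
  exact h _ 1 fun i => by rw [h2, h2]

variable [Fintype F] {r n : ℕ} [hr : Fact r.Prime]

theorem sq_dvd_iff (h1 : r ∣ Fintype.card F - 1) :
    r ^ 2 ∣ Fintype.card F - 1 ↔ padicValNat r (Fintype.card F - 1) ≠ 1 := by
  have := one_le_padicValNat_of_dvd (card_sub_one_ne_zero F) h1
  rw [padicValNat_dvd_iff_le (card_sub_one_ne_zero F)]; omega

theorem exists_asym (h2 : r ≠ 2) (h1 : r ∣ Fintype.card F - 1) (hn : 3 ≤ n) (h6 : ¬ (n = 6 ∧ r = 3))
    (h : ¬ ((r = 3 ∨ r = 5) ∧ n = r ∧ padicValNat r (Fintype.card F - 1) = 1)) :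
    ∃ (l : F) (d : Fin n → F), l ^ n * ∏ i, d i = 1 ∧ (∀ i, d i ^ r = 1) ∧ Asym d := by
  obtain ⟨m, rfl⟩ := Nat.exists_eq_add_of_le' hn
  have key : ∀ {ω : F}, IsPrimitiveRoot ω r → ω ≠ 1 ∧ ω * ω ≠ 1 := fun hω =>
    ⟨hω.ne_one hr.out.one_lt, fun h => h2 ((Nat.prime_dvd_prime_iff_eq hr.out Nat.prime_two).mp
      ((hω.pow_eq_one_iff_dvd 2).mp (by rwa [pow_two])))⟩
  by_cases h3 : (r = 3 ∨ r = 5) ∧ m + 3 = r
  · obtain ⟨ζ, hζ⟩ := exists_primitive ((sq_dvd_iff h1).mpr fun h4 => h ⟨h3.1, h3.2, h4⟩)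
    have hω := hζ.pow (pow_pos hr.out.pos 2) (pow_two r)
    have h0 := hζ.ne_zero (pow_pos hr.out.pos 2).ne'
    obtain ⟨h4, h5⟩ := key hω
    refine ⟨ζ⁻¹, Fin.cons (ζ ^ r) 1, by simp [h3.2, h0], Fin.cases hω.pow_eq_one (by simp), ?_⟩
    generalize ζ ^ r = ω at *
    intro μ π h7
    have h8 : ∀ i : Fin (m + 3), i ≠ 0 → (Fin.cons ω 1 : Fin (m + 3) → F) i = 1 := fun i hi => by
      obtain ⟨j, rfl⟩ := Fin.exists_succ_eq.mpr hi
      simp
    obtain rfl : μ = 1 := by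
      by_cases h9 : π 1 = 0
      · rw [← h7 ⟨2, by omega⟩, h8 _ (by simp [Fin.ext_iff]), h8 _ fun h => ?_, mul_one]
        simpa [Fin.ext_iff] using π.injective (h.trans h9.symm)
      · rw [← h7 1, h8 1 (by simp), h8 _ h9, mul_one]
    have h9 := h7 0
    by_cases h10 : π 0 = 0
    · rw [h10] at h9; exact h5 h9
    · rw [h8 _ h10, mul_one] at h9; exact h4 h9
  obtain ⟨ω, hω⟩ := exists_primitive h1
  obtain ⟨h4, h5⟩ := key hω
  have h0 := hω.ne_zero hr.out.ne_zero
  obtain ⟨d, h7, h8, h9, h10⟩ : ∃ d : Fin (m + 3) → F, ∏ i, d i = 1 ∧ d 0 = ω ∧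
      (∀ i, d i = ω ∨ d i = ω⁻¹ ^ 2 ∨ d i = 1) ∧ ∀ i : Fin (m + 3), 3 ≤ i.val → d i = 1 :=
    ⟨Fin.cons ω (Fin.cons ω (Fin.cons (ω⁻¹ ^ 2) 1)), by simp [Fin.prod_univ_succ]; field_simp, rfl,
      Fin.cases (.inl rfl) (Fin.cases (.inl rfl) (Fin.cases (.inr (.inl rfl)) fun _ => .inr (.inr rfl))),
      Fin.cases (by simp) (Fin.cases (by simp)
        (Fin.cases (fun h => absurd h (show ¬ 3 ≤ 2 by omega)) fun _ _ => rfl))⟩
  have h11 : ∀ i, d i ^ r = 1 := fun i => by
    rcases h9 i with h | h | h <;> rw [h]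
    exacts [hω.pow_eq_one, by rw [← pow_mul, mul_comm, pow_mul, hω.inv.pow_eq_one, one_pow],
      one_pow r]
  refine ⟨1, d, by simpa using h7, h11, fun μ π h12 => ?_⟩
  rcases eq_or_ne μ 1 with rfl | h13
  · have := h12 0
    rw [h8] at this
    rcases h9 (π 0) with h | h | h <;> rw [h] at this
    exacts [h5 this, h4 (by field_simp at this; exact this.symm), h4 (by simpa using this)]
  have h14 : μ ^ r = 1 := by rw [← h12 0, mul_pow, h11, h11, mul_one]
  have h15 : μ ^ (m + 3) = 1 := by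
    have := Finset.prod_congr (rfl : Finset.univ = Finset.univ) fun i _ => h12 i
    rwa [Finset.prod_mul_distrib, Equiv.prod_comp π d, h7, Finset.prod_const, Finset.card_univ,
      Fintype.card_fin, mul_one, eq_comm] at this
  have h16 : r ∣ m + 3 := orderOf_eq_prime h14 h13 ▸ orderOf_dvd_of_pow_eq_one h15
  have h17 : m ≤ 3 := by
    simpa using Fintype.card_le_of_injective (fun j : Fin m => (⟨(π ⟨j + 3, by omega⟩).val, by
      by_contra h
      have := h12 ⟨j + 3, by omega⟩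
      rw [h10 _ (by simp), h10 _ (by omega), mul_one] at this
      exact h13 this.symm⟩ : Fin 3)) fun i j h => by
        simpa [Fin.ext_iff] using π.injective (Fin.ext (congrArg Fin.val h :))
  have h18 := Nat.le_of_dvd (by omega) h16
  have h19 := hr.out
  have h20 := h19.two_le
  have h21 : r ≤ 6 := by omega
  clear h hω h11 h14 key h1
  interval_cases r <;> first | omega | norm_num at h19

theorem sym_three : ∀ a b c : ZMod 3, a + b + c = 0 → ∃ π : Fin 3 → Fin 3, (∀ i, π (π i) = i) ∧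
    ∃ m, ∀ i, ![a, b, c] i + ![a, b, c] (π i) = ![a, b, c] m + ![a, b, c] m := by
  decide +kernel

theorem sym_five : ∀ a b c d : ZMod 5, ∃ π ∈ [![0, 2, 1, 4, 3], ![0, 3, 4, 1, 2], ![0, 4, 3, 2, 1],
    ![2, 1, 0, 4, 3], ![3, 1, 4, 0, 2], ![4, 1, 3, 2, 0], ![1, 0, 2, 4, 3], ![3, 4, 2, 0, 1],
    ![4, 3, 2, 1, 0], ![1, 0, 4, 3, 2], ![2, 4, 0, 3, 1], ![4, 2, 1, 3, 0], ![1, 0, 3, 2, 4],
    ![2, 3, 0, 1, 4], ![3, 2, 1, 0, (4 : Fin 5)]], (∀ i, π (π i) = i) ∧
    ∃ m, ∀ i, ![a, b, c, d, -(a + b + c + d)] i + ![a, b, c, d, -(a + b + c + d)] (π i) =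
      ![a, b, c, d, -(a + b + c + d)] m + ![a, b, c, d, -(a + b + c + d)] m := by
  decide +kernel

theorem exists_sym_zmod (h : r = 3 ∨ r = 5) (e : Fin r → ZMod r) (he : ∑ i, e i = 0) :
    ∃ π : Fin r → Fin r, (∀ i, π (π i) = i) ∧ ∃ m, ∀ i, e i + e (π i) = e m + e m := by
  rcases h with rfl | rfl
  · have h1 : e = ![e 0, e 1, e 2] := by ext i; fin_cases i <;> rfl
    rw [h1]
    exact sym_three _ _ _ (by rwa [Fin.sum_univ_three] at he)
  · have h1 : e = ![e 0, e 1, e 2, e 3, -(e 0 + e 1 + e 2 + e 3)] := by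
      rw [Fin.sum_univ_five] at he
      ext i; fin_cases i
      exacts [rfl, rfl, rfl, rfl, eq_neg_of_add_eq_zero_right he]
    rw [h1]
    obtain ⟨π, -, h2⟩ := sym_five (e 0) (e 1) (e 2) (e 3)
    exact ⟨π, h2⟩

variable {V : Type*} [AddCommGroup V] [Module F V] [FiniteDimensional F V] {f : End F V}

theorem exists_root_of_det (h2 : r ≠ 2) (hn : finrank F V = r) (hd : LinearMap.det f = 1) {c : F}
    (hc : f ^ r = c • 1) : ∃ a : F, a ≠ 0 ∧ (a⁻¹ • f) ^ r = 1 := by
  have h0 := ne_zero_of_det (hd ▸ one_ne_zero) hc (hn ▸ hr.out.pos)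
  by_cases h : ∀ d : F, d ^ r ≠ c
  · obtain ⟨k, h3, h4⟩ := det_of_irreducible h hc
    obtain rfl : k = 1 := Nat.eq_of_mul_eq_mul_right hr.out.pos (by omega)
    rw [(hr.out.odd_of_ne_two h2).add_one.neg_one_pow, hd, one_mul, pow_one] at h4
    exact (h 1 (by rw [one_pow, h4])).elim
  push Not at h
  obtain ⟨a, rfl⟩ := h
  have ha : a ≠ 0 := fun h => h0 (by rw [h, zero_pow hr.out.ne_zero])
  exact ⟨a, ha, smul_pow_eq_one ha hc⟩

theorem exists_dg_det_one (h2 : r ≠ 2) (hv : padicValNat r (Fintype.card F - 1) = 1)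
    (hn : finrank F V = r) (hd : LinearMap.det f = 1) {c : F} (hc : f ^ r = c • 1) :
    ∃ (b : Basis (Fin r) F V) (d : Fin r → F), (∀ i, d i ^ r = 1) ∧ ∏ i, d i = 1 ∧ f = dg b d := by
  have h1 : r ∣ Fintype.card F - 1 := dvd_of_one_le_padicValNat hv.ge
  obtain ⟨a, ha, h3⟩ := exists_root_of_det h2 hn hd hc
  obtain ⟨b, d, h4, h5⟩ := exists_dg h1 h3 (ι := Fin r) (by simpa using hn)
  have h6 : f = dg b fun i => a * d i := by rw [← smul_dg, ← h5, smul_inv_smul₀ ha]
  have h7 := h6 ▸ hd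
  rw [det_dg] at h7
  have h8 : a ^ r = 1 := by
    by_contra h8
    have h9 : a ^ r ^ 2 = 1 := by
      have := congrArg (· ^ r) h7
      simpa [Finset.prod_mul_distrib, mul_pow, ← Finset.prod_pow, h4, ← pow_mul, ← pow_two]
        using this
    exact (sq_dvd_iff h1).mp (orderOf_eq_prime_pow (n := 1) (by rwa [pow_one]) h9 ▸
      orderOf_dvd_of_pow_eq_one (FiniteField.pow_card_sub_one_eq_one a ha)) hv
  exact ⟨b, _, fun i => by rw [mul_pow, h8, h4, mul_one], h7, h6⟩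

theorem exists_sym (h : r = 3 ∨ r = 5) (hv : padicValNat r (Fintype.card F - 1) = 1)
    (hn : finrank F V = r) (hd : LinearMap.det f = 1) {c : F} (hc : f ^ r = c • 1) :
    ∃ (l : F) (b : Basis (Fin r) F V) (d : Fin r → F) (π : Fin r → Fin r), l ≠ 0 ∧
      f = l • dg b d ∧ (∀ i, d i ^ r = 1) ∧ (∀ i, π (π i) = i) ∧ ∀ i, d i * d (π i) = 1 := by
  obtain ⟨b, d, h3, h4, h5⟩ := exists_dg_det_one (by omega) hv hn hd hc
  obtain ⟨ω, hω⟩ := exists_primitive (F := F) (dvd_of_one_le_padicValNat hv.ge)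
  have := NeZero.of_pos hr.out.pos
  choose k _ hk using fun i => hω.eq_pow_of_pow_eq_one (h3 i)
  have h6 : ∀ a b : ℕ, ω ^ a = ω ^ b ↔ (a : ZMod r) = b := fun a b => by
    rw [(hω.isOfFinOrder hr.out.ne_zero).pow_eq_pow_iff_modEq, ← hω.eq_orderOf,
      ZMod.natCast_eq_natCast_iff]
  obtain ⟨π, h7, m, h8⟩ := exists_sym_zmod h (fun i => k i) (by
    rw [← Nat.cast_sum, ← Nat.cast_zero, ← h6, ← Finset.prod_pow_eq_pow_sum]
    simpa [hk] using h4)
  have h0 : ∀ i, d i ≠ 0 := fun i h => by simpa [h, hr.out.ne_zero] using h3 i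
  refine ⟨d m, b, fun i => (d m)⁻¹ * d i, π, h0 m, by simp [smul_dg, h0, h5], fun i => by
    rw [mul_pow, inv_pow, h3, h3]; simp, h7, fun i => ?_⟩
  have h9 : d i * d (π i) = d m * d m := by
    rw [← hk, ← hk, ← hk, ← pow_add, ← pow_add, h6]; push_cast; exact h8 i
  have := h0 m
  field_simp
  rw [h9, pow_two]

end Asym

section Sim

variable {F V : Type*} [Field F] [AddCommGroup V] [Module F V] {σ : F →+* F} {P : PQ F V σ}
  {f g : End F V} {μ ν : F}

/-- Similarities with multiplier `μ`. -/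
def Sim (P : PQ F V σ) (μ : F) (f : End F V) : Prop := ∀ u v, P.B (f u) (f v) = μ * P.B u v

theorem Iso.sim (h : Iso P f) : Sim P 1 f := fun u v => by rw [h.B, one_mul]

theorem Sim.smul (h : Sim P μ f) (c : F) : Sim P (σ c * c * μ) (c • f) := fun u v => by
  simp [h u v]; ring

theorem Sim.pow (h : Sim P μ f) (k : ℕ) : Sim P (μ ^ k) (f ^ k) := by
  induction k with
  | zero => intro u v; simp
  | succ k ih => intro u v; simp only [pow_succ', Module.End.mul_apply, h _ _, ih _ _, mul_assoc]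

theorem Sim.unique [Nontrivial V] (hP : P.B.SeparatingLeft) (h : Sim P μ f) (h' : Sim P ν f) :
    μ = ν := by
  obtain ⟨u, hu⟩ := exists_ne (0 : V)
  obtain ⟨v, hv⟩ := not_forall.mp (mt (hP u) hu)
  exact mul_right_cancel₀ hv ((h u v).symm.trans (h' u v))

theorem Sim.pow_eq [Nontrivial V] (hP : P.B.SeparatingLeft) (h : Sim P μ f) {k : ℕ} {c : F}
    (hk : f ^ k = c • 1) : μ ^ k = σ c * c := by
  have := (h.pow k).unique hP (by rw [hk]; exact (Iso.one (P := P)).sim.smul c)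
  rwa [mul_one] at this

theorem Sim.pow_eq_one [Nontrivial V] (hP : P.B.SeparatingLeft) (h : Sim P μ f) {k : ℕ}
    (hk : f ^ k = 1) : μ ^ k = 1 := by
  simpa using h.pow_eq hP (c := 1) (by rw [hk, one_smul])

theorem Sim.exists_perm {ι : Type*} [Fintype ι] [DecidableEq ι] (hP : P.B.SeparatingLeft)
    {b : Basis ι F V} {d : ι → F} (h : Sim P μ (dg b d)) :
    ∃ π : Equiv.Perm ι, ∀ i, d i * σ (d (π i)) = μ := by
  have h1 : (Matrix.of fun i j => P.B (b i) (b j)).det ≠ 0 := fun h1 => by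
    obtain ⟨v, hv, h2⟩ := Matrix.exists_vecMul_eq_zero_iff.mpr h1
    have h3 := hP (∑ i, σ (v i) • b i) fun y => LinearMap.congr_fun (g := 0) (b.ext fun j => by
      simpa [P.σσ, Matrix.vecMul, dotProduct] using congrFun h2 j) y
    exact hv (funext fun i => by
      simpa using Fintype.linearIndependent_iff.mp b.linearIndependent _ h3 i)
  rw [Matrix.det_apply] at h1
  obtain ⟨π, -, h2⟩ := Finset.exists_ne_zero_of_sum_ne_zero h1
  refine ⟨π, fun i => mul_right_cancel₀ (Finset.prod_ne_zero_iff.mp (right_ne_zero_of_smul h2) i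
    (Finset.mem_univ _)) ?_⟩
  have := h (b (π i)) (b i)
  simp only [dg_basis, map_smulₛₗ, LinearMap.smul_apply, smul_eq_mul, RingHom.id_apply] at this
  rw [Matrix.of_apply, ← this]; ring

theorem mem_sim_iff {ι : Type} [Fintype ι] [DecidableEq ι] {P : PQ F (ι → F) σ}
    {φ : (ι → F) → (ι → F) → F} (h : ∀ u v, P.B u v = φ v u) (x : GL ι F) :
    x ∈ Cfsg.Geo.similarityGroup φ ↔ ∃ μ ≠ 0, Sim P μ (Matrix.toLin' (x : Matrix ι ι F)) :=
  ⟨fun ⟨c, hc⟩ => ⟨c, c.ne_zero, fun u v => by rw [h, h]; exact hc v u⟩,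
    fun ⟨μ, h0, hc⟩ => ⟨Units.mk0 μ h0, fun u v => by rw [← h, ← h]; exact hc v u⟩⟩

end Sim

section Index

variable {F : Type*} [Field F] [Fintype F] {ι : Type} [Fintype ι] [DecidableEq ι] {r : ℕ}

theorem relIndex_dvd_index' {G : Type*} [Group G] [Finite G] (L K : Subgroup G) [K.Normal] :
    L.relIndex K ∣ L.index := by
  obtain ⟨t, ht⟩ := Subgroup.relIndex_dvd_index_of_normal K L
  have h1 := Subgroup.relIndex_mul_index (inf_le_left : L ⊓ K ≤ L)
  have h2 := Subgroup.relIndex_mul_index (inf_le_right : L ⊓ K ≤ K)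
  rw [Subgroup.inf_relIndex_left] at h1
  rw [Subgroup.inf_relIndex_right, ht, ← h1, mul_left_comm] at h2
  exact ⟨t, (Nat.eq_of_mul_eq_mul_left (Nat.pos_of_ne_zero Subgroup.index_ne_zero_of_finite) h2).symm⟩

theorem mul_card_dvd {H L : Subgroup (GL ι F)} (hL : L ≤ H)
    (h : r ∣ H.relIndex (Cfsg.Geo.specialLinear ι F)) : r * Nat.card L ∣ Nat.card (GL ι F) := by
  have : (Cfsg.Geo.specialLinear ι F).Normal := MonoidHom.normal_ker _
  rw [← L.index_mul_card]
  exact Nat.mul_dvd_mul_right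
    (h.trans ((Subgroup.relIndex_dvd_of_le_left _ hL).trans (relIndex_dvd_index' _ _))) _

theorem card_comap_glEquiv (L : Subgroup ((ι → F) ≃ₗ[F] (ι → F))) :
    Nat.card (L.comap (glEquiv : GL ι F ≃* _).toMonoidHom) = Nat.card L :=
  Nat.card_congr ((glEquiv : GL ι F ≃* _).toEquiv.subtypeEquiv fun _ => Iff.rfl)

theorem mul_card_dvd_lin {H : Subgroup (GL ι F)} {L : Subgroup ((ι → F) ≃ₗ[F] (ι → F))}
    (hL : ∀ x, glEquiv x ∈ L → x ∈ H) (h : r ∣ H.relIndex (Cfsg.Geo.specialLinear ι F)) :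
    r * Nat.card L ∣ Fintype.card F ^ (Fintype.card ι * (Fintype.card ι - 1) / 2) *
      ∏ i ∈ Finset.range (Fintype.card ι), (Fintype.card F ^ (i + 1) - 1) := by
  rw [← card_comap_glEquiv, ← Nat.card_eq_fintype_card (α := F), ← H10.card_GL]
  exact mul_card_dvd hL h

theorem prod_range_two_mul {M : Type*} [CommMonoid M] (g : ℕ → M) (m : ℕ) :
    ∏ i ∈ Finset.range (2 * m), g (i + 1) =
      (∏ i ∈ Finset.range m, g (2 * i + 1)) * ∏ i ∈ Finset.range m, g (2 * (i + 1)) := by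
  induction m with
  | zero => simp
  | succ m ih =>
    rw [mul_add, mul_one, Finset.prod_range_succ, Finset.prod_range_succ, ih,
      Finset.prod_range_succ, Finset.prod_range_succ, mul_add 2 m 1, mul_assoc,
      mul_mul_mul_comm]

theorem prod_pow_sub_one_pos {q : ℕ} (hq : 1 < q) {s : Finset ℕ} {g : ℕ → ℕ}
    (hg : ∀ i ∈ s, g i ≠ 0) : 0 < ∏ i ∈ s, (q ^ g i - 1) :=
  Finset.prod_pos fun i hi => Nat.sub_pos_of_lt (Nat.one_lt_pow (hg i hi) hq)

theorem Ord.exists_dvd [Fact r.Prime] {i a : ℕ} (H : Ord F r i) {s : Finset ℕ} {g : ℕ → ℕ}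
    (h : r ∣ Fintype.card F ^ a * ∏ j ∈ s, (Fintype.card F ^ g j - 1)) : ∃ j ∈ s, i ∣ g j := by
  have hr : r.Prime := Fact.out
  rcases (Nat.Prime.dvd_mul hr).mp h with h | h
  · exact (H.not_dvd (hr.dvd_of_dvd_pow h)).elim
  · obtain ⟨j, hj, h⟩ := (hr.prime.dvd_finsetProd_iff _).mp h
    exact ⟨j, hj, (H.dvd_iff _).mp h⟩

theorem Ord.le_card [Fact r.Prime] {i : ℕ} (H : Ord F r i) {K : Subgroup (GL ι F)}
    (h : r ∣ K.relIndex (Cfsg.Geo.specialLinear ι F)) : i ≤ Fintype.card ι := by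
  obtain ⟨j, hj, h1⟩ := H.exists_dvd ((Dvd.intro _ rfl).trans
    (mul_card_dvd_lin (L := ⊥) (fun x hx => by
      rw [Subgroup.mem_bot, map_eq_one_iff _ glEquiv.injective] at hx; exact hx ▸ K.one_mem) h))
  exact (Nat.le_of_dvd j.succ_pos h1).trans (Finset.mem_range.mp hj)

end Index

end H99
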