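import Cfsg.Agent.Lib.Elusive.SimRow

/-!
Elements of prime order of the projective special linear group and similarity groups of forms.
-/

set_option autoImplicit false
set_option linter.unusedSectionVars false

namespace H99

open Module Polynomial H28 QuadraticMap
open H65 (Similar)

variable {F V : Type*} [Field F] [AddCommGroup V] [Module F V] [FiniteDimensional F V]
  {σ : F →+* F} {P : PQ F V σ} {f : End F V} {μ : F}

theorem Sim.eq_one_of_fix (hP : P.B.SeparatingLeft) (h : Sim P μ f)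
    (hd : finrank F V < 2 * finrank F (fixS f)) : μ = 1 := by
  by_contra h1
  have h2 : fixS f ≤ P.perp (fixS f) := fun v hv u hu => by
    have := h u v
    rw [mem_fixS.mp hv, mem_fixS.mp hu] at this
    exact (mul_eq_zero.mp (by linear_combination -this : (μ - 1) * P.B u v = 0)).resolve_left
      (sub_ne_zero.mpr h1)
  have := Submodule.finrank_mono h2
  have := P.finrank_perp_add hP (fixS f)
  omega

theorem dvd_cancel {r A B O E X Y : ℕ} (hE : 0 < E) (hX : 0 < X)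
    (h : r * (A * X * E) ∣ B * (O * (E * (X * Y)))) : r ∣ B * O * Y :=
  (Dvd.intro A rfl).trans (Nat.dvd_of_mul_dvd_mul_right (Nat.mul_pos hE hX)
    (by convert h using 1 <;> ring))

variable [Fintype F] {r : ℕ} [hr : Fact r.Prime]

theorem isSquare_of_two_eq_zero (h2 : (2 : F) = 0) (z : F) : IsSquare z :=
  have : CharP F 2 := (CharP.charP_iff_prime_eq_zero Nat.prime_two).mpr (by simpa using h2)
  FiniteField.isSquare_of_char_two (ringChar.eq F 2) z

theorem padic_two_eq_zero (h2 : (2 : F) = 0) : padicValNat 2 (Fintype.card F - 1) = 0 := by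
  have : CharP F 2 := (CharP.charP_iff_prime_eq_zero Nat.prime_two).mpr (by simpa using h2)
  have := char_dvd_card F 2
  have := Fintype.card_pos (α := F)
  exact padicValNat.eq_zero_of_not_dvd (by omega)

theorem two_ne_zero_of_cast (h : (r : F) = 0) (h2 : r ≠ 2) : (2 : F) ≠ 0 := fun h3 =>
  have : CharP F r := (CharP.charP_iff_prime_eq_zero hr.out).mpr h
  h2 ((Nat.prime_dvd_prime_iff_eq hr.out Nat.prime_two).mp
    ((CharP.cast_eq_zero_iff F r 2).mp (by simpa using h3)))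

theorem cast_ne_zero_of_dvd (h : r ∣ Fintype.card F - 1) : (r : F) ≠ 0 := fun h1 => by
  have : CharP F r := (CharP.charP_iff_prime_eq_zero hr.out).mpr h1
  have h2 := (Nat.dvd_sub_iff_right Fintype.card_pos (char_dvd_card F r)).mp h
  exact hr.out.one_lt.ne' (Nat.dvd_one.mp h2)

omit [Fintype F] in
theorem dvd_of_padic_eq_one {m : ℕ} (h : padicValNat r m = 1) : r ∣ m :=
  dvd_of_one_le_padicValNat h.ge

theorem DC.elB_two_char [Nontrivial V] {u : ℕ} (D : DC P u)
    (hu : u = 1 ∨ (u = 2 ∧ Even (finrank F V))) (hΛ : ∃ c ∈ P.Λ, c ≠ 0) (h2 : (2 : F) = 0) :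
    ElB (IsSim P) 2 :=
  elB_two IsSim.smul (fun y _ h1 _ h3 => (D.exists_invol hu hΛ h2 h1 fun h =>
    h3 1 (h.trans (one_smul F _).symm)).imp fun _ h => ⟨h.1, h.2.1, h.2.2.isSim⟩)
    fun _ z hz => (hz (isSquare_of_two_eq_zero h2 z)).elim

section Id

variable {P : PQ F V (RingHom.id F)}

theorem alt_elB_two_iff (hP : P.B.SeparatingLeft) (hΛ : P.Λ = ⊤) (hn : 3 ≤ finrank F V) :
    ElB (IsSim P) 2 ↔ padicValNat 2 (Fintype.card F - 1) ≤ padicValNat 2 (finrank F V) := by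
  have := Module.nontrivial_of_finrank_pos (R := F) (M := V) (by omega)
  by_cases h2 : (2 : F) = 0
  · refine iff_of_true ((dc_alt hP hΛ).elB_two_char (.inr ⟨rfl, ?_⟩) ⟨1, by simp [hΛ], one_ne_zero⟩ h2)
      (by simp [padic_two_eq_zero h2])
    exact finrank_top F V ▸ (alt_hyp hP hΛ (nondeg_top hP)).even
  have h3 : ((2 : ℕ) : F) ≠ 0 := by simpa using h2
  refine ⟨fun h => not_lt.mp fun hv => ?_, fun hv => elB_two IsSim.smul (fun y a h4 h5 _ => ?_)
    fun _ z hz _ _ => ?_⟩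
  · obtain ⟨a, y, h4, h5, h6, h7⟩ := exists_refl_sl (V := V) h2 (by omega) hv
    refine not_elB_smul IsSim.smul h5 h4 h6 (fun y' h8 ⟨μ, _, h9⟩ => ?_) h
    have h10 := finrank_fixS_eq h8
    have h11 := pow_eq_one_of_similar h8 h4
    obtain rfl := h9.eq_one_of_fix hP (by omega)
    have h12 := (alt_hyp hP hΛ (nondeg_movS hP h3 (alt_iso hΛ fun u v =>
      (h9 u v).trans (one_mul _)) h11)).even
    have := finrank_fixS_add h3 h11
    rw [Nat.even_iff] at h12
    omega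
  · obtain ⟨W, -, h6, h7⟩ := alt_exists_nondeg hP hΛ (nondeg_top hP) (even_mov_two h2 h4 h5 hv)
      (by rw [finrank_top]; exact Submodule.finrank_le _)
    exact (exists_iso_sq_one hP h2 h6 h4 h7).imp fun _ h => ⟨h.1, h.2.1, h.2.2.isSim⟩
  · exact (exists_alt_sq hP hΛ z).imp fun _ h =>
      ⟨h.1, _, neg_ne_zero.mpr (by rintro rfl; exact hz IsSquare.zero), h.2⟩

theorem alt_not_elB (hP : P.B.SeparatingLeft) (hΛ : P.Λ = ⊤) {n a : ℕ} (hV : finrank F V = n)
    (hn : 3 ≤ n) (h2 : r ≠ 2) (h6 : ¬ (n = 6 ∧ r = 3)) (h : r * Nat.card P.Isom ∣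
      Fintype.card F ^ a * ∏ i ∈ Finset.range n, (Fintype.card F ^ (i + 1) - 1)) :
    ¬ ElB (IsSim P) r := by
  have := Module.nontrivial_of_finrank_pos (R := F) (M := V) (by omega)
  have hI : ∀ f, Sim P 1 f → Iso P f := fun f h => alt_iso hΛ fun u v => (h u v).trans (one_mul _)
  obtain ⟨m, hm⟩ := (alt_hyp hP hΛ (nondeg_top hP)).even
  rw [finrank_top, ← two_mul, hV] at hm
  by_cases h0 : (r : F) = 0
  · have : CharP F r := (CharP.charP_iff_prime_eq_zero hr.out).mpr h0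
    exact not_elB_unip r hP hI (ub_alt hΛ (two_ne_zero_of_cast h0 h2)) (a := 3) (by decide)
      (by decide) (hr.out.two_le.lt_of_ne' h2) (by omega)
  obtain ⟨i, H⟩ : ∃ i, Ord F r i := ⟨_, h0, rfl⟩
  by_cases h1 : i = 1
  · exact not_elB_asym hP (fun _ _ => rfl) h2 (H.eq_one_iff.mp h1) hV hn h6 (by omega)
  rw [H66.card_isom_alt P hΛ hP (hV.trans hm), H66.spN, hm, prod_range_two_mul
    fun i => Fintype.card F ^ i - 1, Nat.card_eq_fintype_card, ← mul_assoc, ← mul_assoc] at h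
  obtain ⟨j, h3, h4⟩ := H.exists_dvd ((Dvd.intro _ rfl).trans (Nat.dvd_of_mul_dvd_mul_right
    (prod_pow_sub_one_pos Fintype.one_lt_card fun _ _ => by omega) h))
  have h5 := Nat.le_of_dvd (by omega) h4
  rw [Finset.mem_range] at h3
  exact not_elB_block_one (ss_id hP H h2 (if_neg (Nat.not_even_iff_odd.mpr
    (Odd.of_dvd_nat ⟨j, rfl⟩ h4))).symm) hI h1 (by omega)

end Id

theorem elB_sym [Nontrivial V] (h : r = 3 ∨ r = 5) (hv : padicValNat r (Fintype.card F - 1) = 1)
    (hn : finrank F V = r) (hS : ∀ (b : Basis (Fin r) F V) (d : Fin r → F) (π : Fin r → Fin r),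
      (∀ i, d i ^ r = 1) → (∀ i, π (π i) = i) → (∀ i, d i * d (π i) = 1) →
        ∃ y, Similar (dg b d) y ∧ Iso P y) : ElB (IsSim P) r :=
  elB_of_similar (.inr (cast_ne_zero_of_dvd (dvd_of_padic_eq_one hv))) fun f c h1 h2 _ => by
    obtain ⟨l, b, d, π, h3, rfl, h4, h5, h6⟩ := exists_sym h hv hn h1 h2
    obtain ⟨y, h7, h8⟩ := hS b d π h4 h5 h6
    exact ⟨l • y, h7.smul l, IsSim.smul _ _ h3 h8.isSim⟩

theorem quad_elB_iff {Q : QuadraticForm F V} (h2 : (2 : F) ≠ 0) (hP : (qP Q).B.SeparatingLeft)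
    {n a : ℕ} (hV : finrank F V = n) (hn : 3 ≤ n) (h6 : ¬ (n = 6 ∧ r = 3))
    (h : r * Nat.card (H12.O Q) ∣
      Fintype.card F ^ a * ∏ i ∈ Finset.range n, (Fintype.card F ^ (i + 1) - 1)) :
    ElB (IsSim (qP Q)) r ↔
      r = 2 ∨ ((r = 3 ∨ r = 5) ∧ n = r ∧ padicValNat r (Fintype.card F - 1) = 1) := by
  have := Module.nontrivial_of_finrank_pos (R := F) (M := V) (by omega)
  have hI := iso_of_sim_quad (Q := Q) h2
  refine ⟨fun hE => by_contra fun hc => ?_, ?_⟩
  swap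
  · rintro (rfl | ⟨h3, h4, h5⟩)
    · refine elB_two IsSim.smul (fun y _ h4 _ _ => ?_) fun y z hz h4 _ => ?_
      · obtain ⟨W, -, h6, h7⟩ := quad_exists_nondeg hP h2 (nondeg_top hP)
          (k := finrank F (movS 2 y)) (by rw [finrank_top]; exact Submodule.finrank_le _)
        exact (exists_iso_sq_one hP h2 h6 h4 h7).imp fun _ h => ⟨h.1, h.2.1, h.2.2.isSim⟩
      · refine (exists_quad_sim h2 hP (even_iff_two_dvd.mpr ?_) z).imp fun _ h =>
          ⟨h.1, _, by rintro rfl; exact hz IsSquare.zero, h.2⟩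
        exact finrank_top F V ▸ dvd_finrank_of_irreducible
          (fun d hd => hz ⟨d, by rw [← hd, pow_two]⟩) h4 Inv.top
    · exact elB_sym h3 h5 (hV.trans h4) fun b d π _ =>
        exists_similar_quad h2 hP (by rw [hV, h4]; rcases h3 with rfl | rfl <;> decide) b
  rw [not_or] at hc
  revert hE
  by_cases h0 : (r : F) = 0
  · have : CharP F r := (CharP.charP_iff_prime_eq_zero hr.out).mpr h0
    exact not_elB_unip r hP hI (ub_quad rfl h2) (a := 2) (by decide) (by decide) hr.out.two_le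
      (by omega)
  obtain ⟨i, H⟩ : ∃ i, Ord F r i := ⟨_, h0, rfl⟩
  by_cases h1 : i = 1
  · exact not_elB_asym hP (fun _ _ => rfl) hc.1 (H.eq_one_iff.mp h1) hV hn h6 hc.2
  rcases Nat.even_or_odd i with hi | hi
  swap
  · obtain ⟨j, h3, h4⟩ := H.exists_dvd ((Dvd.intro _ rfl).trans h)
    have h5 := Nat.le_of_dvd (by omega) h4
    rw [Finset.mem_range] at h3
    exact not_elB_block_one (ss_id hP H hc.1 (if_neg (Nat.not_even_iff_odd.mpr hi)).symm) hI h1
      (by omega)
  have hq := Fintype.one_lt_card (α := F)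
  have hO : ∀ {m b : ℕ}, ¬ r ∣ Fintype.card F ^ b *
      ∏ j ∈ Finset.range m, (Fintype.card F ^ (2 * j + 1) - 1) := fun h => by
    obtain ⟨j, -, h4⟩ := H.exists_dvd h
    exact Nat.not_even_iff_odd.mpr (Odd.of_dvd_nat ⟨j, rfl⟩ h4) hi
  have hE : ∀ m, 0 < ∏ j ∈ Finset.range m, (Fintype.card F ^ (2 * (j + 1)) - 1) := fun m =>
    prod_pow_sub_one_pos hq fun _ _ => by omega
  have hS := ss_id hP H hc.1 (if_pos hi).symm
  have hB : ∀ k, k ≠ 0 → n = k * i → ¬ (Hyp (qP Q) ⊤ ↔ Even k) → ¬ ElB (IsSim (qP Q)) r :=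
    fun k h3 h4 h5 => not_elB_block hS hI h1 h3 (e := 0) (by omega) fun y h7 h8 h9 => h5 (by
      have := mov_hyp_iff hS (if_pos hi).symm h7 h8 (nondeg_movS hP h0 h7 h8) (inv_movS r y) le_rfl h9
      rwa [Submodule.eq_top_of_finrank_eq (S := movS r y) (by omega),
        or_iff_right (Nat.not_odd_iff_even.mpr hi)] at this)
  obtain ⟨m, rfl | rfl⟩ := Nat.even_or_odd' n
  · obtain ⟨m, rfl⟩ : ∃ k, m = k + 1 := ⟨m - 1, by omega⟩
    rw [prod_range_two_mul fun i => Fintype.card F ^ i - 1,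
      Finset.prod_range_succ fun j => Fintype.card F ^ (2 * (j + 1)) - 1, pow_mul',
      ← one_pow 2, Nat.sq_sub_sq, one_pow] at h
    by_cases h7 : Hyp (qP Q) ⊤
    · rw [card_O_plus hP hV h7, mul_comm (Fintype.card F ^ (m + 1) + 1)] at h
      have h8 := ((Nat.Prime.dvd_mul hr.out).mp (dvd_cancel (hE m)
        (Nat.sub_pos_of_lt (one_lt_pow₀ hq m.succ_ne_zero)) h)).resolve_left hO
      rw [dvd_pow_add_one_iff, pow_eq_neg_one_iff H.not_dvd hc.1, H.eq] at h8
      refine hB (2 * ((m + 1) / i) + 1) (by omega) ?_ (by simp [h7])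
      have := Nat.div_add_mod' (m + 1) i
      obtain ⟨t, rfl⟩ := hi
      rw [h8.2, show (t + t) / 2 = t by omega] at this
      linear_combination 2 * this.symm
    · rw [card_O_minus hP hV h7] at h
      obtain ⟨k, h8⟩ := (H.dvd_iff _).mp (((Nat.Prime.dvd_mul hr.out).mp
        (dvd_cancel (hE m) (Nat.succ_pos _) h)).resolve_left hO)
      exact hB (2 * k) (by rintro h; simp [show k = 0 by omega] at h8) (by rw [h8]; ring)
        (by simp [h7])
  · rw [card_O_odd h2 hP hV, Finset.prod_range_succ,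
      prod_range_two_mul fun i => Fintype.card F ^ i - 1] at h
    refine (hO (m := m + 1) (b := a) ((Dvd.intro (2 * Fintype.card F ^ m ^ 2) rfl).trans
      (Nat.dvd_of_mul_dvd_mul_right (hE m) ?_))).elim
    rw [Finset.prod_range_succ]
    convert h using 1 <;> ring

theorem mem_quadSim_iff {ι : Type} [Fintype ι] [DecidableEq ι] (h2 : (2 : F) ≠ 0)
    (Q : QuadraticForm F (ι → F)) (x : GL ι F) : x ∈ Cfsg.Geo.quadSimilarityGroup Q ↔
      IsSim (qP Q) (Matrix.toLin' (x : Matrix ι ι F)) :=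
  ⟨fun ⟨c, hc⟩ => ⟨c, c.ne_zero, (sim_quad h2).mpr hc⟩,
    fun ⟨μ, h0, hc⟩ => ⟨Units.mk0 μ h0, (sim_quad h2).mp hc⟩⟩

variable {q : ℕ}

theorem HP.sim_pow (H : HP P q) [Nontrivial V] (h : Sim P μ f) : μ ^ q = μ :=
  (H.pow μ).symm.trans (Sim.unique H.sep (fun u v => by
    rw [← H.symm, h, map_mul, H.symm]) h)

theorem HP.elB_two_iff (H : HP P q) [Nontrivial V] : ElB (IsSim P) 2 ↔
    (2 : F) = 0 ∨ padicValNat 2 (finrank F V) ≤ padicValNat 2 (Fintype.card F - 1) := by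
  by_cases h2 : (2 : F) = 0
  · exact iff_of_true (H.dc.elB_two_char (.inl rfl) H.exists_Λ h2) (.inl h2)
  obtain ⟨k, rfl⟩ : Odd q := by
    have := not_dvd_card' (r := 2) (F := F) (by simpa using h2)
    have := mt (fun h : 2 ∣ q => H.card ▸ h.trans (dvd_pow_self q two_ne_zero)) this
    exact Nat.odd_iff.mpr (by omega)
  rw [or_iff_right h2]
  refine ⟨fun h => not_lt.mp fun hv => ?_, fun hv => elB_two IsSim.smul (fun y a h4 _ _ => ?_)
    fun _ z hz h4 h5 => (not_padicCond_two hz h4 h5 ⟨hv, fun _ _ => ?_⟩).elim⟩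
  · obtain ⟨f, z, h3, h4, h5, h6⟩ := exists_nonsq_sl (V := V) h2 hv
    refine not_elB h4 h5 h6 (fun y h7 ⟨μ, h8, h9⟩ => h3 ?_) h
    have h10 := h9.pow_eq H.sep (pow_eq_of_similar h7 h5)
    obtain ⟨d, rfl⟩ := (exists_pow_eq_iff (two_dvd_card_sub_one h2) (c := z)
      (by rintro rfl; exact h3 IsSquare.zero)).mpr (by
        rw [H.card, show ((2 * k + 1) ^ 2 - 1) / 2 = (2 * k + 1 + 1) * k by
          rw [show (2 * k + 1) ^ 2 = 2 * ((2 * k + 1 + 1) * k) + 1 by ring]; omega, pow_mul,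
          ← H.norm, ← h10, ← pow_mul]
        exact mul_right_cancel₀ h8 (by rw [← pow_succ, H.sim_pow h9, one_mul]))
    exact ⟨d, pow_two d⟩
  · obtain ⟨W, -, h6, h7⟩ := H.dc.ex ⊤ (finrank F (movS 2 y)) (nondeg_top H.sep) (one_dvd _)
      (by rw [finrank_top]; exact Submodule.finrank_le _)
    exact (exists_iso_sq_one H.sep h2 h6 h4 h7).imp fun _ h => ⟨h.1, h.2.1, h.2.2.isSim⟩
  · rw [H.card, show (2 * k + 1) ^ 2 = 4 * (k * k + k) + 1 by ring]
    omega

theorem HP.elB_odd_iff (H : HP P q) (h0 : (r : F) ≠ 0) (h2 : r ≠ 2) {n a : ℕ}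
    (hV : finrank F V = n) (hn : 3 ≤ n) (h6 : ¬ (n = 6 ∧ r = 3)) (h : r * Nat.card P.Isom ∣
      Fintype.card F ^ a * ∏ i ∈ Finset.range n, (Fintype.card F ^ (i + 1) - 1)) :
    ElB (IsSim P) r ↔ (r = 3 ∨ r = 5) ∧ n = r ∧ padicValNat r (q - 1) = 1 := by
  have := Module.nontrivial_of_finrank_pos (R := F) (M := V) (by omega)
  have hq := H.two_le
  by_cases h1 : r ∣ q - 1
  · have h3 : ¬ r ∣ q + 1 := fun h => h2 ((Nat.prime_dvd_prime_iff_eq hr.out Nat.prime_two).mp (by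
      simpa [show q + 1 - (q - 1) = 2 by omega] using Nat.dvd_sub h h1))
    have h4 : Fintype.card F - 1 = (q + 1) * (q - 1) := by rw [H.card, ← Nat.sq_sub_sq, one_pow]
    have h5 : padicValNat r (Fintype.card F - 1) = padicValNat r (q - 1) := by
      rw [h4, padicValNat.mul (by omega) (by omega), padicValNat.eq_zero_of_not_dvd h3, zero_add]
    have hσ : ∀ a : F, a ^ r = 1 → σ a = a := fun a ha => by
      obtain ⟨t, ht⟩ := h1
      rw [H.pow, show q = r * t + 1 by omega, pow_succ, pow_mul, ha, one_pow, one_mul]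
    rw [← h5]
    exact ⟨fun hE => by_contra fun hc => not_elB_asym H.sep hσ h2 (h4 ▸ h1.mul_left _) hV hn h6 hc hE,
      fun ⟨h7, h8, h9⟩ => elB_sym h7 h9 (hV.trans h8) fun b d π h10 h11 h12 =>
        H.exists_similar b h11 fun i => by rw [hσ _ (h10 i), h12]⟩
  refine iff_of_false ?_ fun h => h1 (dvd_of_padic_eq_one h.2.2)
  have h3 : ¬ r ∣ q := fun h => not_dvd_card' h0 (H.card ▸ h.trans (dvd_pow_self q two_ne_zero))
  have h4 : ∀ i, Fintype.card F ^ (i + 1) - 1 =
      (if Even i then q ^ (i + 1) - 1 else q ^ (i + 1) + 1) *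
        if Even i then q ^ (i + 1) + 1 else q ^ (i + 1) - 1 := fun i => by
    rw [H.card, ← pow_mul, pow_mul', ← one_pow 2, Nat.sq_sub_sq, one_pow]
    split_ifs
    exacts [mul_comm _ _, rfl]
  rw [H.card_isom hV, Finset.prod_congr rfl fun i _ => h4 i, Finset.prod_mul_distrib, ← mul_assoc,
    ← mul_assoc] at h
  obtain ⟨j, h5, h7⟩ := (Prime.dvd_finsetProd_iff hr.out.prime _).mp (((Nat.Prime.dvd_mul hr.out).mp
    ((Dvd.intro _ rfl).trans (Nat.dvd_of_mul_dvd_mul_right (Finset.prod_pos fun i _ => by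
      have : 1 < q ^ (i + 1) := one_lt_pow₀ (by omega) i.succ_ne_zero
      split_ifs <;> omega) h))).resolve_left fun h => not_dvd_card' h0 (hr.out.dvd_of_dvd_pow h))
  rw [Finset.mem_range] at h5
  have h8 := mt (ord_eq_one_iff (r := r) (by omega : 0 < q)).mp h1
  have hI : ∀ f, Sim P 1 f → Iso P f := fun f h => H.iso fun u v => (h u v).trans (one_mul _)
  split_ifs at h7 with h9
  · rw [dvd_pow_sub_one_iff (by omega)] at h7
    have h10 := Odd.of_dvd_nat h9.add_one h7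
    have h11 := Nat.le_of_dvd j.succ_pos h7
    exact not_elB_block_one (H.ss h0 h2 rfl (if_neg (Nat.not_even_iff_odd.mpr h10)).symm (by
      rw [Nat.odd_iff] at h10; rw [if_neg (by omega), if_neg (by omega)])) hI h8 (by omega)
  · rw [dvd_pow_add_one_iff, pow_eq_neg_one_iff h3 h2] at h7
    have h10 := Nat.mod_le (j + 1) (orderOf (q : ZMod r))
    have h11 := Nat.mod_mod_of_dvd (j + 1) (even_iff_two_dvd.mp h7.1)
    have h12 := Nat.even_iff.mp h7.1
    rw [Nat.even_iff] at h9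
    exact not_elB_block_one (H.ss h0 h2 rfl (if_pos h7.1).symm (by
      rw [if_pos (by omega)]; omega)) hI (by omega) (by omega)

end H99
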