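import Cfsg.Agent.Lib.Elusive.ElB
import Cfsg.Agent.Lib.Elusive.QuadSS
import Cfsg.Agent.Lib.Inv2.Cent
import Cfsg.Agent.Lib.MatConj.InvQuad
import Cfsg.Agent.Lib.Unitary.Order

/-!
Similarities of alternating, quadratic and hermitian forms with prescribed powers.
-/

set_option autoImplicit false
set_option linter.unusedSectionVars false

namespace H99

open Module Polynomial H28 QuadraticMap
open H65 (Similar)

variable {F V : Type*} [Field F] [AddCommGroup V] [Module F V] {σ : F →+* F} {P : PQ F V σ}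
  {f : End F V} {μ : F} {ι : Type*}

theorem sim_of_basis (b : Basis ι F V)
    (h : ∀ i j, P.B (f (b i)) (f (b j)) = μ * P.B (b i) (b j)) : Sim P μ f := fun u v =>
  LinearMap.congr_fun₂ (LinearMap.ext_basis (B := (P.comap f).B) (B' := μ • P.B) b b h) u v

/-- The form pairing the basis vector `i` with the basis vector `π i`. -/
noncomputable def permB [Fintype ι] (σ : F →+* F) (b : Basis ι F V) (π : ι → ι) :
    V →ₛₗ[σ] V →ₗ[F] F :=
  LinearMap.mk₂'ₛₗ σ (RingHom.id F) (fun x y => ∑ i, σ (b.repr x i) * b.repr y (π i))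
    (fun x x' y => by simp [add_mul, Finset.sum_add_distrib])
    (fun c x y => by simp [Finset.mul_sum, mul_assoc])
    (fun x y y' => by simp [mul_add, Finset.sum_add_distrib])
    (fun c x y => by simp [Finset.mul_sum, mul_left_comm])

section Perm

variable [Fintype ι] {b : Basis ι F V} {π : ι → ι}

theorem permB_apply (x y : V) : permB σ b π x y = ∑ i, σ (b.repr x i) * b.repr y (π i) := rfl

theorem permB_symm (hσ : ∀ a, σ (σ a) = a) (hπ : ∀ i, π (π i) = i) (x y : V) :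
    σ (permB σ b π x y) = permB σ b π y x := by
  rw [permB_apply, permB_apply, map_sum]
  exact Fintype.sum_equiv ⟨π, π, hπ, hπ⟩ _ _ fun i => by simp [hσ, hπ i, mul_comm]

theorem permB_sep (hπ : ∀ i, π (π i) = i) : (permB σ b π).SeparatingLeft := fun x hx => by
  classical
  refine b.repr.injective (Finsupp.ext fun i => ?_)
  simpa [permB_apply, Finsupp.single_apply, (Function.Involutive.injective hπ).eq_iff]
    using hx (b (π i))

theorem permB_dg {d : ι → F} (h : ∀ i, σ (d i) * d (π i) = 1) (x y : V) :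
    permB σ b π (dg b d x) (dg b d y) = permB σ b π x y :=
  Finset.sum_congr rfl fun i _ => by
    rw [repr_dg, repr_dg, map_mul, mul_mul_mul_comm, h, one_mul]

end Perm

variable [FiniteDimensional F V]

theorem exists_hyp_basis (hP : P.B.SeparatingLeft) (h : Hyp P ⊤) {k : ℕ}
    (hk : finrank F V = 2 * k) :
    ∃ b : Basis (Fin k ⊕ Fin k) F V, P.IsHyp (fun i => b (.inl i)) fun i => b (.inr i) := by
  obtain ⟨U, -, h1, h2⟩ := h.hasTS (k := k) (by rwa [finrank_top])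
  obtain ⟨e, f, h3, -⟩ := h1.exists_hyp hP h2
  exact ⟨basisOfLinearIndependentOfCardEqFinrank' _ h3.linearIndependent (by simp; omega),
    by simpa using h3⟩

theorem exists_alt_sq {P : PQ F V (RingHom.id F)} (hP : P.B.SeparatingLeft) (hΛ : P.Λ = ⊤) (z : F) :
    ∃ y, y ^ 2 = z • 1 ∧ Sim P (-z) y := by
  have h := alt_hyp hP hΛ (nondeg_top hP)
  obtain ⟨k, hk⟩ := h.even
  obtain ⟨b, hb⟩ := exists_hyp_basis hP h (k := k) (by rw [← finrank_top]; omega)
  refine ⟨mono b Sum.swap (Sum.elim 1 fun _ => z), b.ext fun i => ?_, sim_of_basis b fun i j => ?_⟩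
  · rcases i with i | i <;> simp [pow_two, mono_basis]
  · rcases i with i | i <;> rcases j with j | j <;>
      simp [mono_basis, hb.ee, hb.ff, hb.ef, hb.fe, alt_ε hΛ]

section Herm

variable [Fintype F] {q : ℕ}

theorem HP.exists_equiv {P' : PQ F V σ} (H : HP P q) (H' : HP P' q) :
    ∃ e : V ≃ₗ[F] V, ∀ u v, P.B (e u) (e v) = P'.B u v := by
  obtain ⟨b, hb⟩ := H.exists_on (ι := Fin (finrank F V)) (by simp)
  obtain ⟨b', hb'⟩ := H'.exists_on (ι := Fin (finrank F V)) (by simp)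
  exact ⟨b'.equiv b (Equiv.refl _), LinearMap.congr_fun₂ (LinearMap.ext_basis
    (B := (P.comap (b'.equiv b (Equiv.refl _) : End F V)).B) b' b' fun i j =>
      Eq.trans (by simpa [PQ.comap] using hb i j) (hb' i j).symm)⟩

theorem HP.exists_similar [Fintype ι] (H : HP P q) (b : Basis ι F V) {π : ι → ι} {d : ι → F}
    (hπ : ∀ i, π (π i) = i) (h : ∀ i, σ (d i) * d (π i) = 1) :
    ∃ y, Similar (dg b d) y ∧ Iso P y := by
  obtain ⟨c, hc⟩ := exists_trace_one H.ne P.σσ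
  obtain ⟨e, he⟩ := H.exists_equiv (P' := PQ.ofHerm P.σσ c hc _ (permB_symm (b := b) P.σσ hπ))
    ⟨H.card, H.pow, H.ne, rfl, rfl, permB_sep hπ⟩
  refine ⟨_, H65.similar_conj _ e, H.iso fun x y => ?_⟩
  obtain ⟨x, rfl⟩ := e.surjective x
  obtain ⟨y, rfl⟩ := e.surjective y
  simp only [LinearEquiv.conj_apply_apply, LinearEquiv.symm_apply_apply, he]
  exact permB_dg h x y

theorem HP.card_isom (H : HP P q) {n : ℕ} (hn : finrank F V = n) :
    Nat.card P.Isom = q ^ (n * (n - 1) / 2) *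
      ∏ i ∈ Finset.range n, (if Even i then q ^ (i + 1) + 1 else q ^ (i + 1) - 1) := by
  obtain ⟨φ⟩ := nonempty_isom_equiv_gu H.pow H.ne P H.ε H.Λ H.sep hn
  have : H11.U.IsSq F q := ⟨H.card⟩
  rw [Nat.card_congr φ.toEquiv, H11.U.card_GU]

theorem exists_hp_of_form {κ : Type} [Fintype κ] [DecidableEq κ] (hq : Fintype.card F = q ^ 2)
    {φ : (κ → F) → (κ → F) → F} (hφ : Cfsg.Geo.IsUnitaryFormPow q φ) :
    ∃ (σ : F →+* F) (P : PQ F (κ → F) σ), HP P q ∧ ∀ u v, P.B u v = φ v u := by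
  obtain ⟨σ, h1, h2, h3⟩ := exists_conj hq
  obtain ⟨c, hc⟩ := exists_trace_one h2 h3
  refine ⟨σ, PQ.ofHerm h3 c hc (LinearMap.mk₂'ₛₗ σ (RingHom.id F) (fun x y => φ y x)
    (fun x y z => by rw [hφ.herm z, hφ.add_left, ← h1, map_add, h1, h1, ← hφ.herm, ← hφ.herm])
    (fun a x z => by rw [hφ.herm z, hφ.smul_left, mul_pow, ← hφ.herm, h1]; rfl)
    (fun x y z => hφ.add_left y z x) fun a x z => hφ.smul_left a z x)
    fun x y => (h1 _).trans (hφ.herm x y).symm, ⟨hq, h1, h2, rfl, rfl, fun x hx => ?_⟩,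
    fun _ _ => rfl⟩
  by_contra h0
  exact (hφ.nondegenerate x h0).1.elim fun y hy => hy (hx y)

end Herm

theorem exists_alt_of_form {κ : Type} [Fintype κ] [DecidableEq κ]
    {φ : (κ → F) → (κ → F) → F} (hφ : Cfsg.Geo.IsSymplecticForm φ) :
    ∃ P : PQ F (κ → F) (RingHom.id F), P.B.SeparatingLeft ∧ P.Λ = ⊤ ∧ ∀ u v, P.B u v = φ v u := by
  have h := hφ.bilinear
  refine ⟨PQ.ofAlt (LinearMap.mk₂ F (fun x y => φ y x) (fun x y z => h.add_right z x y)
    (fun a x z => h.smul_right a z x) (fun x y z => h.add_left y z x)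
    fun a x z => h.smul_left a z x) hφ.alternating, fun x hx => ?_, rfl, fun _ _ => rfl⟩
  by_contra h0
  exact (hφ.nondegenerate x h0).1.elim fun y hy => hy (hx y)

section Quad

variable {Q Q' : QuadraticForm F V}

theorem sim_quad (h2 : (2 : F) ≠ 0) : Sim (qP Q) μ f ↔ ∀ v, Q (f v) = μ * Q v :=
  ⟨fun h v => mul_left_cancel₀ h2 (by rw [← qP_self, h, qP_self, mul_left_comm]), fun h u v => by
    simp only [qP_B, polar, ← map_add, h]; ring⟩

theorem iso_of_sim_quad (h2 : (2 : F) ≠ 0) (f : End F V) (h : Sim (qP Q) 1 f) : Iso (qP Q) f :=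
  quad_iso.mpr fun v => by rw [(sim_quad h2).mp h, one_mul]

theorem hyp_top_iff (hP : (qP Q).B.SeparatingLeft) : Hyp (qP Q) ⊤ ↔ H66.IsPlusType Q :=
  ⟨fun ⟨_, U, _, h1, h2⟩ => ⟨U, h1.1, by rwa [finrank_top] at h2⟩, fun ⟨U, h1, h2⟩ =>
    ⟨nondeg_top hP, U, le_top, quad_totSing.mpr h1, by rwa [finrank_top]⟩⟩

theorem exists_orth_basis (h2 : (2 : F) ≠ 0) (hP : (qP Q).B.SeparatingLeft) [Fintype ι]
    (h : finrank F V = Fintype.card ι) : ∃ b : Basis ι F V,
      (∀ i j, i ≠ j → polar Q (b i) (b j) = 0) ∧ ∀ i, polar Q (b i) (b i) ≠ 0 := by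
  have := invertibleOfNonzero h2
  obtain ⟨b, hb⟩ := LinearMap.BilinForm.exists_orthogonal_basis (B := polarBilin Q)
    ⟨fun x y => polar_comm _ _ _⟩
  let e := Fintype.equivFinOfCardEq h.symm
  refine ⟨b.reindex e.symm, fun i j hij => by simpa using hb (e.injective.ne hij), fun i hi => ?_⟩
  rw [Basis.reindex_apply] at hi
  exact b.ne_zero _ (hP _ fun y => LinearMap.congr_fun (g := 0) (b.ext fun j => by
    rcases eq_or_ne (e.symm.symm i) j with rfl | h
    exacts [hi, hb h]) y)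

variable [Fintype F]

theorem exists_sq_add_mul (h2 : (2 : F) ≠ 0) {a : F} (ha : a ≠ 0) (z : F) :
    ∃ u w : F, u ^ 2 + a * w ^ 2 = z := by
  have h3 := not_dvd_card' (r := 2) (F := F) (by simpa using h2)
  obtain ⟨u, w, h⟩ := FiniteField.exists_root_sum_quadratic (f := (X ^ 2 : F[X]))
    (g := C a * X ^ 2 - C z) (by simp) (by compute_degree!) (by omega)
  exact ⟨u, w, by simpa [← add_sub_assoc, sub_eq_zero] using h⟩

theorem exists_quad_sq (h2 : (2 : F) ≠ 0) (hP : (qP Q).B.SeparatingLeft)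
    (he : Even (finrank F V)) (z : F) :
    ∃ y : End F V, y ^ 2 = z • 1 ∧ ∀ u v, polar Q (y u) v = polar Q u (y v) := by
  obtain ⟨k, hk⟩ := he
  obtain ⟨b, h3, h4⟩ := exists_orth_basis (ι := Fin k ⊕ Fin k) h2 hP (by simpa using hk)
  choose u w h5 using fun i : Fin k =>
    exists_sq_add_mul h2 (mul_ne_zero (h4 (.inl i)) (h4 (.inr i))) z
  obtain ⟨y, h6, h7⟩ : ∃ y : End F V, (∀ i, y (b (.inl i)) = u i • b (.inl i) +
      (polar Q (b (.inl i)) (b (.inl i)) * w i) • b (.inr i)) ∧ ∀ i, y (b (.inr i)) =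
      (polar Q (b (.inr i)) (b (.inr i)) * w i) • b (.inl i) - u i • b (.inr i) :=
    ⟨b.constr F (Sum.elim _ _), fun i => b.constr_basis F _ _, fun i => b.constr_basis F _ _⟩
  refine ⟨y, b.ext fun i => ?_, LinearMap.congr_fun₂ (LinearMap.ext_basis
    (B := (polarBilin Q).comp y) (B' := (polarBilin Q).compl₂ y) b b fun i j => ?_)⟩
  · rcases i with i | i <;>
      simp only [pow_two, Module.End.mul_apply, h6, h7, map_add, map_sub, map_smul, ← h5 i,
        LinearMap.smul_apply, Module.End.one_apply] <;> module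
  · change polar Q (y (b i)) (b j) = polar Q (b i) (y (b j))
    rcases i with i | i <;> rcases j with j | j <;> rcases eq_or_ne i j with rfl | h <;>
      simp only [h6, h7, polar_add_left, polar_add_right, polar_sub_left, polar_sub_right,
        polar_smul_left, polar_smul_right, smul_eq_mul] <;>
      simp (disch := simp [*]) only [h3] <;> ring

theorem exists_quad_sim (h2 : (2 : F) ≠ 0) (hP : (qP Q).B.SeparatingLeft)
    (he : Even (finrank F V)) (z : F) : ∃ y, y ^ 2 = z • 1 ∧ Sim (qP Q) z y := by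
  obtain ⟨y, h3, h4⟩ := exists_quad_sq h2 hP he z
  refine ⟨y, h3, fun u v => ?_⟩
  rw [qP_B, h4, ← Module.End.mul_apply, ← pow_two, h3]
  simp [qP_B]

theorem exists_equiv_odd {V' : Type*} [AddCommGroup V'] [Module F V'] [FiniteDimensional F V']
    {Q' : QuadraticForm F V'} (h2 : (2 : F) ≠ 0) (hQ : (polarBilin Q).Nondegenerate)
    (hQ' : (polarBilin Q').Nondegenerate) (hd : finrank F V' = finrank F V)
    (ho : Odd (finrank F V)) : ∃ c ≠ 0, ∃ Φ : V' ≃ₗ[F] V, ∀ v, Q (Φ v) = c * Q' v := by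
  have h3 := H66.gramDet_ne_zero hQ (finBasis F V)
  have h4 := H66.gramDet_ne_zero hQ' (finBasis F V')
  have h5 : ∀ (c : F) x y, polar (c • Q') x y = c * polar Q' x y := fun c x y => by
    simp [polar, mul_sub]
  refine ⟨_, mul_ne_zero h4 h3, H66.exists_equiv_of_isSquare_gramDet h2
    (Q := (H66.gramDet Q' (finBasis F V') * H66.gramDet Q (finBasis F V)) • Q')
    ((H66.nd_iff _).mpr fun u hu => (H66.nd_iff _).mp hQ' u fun v =>
      (mul_eq_zero.mp ((h5 ..).symm.trans (hu v))).resolve_left (mul_ne_zero h4 h3)) hQ hd (finBasis F V') (finBasis F V) ?_⟩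
  have h6 : ∀ c : F, H66.gramDet (c • Q') (finBasis F V') =
      c ^ finrank F V * H66.gramDet Q' (finBasis F V') := fun c => by
    rw [H66.gramDet, H66.gramDet, ← (Fintype.card_fin _).trans hd, ← Matrix.det_smul]
    exact congrArg _ (Matrix.ext fun i j => h5 c _ _)
  rw [h6, mul_assoc, ← pow_succ]
  exact ho.add_one.isSquare_pow _

theorem exists_similar_quad [Fintype ι] (h2 : (2 : F) ≠ 0) (hP : (qP Q).B.SeparatingLeft)
    (ho : Odd (finrank F V)) (b : Basis ι F V) {π : ι → ι} {d : ι → F}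
    (hπ : ∀ i, π (π i) = i) (h : ∀ i, d i * d (π i) = 1) :
    ∃ y, Similar (dg b d) y ∧ Iso (qP Q) y := by
  obtain ⟨Q', h3, h4⟩ := H65.Pres.exists_quad_of_false h2 (f := dg b d)
    ⟨permB (RingHom.id F) b π, ⟨permB_sep hπ, by simp, fun _ x y =>
      (permB_symm (σ := RingHom.id F) (fun _ => rfl) hπ y x).symm⟩, permB_dg h⟩
  obtain ⟨c, -, e, he⟩ := exists_equiv_odd h2 (H12.nondeg_iff.mp hP) h3 rfl ho
  refine ⟨_, H65.similar_conj _ e, quad_iso.mpr fun x => ?_⟩
  obtain ⟨x, rfl⟩ := e.surjective x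
  simp only [LinearEquiv.conj_apply_apply, LinearEquiv.symm_apply_apply, he, h4]

theorem cast_prod_pow_sub_one (q : ℕ) (hq : 0 < q) (s : Finset ℕ) (g : ℕ → ℕ) :
    ((∏ i ∈ s, (q ^ g i - 1) : ℕ) : ℤ) = ∏ i ∈ s, ((q : ℤ) ^ g i - 1) := by
  rw [Nat.cast_prod]
  exact Finset.prod_congr rfl fun i _ => by rw [Nat.cast_sub (Nat.one_le_pow _ _ hq)]; simp

theorem card_O_odd (h2 : (2 : F) ≠ 0) (hP : (qP Q).B.SeparatingLeft) {m : ℕ}
    (hm : finrank F V = 2 * m + 1) : Nat.card (H12.O Q) = 2 * Fintype.card F ^ (m ^ 2) *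
      ∏ i ∈ Finset.range m, (Fintype.card F ^ (2 * (i + 1)) - 1) := by
  obtain ⟨c, hc, Φ, hΦ⟩ := exists_equiv_odd (Q' := H66.qOdd m F 1) h2 (H12.nondeg_iff.mp hP)
    (H66.qOdd_nd m h2 one_ne_zero) (by simp; omega) ⟨m, hm⟩
  have h3 : H12.O (c⁻¹ • Q) = H12.O Q := by ext g; simp [H12.mem_O, hc]
  rw [← h3, ← Nat.card_congr (H12.congrO (Q := H12.QOdd F m) Φ fun v => by
    simp [hΦ, hc, H12.QOdd_apply, H66.coe_qOdd]).toEquiv, ← Nat.cast_inj (R := ℤ),
    H12.card_O_QOdd h2, Nat.cast_mul, cast_prod_pow_sub_one _ Fintype.card_pos]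
  simp

theorem card_O_plus (hP : (qP Q).B.SeparatingLeft) {m : ℕ} (hm : finrank F V = 2 * (m + 1))
    (h : Hyp (qP Q) ⊤) : Nat.card (H12.O Q) = 2 * Fintype.card F ^ ((m + 1) * m) *
      (Fintype.card F ^ (m + 1) - 1) * ∏ i ∈ Finset.range m, (Fintype.card F ^ (2 * (i + 1)) - 1) := by
  obtain ⟨Φ, hΦ⟩ := ((hyp_top_iff hP).mp h).exists_equiv (H12.nondeg_iff.mp hP) hm
  rw [← Nat.card_congr (H12.congrO (Q := H12.QPlus F (m + 1)) Φ fun v => by
    rw [hΦ, H12.QPlus_apply]).toEquiv, ← Nat.cast_inj (R := ℤ), H12.card_O_QPlus, Nat.cast_mul,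
    cast_prod_pow_sub_one _ Fintype.card_pos, Nat.cast_mul,
    Nat.cast_sub (Nat.one_le_pow _ _ Fintype.card_pos)]
  simp

theorem card_O_minus (hP : (qP Q).B.SeparatingLeft) {m : ℕ} (hm : finrank F V = 2 * (m + 1))
    (h : ¬ Hyp (qP Q) ⊤) : Nat.card (H12.O Q) = 2 * Fintype.card F ^ ((m + 1) * m) *
      (Fintype.card F ^ (m + 1) + 1) * ∏ i ∈ Finset.range m, (Fintype.card F ^ (2 * (i + 1)) - 1) := by
  obtain ⟨ζ, hζ⟩ := H66.exists_aniso (F := F)
  obtain ⟨-, Φ, hΦ⟩ := H66.exists_equiv_of_not_isPlusType (mt (hyp_top_iff hP).mpr h)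
    (H12.nondeg_iff.mp hP) hm hζ
  rw [← Nat.card_congr (H12.congrO (Q := H12.QMinus m 1 ζ) Φ fun v =>
    (hΦ v).trans (H12.QMinus_apply _ _ _ _).symm).toEquiv, ← Nat.cast_inj (R := ℤ),
    H12.card_O_QMinus hζ, Nat.cast_mul, cast_prod_pow_sub_one _ Fintype.card_pos]
  simp

end Quad

end H99
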