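import Cfsg.Agent.Lib.Elusive.Form2

/-!
Bilinear data in general, and alternating forms.
-/

set_option autoImplicit false

namespace H99

open Module H28 Polynomial Pointwise

section Mat

variable {F : Type*} [Field F] {ι : Type*} [Fintype ι] [DecidableEq ι]

theorem forall_mat_iff {H : Type*} [Monoid H] (toMat : H →* Matrix ι ι F) (A : H → Prop)
    (A' : ((ι → F) →ₗ[F] (ι → F)) → Prop) (h1 : ∀ x, A x → A' (Matrix.toLin' (toMat x)))
    (h2 : ∀ f, A' f → ∃ x, A x ∧ Matrix.toLin' (toMat x) = f) (r : ℕ)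
    (T : ((ι → F) →ₗ[F] (ι → F)) → Prop) :
    (∀ x, A x → (∃ c : F, toMat (x ^ r) = c • (1 : Matrix ι ι F)) →
      (∀ c : F, toMat x ≠ c • (1 : Matrix ι ι F)) → T (Matrix.toLin' (toMat x))) ↔
    ∀ f, A' f → (∃ c : F, f ^ r = c • 1) → (∀ c : F, f ≠ c • 1) → T f := by
  constructor
  · intro h f hd hc hs
    obtain ⟨x, hx, rfl⟩ := h2 f hd
    exact h x hx (hc.imp fun c hc => (map_pow _ _ _).trans (toLin'_pow_eq_smul_one_iff.mp hc))
      fun c hc => hs c (toLin'_eq_smul_one_iff.mpr hc)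
  · intro h x hx hc hs
    exact h _ (h1 x hx) (hc.imp fun c hc => toLin'_pow_eq_smul_one_iff.mpr (map_pow toMat x r ▸ hc))
      fun c hc => hs c (toLin'_eq_smul_one_iff.mp hc)

end Mat

variable {F V : Type*} [Field F] [AddCommGroup V] [Module F V] {P : PQ F V (RingHom.id F)}
  {f g : V →ₗ[F] V} {W U N T B : Submodule F V} {r k : ℕ}

theorem Inv.of_neg (h : Inv (-f) W) : Inv f W := by simpa using h.neg

theorem sq_eq_one_of_pow (hP : P.B.SeparatingLeft) [Nontrivial V] (hf : Iso P f) {z : F}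
    (h : f ^ r = z • 1) : z = 1 ∨ z = -1 :=
  mul_self_eq_one_iff.mp ((h ▸ hf.pow r).norm_eq_one hP)

theorem ne_smul_of_odd (hP : P.B.SeparatingLeft) [Nontrivial V] (hr : Odd r) (hf : Iso P f)
    (h : f ^ r = 1) (h1 : f ≠ 1) (a : F) : f ≠ a • 1 := by
  rintro rfl
  rcases mul_self_eq_one_iff.mp (hf.norm_eq_one hP) with rfl | rfl
  · simp at h1
  · rw [neg_smul, one_smul, hr.neg_one_pow] at h
    exact h1 (by simpa using h)

theorem forall_odd_iff (hP : P.B.SeparatingLeft) [Nontrivial V] (hr : Odd r)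
    (A T : (V →ₗ[F] V) → Prop) (hA : ∀ f, A f → Iso P f) (hT : ∀ f, T (-f) → T f)
    (hA' : ∀ f, Iso P f → f ^ r = 1 → A f) :
    (∀ f, A f → (∃ c : F, f ^ r = c • 1) → (∀ c : F, f ≠ c • 1) → T f) ↔
      ∀ f, Iso P f → f ^ r = 1 → f ≠ 1 → T f := by
  refine ⟨fun h f h1 h2 h3 => h f (hA' f h1 h2) ⟨1, by simpa using h2⟩
    (ne_smul_of_odd hP hr h1 h2 h3), fun h f h1 ⟨c, h2⟩ h3 => ?_⟩
  rcases sq_eq_one_of_pow hP (hA f h1) h2 with rfl | rfl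
  · exact h f (hA f h1) (by simpa using h2) (by simpa using h3 1)
  · exact hT f (h _ (hA f h1).neg (by rw [hr.neg_pow, h2]; simp)
      fun h4 => h3 (-1) (by simp [← h4]))

theorem ss_id [Fintype F] [Fact r.Prime] (hP : P.B.SeparatingLeft) {i c : ℕ} (H : Ord F r i)
    (h2 : r ≠ 2) (hc : c = if Even i then i else 2 * i) : SS P r i c := by
  obtain ⟨p, hp, hc'⟩ : ∃ p, p.Prime ∧ CharP F p :=
    ⟨ringChar F, CharP.char_is_prime F _, ringChar.charP F⟩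
  have := Fact.mk hp
  have h1 := fun k => (dvd_pow_add_one_iff (r := r) _ k).trans (pow_eq_neg_one_iff H.not_dvd h2 k)
  rw [H.eq] at h1
  refine ⟨hP, H, h2, ?_⟩
  split_ifs at hc with he
  · obtain ⟨n, -, hn⟩ := exists_card_eq F p
    refine Or.inl ⟨hc, fun f hf hr => sd_of_pow (p := p) (k := n * (i / 2)) (fun a => ?_) hf ?_⟩
    · rw [pow_mul, ← hn, FiniteField.pow_card_pow]; rfl
    · obtain ⟨s, hs⟩ := (h1 (i / 2)).mpr ⟨he, Nat.mod_eq_of_lt (Nat.div_lt_self H.pos one_lt_two)⟩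
      rw [pow_mul, ← hn, hs, pow_mul, hr, one_pow]
  · exact Or.inr ⟨hc, nsd_of_not_dvd (p := p) (k := 0) (by simp) H.ne fun m h =>
      he ((h1 m).mp (by simpa using h)).1⟩

theorem even_c {i c : ℕ} (hc : c = if Even i then i else 2 * i) : Even c := by
  split_ifs at hc with h
  exacts [hc ▸ h, hc ▸ even_two_mul i]

section Alt

theorem alt_q (hΛ : P.Λ = ⊤) (a : F) : a ∈ P.Λ := hΛ ▸ AddSubgroup.mem_top a

theorem alt_self (hΛ : P.Λ = ⊤) (x : V) : P.B x x = 0 := P.self_eq_zero (alt_q hΛ _)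

theorem alt_ε (hΛ : P.Λ = ⊤) : P.ε = -1 := by
  have := P.tr_mem 1 (alt_q hΛ _)
  simp only [RingHom.id_apply] at this
  linear_combination this

theorem alt_symm (hΛ : P.Λ = ⊤) (x y : V) : P.B y x = -P.B x y := by
  rw [P.symm, alt_ε hΛ]; simp

theorem alt_totSing (hΛ : P.Λ = ⊤) : P.TotSing W ↔ W ≤ P.perp W :=
  ⟨fun h => h.le_perp, fun h => ⟨fun _ _ => alt_q hΛ _, fun x hx _ hy => h hy x hx⟩⟩

theorem alt_iso (hΛ : P.Λ = ⊤) (h : ∀ x y, P.B (f x) (f y) = P.B x y) : Iso P f :=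
  ⟨h, fun _ => alt_q hΛ _⟩

theorem alt_gram (hΛ : P.Λ = ⊤) {u v : V} (h : P.B u v ≠ 0) :
    P.B u u * P.B v v ≠ P.B u v * P.B v u := by
  rw [alt_self hΛ, alt_symm hΛ u v]
  simpa using h

theorem alt_card (hΛ : P.Λ = ⊤) : Nat.card (F ⧸ P.Λ) = 1 := by
  rw [hΛ]; exact AddSubgroup.index_top

variable [FiniteDimensional F V]

theorem alt_hyp (hP : P.B.SeparatingLeft) (hΛ : P.Λ = ⊤) (hW : P.Nondeg W) : Hyp P W := by
  obtain ⟨H, M, h1, -, -, rfl, h2⟩ := exists_witt hP hW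
  rwa [(Submodule.eq_bot_iff M).mpr fun v hv => h2 v hv (alt_q hΛ _), sup_bot_eq]

theorem alt_hasTS (hP : P.B.SeparatingLeft) (hΛ : P.Λ = ⊤) (hW : P.Nondeg W)
    (hk : 2 * k ≤ finrank F W) : HasTS P W k := by
  obtain ⟨l, hl⟩ := (alt_hyp hP hΛ hW).even
  exact ((alt_hyp hP hΛ hW).hasTS (k := l) (by omega)).of_le (by omega)

theorem alt_exists_nondeg (hP : P.B.SeparatingLeft) (hΛ : P.Λ = ⊤) (hW : P.Nondeg W) (he : Even k)
    (hk : k ≤ finrank F W) : ∃ U ≤ W, P.Nondeg U ∧ finrank F U = k := by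
  obtain ⟨l, rfl⟩ := he
  obtain ⟨U, h1, h2, h3⟩ := (alt_hasTS hP hΛ hW (k := l) (by omega)).exists_hyp hP hW
  exact ⟨U, h1, h2.1, by omega⟩

theorem alt_cj (hP : P.B.SeparatingLeft) (hΛ : P.Λ = ⊤) (hW : P.Nondeg W) (hU : P.Nondeg U)
    (h : finrank F W = finrank F U) : Cj P W U :=
  (alt_hyp hP hΛ hW).cj_of_finrank hP (alt_hyp hP hΛ hU) h

theorem alt_rsum (hP : P.B.SeparatingLeft) (hΛ : P.Λ = ⊤) {Φ : Submodule F V → Prop} {c e : ℕ}
    (hc : 0 < c) (hce : Even c) (hd : ∀ B, Φ B → finrank F B = c)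
    (hΦ : ∀ B ≤ T, P.Nondeg B → finrank F B = c → Φ B) (hT : P.Nondeg T)
    (he : finrank F T = e * c) : RSum P Φ e T :=
  exists_rsum_of_dvd hc (fun W => W ≤ T) hd (fun W h1 h2 h3 => by
    obtain ⟨B, h4, h5, h6⟩ := alt_exists_nondeg hP hΛ h2 hce h3
    exact ⟨B, h4, hΦ B (h4.trans h1) h5 h6, h5, inf_le_left.trans h1⟩) le_rfl hT he

theorem alt_rsum_blk (hP : P.B.SeparatingLeft) (hΛ : P.Λ = ⊤) {c e : ℕ} (hc : 0 < c)
    (hB : P.Nondeg B) (hb : Blk P r c B) (he : e * c ≤ finrank F V) :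
    ∃ T, RSum P (Blk P r c) e T := by
  have hce : Even c := hb.1 ▸ (alt_hyp hP hΛ hB).even
  obtain ⟨T, -, h1, h2⟩ := alt_exists_nondeg hP hΛ (nondeg_top hP) (hce.mul_left e)
    (by rwa [finrank_top])
  exact ⟨T, alt_rsum hP hΛ hc hce (fun _ h => h.1)
    (fun B' _ h3 h4 => hb.cj (alt_cj hP hΛ hB h3 (hb.1.trans h4.symm))) h1 h2⟩

/-- The invariant planes of an isometry. -/
abbrev IPl (f : V →ₗ[F] V) (B : Submodule F V) : Prop := Inv f B ∧ finrank F B = 2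

theorem alt_planes_of_inv (hP : P.B.SeparatingLeft) (hΛ : P.Λ = ⊤) (hT : P.Nondeg T)
    (h : ∀ W ≤ T, Inv f W) : ∃ e, RSum P (IPl f) e T := by
  obtain ⟨e, he⟩ := (alt_hyp hP hΛ hT).even
  exact ⟨e, alt_rsum hP hΛ two_pos even_two (fun _ h => h.2) (fun B h1 _ h2 => ⟨h B h1, h2⟩) hT
    (by omega)⟩

theorem alt_planes_one (hP : P.B.SeparatingLeft) (hΛ : P.Λ = ⊤) (h2 : (2 : F) ≠ 0) (hf : Iso P f)
    (h : f ^ 2 = 1) : ∃ e, RSum P (IPl f) e ⊤ := by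
  have h2' : ((2 : ℕ) : F) ≠ 0 := by simpa using h2
  obtain ⟨a, ha⟩ := alt_planes_of_inv hP hΛ (nondeg_fixS hP h2' hf h) fun _ => inv_of_le_fixS
  obtain ⟨b, hb⟩ := alt_planes_of_inv hP hΛ (nondeg_movS hP h2' hf h) fun _ => inv_of_le_movS_two
  exact ⟨_, fixS_sup_movS h2' h ▸ ha.add hb (movS_le_perp h2' hf)⟩

theorem alt_planes_neg (hP : P.B.SeparatingLeft) (hΛ : P.Λ = ⊤) (h2 : (2 : F) ≠ 0) (hf : Iso P f)
    (h : ∀ v, f (f v) = -v) :
    ∃ e, RSum P (fun B => ∃ u, P.B u (f u) ≠ 0 ∧ (F ∙ u) ⊔ (F ∙ f u) = B) e ⊤ := by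
  refine exists_rsum (Inv f) (fun W h1 h3 h4 => ?_) ⊤ Inv.top (nondeg_top hP)
  have : ∃ u ∈ W, P.B u (f u) ≠ 0 := by
    by_contra h5
    push Not at h5
    refine h4 ((Submodule.eq_bot_iff W).mpr fun u hu => h3 u hu fun v hv => ?_)
    have h6 := h5 _ (W.add_mem hu (h1 v hv))
    have h7 := hf.B u v
    simp only [map_add, LinearMap.add_apply, h, map_neg, h5 u hu, h7,
      alt_symm hΛ (f u) (f v), alt_symm hΛ v (f v), h5 v hv] at h6
    exact (mul_eq_zero.mp (show 2 * P.B u v = 0 by linear_combination -h6)).resolve_left h2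
  obtain ⟨u, hu, h5⟩ := this
  exact ⟨_, pair_le hu (h1 u hu), ne_bot_of_finrank (by simp [finrank_pair (alt_gram hΛ h5)]),
    ⟨u, h5, rfl⟩, nondeg_pair (alt_gram hΛ h5),
    h1.inf (hf.inv_perp hP (inv_pair (c := -1) (by simp [h])))⟩

theorem alt_planes (hP : P.B.SeparatingLeft) (hΛ : P.Λ = ⊤) (h2 : (2 : F) ≠ 0) [Nontrivial V]
    (hf : Iso P f) {z : F} (h : f ^ 2 = z • 1) : ∃ e, RSum P (IPl f) e ⊤ := by
  rcases sq_eq_one_of_pow hP hf h with rfl | rfl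
  · exact alt_planes_one hP hΛ h2 hf (by simpa using h)
  · have h1 : ∀ v, f (f v) = -v := fun v => by
      simpa [pow_two] using congrArg (fun g : V →ₗ[F] V => g v) h
    obtain ⟨e, he⟩ := alt_planes_neg hP hΛ h2 hf h1
    exact ⟨e, he.mono (by
      rintro _ - - ⟨u, h3, rfl⟩
      exact ⟨inv_pair (c := -1) (by simp [h1]), finrank_pair (alt_gram hΛ h3)⟩)⟩

omit [FiniteDimensional F V] in
theorem OSum.bool {σ : F →+* F} {P : PQ F V σ} {Φ Ψ : Submodule F V → Prop} {L : Multiset Bool}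
    (h : OSum P (fun b B => if b = true then Φ B else Ψ B) L T) :
    ∃ a b T₁ T₂, RSum P Φ a T₁ ∧ RSum P Ψ b T₂ ∧ T₂ ≤ P.perp T₁ ∧ T₁ ⊔ T₂ = T := by
  induction h with
  | nil => exact ⟨0, 0, ⊥, ⊥, RSum.zero, RSum.zero, bot_le, sup_idem _⟩
  | @cons _ _ B c _ h1 h2 h3 ih =>
    obtain ⟨a, b, T₁, T₂, h4, h5, h6, rfl⟩ := ih
    cases c
    · exact ⟨a, b + 1, T₁, _, h4, h5.succ (by simpa using h1) h2 (le_perp_mono h3 le_sup_right le_rfl),
        sup_le h6 (le_perp_mono h3 le_sup_left le_rfl), (sup_assoc _ _ _).symm⟩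
    · exact ⟨a + 1, b, _, T₂, h4.succ (by simpa using h1) h2 (le_perp_mono h3 le_sup_left le_rfl), h5,
        le_perp_sup h6 (P.le_perp_comm.mp (le_perp_mono h3 le_sup_right le_rfl)),
        sup_right_comm _ _ _⟩

/-- Involutions in characteristic two: invariant planes and exchanged pairs of planes. -/
theorem alt_char_two (hP : P.B.SeparatingLeft) (hΛ : P.Λ = ⊤) (h2 : (2 : F) = 0) (hf : Iso P f)
    (h : ∀ v, f (f v) = v) (hW : P.Nondeg W) (hWf : Inv f W) :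
    ∃ a b T₁ T₂, RSum P (fun B => IPl f B ∧ ((∀ v ∈ B, f v = v) ∨ ∃ u ∈ B, P.B u (f u) ≠ 0)) a T₁ ∧
      RSum P (fun B => Swp P f 2 B ∧ ∀ u ∈ B, P.B u (f u) = 0) b T₂ ∧
      T₂ ≤ P.perp T₁ ∧ T₁ ⊔ T₂ = W := by
  have hz : f ^ 2 = (1 : F) • 1 := LinearMap.ext fun v => by simp [pow_two, h]
  refine (exists_osum (P := P) (Φ := fun b B => if b = true then
    IPl f B ∧ ((∀ v ∈ B, f v = v) ∨ ∃ u ∈ B, P.B u (f u) ≠ 0) else
      Swp P f 2 B ∧ ∀ u ∈ B, P.B u (f u) = 0) (Inv f) (fun W h1 h3 h4 => ?_) W hWf hW).elim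
      fun L hL => hL.bool
  by_cases h5 : ∃ u ∈ W, P.B u (f u) ≠ 0
  · obtain ⟨u, hu, h5⟩ := h5
    have h6 : Inv f ((F ∙ u) ⊔ (F ∙ f u)) := inv_pair (c := 1) (by simp [h])
    exact ⟨true, _, pair_le hu (h1 u hu), ne_bot_of_finrank (by simp [finrank_pair (alt_gram hΛ h5)]),
      ⟨⟨h6, finrank_pair (alt_gram hΛ h5)⟩, Or.inr ⟨u, mem_span_pair'.mpr ⟨1, 0, by simp⟩, h5⟩⟩,
      nondeg_pair (alt_gram hΛ h5), h1.inf (hf.inv_perp hP h6)⟩
  push Not at h5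
  by_cases h6 : ∀ v ∈ W, f v = v
  · obtain ⟨e, he⟩ := (alt_hyp hP hΛ h3).even
    have : finrank F W ≠ 0 := fun h => h4 (eq_bot_of_finrank h)
    obtain ⟨B, h7, h8, h9⟩ := alt_exists_nondeg hP hΛ h3 even_two (by omega)
    have h10 : Inv f B := Inv.of_le_fix fun v hv => h6 v (h7 hv)
    exact ⟨true, B, h7, ne_bot_of_finrank (by omega), ⟨⟨h10, h9⟩, Or.inl fun v hv => h6 v (h7 hv)⟩,
      h8, h1.inf (hf.inv_perp hP h10)⟩
  push Not at h6
  obtain ⟨u, hu, h6⟩ := h6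
  obtain ⟨v, hv, h7⟩ : ∃ v ∈ W, P.B (f u - u) v ≠ 0 := by
    by_contra h7
    push Not at h7
    exact h6 (sub_eq_zero.mp (h3 _ (W.sub_mem (h1 u hu) hu) h7))
  have h8 : P.B (f u) v = P.B u (f v) := by rw [← hf.B, h]
  rw [map_sub, LinearMap.sub_apply, h8] at h7
  obtain ⟨w, hw, h9, h10⟩ : ∃ w ∈ W, P.B u w ≠ 0 ∧ P.B u (f w) = 0 := by
    refine ⟨P.B u v • v + P.B u (f v) • f v, W.add_mem (W.smul_mem _ hv) (W.smul_mem _ (h1 v hv)),
      fun h9 => pow_ne_zero 2 h7 ?_, ?_⟩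
    · simp only [map_add, map_smul, smul_eq_mul] at h9
      linear_combination h9 - P.B u v * P.B u (f v) * h2
    · simp only [map_add, map_smul, smul_eq_mul, h]
      linear_combination P.B u v * P.B u (f v) * h2
  have h11 : ((F ∙ u) ⊔ (F ∙ w)).map f ≤ P.perp ((F ∙ u) ⊔ (F ∙ w)) := by
    rw [map_pair]
    exact pair_le (mem_perp_pair.mpr ⟨h5 u hu, by rw [← hf.B, h, alt_symm hΛ, h10, neg_zero]⟩)
      (mem_perp_pair.mpr ⟨h10, h5 w hw⟩)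
  have h12 : Swp P f 2 _ := ⟨_, nondeg_pair (alt_gram hΛ h9), finrank_pair (alt_gram hΛ h9), h11, rfl⟩
  have h13 := sup_le (pair_le hu hw) ((Submodule.map_mono (pair_le hu hw)).trans
    (inv_iff_map_le.mp h1))
  exact ⟨false, _, h13, ne_bot_of_finrank (by simp [h12.finrank_eq hP hf]),
    ⟨h12, fun x hx => h5 x (h13 hx)⟩, nondeg_sup (nondeg_pair (alt_gram hΛ h9))
      (hf.nondeg_map (nondeg_pair (alt_gram hΛ h9))) h11, h1.inf (hf.inv_perp hP (h12.inv hz))⟩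

end Alt

section Std

variable {d : ℕ}

theorem forall_sp_iff (r : ℕ) (T : ((Fin d ⊕ Fin d → F) →ₗ[F] (Fin d ⊕ Fin d → F)) → Prop) :
    (∀ x : Matrix.symplecticGroup (Fin d) F,
      (∃ c : F, ((x ^ r : Matrix.symplecticGroup (Fin d) F) : Matrix _ _ F) =
        c • (1 : Matrix (Fin d ⊕ Fin d) (Fin d ⊕ Fin d) F)) →
      (∀ c : F, (x : Matrix _ _ F) ≠ c • (1 : Matrix (Fin d ⊕ Fin d) (Fin d ⊕ Fin d) F)) →
      T (Matrix.toLin' (x : Matrix (Fin d ⊕ Fin d) (Fin d ⊕ Fin d) F))) ↔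
    ∀ f, Iso (spPQ d F) f → (∃ c : F, f ^ r = c • 1) → (∀ c : F, f ≠ c • 1) → T f := by
  rw [← forall_mat_iff (Matrix.symplecticGroup (Fin d) F).subtype (fun _ => True) (Iso (spPQ d F))
    (fun x _ => Iso.of_mem (spEquiv x).2) fun f hf => ?_]
  · exact ⟨fun h x _ => h x, fun h x => h x trivial⟩
  · obtain ⟨g, hg, rfl⟩ := hf.exists_equiv spPQ_sep
    obtain ⟨x, hx⟩ := spEquiv.surjective ⟨g, hg⟩
    exact ⟨x, trivial, LinearMap.ext fun v => by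
      rw [LinearEquiv.coe_coe, ← show (spEquiv x).1 = g from congrArg Subtype.val hx]; rfl⟩

theorem sp_totSing_iff {W : Submodule F (Fin d ⊕ Fin d → F)} :
    (∀ u ∈ W, ∀ v ∈ W, Cfsg.sympForm d F u v = 0) ↔ (spPQ d F).TotSing W :=
  ⟨fun h => ⟨fun _ _ => trivial, h⟩, fun h => h.2⟩

theorem sp_nondeg_iff {W : Submodule F (Fin d ⊕ Fin d → F)} :
    (∀ u ∈ W, u ≠ 0 → ∃ v ∈ W, Cfsg.sympForm d F u v ≠ 0) ↔ (spPQ d F).Nondeg W :=
  forall₂_congr fun u _ => by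
    rw [← not_imp_not]; push Not; rfl

theorem sp_perp_iff {W U : Submodule F (Fin d ⊕ Fin d → F)} :
    (∀ u ∈ W, ∀ v ∈ U, Cfsg.sympForm d F u v = 0) ↔ U ≤ (spPQ d F).perp W :=
  ⟨fun h v hv u hu => h u hu v hv, fun h u hu _ hv => h hv u hu⟩

theorem finrank_sp : finrank F (Fin d ⊕ Fin d → F) = 2 * d := by simp [two_mul]

end Std

end H99
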