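import Cfsg.Agent.Lib.Elusive.SimEl
import Cfsg.Agent.Lib.MatConj.Eig
import Cfsg.Agent.Lib.MatConj.Orders
import Cfsg.Agent.Lib.Asch.AbsIrr

/-!
Endomorphisms written over a subfield.
-/

set_option autoImplicit false
set_option linter.unusedSectionVars false

namespace H99

open Module Polynomial H28
open H65 (Similar model nilModel)

theorem exists_perm_of_map_eq {ι α : Type*} [Fintype ι] {f g : ι → α}
    (h : Finset.univ.val.map f = Finset.univ.val.map g) : ∃ π : Equiv.Perm ι, ∀ i, g (π i) = f i := by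
  classical
  refine ⟨Equiv.ofFiberEquiv fun c => Fintype.equivOfCardEq ?_, Equiv.ofFiberEquiv_map _⟩
  have := congrArg (Multiset.count c) h
  simp only [Multiset.count_map, eq_comm (a := c)] at this
  rw [Fintype.card_subtype, Fintype.card_subtype]
  exact this

theorem exists_perm_of_prod_eq {F ι : Type*} [Field F] [Fintype ι] {f g : ι → F}
    (h : ∏ i, (X - C (f i)) = ∏ i, (X - C (g i))) : ∃ π : Equiv.Perm ι, ∀ i, g (π i) = f i :=
  exists_perm_of_map_eq (by
    rw [← roots_multiset_prod_X_sub_C (Finset.univ.val.map f), Multiset.map_map,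
      ← roots_multiset_prod_X_sub_C (Finset.univ.val.map g), Multiset.map_map]
    exact congrArg roots h)

theorem isSquare_det_of_commute {F V : Type*} [Field F] [AddCommGroup V] [Module F V]
    [FiniteDimensional F V] {N t : End F V} (h : LinearMap.range N = LinearMap.ker N)
    (ht : Commute t N) : IsSquare (LinearMap.det t) := by
  have h0 : ∀ v, t (N v) = N (t v) := LinearMap.congr_fun ht
  have h1 : LinearMap.ker N ≤ (LinearMap.ker N).comap t := fun v hv => by
    rw [Submodule.mem_comap, LinearMap.mem_ker, ← h0, LinearMap.mem_ker.mp hv, map_zero]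
  refine ⟨_, (t.det_eq_det_mul_det _ h1).trans (congrArg _ (H65.Similar.det_eq
    ⟨N.quotKerEquivRange.trans (LinearEquiv.ofEq _ _ h), fun v => ?_⟩))⟩
  obtain ⟨v, rfl⟩ := Submodule.Quotient.mk_surjective _ v
  exact Subtype.ext (h0 v).symm

variable {K F : Type*} [Field K] [Field F] {ι : Type*} [Fintype ι] [DecidableEq ι]

theorem rank_map_field (φ : K →+* F) (A : Matrix ι ι K) : (A.map φ).rank = A.rank := by
  classical
  obtain ⟨L, L', D, rfl⟩ := Matrix.Pivot.exists_list_transvec_mul_diagonal_mul_list_transvec A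
  have h : ∀ L : List (Matrix.TransvectionStruct ι K),
      ((L.map Matrix.TransvectionStruct.toMatrix).prod.map φ).det ≠ 0 := fun L => by
    rw [← RingHom.mapMatrix_apply, ← RingHom.map_det]; simp
  rw [Matrix.map_mul, Matrix.map_mul, Matrix.rank_mul_eq_left_of_det_ne_zero _ _ (h _),
    Matrix.rank_mul_eq_right_of_det_ne_zero _ _ (h _),
    Matrix.rank_mul_eq_left_of_det_ne_zero _ _ (by simp),
    Matrix.rank_mul_eq_right_of_det_ne_zero _ _ (by simp), Matrix.diagonal_map (map_zero φ),
    Matrix.rank_diagonal, Matrix.rank_diagonal]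
  simp

variable [Algebra K F] {A B : Matrix ι ι K} {y : End F (ι → F)} {r : ℕ}

variable (F) in
/-- Base change of matrices. -/
noncomputable def bc : Matrix ι ι K →+* End F (ι → F) :=
  (Matrix.toLinAlgEquiv' : Matrix ι ι F ≃ₐ[F] _).toRingEquiv.toRingHom.comp
    (algebraMap K F).mapMatrix

theorem bc_eq (A : Matrix ι ι K) : bc F A = Matrix.toLin' (A.map (algebraMap K F)) := rfl

theorem bc_injective : Function.Injective (bc F : Matrix ι ι K → _) :=
  Matrix.toLin'.injective.comp (Matrix.map_injective (algebraMap K F).injective)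

theorem bc_smul (a : K) (A : Matrix ι ι K) : bc F (a • A) = algebraMap K F a • bc F A := by
  rw [bc_eq, bc_eq, ← map_smul]
  exact congrArg _ (Matrix.ext fun i j => map_mul (algebraMap K F) _ _)

theorem det_bc (A : Matrix ι ι K) : LinearMap.det (bc F A) = algebraMap K F A.det := by
  rw [bc_eq, LinearMap.det_toLin', RingHom.map_det]; rfl

theorem charpoly_bc (A : Matrix ι ι K) : (bc F A).charpoly = A.charpoly.map (algebraMap K F) := by
  rw [bc_eq, Matrix.charpoly_toLin', Matrix.charpoly_map]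

theorem aeval_bc (A : Matrix ι ι K) (p : K[X]) :
    aeval (bc F A) (p.map (algebraMap K F)) = bc F (aeval A p) :=
  (map_aeval_eq_aeval_map (RingHom.ext fun a => by
    simp [Algebra.algebraMap_eq_smul_one (A := Matrix ι ι K), bc_smul,
      Algebra.algebraMap_eq_smul_one (A := End F _)]) p A).symm

theorem finrank_ker_bc (A : Matrix ι ι K) :
    finrank F (LinearMap.ker (bc F A)) = finrank K (LinearMap.ker (Matrix.toLin' A)) := by
  have h1 := H65.rank_add_finrank_ker A
  have h2 := H65.rank_add_finrank_ker (A.map (algebraMap K F))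
  rw [rank_map_field] at h2
  exact Nat.add_left_cancel (h2.trans h1.symm)

theorem finrank_fixS_bc (A : Matrix ι ι K) :
    finrank F (fixS (bc F A)) = finrank K (fixS (Matrix.toLin' A)) := by
  rw [fixS_eq_ker, fixS_eq_ker, ← H65.toLin'_sub_one, ← finrank_ker_bc (F := F), map_sub, map_one]

theorem isConj_of_similar_bc (h : Similar (bc F A) (bc F B)) : IsConj A B :=
  (H65.isConj_iff_similar A B).mpr (H65.similar_iff_kerDim.mpr fun p => by
    have := h.kerDim_eq (p.map (algebraMap K F))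
    rwa [H65.kerDim, H65.kerDim, aeval_bc, aeval_bc, finrank_ker_bc, finrank_ker_bc,
      ← H65.aeval_toLin', ← H65.aeval_toLin'] at this)

variable (K) in
theorem exists_bc_of_unip (h : IsNilpotent (y - 1)) : ∃ A : Matrix ι ι K, Similar y (bc F A) := by
  obtain ⟨Y, rfl⟩ := Matrix.toLin'.surjective y
  obtain ⟨t, d, e, -, h2⟩ := H65.exists_isConj_jordanTypeMatrix (A := Y)
    (by rwa [← H65.isNilpotent_toLin'_iff', H65.toLin'_sub_one])
  refine ⟨Matrix.reindex e e (Cfsg.jordanTypeMatrix d K), ?_⟩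
  convert ((H65.isConj_iff_similar _ _).mp h2).symm
  refine congrArg Matrix.toLin' (Matrix.ext fun i j => ?_)
  simp [Cfsg.jordanTypeMatrix, Cfsg.jordanBlock, Matrix.blockDiagonal'_apply,
    apply_dite (algebraMap K F), apply_ite (algebraMap K F)]

theorem exists_bc_of_charpoly {g : K[X]} (hg : g.Separable)
    (h : aeval y (g.map (algebraMap K F)) = 0) (hc : y.charpoly ∈ lifts (algebraMap K F)) :
    ∃ A : Matrix ι ι K, Similar y (bc F A) := by
  classical
  obtain ⟨p, h1, h2, h3⟩ := lifts_and_natDegree_eq_and_monic hc y.charpoly_monic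
  have h4 := fun x : UniqueFactorizationMonoid.normalizedFactors p =>
    (Polynomial.mem_normalizedFactors_iff h3.ne_zero).mp (Multiset.coe_mem (x := x))
  have h5 : ∏ x : UniqueFactorizationMonoid.normalizedFactors p, (x : K[X]) = p := by
    rw [← Multiset.prod_eq_prod_coe, UniqueFactorizationMonoid.prod_normalizedFactors_eq h3.ne_zero,
      h3.normalize_eq_self]
  have := H65.finiteDimensional_model _ fun x => (h4 x).2.1.ne_zero
  obtain ⟨A, h6⟩ := H65.exists_matrix_similar
    (model fun x : UniqueFactorizationMonoid.normalizedFactors p => (x : K[X])) (n := ι) (by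
      rw [H65.finrank_model _ fun x => (h4 x).2.1.ne_zero,
        ← natDegree_prod _ _ fun x _ => (h4 x).2.1.ne_zero, h5, h2, y.charpoly_natDegree]; simp)
  refine ⟨A, H65.similar_of_charpoly_eq_of_squarefree hg.map.squarefree
    (hg.map (f := algebraMap K F)).squarefree h ?_ ?_⟩
  · rw [aeval_bc, map_eq_zero_iff _ bc_injective, ← map_eq_zero_iff _ Matrix.toLin'.injective,
      ← H65.aeval_toLin', ← h6.aeval_eq_zero_iff, H65.aeval_model_eq_zero_iff]
    refine fun x => ((h4 x).1.isCoprime_or_dvd g).resolve_left fun h7 => ?_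
    obtain ⟨π, -, h8, h9⟩ := exists_monic_irreducible_factor ((x : K[X]).map (algebraMap K F))
      (mt (isUnit_map _).mp (h4 x).1.not_isUnit)
    exact h8.not_isUnit (((isCoprime_map _).mpr h7).isUnit_of_dvd' h9
      (H65.dvd_of_dvd_charpoly h h8 (h9.trans (h1 ▸ Polynomial.map_dvd _ (h4 x).2.2))))
  · rw [charpoly_bc, ← Matrix.charpoly_toLin', h6.symm.charpoly_eq_prod fun x => (h4 x).2.1, h5, h1]

variable (K) in
/-- A scalar multiple of an endomorphism written over `K`. -/
def SubB (y : End F (ι → F)) : Prop := ∃ (c : F) (A : Matrix ι ι K), c ≠ 0 ∧ y = c • bc F A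

theorem SubB.smul (y : End F (ι → F)) (c : F) (hc : c ≠ 0) (h : SubB K y) : SubB K (c • y) := by
  obtain ⟨a, A, h1, rfl⟩ := h
  exact ⟨c * a, A, mul_ne_zero hc h1, smul_smul ..⟩

theorem subB_bc (A : Matrix ι ι K) : SubB K (bc F A) := ⟨1, A, one_ne_zero, (one_smul F _).symm⟩

theorem exists_of_pow_bc [Nonempty ι] {z : F} (h : bc F A ^ r = z • 1) :
    ∃ a, algebraMap K F a = z := by
  obtain ⟨i⟩ := ‹Nonempty ι›
  rw [← map_pow, bc_eq, H65.toLin'_eq_smul_one_iff] at h
  exact ⟨_, by simpa using congrFun₂ h i i⟩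

theorem SubB.exists_pow [Nonempty ι] {c z : F} (hc : c ≠ 0) (h : (c • bc F A) ^ r = z • 1) :
    ∃ a, z = c ^ r * algebraMap K F a := by
  obtain ⟨a, h1⟩ := exists_of_pow_bc (A := A) (r := r) (z := (c ^ r)⁻¹ * z) (by
    rw [mul_smul, ← h, _root_.smul_pow, inv_smul_smul₀ (pow_ne_zero _ hc)])
  exact ⟨a, by rw [h1, mul_inv_cancel_left₀ (pow_ne_zero _ hc)]⟩

theorem mem_subfield_iff {ι : Type} [Fintype ι] [DecidableEq ι] [Nonempty ι] (F₀ : Subfield F)
    (x : GL ι F) :
    x ∈ Cfsg.Geo.subfieldSubgroup F₀ 1 ↔ SubB F₀ (Matrix.toLin' (x : Matrix ι ι F)) := by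
  rw [H10.Asch.mem_subfieldSubgroup_iff, inv_one, H10.Asch.cj_one]
  refine ⟨fun ⟨μ, h1, h2⟩ => ⟨μ⁻¹, Matrix.of fun i j => ⟨_, h2 i j⟩, inv_ne_zero h1, ?_⟩,
    fun ⟨c, A, h1, h2⟩ => ⟨c⁻¹, inv_ne_zero h1, fun i j => ?_⟩⟩
  · rw [bc_eq, ← map_smul]
    exact congrArg _ (Matrix.ext fun i j => (inv_mul_cancel_left₀ h1 _).symm)
  · rw [bc_eq, ← map_smul] at h2
    rw [Matrix.toLin'.injective h2]
    exact (inv_mul_cancel_left₀ h1 (A i j : F)).symm ▸ (A i j).2

variable [Fintype K]

theorem pow_card_algebraMap (a : K) : algebraMap K F a ^ Fintype.card K = algebraMap K F a := by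
  rw [← map_pow, FiniteField.pow_card]

theorem mem_lifts_of_map_eq {p : F[X]}
    (h : p.map (FiniteField.frobeniusAlgHom K F : F →+* F) = p) : p ∈ lifts (algebraMap K F) :=
  (lifts_iff_coeff_lifts p).mpr fun n => H65.mem_range_algebraMap_of_pow_card
    ((coeff_map _ n).symm.trans (congrArg (coeff · n) h))

theorem SubB.exists_perm {κ : Type*} [Fintype κ] [DecidableEq κ] {b : Basis κ F (ι → F)}
    {d : κ → F} (h : SubB K (dg b d)) :
    ∃ (μ : F) (π : Equiv.Perm κ), ∀ i, μ * d (π i) = d i ^ Fintype.card K := by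
  obtain ⟨c, A, h1, h2⟩ := h
  refine ⟨c ^ Fintype.card K * c⁻¹, exists_perm_of_prod_eq (g := fun i => _ * d i) ?_⟩
  rw [← charpoly_dg b fun i => _ * d i, ← smul_dg, h2, smul_smul, inv_mul_cancel_right₀ h1]
  have h3 := congrArg (Polynomial.map (FiniteField.frobeniusAlgHom K F : F →+* F)) (charpoly_dg b d)
  rw [h2, bc_eq, ← map_smul, Matrix.charpoly_toLin', ← Matrix.charpoly_map, Polynomial.map_prod]
    at h3
  rw [bc_eq, ← map_smul, Matrix.charpoly_toLin']
  convert h3.symm using 2
  · simp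
  · ext i j
    simp [mul_pow, pow_card_algebraMap]

theorem exists_bc_of_dg {κ : Type*} [Fintype κ] [DecidableEq κ] (hr : (r : K) ≠ 0)
    (b : Basis κ F (ι → F)) {d : κ → F} (h : ∀ i, d i ^ r = 1) (π : Equiv.Perm κ)
    (hπ : ∀ i, d (π i) = d i ^ Fintype.card K) : ∃ A : Matrix ι ι K, Similar (dg b d) (bc F A) :=
  exists_bc_of_charpoly (X_pow_sub_one_separable_iff.mpr hr)
    (by simp [dg_pow_eq b h]) (mem_lifts_of_map_eq (by
      rw [charpoly_dg, Polynomial.map_prod, ← Equiv.prod_comp π fun i => X - C (d i)]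
      simp [hπ]))

variable [Fintype F]

theorem exists_bc_of_modEq (hr : (r : K) ≠ 0) (h : y ^ r = 1)
    (hq : Fintype.card F ≡ Fintype.card K [MOD r]) : ∃ A : Matrix ι ι K, Similar y (bc F A) := by
  refine exists_bc_of_charpoly (X_pow_sub_one_separable_iff.mpr hr) (by simp [h])
    (mem_lifts_of_map_eq ?_)
  obtain ⟨Y, rfl⟩ := Matrix.toLin'.surjective y
  rw [Matrix.charpoly_toLin', ← Matrix.charpoly_map]
  refine map_injective _ (algebraMap F (AlgebraicClosure F)).injective ?_
  rw [H65.charpoly_map_eq, H65.charpoly_map_eq, H65.ev_map Y _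
    (FiniteField.frobeniusAlgHom K (AlgebraicClosure F) : _ →+* _) fun x => by simp]
  congr 2
  refine (Multiset.map_congr rfl fun α hα => ?_).trans (H65.ev_frob Y)
  rw [H65.mem_ev] at hα
  have h1 := aeval_eq_zero_of_dvd_aeval_eq_zero (H65.dvd_of_dvd_charpoly (g := X ^ r - 1)
    (f := Matrix.toLin' Y) (by simp [h]) (minpoly.irreducible (Algebra.IsIntegral.isIntegral α))
    (Matrix.charpoly_toLin' Y ▸ minpoly.dvd F α hα)) (minpoly.aeval F α)
  exact (pow_eq_pow_of_modEq hq (by simpa [sub_eq_zero] using h1)).symm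

end H99
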