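import Cfsg.Agent.Lib.Elusive.Sub

/-!
Elements of prime order of the projective special linear group and subfield subgroups.
-/

set_option autoImplicit false
set_option linter.unusedSectionVars false

namespace H99

open Module Polynomial H28
open H65 (Similar model nilModel)

theorem pow_sub_one_eq_geom {x : ℕ} (hx : 0 < x) (k : ℕ) :
    x ^ k - 1 = (∑ i ∈ Finset.range k, x ^ i) * (x - 1) := by
  obtain ⟨x, rfl⟩ : ∃ y, x = y + 1 := ⟨x - 1, by omega⟩
  rw [← geom_sum_mul_add, Nat.add_sub_cancel, Nat.add_sub_cancel]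

theorem dvd_of_dvd_geom {r x k : ℕ} (hx : 0 < x) (h : r ∣ ∑ i ∈ Finset.range k, x ^ i)
    (h1 : r ∣ x - 1) : r ∣ k := by
  rw [← ZMod.natCast_eq_zero_iff] at *
  rw [Nat.cast_sub hx, Nat.cast_one, sub_eq_zero] at h1
  simpa [h1] using h

theorem pow_prime_modEq (r : ℕ) [Fact r.Prime] (x : ℕ) : x ^ r ≡ x [MOD r] :=
  (ZMod.natCast_eq_natCast_iff _ _ _).mp (by rw [Nat.cast_pow, ZMod.pow_card])

theorem range_eq_ker {F V : Type*} [Field F] [AddCommGroup V] [Module F V] [FiniteDimensional F V]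
    {N : End F V} (h : N ^ 2 = 0) (hd : finrank F V = 2 * finrank F (LinearMap.ker N)) :
    LinearMap.range N = LinearMap.ker N :=
  Submodule.eq_of_le_of_finrank_eq (LinearMap.range_le_ker_iff.mpr ((pow_two N).symm.trans h))
    (by have := N.finrank_range_add_finrank_ker; omega)

theorem exists_equiv_det {F V : Type*} [Field F] [Finite F] [AddCommGroup V] [Module F V]
    [FiniteDimensional F V] [Nontrivial V] {δ : F} (h : δ ≠ 0) :
    ∃ e : V ≃ₗ[F] V, LinearMap.det (e : End F V) = δ := by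
  obtain ⟨c, -, h1⟩ := ds_of_squarefree (f := (1 : End F V)) (irreducible_X_sub_C (1 : F)).squarefree
    (by simp) δ h
  exact ⟨LinearMap.equivOfDetNeZero c (h1 ▸ h), h1⟩

theorem exists_unip_half {F V : Type*} [Field F] [AddCommGroup V] [Module F V]
    [FiniteDimensional F V] (p : ℕ) [hp : Fact p.Prime] [CharP F p] {m : ℕ} (h0 : m ≠ 0)
    (hm : finrank F V = 2 * m) : ∃ u : End F V, u ^ p = 1 ∧ (∀ c : F, u ≠ c • 1) ∧
      (u - 1) ^ 2 = 0 ∧ finrank F (LinearMap.ker (u - 1)) = m := by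
  have := hp.out.two_le
  obtain ⟨N, h2, -, h3, h4⟩ := exists_unipotent (F := F) (V := V) (p := p) (Multiset.replicate m 2)
    (fun b hb => by have := Multiset.eq_of_mem_replicate hb; omega) (by simp; omega)
    ⟨2, Multiset.mem_replicate.mpr ⟨h0, rfl⟩, one_lt_two⟩
  have h5 := h2.finrank_ker
  rw [top_inf_eq, Multiset.card_replicate] at h5
  refine ⟨N + 1, h3, h4, ?_, by rwa [add_sub_cancel_right]⟩
  rw [add_sub_cancel_right]
  exact LinearMap.ext fun v => h2.pow_eq_zero (fun a ha => (Multiset.eq_of_mem_replicate ha).le)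
    (by simp; omega) v trivial

theorem card_specialLinear {F : Type*} [Field F] [Fintype F] {ι : Type} [Fintype ι] [DecidableEq ι]
    {m : ℕ} (hm : Fintype.card ι = m + 1) : Nat.card (Matrix.SpecialLinearGroup ι F) =
      Fintype.card F ^ ((m + 1) * m / 2) * ∏ i ∈ Finset.range m, (Fintype.card F ^ (i + 2) - 1) := by
  have : Nonempty ι := Fintype.card_pos_iff.mp (by omega)
  have h := H10.card_units_mul_card_SL (ι := ι) (R := F)
  rw [H10.card_GL, hm, Finset.prod_range_succ', H10.card_units_field, Nat.card_eq_fintype_card,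
    ← mul_assoc, zero_add, pow_one, mul_comm] at h
  exact Nat.eq_of_mul_eq_mul_right (Nat.sub_pos_of_lt Fintype.one_lt_card) h

variable {K F : Type*} [Field K] [Field F] [Algebra K F] [Fintype K] [Fintype F] {k r : ℕ}

theorem cast_ne_zero_base (h : (r : F) ≠ 0) : (r : K) ≠ 0 := fun h1 =>
  h (by rw [← map_natCast (algebraMap K F), h1, map_zero])

theorem isSquare_algebraMap (hq : Fintype.card F = Fintype.card K ^ 2) (a : K) :
    IsSquare (algebraMap K F a) := by
  by_cases h2 : (2 : F) = 0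
  · exact isSquare_of_two_eq_zero h2 _
  rcases eq_or_ne a 0 with rfl | ha
  · simp
  obtain ⟨t, ht⟩ : Odd (Fintype.card K) := by
    have := not_dvd_card' (r := 2) (F := K) (cast_ne_zero_base (F := F) (by simpa using h2))
    exact Nat.odd_iff.mpr (by omega)
  obtain ⟨d, hd⟩ := (exists_pow_eq_iff (two_dvd_card_sub_one h2)
    ((_root_.map_ne_zero (algebraMap K F)).mpr ha)).mpr (by
    rw [hq, show (Fintype.card K ^ 2 - 1) / 2 = (Fintype.card K - 1) * (t + 1) by
      rw [ht, show (2 * t + 1) ^ 2 = 2 * (2 * t * (t + 1)) + 1 by ring, Nat.add_sub_cancel,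
        Nat.add_sub_cancel, Nat.mul_div_cancel_left _ two_pos], pow_mul, ← map_pow,
      FiniteField.pow_card_sub_one_eq_one a ha, map_one, one_pow])
  exact ⟨d, hd.symm.trans (pow_two d)⟩

theorem exists_sq_mul (hq : Fintype.card F = Fintype.card K ^ k) (hk : Odd k) {δ : F}
    (hδ : δ ≠ 0) : ∃ (a : K) (ε : F), a ≠ 0 ∧ ε ^ 2 * algebraMap K F a = δ := by
  by_cases h : IsSquare δ
  · obtain ⟨ε, rfl⟩ := h
    exact ⟨1, ε, one_ne_zero, by simp [pow_two]⟩
  obtain ⟨a, ha⟩ := FiniteField.exists_nonsquare (F := K) fun h2 => h (isSquare_of_two_eq_zero (by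
    rw [← map_ofNat (algebraMap K F), ← Nat.cast_ofNat, ← h2, ringChar.Nat.cast_ringChar,
      map_zero]) δ)
  have h0 : a ≠ 0 := by rintro rfl; exact ha IsSquare.zero
  obtain ⟨s, hs⟩ := H65.isSquare_mul_of_not_isSquare h (b := algebraMap K F a) fun ⟨s, hs⟩ => by
    have h1 := congrArg (Algebra.norm K) hs
    obtain ⟨t, rfl⟩ := hk
    rw [Algebra.norm_algebraMap, map_mul, Nat.pow_right_injective Fintype.one_lt_card
      ((Module.card_eq_pow_finrank (K := K)).symm.trans hq)] at h1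
    exact ha ⟨Algebra.norm K s / a ^ t, by field_simp; linear_combination h1⟩
  have := (_root_.map_ne_zero (algebraMap K F)).mpr h0
  exact ⟨a, s / algebraMap K F a, h0, by field_simp; linear_combination -hs⟩

variable [hr : Fact r.Prime]

theorem exists_of_dvd_relIndex {ι : Type} [Fintype ι] [DecidableEq ι] [Nonempty ι]
    {H : Subgroup (GL ι F)} (hB : ∀ x : GL ι F, x ∈ H ↔ SubB K (Matrix.toLin' (x : Matrix ι ι F)))
    (hk : k.Prime) (hq : Fintype.card F = Fintype.card K ^ k) (h0 : (r : F) ≠ 0) (hrk : r ≠ k)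
    (h : r ∣ H.relIndex (Cfsg.Geo.specialLinear ι F)) : ∃ j, 2 ≤ j ∧ j ≤ Fintype.card ι ∧
      r ∣ Fintype.card F ^ j - 1 ∧ ¬ r ∣ Fintype.card K ^ j - 1 := by
  obtain ⟨m, hm⟩ : ∃ m, Fintype.card ι = m + 1 := ⟨_, (Nat.succ_pred_eq_of_pos Fintype.card_pos).symm⟩
  obtain ⟨k, rfl⟩ : ∃ l, k = l + 1 := ⟨k - 1, by have := hk.pos; omega⟩
  have h1 : ∀ j, Fintype.card F ^ j - 1 =
      (∑ i ∈ Finset.range (k + 1), (Fintype.card K ^ j) ^ i) * (Fintype.card K ^ j - 1) := fun j => by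
    rw [hq, ← pow_mul, pow_mul', pow_sub_one_eq_geom (pow_pos Fintype.card_pos j)]
  have h2 := h.trans (relIndex_dvd_of_le (L := (Matrix.SpecialLinearGroup.toGL.comp
    (Matrix.SpecialLinearGroup.map (algebraMap K F))).range)
    (by rintro _ ⟨x, rfl⟩; exact (hB _).mpr (subB_bc x.1))
    (by rintro _ ⟨x, rfl⟩; exact range_toGL.le ⟨_, rfl⟩)
    (a := (Fintype.card K ^ ((m + 1) * m / 2)) ^ k *
      ∏ j ∈ Finset.range m, ∑ i ∈ Finset.range (k + 1), (Fintype.card K ^ (j + 2)) ^ i) (by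
      rw [← range_toGL, ← Nat.card_congr (MonoidHom.ofInjective
        Matrix.SpecialLinearGroup.toGL_injective).toEquiv, ← Nat.card_congr (MonoidHom.ofInjective
        (f := Matrix.SpecialLinearGroup.toGL.comp (Matrix.SpecialLinearGroup.map (algebraMap K F)))
        fun x y h => Subtype.ext (Matrix.map_injective (algebraMap K F).injective
          (congrArg Units.val h))).toEquiv, card_specialLinear hm, card_specialLinear hm,
        Finset.prod_congr rfl fun j _ => h1 _, Finset.prod_mul_distrib, hq, ← pow_mul, pow_mul',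
        pow_succ]
      ring))
  obtain ⟨j, h3, h4⟩ := (Prime.dvd_finsetProd_iff hr.out.prime _).mp
    (((Nat.Prime.dvd_mul hr.out).mp h2).resolve_left fun h => not_dvd_card' (cast_ne_zero_base h0)
      (hr.out.dvd_of_dvd_pow (hr.out.dvd_of_dvd_pow h)))
  rw [Finset.mem_range] at h3
  exact ⟨j + 2, by omega, by omega, h1 _ ▸ h4.mul_right _, fun h5 => hrk
    ((Nat.prime_dvd_prime_iff_eq hr.out hk).mp (dvd_of_dvd_geom (pow_pos Fintype.card_pos _) h4 h5))⟩

variable {ι : Type*} [Fintype ι] [DecidableEq ι] [Nonempty ι] {y : End F (ι → F)}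

theorem SubB.exists_eq (h : SubB K y) (h1 : y ^ r = 1) (hμ : ∀ a : F, a ^ r = 1 → a = 1) :
    ∃ A : Matrix ι ι K, y = bc F A := by
  obtain ⟨c, A, hc, rfl⟩ := h
  obtain ⟨a, ha⟩ := SubB.exists_pow hc (h1.trans (one_smul F _).symm)
  obtain ⟨e, rfl⟩ := H65.mem_range_algebraMap_of_pow_card (F := K) (x := c)
    ((mul_inv_eq_one₀ hc).mp (hμ _ (by
      have h2 := congrArg (· ^ Fintype.card K) ha
      simp only [one_pow, mul_pow, pow_card_algebraMap] at h2
      rw [mul_pow, inv_pow, mul_inv_eq_one₀ (pow_ne_zero _ hc), ← pow_mul, pow_mul']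
      exact mul_right_cancel₀ (right_ne_zero_of_mul_eq_one ha.symm) (h2.symm.trans ha))))
  exact ⟨e • A, (bc_smul e A).symm⟩

theorem SubB.exists_conj {a : K} (ha : a ≠ 0) : ∃ G : (ι → F) ≃ₗ[F] (ι → F),
    LinearMap.det (G : End F (ι → F)) = algebraMap K F a ∧
      ∀ y, SubB K y → SubB K (G.symm.conj y) := by
  obtain ⟨e, he⟩ := exists_equiv_det (V := ι → K) ha
  obtain ⟨D, hD⟩ := Matrix.toLin'.surjective (e : End K (ι → K))
  rw [← hD, LinearMap.det_toLin'] at he
  have h1 := D.mul_nonsing_inv (he ▸ ha.isUnit)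
  have h2 := D.nonsing_inv_mul (he ▸ ha.isUnit)
  refine ⟨LinearEquiv.ofLinearMap (bc F D) (bc F D⁻¹) (((map_mul ..).symm.trans (congrArg _ h1)).trans
    (map_one _)) (((map_mul ..).symm.trans (congrArg _ h2)).trans (map_one _)),
    (det_bc D).trans (congrArg _ he), ?_⟩
  rintro _ ⟨c, A, hc, rfl⟩
  exact ⟨c, D⁻¹ * (A * D), hc, by rw [map_smul, map_mul (bc F) D⁻¹ (A * D), map_mul (bc F) A]; rfl⟩

theorem sub_elB_of_eq (hq : Fintype.card F = Fintype.card K ^ r) (h0 : (r : F) ≠ 0)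
    (h : r ∣ Fintype.card F - 1 → PadicCond r (Fintype.card ι) (Fintype.card F)) :
    ElB (SubB K : End F (ι → F) → Prop) r :=
  elB_of_similar (.inr h0) fun f c h1 h2 _ => by
    obtain ⟨d, rfl⟩ : ∃ d, d ^ r = c := by
      by_cases h3 : r ∣ Fintype.card F - 1
      swap
      · exact exists_pow_eq_of_not_dvd h3 c
      by_contra h4
      obtain ⟨t, h5, h6⟩ := det_of_irreducible (not_exists.mp h4) h2
      exact (exists_not_pow_det_iff h3 Fintype.card_ne_zero).mp
        ⟨c, t, not_exists.mp h4, by simpa using h5, h6.symm.trans h1⟩ (h h3)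
    have h3 := ne_zero_pow hr.out.ne_zero (ne_zero_of_det (h1 ▸ one_ne_zero) h2 finrank_pos)
    obtain ⟨A, h4⟩ := exists_bc_of_modEq (cast_ne_zero_base h0) (smul_pow_eq_one h3 h2)
      (hq ▸ pow_prime_modEq r (Fintype.card K))
    exact ⟨_, by simpa [h3] using h4.smul d, d, A, h3, rfl⟩

theorem sub_elB_two_char (h2 : (2 : F) = 0) : ElB (SubB K : End F (ι → F) → Prop) 2 :=
  elB_two SubB.smul (fun y _ h1 _ _ => (exists_bc_of_unip K ⟨2, sub_one_sq h2 h1⟩).elim fun A h =>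
    ⟨_, pow_eq_one_of_similar h h1, (finrank_fixS_eq h).symm, subB_bc A⟩)
    fun _ z hz => (hz (isSquare_of_two_eq_zero h2 z)).elim

theorem sub_elB_two_iff (h2 : (2 : F) ≠ 0) (hq : Fintype.card F = Fintype.card K ^ 2) :
    ElB (SubB K : End F (ι → F) → Prop) 2 ↔
      padicValNat 2 (Fintype.card ι) ≤ padicValNat 2 (Fintype.card F - 1) := by
  refine ⟨fun h => not_lt.mp fun hv => ?_, fun hv => sub_elB_of_eq hq (by simpa using h2) fun h =>
    ⟨hv, fun _ _ => ?_⟩⟩
  · obtain ⟨f, z, h3, h4, h5, h6⟩ := exists_nonsq_sl (V := ι → F) h2 (by simpa using hv)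
    refine not_elB h4 h5 h6 (fun y h7 ⟨c, A, h8, h9⟩ => h3 ?_) h
    obtain ⟨a, rfl⟩ := SubB.exists_pow h8 (h9 ▸ pow_eq_of_similar h7 h5)
    exact (IsSquare.sq c).mul (isSquare_algebraMap hq a)
  · obtain ⟨t, ht⟩ : Odd (Fintype.card K) := by
      have := not_dvd_card' (r := 2) (F := K) (cast_ne_zero_base (F := F) (by simpa using h2))
      exact Nat.odd_iff.mpr (by omega)
    rw [hq, ht, show (2 * t + 1) ^ 2 = 4 * (t * t + t) + 1 by ring]
    omega

theorem sub_not_elB_block {i j : ℕ} (H : Ord F r i) (hi : i ≠ 1) (h1 : i ≤ Fintype.card ι)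
    (h2 : i ∣ j) (h3 : ¬ r ∣ Fintype.card K ^ j - 1) : ¬ ElB (SubB K : End F (ι → F) → Prop) r := by
  obtain ⟨f, h4, h5, h6, h7⟩ := exists_sl_fix (V := ι → F) H hi one_ne_zero
    (e := Fintype.card ι - i) (by simp; omega)
  refine not_elB' h4 h5 h6 fun y h8 h9 => h3 ?_
  have h10 := pow_eq_one_of_similar h8 h5
  obtain ⟨A, rfl⟩ := h9.exists_eq h10 fun _ => eq_one_of_pow_eq_one (mt H.eq_one_iff.mpr hi)
  have H' : Ord K r _ := ⟨cast_ne_zero_base H.ne, rfl⟩
  have h11 := finrank_fixS_add H'.ne (g := Matrix.toLin' A) (by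
    rw [← H65.toLin'_pow', bc_injective (F := F) (((map_pow ..).trans h10).trans (map_one _).symm),
      Matrix.toLin'_one]; rfl)
  rw [← finrank_fixS_bc (F := F), ← finrank_fixS_eq h8, h7, finrank_fintype_fun_eq_card] at h11
  have h12 := ord_dvd_finrank H' (inv_movS r (Matrix.toLin' A)) le_rfl
  rw [show finrank K (movS r (Matrix.toLin' A)) = i by omega] at h12
  exact (H'.dvd_iff j).mpr (h12.trans h2)

theorem sub_not_elB_pair (h2 : r ≠ 2) (h1 : r ∣ Fintype.card F - 1) (hn : 2 ≤ Fintype.card ι)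
    (h3 : ¬ r ∣ Fintype.card K ^ 2 - 1) : ¬ ElB (SubB K : End F (ι → F) → Prop) r := by
  obtain ⟨m, hm⟩ : ∃ m, Fintype.card ι = m + 2 := ⟨_, (Nat.sub_add_cancel hn).symm⟩
  obtain ⟨ω, h0, h4⟩ := exists_orderOf_eq h1
  obtain ⟨b⟩ := exists_basis_of_card (F := F) (V := ι → F) (ι := Fin (m + 2)) (by simpa using hm)
  have h5 : ω ^ r = 1 := h4 ▸ pow_orderOf_eq_one ω
  have h6 : ∀ a : F, a ^ r = 1 → a ^ 2 = 1 → a = 1 := fun a h h' => by
    simpa [(Nat.coprime_primes hr.out Nat.prime_two).mpr h2] using pow_gcd_eq_one.mpr ⟨h, h'⟩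
  have h7 : ω ≠ 1 := fun h => hr.out.one_lt.ne (by rw [← h4, h, orderOf_one])
  obtain ⟨d, d0, d1, d2⟩ : ∃ d : Fin (m + 2) → F, d 0 = ω ∧ d 1 = ω⁻¹ ∧ ∀ i : Fin m, d i.succ.succ = 1 :=
    ⟨Matrix.vecCons ω (Matrix.vecCons ω⁻¹ 1), rfl, rfl, fun _ => rfl⟩
  have hd : ∀ i, d i = ω ∨ d i = ω⁻¹ ∨ d i = 1 :=
    Fin.cases (.inl d0) (Fin.cases (.inr (.inl d1)) fun i => .inr (.inr (d2 i)))
  have h8 : ∏ i, d i = 1 := by simp [Fin.prod_univ_succ, d0, d1, d2, h0]
  have h9 : ∀ i, d i ^ r = 1 := fun i => by rcases hd i with h | h | h <;> simp [h, h5]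
  refine not_elB' ((det_dg b d).trans h8) ((dg_pow_eq b h9).trans (one_smul F _))
    (dg_ne_smul b (i := 0) (j := 1) fun h => h7 (h6 ω h5 ?_)) fun y h10 h11 => h3 ?_
  · rw [pow_two, mul_eq_one_iff_eq_inv₀ h0, ← d1, ← d0, h]
  obtain ⟨b', rfl⟩ := exists_dg_of_similar h10
  obtain ⟨μ, π, h12⟩ := h11.exists_perm
  have h13 : ω ^ Fintype.card K = ω ∨ ω ^ Fintype.card K = ω⁻¹ := by
    by_cases hμ : μ = 1
    · have := h12 0
      rw [hμ, one_mul, d0] at this
      refine this ▸ (hd (π 0)).imp_right fun h => h.resolve_right fun h => ?_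
      exact not_dvd_card' (F := K) (cast_ne_zero_base (cast_ne_zero_of_dvd h1))
        (h4 ▸ orderOf_dvd_of_pow_eq_one (this.symm.trans h))
    rcases m with _ | m
    · have h16 := congrArg (· ^ r) (h12 0)
      refine (hμ (h6 μ (by simpa [mul_pow, h9, pow_right_comm _ _ r] using h16) ?_)).elim
      have := Finset.prod_congr (s₁ := Finset.univ) rfl fun i _ => h12 i
      rwa [Finset.prod_mul_distrib, Equiv.prod_comp π d, Finset.prod_pow, h8, one_pow, mul_one,
        Finset.prod_const, Finset.card_fin] at this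
    have h14 := h12 (Fin.succ (Fin.succ 0))
    have h15 := h12 (π.symm (Fin.succ (Fin.succ 0)))
    rw [d2, one_pow] at h14
    replace h14 := eq_inv_of_mul_eq_one_right h14
    rw [π.apply_symm_apply, d2, mul_one] at h15
    have h16 := hd (π (Fin.succ (Fin.succ 0)))
    rw [h14, inv_eq_iff_eq_inv, inv_inj, inv_eq_one, or_iff_left hμ] at h16
    rcases hd (π.symm (Fin.succ (Fin.succ 0))) with h | h | h <;> rw [h] at h15
    · exact h15 ▸ h16.symm
    · rwa [h15, inv_pow, inv_inj, inv_eq_iff_eq_inv] at h16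
    · exact (hμ (h15.trans (one_pow _))).elim
  refine h4 ▸ orderOf_dvd_of_pow_eq_one (mul_right_cancel₀ h0 ?_)
  rw [← pow_succ, Nat.sub_add_cancel (pow_pos Fintype.card_pos 2), pow_two, pow_mul, one_mul]
  rcases h13 with h | h <;> simp [h]

theorem sub_elB_odd_iff (hk : k.Prime) (hq : Fintype.card F = Fintype.card K ^ k)
    (h0 : (r : F) ≠ 0) (h2 : r ≠ 2) {n : ℕ} (hV : Fintype.card ι = n) (hn : 2 ≤ n)
    (h6 : ¬ (n = 6 ∧ r = 3))
    (hg : r = k → r ∣ Fintype.card K - 1 → padicValNat r n ≤ padicValNat r (Fintype.card F - 1))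
    (hi : r ≠ k → ∃ j, 2 ≤ j ∧ j ≤ n ∧ r ∣ Fintype.card F ^ j - 1 ∧ ¬ r ∣ Fintype.card K ^ j - 1) :
    ElB (SubB K : End F (ι → F) → Prop) r ↔
      r = k ∨ (k = 2 ∧ r = n ∧ (n = 3 ∨ n = 5) ∧ padicValNat r (Fintype.card K + 1) = 1) := by
  by_cases hrk : r = k
  · subst hrk
    refine iff_of_true (sub_elB_of_eq hq h0 fun h => ⟨hV ▸ hg rfl ?_, fun h => (h2 h).elim⟩) (.inl rfl)
    exact (Nat.modEq_iff_dvd' Fintype.card_pos).mp (((Nat.modEq_iff_dvd' Fintype.card_pos).mpr h).trans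
      (hq ▸ pow_prime_modEq r _))
  obtain ⟨j, h3, h4, h5, h7⟩ := hi hrk
  rw [or_iff_right hrk]
  have h8 : ¬ r ∣ Fintype.card K - 1 := fun h =>
    h7 (h.trans (by simpa using Nat.sub_dvd_pow_sub_pow (Fintype.card K) 1 j))
  have H : Ord F r _ := ⟨h0, rfl⟩
  have H' : Ord K r _ := ⟨cast_ne_zero_base h0, rfl⟩
  have h9 := (H.dvd_iff j).mp h5
  have hK := Fintype.one_lt_card (α := K)
  have h10 : k = 2 → Fintype.card F - 1 = (Fintype.card K + 1) * (Fintype.card K - 1) := by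
    rintro rfl; rw [hq, ← Nat.sq_sub_sq, one_pow]
  have h11 : k = 2 → padicValNat r (Fintype.card F - 1) = padicValNat r (Fintype.card K + 1) :=
    fun h => by
      rw [h10 h, padicValNat.mul (by omega) (by omega), padicValNat.eq_zero_of_not_dvd h8, add_zero]
  have h12 : r ∣ Fintype.card K + 1 → ∀ a : F, a ^ r = 1 → a * a ^ Fintype.card K = 1 :=
    fun ⟨t, ht⟩ a ha => by rw [← pow_succ', ht, pow_mul, ha, one_pow]
  refine ⟨fun hE => by_contra fun hc => ?_, fun ⟨h13, h14, h15, h16⟩ =>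
    elB_of_similar (.inr h0) fun f c h17 h18 _ => ?_⟩
  swap
  · obtain ⟨l, b, d, π, h19, rfl, h20, h21, h22⟩ := exists_sym (by omega) ((h11 h13).trans h16)
      (by simp; omega) h17 h18
    obtain ⟨A, h23⟩ := exists_bc_of_dg H'.ne b h20 ⟨π, π, h21, h21⟩ fun i => mul_left_cancel₀
      (left_ne_zero_of_mul_eq_one (h22 i)) ((h22 i).trans
        (h12 (dvd_of_padic_eq_one h16) _ (h20 i)).symm)
    exact ⟨_, h23.smul l, l, A, h19, rfl⟩
  revert hE
  by_cases h1 : r ∣ Fintype.card F - 1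
  swap
  · exact sub_not_elB_block H (mt H.eq_one_iff.mp h1)
      (hV ▸ (Nat.le_of_dvd (by omega) h9).trans h4) h9 h7
  by_cases h13 : k = 2
  swap
  · refine sub_not_elB_pair h2 h1 (hV ▸ hn) fun h => h8 (H'.eq_one_iff.mp
      (Nat.eq_one_of_dvd_coprimes ((Nat.coprime_primes hk Nat.prime_two).mpr h13)
        ((H'.dvd_iff k).mp (hq ▸ h1)) ((H'.dvd_iff 2).mp h)))
  have h14 : 3 ≤ n := by
    by_contra h
    exact h7 (by rwa [show j = k by omega, ← hq])
  obtain ⟨l, d, h15, h16, h17⟩ := exists_asym h2 h1 h14 h6 fun h =>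
    hc ⟨h13, h.2.1.symm, by omega, h11 h13 ▸ h.2.2⟩
  obtain ⟨b⟩ := exists_basis_of_card (F := F) (V := ι → F) (ι := Fin n) (by simpa using hV)
  refine not_elB_smul SubB.smul (a := l) (f := dg b d)
    (by rwa [LinearMap.det_smul, det_dg, finrank_fintype_fun_eq_card, hV])
    ((dg_pow_eq b h16).trans (one_smul F _))
    (h17.ne_smul b (by rintro rfl; simp [show n ≠ 0 by omega] at h15)) fun y h18 h19 => ?_
  obtain ⟨b', rfl⟩ := exists_dg_of_similar h18
  obtain ⟨μ, π, h20⟩ := h19.exists_perm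
  refine h17 μ⁻¹ π fun i => eq_inv_of_mul_eq_one_right ?_
  rw [mul_left_comm, h20]
  exact h12 (((Nat.Prime.dvd_mul hr.out).mp (h10 h13 ▸ h1)).resolve_right h8) _ (h16 i)

theorem sub_elB_three [CharP F 3] (hq : Fintype.card F = Fintype.card K ^ k)
    (h : Odd (Fintype.card ι) ∨ Odd k) : ElB (SubB K : End F (ι → F) → Prop) 3 := by
  rintro f h1 ⟨c, h2⟩ -
  obtain ⟨a, rfl⟩ := exists_pow_char_eq (p := 3) c
  have h3 := ne_zero_pow three_ne_zero (ne_zero_of_det (h1 ▸ one_ne_zero) h2 finrank_pos)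
  have h4 : (a⁻¹ • f - 1) ^ 3 = 0 := by rw [sub_one_pow_char, smul_pow_eq_one h3 h2, sub_self]
  obtain ⟨A, h5⟩ := exists_bc_of_unip K ⟨3, h4⟩
  obtain ⟨e, h6⟩ := exists_conj_of_similar (f := f) (g := a • bc F A) (by simpa [h3] using h5.smul a)
  obtain ⟨t, d, h7, h8, h9⟩ := exists_nil_of_pow h4
  have h10 := inv_ne_zero (det_equiv_ne_zero e)
  obtain ⟨a₀, i, ε, h11, h12⟩ : ∃ (a₀ : K) (i : Fin t) (ε : F), a₀ ≠ 0 ∧
      ε ^ d i * algebraMap K F a₀ = (LinearMap.det (e : End F (ι → F)))⁻¹ := by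
    by_cases h13 : ∀ i, d i = 2
    · obtain ⟨a₀, ε, h14, h15⟩ := exists_sq_mul hq (h.resolve_left (by
        simp only [h13, Finset.sum_const, finrank_fintype_fun_eq_card] at h9
        simp [← h9])) h10
      obtain ⟨i⟩ : Nonempty (Fin t) := by
        by_contra h
        rw [not_nonempty_iff] at h
        exact finrank_pos.ne' (h9.symm.trans (by simp))
      exact ⟨a₀, i, ε, h14, h13 i ▸ h15⟩
    obtain ⟨i, h14⟩ := not_forall.mp h13
    obtain ⟨ε, h15⟩ := exists_pow_char_eq (p := 3) (LinearMap.det (e : End F (ι → F)))⁻¹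
    obtain h16 | h16 : d i = 1 ∨ d i = 3 := by have := h7 i; omega
    · exact ⟨1, i, _, one_ne_zero, by rw [h16, pow_one, map_one, mul_one]⟩
    · exact ⟨1, i, ε, one_ne_zero, by rw [h16, h15, map_one, mul_one]⟩
  obtain ⟨c, h13, h14⟩ := exists_commute_nil h8 i ε
  obtain ⟨e', h15, h16⟩ := exists_conj_det (f := f) (e := e) (c := c) (by
    simpa [h3] using (h13.add_left (Commute.one_left c)).smul_left a)
    (h14 ▸ left_ne_zero_of_mul (h12 ▸ h10))
  obtain ⟨G, h17, h18⟩ := SubB.exists_conj (F := F) (ι := ι) h11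
  refine ⟨G.trans e', ?_, h18 (e'.symm.conj f) ⟨a, A, h3, h15.trans h6⟩⟩
  rw [LinearEquiv.coe_trans, LinearMap.det_comp, h16, h14, h17, mul_right_comm, h12,
    inv_mul_cancel₀ (det_equiv_ne_zero e)]

theorem sub_not_elB_char (p : ℕ) [Fact p.Prime] [CharP F p] (h2 : (2 : F) ≠ 0)
    (hq : Fintype.card F = Fintype.card K ^ 2) (h : Even (Fintype.card ι)) :
    ¬ ElB (SubB K : End F (ι → F) → Prop) p := fun hE => by
  obtain ⟨m, hm⟩ := h
  obtain ⟨u, h3, h4, h5, h6⟩ := exists_unip_half (F := F) (V := ι → F) p (m := m)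
    (by have := Fintype.card_pos (α := ι); omega) (by simp; omega)
  obtain ⟨J, h7⟩ := exists_bc_of_unip K ⟨2, h5⟩
  obtain ⟨δ, hδ⟩ := FiniteField.exists_nonsquare (F := F) fun h => h2 (by
    rw [← Nat.cast_ofNat, ← h, ringChar.Nat.cast_ringChar])
  obtain ⟨e₀, h8⟩ := exists_equiv_det (V := ι → F) (δ := δ) (by rintro rfl; exact hδ IsSquare.zero)
  have h9 := h7.trans (H65.similar_conj _ e₀)
  have h10 := pow_eq_one_of_similar h9 h3
  obtain ⟨e, h11, h12⟩ := hE _ (det_eq_one_of_pow_char h10) ⟨1, h10.trans (one_smul F _).symm⟩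
    fun c h => h4 c ((h9.eq_smul_one_iff c).mpr h)
  have h13 := similar_symm_conj e (e₀.conj (bc F J))
  obtain ⟨A, h14⟩ := h12.exists_eq (pow_eq_one_of_similar h13 h10) fun _ => eq_one_of_pow_char
  obtain ⟨c, h15⟩ := isConj_of_similar_bc ((H65.similar_conj _ e₀).trans (h14 ▸ h13))
  obtain ⟨s, h16⟩ := isSquare_det_of_commute (t := (e₀.symm : End F (ι → F)) * (e : End F (ι → F)) * bc F c.1)
    (range_eq_ker ((h7.sub_one.pow 2).eq_zero_iff.mp h5) (by
      rw [← h7.sub_one.finrank_ker, h6]; simp; omega)) (Commute.sub_right (by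
      change _ = _
      rw [mul_assoc, ← map_mul, h15.eq, map_mul, ← h14]
      ext v
      simp [LinearEquiv.conj_apply]) (Commute.one_right _))
  rw [map_mul, map_mul, h11, LinearEquiv.det_coe_symm, h8, det_bc] at h16
  obtain ⟨w, h17⟩ := isSquare_algebraMap hq c.1.det
  have h18 : w ≠ 0 := left_ne_zero_of_mul
    (h17 ▸ (_root_.map_ne_zero _).mpr (Matrix.GeneralLinearGroup.det_ne_zero c))
  have h19 : δ ≠ 0 := by rintro rfl; exact hδ IsSquare.zero
  refine hδ ((isSquare_inv).mp ⟨s / w, ?_⟩)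
  rw [h17] at h16
  field_simp at h16 ⊢
  linear_combination h16

end H99
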